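import Cfsg.Agent.H27.PrinBlock
import Cfsg.Agent.H27.DefZero
import Cfsg.Agent.H27.Sun
import Cfsg.Agent.H27.Util
import Cfsg.Agent.H11.Third4
import Cfsg.Agent.H26.Dict3
import Cfsg.Agent.H2.Fusion

set_option autoImplicit false

/-! # Principal blocks with abelian Sylow subgroups and `N/C` free of order `3` -/

universe u

namespace Cfsg.Agent.H11

open Subgroup Cfsg Cfsg.Agent.H3 Cfsg.Agent.H27
open scoped ComplexConjugate
open Cfsg.Agent.H26 (normConj normConj_coe)

variable {G : Type u} [Group G] {p : ℕ}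

/-- The hypotheses: abelian Sylow subgroup, `N/C` cyclic of order `m` acting freely. -/
structure AbM (m : ℕ) (P : Sylow p G) (g : G) : Prop where
  comm : ∀ x ∈ (P : Subgroup G), ∀ y ∈ (P : Subgroup G), x * y = y * x
  hg : g ∈ normalizer ((P : Subgroup G) : Set G)
  cov : ∀ n ∈ normalizer ((P : Subgroup G) : Set G),
    ∃ c ∈ centralizer ((P : Subgroup G) : Set G), ∃ i : Fin m, n = c * g ^ (i : ℕ)
  mpos : 0 < m
  gm : g ^ m ∈ centralizer ((P : Subgroup G) : Set G)
  gdvd : ∀ i : ℕ, g ^ i ∈ centralizer ((P : Subgroup G) : Set G) → m ∣ i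
  free : ∀ n ∈ normalizer ((P : Subgroup G) : Set G), ∀ y : (P : Subgroup G), y ≠ 1 →
    n * y = y * n → n ∈ centralizer ((P : Subgroup G) : Set G)

namespace AbM

variable {P : Sylow p G} {g : G} {m : ℕ}

/-- Rotation. -/
def rot (h : AbM m P g) (i : ℕ) : (P : Subgroup G) ≃* (P : Subgroup G) :=
  normConj (P : Subgroup G) (Subgroup.pow_mem _ h.hg i)

theorem rot_coe (h : AbM m P g) (i : ℕ) (y : (P : Subgroup G)) :
    ((h.rot i y : (P : Subgroup G)) : G) = g ^ i * y * (g ^ i)⁻¹ := normConj_coe _ _ _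

theorem rot_zero (h : AbM m P g) (y : (P : Subgroup G)) : h.rot 0 y = y := by
  apply Subtype.ext; rw [rot_coe]; simp

theorem rot_rot (h : AbM m P g) (i j : ℕ) (y : (P : Subgroup G)) :
    h.rot i (h.rot j y) = h.rot (i + j) y := by
  apply Subtype.ext; rw [rot_coe, rot_coe, rot_coe, pow_add]; group

theorem rot_m (h : AbM m P g) (y : (P : Subgroup G)) : h.rot m y = y := by
  apply Subtype.ext; rw [rot_coe]
  have := mem_centralizer_iff.mp h.gm y y.2
  rw [← this]; group

theorem mem_cent_of (h : AbM m P g) {n : G} (hn : n ∈ normalizer ((P : Subgroup G) : Set G))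
    {y : (P : Subgroup G)} (hy : y ≠ 1) (hny : n * y = y * n) :
    n ∈ centralizer ((P : Subgroup G) : Set G) := h.free n hn y hy hny

theorem rot_inj (h : AbM m P g) {y : (P : Subgroup G)} (hy : y ≠ 1) {i j : Fin m}
    (he : h.rot i y = h.rot j y) : i = j := by
  have key : ∀ i j : Fin m, i ≤ j → h.rot i y = h.rot j y → i = j := by
    intro i j hij he
    have h1 : g ^ (i : ℕ) * (y : G) * (g ^ (i : ℕ))⁻¹ = g ^ (j : ℕ) * (y : G) * (g ^ (j : ℕ))⁻¹ := by
      have := congrArg Subtype.val he
      rwa [rot_coe, rot_coe] at this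
    obtain ⟨k, hk⟩ : ∃ k : ℕ, (j : ℕ) = i + k := ⟨j - i, by have : (i : ℕ) ≤ j := hij; omega⟩
    have h2 : g ^ k * (y : G) = y * g ^ k := by
      rw [hk, pow_add] at h1
      have h3 : (y : G) = g ^ k * y * (g ^ k)⁻¹ := by
        calc (y : G) = (g ^ (i : ℕ))⁻¹ * (g ^ (i : ℕ) * (y : G) * (g ^ (i : ℕ))⁻¹) * g ^ (i : ℕ) := by group
          _ = (g ^ (i : ℕ))⁻¹ * (g ^ (i : ℕ) * g ^ k * (y : G) * (g ^ (i : ℕ) * g ^ k)⁻¹) * g ^ (i : ℕ) := by
              rw [h1]
          _ = g ^ k * y * (g ^ k)⁻¹ := by group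
      exact (eq_mul_inv_iff_mul_eq.mp h3).symm
    have h4 := h.gdvd k (h.mem_cent_of (Subgroup.pow_mem _ h.hg k) hy h2)
    have h5 : k < m := by have := j.2; omega
    have h6 : k = 0 := Nat.eq_zero_of_dvd_of_lt h4 h5
    apply Fin.ext
    omega
  rcases le_total i j with hij | hij
  · exact key i j hij he
  · exact (key j i hij he.symm).symm

theorem isConj_iff_rot [Finite G] [Fact p.Prime] (h : AbM m P g) (y y' : (P : Subgroup G)) :
    IsConj (y : G) (y' : G) ↔ ∃ i : Fin m, h.rot i y = y' := by
  constructor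
  · intro hc
    obtain ⟨x, hx⟩ := isConj_iff.mp hc
    have hab : IsMulCommutative P := by
      constructor; constructor
      intro a b
      exact Subtype.ext (h.comm a a.2 b b.2)
    obtain ⟨n, hn, hn2⟩ := H2.controlsFusion_normalizer_of_abelian P hab y y.2 x (by
      rw [hx]; exact y'.2)
    obtain ⟨c, hc, i, hi⟩ := h.cov n hn
    refine ⟨i, Subtype.ext ?_⟩
    rw [rot_coe, ← hx, ← hn2, hi]
    have h3 := mem_centralizer_iff.mp hc _ (h.rot i y).2
    rw [rot_coe] at h3
    calc g ^ (i : ℕ) * y * (g ^ (i : ℕ))⁻¹ = g ^ (i : ℕ) * y * (g ^ (i : ℕ))⁻¹ * c * c⁻¹ := by group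
      _ = c * g ^ (i : ℕ) * y * (c * g ^ (i : ℕ))⁻¹ := by rw [h3]; group
  · rintro ⟨i, rfl⟩
    rw [rot_coe]
    exact isConj_iff.mpr ⟨_, rfl⟩

/-- The centralizers of the nontrivial elements have normal `p`-complements. -/
theorem exists_complement [Finite G] [Fact p.Prime] (h : AbM m P g) {y : (P : Subgroup G)}
    (hy : y ≠ 1) : ∃ K : Subgroup (centralizer ({(y : G)} : Set G)), K.Normal ∧
      ¬ p ∣ Nat.card K ∧ K.index = Nat.card (P : Subgroup G) ∧
      (Nat.card (centralizer ({(y : G)} : Set G))).factorization p =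
        (Nat.card G).factorization p := by
  have hPC : (P : Subgroup G) ≤ centralizer ({(y : G)} : Set G) := by
    intro x hx
    rw [mem_centralizer_singleton_iff]
    exact h.comm x hx y y.2
  set P' : Sylow p (centralizer ({(y : G)} : Set G)) := P.subtype hPC with hP'
  have hPc : (P' : Subgroup (centralizer ({(y : G)} : Set G))) =
    (P : Subgroup G).subgroupOf (centralizer ({(y : G)} : Set G)) := rfl
  have hnc : normalizer ((P' : Subgroup (centralizer ({(y : G)} : Set G))) :
        Set (centralizer ({(y : G)} : Set G))) ≤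
      centralizer ((P' : Subgroup (centralizer ({(y : G)} : Set G))) :
        Set (centralizer ({(y : G)} : Set G))) := by
    intro x hx
    have h1 : (x : G) ∈ normalizer ((P : Subgroup G) : Set G) := by
      rw [mem_normalizer_iff]
      intro z
      constructor
      · intro hz
        have hz' : (⟨z, hPC hz⟩ : centralizer ({(y : G)} : Set G)) ∈
            (P' : Subgroup (centralizer ({(y : G)} : Set G))) := by
          rw [hPc, mem_subgroupOf]; exact hz
        have h2 := (mem_normalizer_iff.mp hx _).mp hz'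
        rw [hPc, mem_subgroupOf] at h2
        exact h2
      · intro hz
        have hzC : z ∈ centralizer ({(y : G)} : Set G) := by
          have h3 := Subgroup.mul_mem _ (Subgroup.mul_mem _ (Subgroup.inv_mem _ x.2) (hPC hz)) x.2
          have e : (x : G)⁻¹ * (x * z * (x : G)⁻¹) * x = z := by group
          rwa [e] at h3
        have hz' : x * (⟨z, hzC⟩ : centralizer ({(y : G)} : Set G)) * x⁻¹ ∈
            (P' : Subgroup (centralizer ({(y : G)} : Set G))) := by
          rw [hPc, mem_subgroupOf]; exact hz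
        have h2 := (mem_normalizer_iff.mp hx _).mpr hz'
        rw [hPc, mem_subgroupOf] at h2
        exact h2
    have h2 : (x : G) ∈ centralizer ((P : Subgroup G) : Set G) := by
      apply h.mem_cent_of h1 hy
      exact mem_centralizer_singleton_iff.mp x.2
    rw [mem_centralizer_iff]
    intro z hz
    apply Subtype.ext
    exact mem_centralizer_iff.mp h2 z hz
  have hcard : Nat.card (P' : Subgroup (centralizer ({(y : G)} : Set G))) =
      Nat.card (P : Subgroup G) := by
    rw [hPc]
    exact Nat.card_congr (subgroupOfEquivOfLe hPC).toEquiv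
  refine ⟨(MonoidHom.transferSylow P' hnc).ker, inferInstance,
    MonoidHom.not_dvd_card_ker_transferSylow P' hnc, ?_, ?_⟩
  · rw [(MonoidHom.ker_transferSylow_isComplement' P' hnc).symm.index_eq_card, hcard]
  · have h1 : Nat.card (P : Subgroup G) = _ := P.card_eq_multiplicity
    have h2 : Nat.card (P' : Subgroup (centralizer ({(y : G)} : Set G))) = _ :=
      P'.card_eq_multiplicity
    rw [hcard, h1] at h2
    exact (Nat.pow_right_injective (Fact.out : p.Prime).two_le h2).symm

end AbM

end Cfsg.Agent.H11
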