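import Cfsg.Agent.H11.AbM1
import Cfsg.Agent.H27.Dual
import Cfsg.Agent.H11.Misc1

set_option autoImplicit false

/-! # Principal blocks with abelian Sylow subgroups and `N/C` free of order `3`, part 2 -/

universe u

namespace Cfsg.Agent.H11

open Subgroup Cfsg Cfsg.Agent.H3 Cfsg.Agent.H27
open scoped ComplexConjugate

variable {G : Type u} [Group G] {p : ℕ} {M : Ideal AlgInt}

namespace AbM

variable {P : Sylow p G} {g : G} {m : ℕ}

theorem exists_pow_card [Finite G] [Fact p.Prime] (P : Sylow p G) :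
    ∃ k, Nat.card (P : Subgroup G) = p ^ k := ⟨_, P.card_eq_multiplicity⟩

theorem pow_order [Finite G] [Fact p.Prime] (P : Sylow p G) (y : (P : Subgroup G)) :
    ∃ k : ℕ, orderOf (y : G) = p ^ k := by
  obtain ⟨k, hk⟩ := (IsPGroup.iff_orderOf.mp P.isPGroup') y
  exact ⟨k, by rw [← hk, Subgroup.orderOf_coe]⟩

theorem lamC_eq [Fintype G] [Fact p.Prime] (hM : IsPModular p M) (h : AbM m P g)
    {y : (P : Subgroup G)} (hy : y ≠ 1) : lamC M (y : G) = Nat.card (P : Subgroup G) := by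
  classical
  obtain ⟨K, hKn, hKp, hKi, hKf⟩ := h.exists_complement hy
  have h1 : ¬ p ∣ orderOf (1 : centralizer ({(y : G)} : Set G)) := by
    rw [orderOf_one]; exact hM.1.one_lt.ne' ∘ Nat.dvd_one.mp
  obtain ⟨k, hk⟩ := exists_pow_card P
  have := Fintype.ofFinite (centralizer ({(y : G)} : Set G))
  have := Fintype.ofFinite (IrrCharacter (centralizer ({(y : G)} : Set G)))
  have h2 := principal_sum_sq_complement hM hKp (k := k) (hKi.trans hk) h1
  have hc : p ^ (Nat.card G).factorization p = Nat.card (P : Subgroup G) :=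
    P.card_eq_multiplicity.symm
  rw [hKf, hc] at h2
  unfold lamC
  rw [finsum_mem_irr] at h2 ⊢
  have h3 : ∀ ψ : IrrCharacter (centralizer ({(y : G)} : Set G)),
      ‖(ψ : centralizer ({(y : G)} : Set G) → ℂ) 1‖ ^ 2 =
      ((charDegree (ψ : centralizer ({(y : G)} : Set G) → ℂ) ^ 2 : ℕ) : ℝ) := by
    intro ψ
    rw [← charDegree_cast (irr_isChar ψ.2), Complex.norm_natCast]
    push_cast; rfl
  simp only [h3] at h2
  exact_mod_cast h2

theorem const [Fintype G] [Fact p.Prime] (hM : IsPModular p M) (h : AbM m P g)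
    {y : (P : Subgroup G)} (hy : y ≠ 1) {z : G} (hz : IsPPart p z (y : G)) {χ : IrrCharacter G}
    (hχ : χ ∈ principalBlock M G) : (χ : G → ℂ) z = (χ : G → ℂ) (y : G) := by
  obtain ⟨K, hKn, hKp, hKi, hKf⟩ := h.exists_complement hy
  obtain ⟨r, hr, hcomm, hyk, hrr⟩ := hz
  obtain ⟨k, hk⟩ := exists_pow_card P
  have := Fintype.ofFinite (centralizer ({(y : G)} : Set G))
  have hrC : r ∈ centralizer ({(y : G)} : Set G) := by
    rw [mem_centralizer_singleton_iff]; exact hcomm.symm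
  have hrK := mem_of_index_pow hM.1 (hKi.trans hk) (g := (⟨r, hrC⟩ : centralizer _))
    (by rwa [Subgroup.orderOf_mk])
  have h1 := principal_const hM hyk hKp hrK hχ
  rw [← hr]
  exact h1

theorem orth [Fintype G] [Fact p.Prime] (hM : IsPModular p M) (h : AbM m P g)
    [Fintype (IrrCharacter G)] [DecidablePred (· ∈ principalBlock M G)]
    [DecidableEq (P : Subgroup G)] {y y' : (P : Subgroup G)} (hy : y ≠ 1) (_hy' : y' ≠ 1) :
    ∑ χ : IrrCharacter G with χ ∈ principalBlock M G, conj ((χ : G → ℂ) y) * (χ : G → ℂ) y'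
      = (Nat.card (P : Subgroup G) : ℂ) * ∑ i : Fin m, if h.rot i y = y' then 1 else 0 := by
  by_cases hc : IsConj (y : G) (y' : G)
  · rw [prin_orth_conj hM (pow_order P y) hc, h.lamC_eq hM hy]
    obtain ⟨i, hi⟩ := (h.isConj_iff_rot y y').mp hc
    have h1 : ∑ j : Fin m, (if h.rot j y = y' then (1 : ℂ) else 0) = 1 := by
      rw [Finset.sum_eq_single i]
      · rw [if_pos hi]
      · intro j _ hj
        rw [if_neg]
        intro hj2
        exact hj (h.rot_inj hy (hj2.trans hi.symm))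
      · intro hi2; exact absurd (Finset.mem_univ _) hi2
    rw [h1, mul_one]
  · rw [prin_orth_ne hM (pow_order P y) (pow_order P y') hc isPBlock_principal]
    have h1 : ∑ j : Fin m, (if h.rot j y = y' then (1 : ℂ) else 0) = 0 := by
      apply Finset.sum_eq_zero
      intro j _
      rw [if_neg]
      intro hj
      exact hc ((h.isConj_iff_rot y y').mpr ⟨j, hj⟩)
    rw [h1, mul_zero]

theorem orth_reg [Fintype G] [Fact p.Prime] (hM : IsPModular p M) (P : Sylow p G)
    [Fintype (IrrCharacter G)] [DecidablePred (· ∈ principalBlock M G)]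
    {y : (P : Subgroup G)} (hy : y ≠ 1) {x : G} (hx : ¬ p ∣ orderOf x) :
    ∑ χ : IrrCharacter G with χ ∈ principalBlock M G, conj ((χ : G → ℂ) y) * (χ : G → ℂ) x = 0 := by
  have hx1 : IsPPart p x 1 := ⟨x, one_mul x, Commute.one_left x, ⟨0, by simp⟩, hx⟩
  have h1 := block_orthogonality hM hx1 (H27.isPPart_self hM.1 (pow_order P y)) (by
    intro hc
    apply hy
    exact Subtype.ext (isConj_one_right.mp hc)) (isPBlock_principal (M := M) (G := G))
  rw [finsum_mem_irr] at h1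
  rw [← h1]
  apply Finset.sum_congr rfl
  intro χ _
  rw [char_inv (irr_isChar χ.2), mul_comm]

/-- the pairing of a class function with a function on `P` -/
noncomputable def T (P : Sylow p G) [Fintype (P : Subgroup G)] (f : ↥(P : Subgroup G) → ℂ)
    (χ : G → ℂ) : ℂ := ∑ y : (P : Subgroup G), f y * χ y

theorem T_inner [Fintype G] [Fact p.Prime] (hM : IsPModular p M) (h : AbM m P g)
    [Fintype (IrrCharacter G)] [DecidablePred (· ∈ principalBlock M G)]
    [Fintype (P : Subgroup G)] (f f' : ↥(P : Subgroup G) → ℂ) (hf : f 1 = 0) (hf' : f' 1 = 0) :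
    ∑ χ : IrrCharacter G with χ ∈ principalBlock M G, conj (T P f χ) * T P f' χ =
      (Nat.card (P : Subgroup G) : ℂ) *
        ∑ i : Fin m, ∑ y : (P : Subgroup G), conj (f y) * f' (h.rot i y) := by
  classical
  have h1 : ∀ χ : IrrCharacter G, conj (T P f χ) * T P f' χ = ∑ y : (P : Subgroup G),
      ∑ y' : (P : Subgroup G), conj (f y) * f' y' * (conj ((χ : G → ℂ) y) * (χ : G → ℂ) y') := by
    intro χ
    unfold T
    rw [map_sum, Finset.sum_mul_sum]
    refine Finset.sum_congr rfl fun y _ => Finset.sum_congr rfl fun y' _ => ?_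
    rw [map_mul]; ring
  simp only [h1]
  rw [Finset.sum_comm]
  have h2 : ∀ y : (P : Subgroup G), ∑ χ : IrrCharacter G with χ ∈ principalBlock M G,
      ∑ y' : (P : Subgroup G), conj (f y) * f' y' * (conj ((χ : G → ℂ) y) * (χ : G → ℂ) y') =
      (Nat.card (P : Subgroup G) : ℂ) * ∑ i : Fin m, conj (f y) * f' (h.rot i y) := by
    intro y
    rw [Finset.sum_comm]
    have h3 : ∀ y' : (P : Subgroup G), ∑ χ : IrrCharacter G with χ ∈ principalBlock M G,
        conj (f y) * f' y' * (conj ((χ : G → ℂ) y) * (χ : G → ℂ) y') =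
        (Nat.card (P : Subgroup G) : ℂ) * ∑ i : Fin m,
          if h.rot i y = y' then conj (f y) * f' y' else 0 := by
      intro y'
      rw [← Finset.mul_sum]
      by_cases hy : y = 1
      · subst hy; simp [hf]
      by_cases hy' : y' = 1
      · subst hy'; simp [hf']
      rw [h.orth hM hy hy', mul_left_comm, Finset.mul_sum]
      congr 1
      apply Finset.sum_congr rfl
      intro i _
      split_ifs <;> simp
    simp only [h3]
    rw [← Finset.mul_sum, Finset.sum_comm]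
    congr 1
    apply Finset.sum_congr rfl
    intro i _
    rw [Finset.sum_ite_eq]
    simp
  simp only [h2]
  rw [← Finset.mul_sum, Finset.sum_comm]

theorem T_orth_reg [Fintype G] [Fact p.Prime] (hM : IsPModular p M) (P : Sylow p G)
    [Fintype (IrrCharacter G)] [DecidablePred (· ∈ principalBlock M G)]
    [Fintype (P : Subgroup G)] (f : ↥(P : Subgroup G) → ℂ) (hf : f 1 = 0)
    {x : G} (hx : ¬ p ∣ orderOf x) :
    ∑ χ : IrrCharacter G with χ ∈ principalBlock M G, conj (T P f χ) * (χ : G → ℂ) x = 0 := by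
  have h1 : ∀ χ : IrrCharacter G, conj (T P f χ) * (χ : G → ℂ) x = ∑ y : (P : Subgroup G),
      conj (f y) * (conj ((χ : G → ℂ) y) * (χ : G → ℂ) x) := by
    intro χ
    unfold T
    rw [map_sum, Finset.sum_mul]
    refine Finset.sum_congr rfl fun y _ => ?_
    rw [map_mul]; ring
  simp only [h1]
  rw [Finset.sum_comm]
  apply Finset.sum_eq_zero
  intro y _
  rw [← Finset.mul_sum]
  by_cases hy : y = 1
  · subst hy; simp [hf]
  · rw [orth_reg hM P hy hx, mul_zero]

/-! ### the multiplicities -/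

/-- the multiplicity of a linear character of `P` in a character -/
noncomputable def mul (P : Sylow p G) [Fintype (P : Subgroup G)] (χ : IrrCharacter G)
    (ψ : (P : Subgroup G) →* ℂˣ) : ℕ :=
  Classical.choose (exists_nat_lin (isChar_restrict (P : Subgroup G) (irr_isChar χ.2)) ψ)

theorem mul_spec (P : Sylow p G) [Fintype (P : Subgroup G)] (χ : IrrCharacter G)
    (ψ : (P : Subgroup G) →* ℂˣ) :
    (mul P χ ψ : ℂ) = (Nat.card (P : Subgroup G) : ℂ)⁻¹ *
      T P (fun y => conj (ψ y : ℂ)) χ := by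
  have h := Classical.choose_spec
    (exists_nat_lin (isChar_restrict (P : Subgroup G) (irr_isChar χ.2)) ψ)
  unfold mul T
  rw [← h]
  unfold classInner
  congr 1
  exact Finset.sum_congr rfl fun y _ => mul_comm _ _

/-- the integral vectors -/
noncomputable def W (P : Sylow p G) [Fintype (P : Subgroup G)] (ψ : (P : Subgroup G) →* ℂˣ)
    (χ : IrrCharacter G) : ℤ := mul P χ 1 - mul P χ ψ

theorem W_spec (P : Sylow p G) [Fintype (P : Subgroup G)] (χ : IrrCharacter G)
    (ψ : (P : Subgroup G) →* ℂˣ) :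
    (W P ψ χ : ℂ) = (Nat.card (P : Subgroup G) : ℂ)⁻¹ *
      T P (fun y => 1 - conj (ψ y : ℂ)) χ := by
  unfold W
  push_cast
  rw [mul_spec, mul_spec, ← mul_sub]
  congr 1
  unfold T
  rw [← Finset.sum_sub_distrib]
  apply Finset.sum_congr rfl
  intro y _
  simp only [MonoidHom.one_apply, Units.val_one, map_one]
  ring

theorem W_one (P : Sylow p G) [Fintype (P : Subgroup G)] (χ : IrrCharacter G) : W P 1 χ = 0 :=
  sub_self _

/-- the expansion of the values -/
theorem value_eq [Fintype G] (h : AbM m P g) [Fintype (P : Subgroup G)]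
    [Fintype ((P : Subgroup G) →* ℂˣ)] (χ : IrrCharacter G) {y : (P : Subgroup G)} (hy : y ≠ 1) :
    (χ : G → ℂ) y = - ∑ ψ : (P : Subgroup G) →* ℂˣ, (W P ψ χ : ℂ) * (ψ y : ℂ) := by
  have hA : ∀ x y : (P : Subgroup G), x * y = y * x :=
    fun x y => Subtype.ext (h.comm x x.2 y y.2)
  have h1 := expand_lin hA (isChar_restrict (P : Subgroup G) (irr_isChar χ.2)) y
  have h2 : ∀ ψ : (P : Subgroup G) →* ℂˣ,
      classInner (fun h : (P : Subgroup G) => (χ : G → ℂ) h) (fun x => (ψ x : ℂ)) = mul P χ ψ :=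
    fun ψ => Classical.choose_spec
      (exists_nat_lin (isChar_restrict (P : Subgroup G) (irr_isChar χ.2)) ψ)
  simp only [h2] at h1
  rw [h1]
  have h3 : ∀ ψ : (P : Subgroup G) →* ℂˣ, (W P ψ χ : ℂ) * (ψ y : ℂ) =
      (mul P χ 1 : ℂ) * (ψ y : ℂ) - (mul P χ ψ : ℂ) * (ψ y : ℂ) := by
    intro ψ
    unfold W
    push_cast; ring
  simp only [h3]
  rw [Finset.sum_sub_distrib, ← Finset.mul_sum, sum_dual hA y hy]
  ring

theorem P_comm (h : AbM m P g) (x y : (P : Subgroup G)) : x * y = y * x :=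
  Subtype.ext (h.comm x x.2 y y.2)

/-- twisting -/
noncomputable def tw (h : AbM m P g) (i : ℕ) (ψ : (P : Subgroup G) →* ℂˣ) :
    (P : Subgroup G) →* ℂˣ := ψ.comp (h.rot i).toMonoidHom

theorem tw_apply (h : AbM m P g) (i : ℕ) (ψ : (P : Subgroup G) →* ℂˣ) (y : (P : Subgroup G)) :
    h.tw i ψ y = ψ (h.rot i y) := rfl

theorem tw_zero (h : AbM m P g) (ψ : (P : Subgroup G) →* ℂˣ) : h.tw 0 ψ = ψ := by
  ext y
  rw [tw_apply, rot_zero]

theorem tw_one (h : AbM m P g) (i : ℕ) : h.tw i 1 = 1 := by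
  ext y
  rw [tw_apply, MonoidHom.one_apply, MonoidHom.one_apply]

theorem tw_inj_iff (h : AbM m P g) (i : ℕ) (ψ ψ' : (P : Subgroup G) →* ℂˣ) :
    h.tw i ψ = h.tw i ψ' ↔ ψ = ψ' := by
  constructor
  · intro he
    ext y
    obtain ⟨x, rfl⟩ := (h.rot i).surjective y
    rw [← tw_apply, ← tw_apply, he]
  · rintro rfl; rfl

theorem tw_ne_one (h : AbM m P g) (i : ℕ) {ψ : (P : Subgroup G) →* ℂˣ} (hψ : ψ ≠ 1) :
    h.tw i ψ ≠ 1 := by
  intro he
  rw [← h.tw_one i, tw_inj_iff] at he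
  exact hψ he

theorem tw_inj [Finite G] (h : AbM m P g) {ψ : (P : Subgroup G) →* ℂˣ} (hψ : ψ ≠ 1) {i j : Fin m}
    (he : h.tw i ψ = h.tw j ψ) : i = j := by
  by_contra hij
  apply hψ
  let φ : (P : Subgroup G) →* (P : Subgroup G) :=
    { toFun := fun y => h.rot i y * (h.rot j y)⁻¹
      map_one' := by simp
      map_mul' := by
        intro a b
        rw [map_mul, map_mul, mul_inv_rev]
        rw [h.P_comm (h.rot j b)⁻¹ (h.rot j a)⁻¹]
        calc h.rot i a * h.rot i b * ((h.rot j a)⁻¹ * (h.rot j b)⁻¹)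
            = h.rot i a * (h.rot i b * (h.rot j a)⁻¹) * (h.rot j b)⁻¹ := by group
          _ = h.rot i a * ((h.rot j a)⁻¹ * h.rot i b) * (h.rot j b)⁻¹ := by
              rw [h.P_comm (h.rot i b) (h.rot j a)⁻¹]
          _ = _ := by group }
  have hφ : Function.Injective φ := by
    rw [injective_iff_map_eq_one]
    intro y hy
    by_contra hy1
    have h1 : h.rot i y = h.rot j y := mul_inv_eq_one.mp hy
    exact hij (h.rot_inj hy1 h1)
  have hs : Function.Surjective φ := Finite.surjective_of_injective hφ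
  ext x
  obtain ⟨y, rfl⟩ := hs x
  have h1 : ψ (φ y) = ψ (h.rot i y) * (ψ (h.rot j y))⁻¹ := by
    show ψ (h.rot i y * (h.rot j y)⁻¹) = _
    rw [map_mul, map_inv]
  rw [h1, ← tw_apply, ← tw_apply, he, mul_inv_cancel, MonoidHom.one_apply]

theorem W_tw [Finite G] (h : AbM m P g) [Fintype (P : Subgroup G)] (i : ℕ)
    (ψ : (P : Subgroup G) →* ℂˣ) (χ : IrrCharacter G) : W P (h.tw i ψ) χ = W P ψ χ := by
  have h1 : (W P (h.tw i ψ) χ : ℂ) = (W P ψ χ : ℂ) := by
    rw [W_spec, W_spec]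
    congr 1
    unfold T
    symm
    rw [← Equiv.sum_comp (h.rot i).toEquiv]
    apply Finset.sum_congr rfl
    intro y _
    have h2 : (χ : G → ℂ) ((h.rot i y : (P : Subgroup G)) : G) = (χ : G → ℂ) (y : G) := by
      rw [rot_coe]
      exact irr_classFun χ.2 _ _
    have h3 : (h.rot i).toEquiv y = h.rot i y := rfl
    rw [h3, h2]; rfl
  exact_mod_cast h1

theorem W_inner [Fintype G] [Fact p.Prime] (hM : IsPModular p M) (h : AbM m P g)
    [Fintype (IrrCharacter G)] [DecidablePred (· ∈ principalBlock M G)]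
    [Fintype (P : Subgroup G)] [DecidableEq ((P : Subgroup G) →* ℂˣ)]
    {ψ ψ' : (P : Subgroup G) →* ℂˣ} (hψ : ψ ≠ 1) (hψ' : ψ' ≠ 1) :
    ∑ χ : IrrCharacter G with χ ∈ principalBlock M G, W P ψ χ * W P ψ' χ =
      m + ∑ i : Fin m, if ψ = h.tw i ψ' then 1 else 0 := by
  have h0 : (Nat.card (P : Subgroup G) : ℂ) ≠ 0 := by exact_mod_cast Nat.card_pos.ne'
  have h1 := T_inner hM h (fun y => 1 - conj (ψ y : ℂ)) (fun y => 1 - conj (ψ' y : ℂ))
    (by simp) (by simp)
  have h2 : ∀ χ : IrrCharacter G, conj (T P (fun y => 1 - conj (ψ y : ℂ)) χ) *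
      T P (fun y => 1 - conj (ψ' y : ℂ)) χ =
      (Nat.card (P : Subgroup G) : ℂ) * (Nat.card (P : Subgroup G) : ℂ) *
        ((W P ψ χ : ℂ) * (W P ψ' χ : ℂ)) := by
    intro χ
    have e1 : T P (fun y => 1 - conj (ψ y : ℂ)) χ = (Nat.card (P : Subgroup G) : ℂ) * (W P ψ χ : ℂ) := by
      rw [W_spec, mul_inv_cancel_left₀ h0]
    have e2 : T P (fun y => 1 - conj (ψ' y : ℂ)) χ =
        (Nat.card (P : Subgroup G) : ℂ) * (W P ψ' χ : ℂ) := by
      rw [W_spec, mul_inv_cancel_left₀ h0]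
    rw [e1, e2, map_mul, Complex.conj_natCast, map_intCast]
    ring
  have h3 : ∀ i : Fin m, ∑ y : (P : Subgroup G), conj (1 - conj (ψ y : ℂ)) *
      (1 - conj (ψ' (h.rot i y) : ℂ)) = (Nat.card (P : Subgroup G) : ℂ) *
        (1 + if ψ = h.tw i ψ' then 1 else 0) := by
    intro i
    have e : ∀ y : (P : Subgroup G), conj (1 - conj (ψ y : ℂ)) * (1 - conj (ψ' (h.rot i y) : ℂ)) =
        1 - (ψ y : ℂ) - conj (h.tw i ψ' y : ℂ) + (ψ y : ℂ) * conj (h.tw i ψ' y : ℂ) := by
      intro y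
      rw [map_sub, map_one, Complex.conj_conj, tw_apply]
      ring
    simp only [e]
    rw [Finset.sum_add_distrib, Finset.sum_sub_distrib, Finset.sum_sub_distrib, sum_hom hψ,
      sum_hom_conj, ← map_sum, sum_hom (h.tw_ne_one i hψ'), map_zero, Finset.sum_const,
      Finset.card_univ, nsmul_eq_mul, mul_one, ← Nat.card_eq_fintype_card]
    split_ifs <;> ring
  simp only [h2, h3] at h1
  rw [← Finset.mul_sum, ← Finset.mul_sum, mul_assoc] at h1
  have h4 := mul_left_cancel₀ h0 h1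
  have h5 := mul_left_cancel₀ h0 h4
  rw [Finset.sum_add_distrib, Finset.sum_const, Finset.card_univ, Fintype.card_fin] at h5
  have h6 : ((∑ χ : IrrCharacter G with χ ∈ principalBlock M G, W P ψ χ * W P ψ' χ : ℤ) : ℂ) =
      ((m + ∑ i : Fin m, if ψ = h.tw i ψ' then 1 else 0 : ℤ) : ℂ) := by
    push_cast
    rw [h5]
    simp
  exact_mod_cast h6

theorem W_inner_self [Fintype G] [Fact p.Prime] (hM : IsPModular p M) (h : AbM m P g)
    [Fintype (IrrCharacter G)] [DecidablePred (· ∈ principalBlock M G)]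
    [Fintype (P : Subgroup G)]
    {ψ : (P : Subgroup G) →* ℂˣ} (hψ : ψ ≠ 1) :
    ∑ χ : IrrCharacter G with χ ∈ principalBlock M G, W P ψ χ * W P ψ χ = m + 1 := by
  classical
  rw [h.W_inner hM hψ hψ, Finset.sum_eq_single (⟨0, h.mpos⟩ : Fin m)]
  · rw [if_pos]
    exact (h.tw_zero ψ).symm
  · intro i _ hi
    rw [if_neg]
    intro he
    apply hi
    apply h.tw_inj hψ
    rw [← he]
    exact (h.tw_zero ψ).symm
  · intro hi; exact absurd (Finset.mem_univ _) hi

theorem W_inner_ne [Fintype G] [Fact p.Prime] (hM : IsPModular p M) (h : AbM m P g)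
    [Fintype (IrrCharacter G)] [DecidablePred (· ∈ principalBlock M G)]
    [Fintype (P : Subgroup G)]
    {ψ ψ' : (P : Subgroup G) →* ℂˣ} (hψ : ψ ≠ 1) (hψ' : ψ' ≠ 1) (hne : ∀ i : Fin m, ψ ≠ h.tw i ψ') :
    ∑ χ : IrrCharacter G with χ ∈ principalBlock M G, W P ψ χ * W P ψ' χ = m := by
  classical
  rw [h.W_inner hM hψ hψ', Finset.sum_eq_zero]
  · rw [add_zero]
  · intro i _
    rw [if_neg (hne i)]

theorem W_principal [Finite G] (P : Sylow p G) [Fintype (P : Subgroup G)]
    {ψ : (P : Subgroup G) →* ℂˣ} (hψ : ψ ≠ 1) : W P ψ (oneIrr G) = 1 := by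
  have h0 : (Nat.card (P : Subgroup G) : ℂ) ≠ 0 := by exact_mod_cast Nat.card_pos.ne'
  have h1 := W_spec P (oneIrr G) ψ
  have h2 : T P (fun y => 1 - conj (ψ y : ℂ)) (oneIrr G) = (Nat.card (P : Subgroup G) : ℂ) := by
    unfold T
    have : ∀ y : (P : Subgroup G), (1 - conj (ψ y : ℂ)) * ((oneIrr G : IrrCharacter G) : G → ℂ) y =
        1 - conj (ψ y : ℂ) := fun y => mul_one _
    simp only [this]
    rw [Finset.sum_sub_distrib, ← map_sum, sum_hom hψ, map_zero, Finset.sum_const,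
      Finset.card_univ, nsmul_eq_mul, mul_one, ← Nat.card_eq_fintype_card, sub_zero]
  rw [h2, inv_mul_cancel₀ h0] at h1
  exact_mod_cast h1

theorem W_reg [Fintype G] [Fact p.Prime] (hM : IsPModular p M) (P : Sylow p G)
    [Fintype (IrrCharacter G)] [DecidablePred (· ∈ principalBlock M G)]
    [Fintype (P : Subgroup G)] (ψ : (P : Subgroup G) →* ℂˣ) {x : G} (hx : ¬ p ∣ orderOf x) :
    ∑ χ : IrrCharacter G with χ ∈ principalBlock M G, (W P ψ χ : ℂ) * (χ : G → ℂ) x = 0 := by
  have h0 : (Nat.card (P : Subgroup G) : ℂ) ≠ 0 := by exact_mod_cast Nat.card_pos.ne'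
  have h1 := T_orth_reg hM P (fun y => 1 - conj (ψ y : ℂ)) (by simp) hx
  have h2 : ∀ χ : IrrCharacter G, (W P ψ χ : ℂ) * (χ : G → ℂ) x =
      (Nat.card (P : Subgroup G) : ℂ)⁻¹ * (conj (T P (fun y => 1 - conj (ψ y : ℂ)) χ) * (χ : G → ℂ) x) := by
    intro χ
    have e1 : T P (fun y => 1 - conj (ψ y : ℂ)) χ = (Nat.card (P : Subgroup G) : ℂ) * (W P ψ χ : ℂ) := by
      rw [W_spec, mul_inv_cancel_left₀ h0]
    rw [e1, map_mul, Complex.conj_natCast, map_intCast]
    field_simp
  simp only [h2]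
  rw [← Finset.mul_sum, h1, mul_zero]

end AbM

end Cfsg.Agent.H11
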