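import Mathlib

set_option autoImplicit false

/-!
Integer vectors of small norm with prescribed inner products (the combinatorial part of the
determination of the principal `2`-block of a group with dihedral Sylow `2`-subgroups).
-/

namespace Cfsg.Agent.H11

open Finset

section Vec

variable {ι : Type*} [Fintype ι] [DecidableEq ι]

lemma sq_le_of_sum {w : ι → ℤ} {k : ℤ} (h : ∑ i, w i ^ 2 = k) (i : ι) : w i ^ 2 ≤ k := by
  rw [← h]
  exact Finset.single_le_sum (f := fun i => w i ^ 2) (fun j _ => sq_nonneg _) (mem_univ i)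

lemma small_entry {w : ι → ℤ} {k : ℤ} (hk : k < 4) (h : ∑ i, w i ^ 2 = k) (i : ι) :
    w i = 0 ∨ w i = 1 ∨ w i = -1 := by
  have h1 := sq_le_of_sum h i
  have h2 : w i ^ 2 < 4 := by omega
  have h3 : w i < 2 := by nlinarith
  have h4 : -2 < w i := by nlinarith
  omega

lemma card_supp {w : ι → ℤ} {k : ℤ} (hk : k < 4) (h : ∑ i, w i ^ 2 = k) :
    ((univ.filter (fun i => w i ≠ 0)).card : ℤ) = k := by
  rw [← h, Finset.card_filter]
  push_cast
  apply Finset.sum_congr rfl
  intro i _
  rcases small_entry hk h i with h1 | h1 | h1 <;> rw [h1] <;> simp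

lemma norm_two {w : ι → ℤ} {d : ι → ℤ} (hd : ∀ i, 1 ≤ d i) (h : ∑ i, w i ^ 2 = 2)
    (hs : ∑ i, w i * d i = -1) : ∃ x y : ι, x ≠ y ∧ w x = 1 ∧ w y = -1 ∧
      ∀ i, i ≠ x → i ≠ y → w i = 0 := by
  have hc := card_supp (by norm_num) h
  have hc' : (univ.filter (fun i => w i ≠ 0)).card = 2 := by exact_mod_cast hc
  obtain ⟨x, y, hxy, hs2⟩ := Finset.card_eq_two.mp hc'
  have h0 : ∀ i, i ≠ x → i ≠ y → w i = 0 := by
    intro i hi1 hi2
    by_contra h1
    have : i ∈ univ.filter (fun i => w i ≠ 0) := by simp [h1]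
    rw [hs2] at this
    simp [hi1, hi2] at this
  have hx0 : w x ≠ 0 := by
    have : x ∈ univ.filter (fun i => w i ≠ 0) := by rw [hs2]; simp
    simpa using this
  have hy0 : w y ≠ 0 := by
    have : y ∈ univ.filter (fun i => w i ≠ 0) := by rw [hs2]; simp
    simpa using this
  have hsum : w x * d x + w y * d y = -1 := by
    rw [← hs, ← Finset.sum_pair (f := fun i => w i * d i) hxy]
    apply Finset.sum_subset (Finset.subset_univ _)
    intro i _ hi
    simp only [Finset.mem_insert, Finset.mem_singleton, not_or] at hi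
    rw [h0 i hi.1 hi.2, zero_mul]
  have hdx := hd x
  have hdy := hd y
  rcases small_entry (by norm_num) h x with h1 | h1 | h1
  · exact absurd h1 hx0
  · rcases small_entry (by norm_num) h y with h2 | h2 | h2
    · exact absurd h2 hy0
    · rw [h1, h2] at hsum; omega
    · exact ⟨x, y, hxy, h1, h2, h0⟩
  · rcases small_entry (by norm_num) h y with h2 | h2 | h2
    · exact absurd h2 hy0
    · exact ⟨y, x, hxy.symm, h2, h1, fun i a b => h0 i b a⟩
    · rw [h1, h2] at hsum; omega

/-- Two equivalence relations whose union is everything. -/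
lemma union_total {α β γ : Type*} (x : α → β) (y : α → γ) (h : ∀ i j, x i = x j ∨ y i = y j) :
    (∀ i j, x i = x j) ∨ (∀ i j, y i = y j) := by
  by_contra hcon
  push Not at hcon
  obtain ⟨⟨i, j, hij⟩, k, l, hkl⟩ := hcon
  have h1 : y i = y j := (h i j).resolve_left hij
  have h2 : x k = x l := (h k l).resolve_right hkl
  by_cases h3 : y k = y i
  · have h4 : y l ≠ y i := fun h5 => hkl (h3.trans h5.symm)
    have h5 : x l = x i := (h l i).resolve_right h4
    have h6 : x l = x j := (h l j).resolve_right (fun h7 => h4 (h7.trans h1.symm))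
    exact hij (h5.symm.trans h6)
  · have h5 : x k = x i := (h k i).resolve_right h3
    have h6 : x k = x j := (h k j).resolve_right (fun h7 => h3 (h7.trans h1.symm))
    exact hij (h5.symm.trans h6)

/-- Vectors of norm two with pairwise inner products one. -/
lemma common_elt {t : ℕ} (ht : 0 < t) {d : ι → ℤ} (hd : ∀ i, 1 ≤ d i) (w : Fin t → ι → ℤ)
    (h2 : ∀ j, ∑ i, w j i ^ 2 = 2) (h1 : ∀ j k, j ≠ k → ∑ i, w j i * w k i = 1)
    (hs : ∀ j, ∑ i, w j i * d i = -1) :
    ∃ (δ : ℤ) (c : ι) (v : Fin t → ι), (δ = 1 ∨ δ = -1) ∧ Function.Injective v ∧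
      (∀ j, v j ≠ c) ∧ (∀ j, w j c = δ) ∧ (∀ j, w j (v j) = -δ) ∧
      ∀ j i, i ≠ c → i ≠ v j → w j i = 0 := by
  choose x y hxy hx hy h0 using fun j => norm_two hd (h2 j) (hs j)
  have hprod : ∀ j k, ∑ i, w j i * w k i = w k (x j) - w k (y j) := by
    intro j k
    have e1 : ∀ i, w j i * w k i = (if i = x j then w k i else 0) - (if i = y j then w k i else 0) := by
      intro i
      by_cases ha : i = x j
      · subst ha
        rw [if_pos rfl, if_neg (hxy j), hx]; ring
      · by_cases hb : i = y j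
        · subst hb
          rw [if_pos rfl, if_neg ha, hy]; ring
        · rw [if_neg ha, if_neg hb, h0 j i ha hb]; ring
    rw [Finset.sum_congr rfl fun i _ => e1 i, Finset.sum_sub_distrib, Finset.sum_ite_eq' univ,
      Finset.sum_ite_eq' univ]
    simp
  have hval : ∀ k i, w k i = (if i = x k then 1 else 0) - (if i = y k then 1 else 0) := by
    intro k i
    by_cases ha : i = x k
    · subst ha
      rw [if_pos rfl, if_neg (hxy k), hx]; ring
    · by_cases hb : i = y k
      · subst hb
        rw [if_pos rfl, if_neg ha, hy]; ring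
      · rw [if_neg ha, if_neg hb, h0 k i ha hb]; ring
  have hkey : ∀ j k, j ≠ k → (x j = x k ∧ y j ≠ y k) ∨ (x j ≠ x k ∧ y j = y k) := by
    intro j k hjk
    have e1 := h1 j k hjk
    rw [hprod, hval k (x j), hval k (y j)] at e1
    by_cases ha : x j = x k
    · left
      refine ⟨ha, fun hb => ?_⟩
      rw [if_pos ha, if_pos hb, if_neg (fun h => hxy k (ha.symm.trans h)),
        if_neg (fun h => hxy k (h.symm.trans hb))] at e1
      norm_num at e1
    · right
      refine ⟨ha, ?_⟩
      by_contra hb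
      rw [if_neg ha, if_neg hb] at e1
      split_ifs at e1 <;> norm_num at e1
  rcases union_total x y (fun j k => by
    by_cases hjk : j = k
    · left; rw [hjk]
    · rcases hkey j k hjk with h | h
      · exact Or.inl h.1
      · exact Or.inr h.2) with hall | hall
  · refine ⟨1, x ⟨0, ht⟩, y, Or.inl rfl, ?_, ?_, ?_, hy, ?_⟩
    · intro j k hjk
      by_contra hne
      rcases hkey j k hne with h | h
      · exact h.2 hjk
      · exact h.1 (hall j k)
    · intro j h
      exact hxy j ((hall j _).trans h.symm)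
    · intro j
      rw [hall ⟨0, ht⟩ j]; exact hx j
    · intro j i hi1 hi2
      exact h0 j i (fun h => hi1 (h.trans (hall _ _))) hi2
  · refine ⟨-1, y ⟨0, ht⟩, x, Or.inr rfl, ?_, ?_, ?_, ?_, ?_⟩
    · intro j k hjk
      by_contra hne
      rcases hkey j k hne with h | h
      · exact h.2 (hall j k)
      · exact h.1 hjk
    · intro j h
      exact hxy j (h.trans (hall _ _))
    · intro j
      rw [hall ⟨0, ht⟩ j]; exact hy j
    · intro j
      rw [hx]; norm_num
    · intro j i hi1 hi2
      exact h0 j i hi2 (fun h => hi1 (h.trans (hall _ _)))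

/-- The configuration of the vectors `w_1, …, w_t, w_N`. -/
theorem dihedral_config {t : ℕ} (ht : 0 < t) (ht2 : t ≠ 2) {d : ι → ℤ} (hd : ∀ i, 1 ≤ d i)
    (w : Fin t → ι → ℤ) (u : ι → ℤ)
    (h2 : ∀ j, ∑ i, w j i ^ 2 = 2) (h1 : ∀ j k, j ≠ k → ∑ i, w j i * w k i = 1)
    (hs : ∀ j, ∑ i, w j i * d i = -1)
    (h3 : ∑ i, u i ^ 2 = 3) (h4 : ∀ j, ∑ i, w j i * u i = 1) (h5 : ∑ i, u i * d i = -1) :
    ∃ (δ : ℤ) (c : ι) (v : Fin t → ι), (δ = 1 ∨ δ = -1) ∧ Function.Injective v ∧
      (∀ j, v j ≠ c) ∧ (∀ j, w j c = δ) ∧ (∀ j, w j (v j) = -δ) ∧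
      (∀ j i, i ≠ c → i ≠ v j → w j i = 0) ∧ u c = δ ∧
      ∃ (y z : ι), y ≠ c ∧ z ≠ c ∧ y ≠ z ∧ (∀ j, v j ≠ y) ∧ (∀ j, v j ≠ z) ∧
        (u y = 1 ∨ u y = -1) ∧ (u z = 1 ∨ u z = -1) ∧
        ∀ i, i ≠ c → i ≠ y → i ≠ z → u i = 0 := by
  obtain ⟨δ, c, v, hδ, hv, hvc, hwc, hwv, hw0⟩ := common_elt ht hd w h2 h1 hs
  have hprod : ∀ j, δ * (u c - u (v j)) = 1 := by
    intro j
    rw [← h4 j]
    have e1 : ∀ i, w j i * u i = (if i = c then δ * u i else 0) - (if i = v j then δ * u i else 0) := by
      intro i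
      by_cases ha : i = c
      · subst ha
        rw [if_pos rfl, if_neg (hvc j).symm, hwc]; ring
      · by_cases hb : i = v j
        · subst hb
          rw [if_pos rfl, if_neg ha, hwv]; ring
        · rw [if_neg ha, if_neg hb, hw0 j i ha hb]; ring
    rw [Finset.sum_congr rfl fun i _ => e1 i, Finset.sum_sub_distrib, Finset.sum_ite_eq' univ,
      Finset.sum_ite_eq' univ]
    simp
    ring
  have hcard : (univ.filter (fun i => u i ≠ 0)).card = 3 := by
    exact_mod_cast card_supp (by norm_num) h3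
  have hentry := small_entry (by norm_num) h3
  -- the final step, once the common element is in the support of `u`
  have final : ∀ (δ : ℤ) (c : ι) (v : Fin t → ι), (δ = 1 ∨ δ = -1) → Function.Injective v →
      (∀ j, v j ≠ c) → (∀ j, w j c = δ) → (∀ j, w j (v j) = -δ) →
      (∀ j i, i ≠ c → i ≠ v j → w j i = 0) → u c = δ → (∀ j, u (v j) = 0) →
      ∃ (δ : ℤ) (c : ι) (v : Fin t → ι), (δ = 1 ∨ δ = -1) ∧ Function.Injective v ∧
      (∀ j, v j ≠ c) ∧ (∀ j, w j c = δ) ∧ (∀ j, w j (v j) = -δ) ∧
      (∀ j i, i ≠ c → i ≠ v j → w j i = 0) ∧ u c = δ ∧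
      ∃ (y z : ι), y ≠ c ∧ z ≠ c ∧ y ≠ z ∧ (∀ j, v j ≠ y) ∧ (∀ j, v j ≠ z) ∧
        (u y = 1 ∨ u y = -1) ∧ (u z = 1 ∨ u z = -1) ∧
        ∀ i, i ≠ c → i ≠ y → i ≠ z → u i = 0 := by
    intro δ c v hδ hv hvc hwc hwv hw0 huc huv
    refine ⟨δ, c, v, hδ, hv, hvc, hwc, hwv, hw0, huc, ?_⟩
    have hδ0 : δ ≠ 0 := by rcases hδ with h | h <;> rw [h] <;> norm_num
    have hcm : c ∈ univ.filter (fun i => u i ≠ 0) := by simp [huc, hδ0]
    have h6 := Finset.card_erase_of_mem hcm
    rw [hcard] at h6
    obtain ⟨y, z, hyz, hs2⟩ := Finset.card_eq_two.mp h6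
    have hy : y ∈ (univ.filter (fun i => u i ≠ 0)).erase c := by rw [hs2]; simp
    have hz : z ∈ (univ.filter (fun i => u i ≠ 0)).erase c := by rw [hs2]; simp
    rw [Finset.mem_erase, Finset.mem_filter] at hy hz
    refine ⟨y, z, hy.1, hz.1, hyz, fun j h => ?_, fun j h => ?_, ?_, ?_, ?_⟩
    · exact hy.2.2 (by rw [← h]; exact huv j)
    · exact hz.2.2 (by rw [← h]; exact huv j)
    · rcases hentry y with h | h | h
      · exact absurd h hy.2.2
      · exact Or.inl h
      · exact Or.inr h
    · rcases hentry z with h | h | h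
      · exact absurd h hz.2.2
      · exact Or.inl h
      · exact Or.inr h
    · intro i hi1 hi2 hi3
      by_contra h7
      have : i ∈ (univ.filter (fun i => u i ≠ 0)).erase c := by simp [h7, hi1]
      rw [hs2] at this
      simp [hi2, hi3] at this
  have hj0 := hprod ⟨0, ht⟩
  by_cases huc : u c = δ
  · apply final δ c v hδ hv hvc hwc hwv hw0 huc
    intro j
    have h6 := hprod j
    rw [huc] at h6
    rcases hδ with h | h <;> rw [h] at h6 <;> omega
  · -- then `u c = 0` and `u (v j) = -δ`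
    have huc0 : u c = 0 := by
      rcases hδ with h | h <;> rw [h] at hj0 huc <;> rcases hentry c with h7 | h7 | h7 <;>
        rcases hentry (v ⟨0, ht⟩) with h8 | h8 | h8 <;> omega
    have huv : ∀ j, u (v j) = -δ := by
      intro j
      have h6 := hprod j
      rw [huc0] at h6
      rcases hδ with h | h <;> rw [h] at h6 ⊢ <;> omega
    have hδ0 : -δ ≠ 0 := by rcases hδ with h | h <;> rw [h] <;> norm_num
    by_cases ht1 : t = 1
    · subst ht1
      apply final (-δ) (v 0) (fun _ => c) (by rcases hδ with h | h <;> rw [h] <;> norm_num)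
        (fun _ _ _ => Subsingleton.elim _ _) (fun _ => (hvc 0).symm)
      · intro j
        rw [Subsingleton.elim j 0]; exact hwv 0
      · intro j
        rw [hwc, neg_neg]
      · intro j i hi1 hi2
        apply hw0 j i hi2
        rw [Subsingleton.elim j 0]; exact hi1
      · exact huv 0
      · intro _; exact huc0
    · exfalso
      have ht3 : 3 ≤ t := by omega
      have hsub : univ.image v ⊆ univ.filter (fun i => u i ≠ 0) := by
        intro i hi
        obtain ⟨j, -, rfl⟩ := Finset.mem_image.mp hi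
        simp only [Finset.mem_filter, Finset.mem_univ, true_and]
        rw [huv]; exact hδ0
      have hci : (univ.image v).card = t := by
        rw [Finset.card_image_of_injective _ hv, Finset.card_univ, Fintype.card_fin]
      have heq : univ.image v = univ.filter (fun i => u i ≠ 0) := by
        apply Finset.eq_of_subset_of_card_le hsub
        rw [hcard, hci]; exact ht3
      have hsum : ∑ i, u i * d i = ∑ i ∈ univ.image v, u i * d i := by
        symm
        apply Finset.sum_subset (Finset.subset_univ _)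
        intro i _ hi
        rw [heq] at hi
        simp only [Finset.mem_filter, Finset.mem_univ, true_and, not_not] at hi
        rw [hi, zero_mul]
      rw [Finset.sum_image (fun a _ b _ h => hv h)] at hsum
      simp only [huv] at hsum
      rw [h5, ← Finset.mul_sum] at hsum
      have hge : (t : ℤ) ≤ ∑ j : Fin t, d (v j) := by
        calc (t : ℤ) = ∑ j : Fin t, (1 : ℤ) := by simp
          _ ≤ ∑ j : Fin t, d (v j) := Finset.sum_le_sum fun j _ => hd _
      rcases hδ with h | h <;> rw [h] at hsum <;> omega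

end Vec

end Cfsg.Agent.H11
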