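import Cfsg.Agent.H11.AbM2
import Cfsg.Agent.H11.DihA
import Cfsg.Agent.H27.AbSyl4

set_option autoImplicit false

/-! # Principal blocks with abelian Sylow subgroups and `N/C` cyclic of order `m`, part 3 -/

universe u

namespace Cfsg.Agent.H11

open Subgroup Cfsg Cfsg.Agent.H3 Cfsg.Agent.H27
open scoped ComplexConjugate Pointwise

theorem star_two {κ : Type*} [Fintype κ] [DecidableEq κ] (D f : κ → ℤ) (hf : ∀ k, 0 < f k)
    (h2 : ∑ k, D k * D k = 2) (h0 : ∑ k, D k * f k = 0) :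
    ∃ a b : κ, a ≠ b ∧ ∀ k, D k = (if k = a then 1 else 0) - (if k = b then 1 else 0) := by
  obtain ⟨c, d, τ, ρ, hcd, hτ, hρ, hv⟩ := H27.norm_two (v := D) h2
  have hDk : ∀ k, D k = (if k = c then τ else 0) + (if k = d then ρ else 0) := by
    intro k
    rw [hv, Pi.add_apply, Pi.single_apply, Pi.single_apply]
  have h1 : τ * f c + ρ * f d = 0 := by
    rw [← h0]
    simp only [hDk, add_mul, ite_mul, zero_mul, Finset.sum_add_distrib, Finset.sum_ite_eq',
      Finset.mem_univ, if_true]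
  have hc := hf c
  have hd := hf d
  rcases hτ with rfl | rfl <;> rcases hρ with rfl | rfl
  · omega
  · refine ⟨c, d, hcd, fun k => ?_⟩
    rw [hDk]; split_ifs <;> ring
  · refine ⟨d, c, hcd.symm, fun k => ?_⟩
    rw [hDk]; split_ifs <;> ring
  · omega

theorem star {κ Ψ : Type*} [Fintype κ] [DecidableEq κ] (w : Ψ → κ → ℤ) (R : Ψ → Ψ → Prop) (m : ℤ)
    (f : κ → ℤ) (hf : ∀ k, 0 < f k) (h1 : ∀ i j, R i j → ∑ k, w i k * w j k = m + 1)
    (h2 : ∀ i j, ¬ R i j → ∑ k, w i k * w j k = m) (h0 : ∀ i, ∑ k, w i k * f k = 0)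
    (hrefl : ∀ i, R i i) (i0 j0 : Ψ) (hex : ¬ R i0 j0) :
    ∃ (δ d : ℤ) (u : κ → ℤ) (z : Ψ → κ), (δ = 1 ∨ δ = -1) ∧ (∀ i, u (z i) = d) ∧
      (∀ i k, w i k = u k - if k = z i then δ else 0) ∧ ∀ i j, z i = z j ↔ R i j := by
  classical
  have hexp : ∀ a b c d : κ → ℤ, ∑ k, (a k - b k) * (c k - d k) =
      ∑ k, a k * c k - ∑ k, a k * d k - ∑ k, b k * c k + ∑ k, b k * d k := by
    intro a b c d
    rw [← Finset.sum_sub_distrib, ← Finset.sum_sub_distrib, ← Finset.sum_add_distrib]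
    exact Finset.sum_congr rfl fun k _ => by ring
  have hcomm : ∀ i j, ∑ k, w i k * w j k = ∑ k, w j k * w i k := fun i j =>
    Finset.sum_congr rfl fun k _ => mul_comm _ _
  have hReq : ∀ i j, R i j → w i = w j := by
    intro i j hij
    have h3 : ∑ k, (w i k - w j k) * (w i k - w j k) = 0 := by
      rw [hexp, h1 i i (hrefl i), h1 j j (hrefl j), hcomm j i, h1 i j hij]; ring
    have h4 : (w i - w j) ⬝ᵥ (w i - w j) = 0 := h3
    exact sub_eq_zero.mp (dot_self_eq_zero h4)
  have hD : ∀ j : {j // ¬ R i0 j}, ∃ a b : κ, a ≠ b ∧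
      ∀ k, w i0 k - w j.1 k = (if k = a then 1 else 0) - (if k = b then 1 else 0) := by
    intro j
    apply star_two (fun k => w i0 k - w j.1 k) f hf
    · rw [hexp, h1 i0 i0 (hrefl _), h1 j.1 j.1 (hrefl _), hcomm j.1 i0, h2 i0 j.1 j.2]; ring
    · have : ∑ k, (w i0 k - w j.1 k) * f k = ∑ k, w i0 k * f k - ∑ k, w j.1 k * f k := by
        rw [← Finset.sum_sub_distrib]
        exact Finset.sum_congr rfl fun k _ => by ring
      rw [this, h0, h0, sub_zero]
  choose a b hab hDk using hD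
  have hpair : ∀ j l : {j // ¬ R i0 j}, a j = a l ∨ b j = b l := by
    intro j l
    by_contra hcon
    push Not at hcon
    have h3 : ∑ k, (w i0 k - w j.1 k) * (w i0 k - w l.1 k) ≥ 1 := by
      rw [hexp, h1 i0 i0 (hrefl _), h2 i0 l.1 l.2, hcomm j.1 i0, h2 i0 j.1 j.2]
      by_cases hjl : R j.1 l.1
      · rw [h1 _ _ hjl]; omega
      · rw [h2 _ _ hjl]; omega
    have h4 : ∑ k, (w i0 k - w j.1 k) * (w i0 k - w l.1 k) ≤ 0 := by
      apply Finset.sum_nonpos
      intro k _
      rw [hDk, hDk]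
      have hj := hab j
      have hl := hab l
      have c1 := hcon.1
      have c2 := hcon.2
      by_cases e1 : k = a j
      · have e2 : k ≠ b j := fun h => hj (e1.symm.trans h)
        have e3 : k ≠ a l := fun h => c1 (e1.symm.trans h)
        rw [if_pos e1, if_neg e2, if_neg e3]
        split_ifs <;> norm_num
      · rw [if_neg e1]
        by_cases e2 : k = b j
        · have e4 : k ≠ b l := fun h => c2 (e2.symm.trans h)
          rw [if_pos e2, if_neg e4]
          split_ifs <;> norm_num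
        · rw [if_neg e2]; simp
    omega
  have hfin : ∃ (δ : ℤ) (u : κ → ℤ) (z : Ψ → κ), (δ = 1 ∨ δ = -1) ∧
      (∀ i k, w i k = u k - if k = z i then δ else 0) := by
    rcases union_total a b hpair with hall | hall
    · refine ⟨-1, fun k => w i0 k - (if k = a ⟨j0, hex⟩ then 1 else 0),
        fun i => if hi : R i0 i then a ⟨j0, hex⟩ else b ⟨i, hi⟩, Or.inr rfl, ?_⟩
      intro i k
      by_cases hi : R i0 i
      · simp only [dif_pos hi]
        rw [← hReq _ _ hi]
        split_ifs <;> ring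
      · simp only [dif_neg hi]
        have h3 := hDk ⟨i, hi⟩ k
        rw [hall ⟨i, hi⟩ ⟨j0, hex⟩] at h3
        have h4 : w i k = w i0 k - ((if k = a ⟨j0, hex⟩ then 1 else 0) - (if k = b ⟨i, hi⟩ then 1 else 0)) := by
          rw [← h3]; ring
        rw [h4]
        split_ifs <;> ring
    · refine ⟨1, fun k => w i0 k + (if k = b ⟨j0, hex⟩ then 1 else 0),
        fun i => if hi : R i0 i then b ⟨j0, hex⟩ else a ⟨i, hi⟩, Or.inl rfl, ?_⟩
      intro i k
      by_cases hi : R i0 i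
      · simp only [dif_pos hi]
        rw [← hReq _ _ hi]
        split_ifs <;> ring
      · simp only [dif_neg hi]
        have h3 := hDk ⟨i, hi⟩ k
        rw [hall ⟨i, hi⟩ ⟨j0, hex⟩] at h3
        have h4 : w i k = w i0 k - ((if k = a ⟨i, hi⟩ then 1 else 0) - (if k = b ⟨j0, hex⟩ then 1 else 0)) := by
          rw [← h3]; ring
        rw [h4]
        split_ifs <;> ring
  obtain ⟨δ, u, z, hδ, hw⟩ := hfin
  have hδ2 : δ * δ = 1 := by rcases hδ with rfl | rfl <;> norm_num
  have hnorm : ∀ i, 2 * δ * u (z i) = ∑ k, u k * u k - m := by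
    intro i
    have h3 := h1 i i (hrefl i)
    have h4 : ∑ k, w i k * w i k = ∑ k, u k * u k - 2 * δ * u (z i) + 1 := by
      have h5 : ∀ k, w i k * w i k = u k * u k - (if k = z i then 2 * δ * u k else 0)
          + (if k = z i then 1 else 0) := by
        intro k
        rw [hw]
        split_ifs
        · linear_combination hδ2
        · ring
      simp only [h5]
      rw [Finset.sum_add_distrib, Finset.sum_sub_distrib, Finset.sum_ite_eq', Finset.sum_ite_eq']
      simp
    rw [h4] at h3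
    linarith
  refine ⟨δ, u (z i0), u, z, hδ, ?_, hw, ?_⟩
  · intro i
    have h3 := hnorm i
    have h4 := hnorm i0
    rcases hδ with rfl | rfl <;> omega
  · intro i j
    constructor
    · intro hz
      by_contra hR
      have h3 := h2 i j hR
      have h4 : w i = w j := by
        funext k; rw [hw, hw, hz]
      have h5 := h1 i i (hrefl i)
      rw [← h4] at h3
      omega
    · intro hR
      have h3 := congrFun (hReq _ _ hR) (z i)
      rw [hw, hw, if_pos rfl] at h3
      by_contra hne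
      rw [if_neg hne] at h3
      rcases hδ with rfl | rfl <;> omega

variable {G : Type u} [Group G] {p : ℕ} {M : Ideal AlgInt}

theorem abM_of [Finite G] {P : Sylow p G} {m : ℕ} (hm1 : 1 < m)
    (hab : ∀ x ∈ (P : Subgroup G), ∀ y ∈ (P : Subgroup G), x * y = y * x)
    (hCN : (centralizer ((P : Subgroup G) : Set G)).relIndex
      (normalizer ((P : Subgroup G) : Set G)) = m) {g : G}
    (hg : g ∈ normalizer ((P : Subgroup G) : Set G))
    (hcyc : centralizer ((P : Subgroup G) : Set G) ⊔ zpowers g =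
      normalizer ((P : Subgroup G) : Set G))
    (hfrob : ∀ y : G, y ∈ (P : Subgroup G) → y ≠ 1 → centralizer ({y} : Set G) ⊓
      normalizer ((P : Subgroup G) : Set G) = centralizer ((P : Subgroup G) : Set G)) :
    AbM m P g := by
  have hnorm : ∀ n ∈ normalizer ((P : Subgroup G) : Set G),
      ∀ c ∈ centralizer ((P : Subgroup G) : Set G),
      n * c * n⁻¹ ∈ centralizer ((P : Subgroup G) : Set G) := by
    intro n hn c hc
    rw [mem_centralizer_iff] at hc ⊢
    intro y hy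
    have h1 := (mem_normalizer_iff''.mp hn y).mp hy
    have h2 := hc _ h1
    calc y * (n * c * n⁻¹) = n * ((n⁻¹ * y * n) * c) * n⁻¹ := by group
      _ = n * (c * (n⁻¹ * y * n)) * n⁻¹ := by rw [h2]
      _ = n * c * n⁻¹ * y := by group
  have hnormal : ((centralizer ((P : Subgroup G) : Set G)).subgroupOf
      (normalizer ((P : Subgroup G) : Set G))).Normal := by
    constructor
    intro c hc n
    rw [mem_subgroupOf] at hc ⊢
    exact hnorm n n.2 c hc
  have hgm : g ^ m ∈ centralizer ((P : Subgroup G) : Set G) := by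
    have h1 := Subgroup.pow_index_mem ((centralizer ((P : Subgroup G) : Set G)).subgroupOf
      (normalizer ((P : Subgroup G) : Set G))) ⟨g, hg⟩
    have h2 : ((centralizer ((P : Subgroup G) : Set G)).subgroupOf
      (normalizer ((P : Subgroup G) : Set G))).index = m := hCN
    rw [h2, mem_subgroupOf] at h1
    exact h1
  have hcov : ∀ k : ℕ, 0 < k → g ^ k ∈ centralizer ((P : Subgroup G) : Set G) →
      ∀ n ∈ normalizer ((P : Subgroup G) : Set G),
      ∃ c ∈ centralizer ((P : Subgroup G) : Set G), ∃ i : Fin k, n = c * g ^ (i : ℕ) := by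
    intro k0 hk0 hgk n hn
    rw [← hcyc] at hn
    have hle : zpowers g ≤ normalizer ((centralizer ((P : Subgroup G) : Set G) : Subgroup G) : Set G) := by
      rw [zpowers_le, mem_normalizer_iff]
      intro c
      constructor
      · intro hc; exact hnorm g hg c hc
      · intro hc
        have h1 := hnorm g⁻¹ (inv_mem hg) _ hc
        have e : g⁻¹ * (g * c * g⁻¹) * g⁻¹⁻¹ = c := by group
        rwa [e] at h1
    have h1 : n ∈ ((centralizer ((P : Subgroup G) : Set G) : Subgroup G) : Set G) *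
        ((zpowers g : Subgroup G) : Set G) := by
      rw [← coe_mul_of_right_le_normalizer_left _ _ hle]
      exact hn
    obtain ⟨c, hc, w, hw, rfl⟩ := Set.mem_mul.mp h1
    obtain ⟨k, rfl⟩ := mem_zpowers_iff.mp hw
    have h2 : ∃ i : Fin k0, ∃ q : ℤ, k = k0 * q + (i : ℕ) := by
      have h3 := Int.emod_add_mul_ediv k k0
      have h4 := Int.emod_nonneg k (b := (k0 : ℤ)) (by omega)
      have h5 := Int.emod_lt_of_pos k (b := (k0 : ℤ)) (by omega)
      exact ⟨⟨(k % (k0 : ℤ)).toNat, by omega⟩, k / k0, by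
        simp only [Int.toNat_of_nonneg h4]; omega⟩
    obtain ⟨i, q, hk⟩ := h2
    refine ⟨c * (g ^ k0) ^ q, mul_mem hc (zpow_mem hgk q), i, ?_⟩
    rw [hk, zpow_add, zpow_mul, zpow_natCast, zpow_natCast, mul_assoc]
  have hmin : ∀ k : ℕ, 0 < k → g ^ k ∈ centralizer ((P : Subgroup G) : Set G) → m ≤ k := by
    intro k hk hgk
    have h1 := hcov k hk hgk
    rw [← hCN]
    have h2 : (centralizer ((P : Subgroup G) : Set G)).relIndex (normalizer ((P : Subgroup G) : Set G))
        = Nat.card (↥(normalizer ((P : Subgroup G) : Set G)) ⧸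
          (centralizer ((P : Subgroup G) : Set G)).subgroupOf (normalizer ((P : Subgroup G) : Set G))) := rfl
    rw [h2]
    have h3 : Function.Surjective (fun i : Fin k =>
        ((⟨g ^ (i : ℕ), Subgroup.pow_mem _ hg _⟩ : normalizer ((P : Subgroup G) : Set G)) :
          ↥(normalizer ((P : Subgroup G) : Set G)) ⧸
          (centralizer ((P : Subgroup G) : Set G)).subgroupOf (normalizer ((P : Subgroup G) : Set G)))) := by
      intro x
      obtain ⟨n, rfl⟩ := QuotientGroup.mk_surjective x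
      obtain ⟨c, hc, i, hi⟩ := h1 n n.2
      refine ⟨i, ?_⟩
      rw [QuotientGroup.eq, mem_subgroupOf]
      change (g ^ (i : ℕ))⁻¹ * (n : G) ∈ _
      rw [hi]
      have h4 := hnorm (g ^ (i : ℕ))⁻¹ (inv_mem (Subgroup.pow_mem _ hg _)) c hc
      rw [inv_inv, mul_assoc] at h4
      exact h4
    have h4 := Nat.card_le_card_of_surjective _ h3
    rwa [Nat.card_eq_fintype_card (α := Fin k), Fintype.card_fin] at h4
  refine ⟨hab, hg, hcov m (by omega) hgm, by omega, hgm, ?_, ?_⟩
  · intro i hi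
    by_contra hnd
    have hr : 0 < i % m := Nat.pos_of_ne_zero (fun h => hnd (Nat.dvd_of_mod_eq_zero h))
    have hr2 : i % m < m := Nat.mod_lt _ (by omega)
    have h1 : g ^ (i % m) ∈ centralizer ((P : Subgroup G) : Set G) := by
      have h2 : g ^ i = (g ^ m) ^ (i / m) * g ^ (i % m) := by
        rw [← pow_mul, ← pow_add, Nat.div_add_mod]
      rw [h2] at hi
      have h3 := (Subgroup.mul_mem_cancel_left _ (Subgroup.pow_mem _ hgm (i / m))).mp hi
      exact h3
    have := hmin _ hr h1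
    omega
  · intro n hn y hy hny
    rw [← hfrob y y.2 (fun h => hy (Subtype.ext h))]
    exact ⟨mem_centralizer_singleton_iff.mpr hny, hn⟩

namespace AbM

variable {P : Sylow p G} {g : G} {m : ℕ}

theorem card_fiber [Fintype G] [Fact p.Prime] (h : AbM m P g)
    [Fintype {ψ : (P : Subgroup G) →* ℂˣ // ψ ≠ 1}]
    (Q : ((P : Subgroup G) →* ℂˣ) → Prop) [DecidablePred Q] {ψ : (P : Subgroup G) →* ℂˣ} (hψ : ψ ≠ 1)
    (hQ : ∀ ψ', ψ' ≠ 1 → (Q ψ' ↔ ∃ i : Fin m, ψ' = h.tw i ψ)) :
    (Finset.univ.filter (fun ψ' : {ψ : (P : Subgroup G) →* ℂˣ // ψ ≠ 1} => Q ψ'.1)).card = m := by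
  classical
  have h1 : Finset.univ.filter (fun ψ' : {ψ : (P : Subgroup G) →* ℂˣ // ψ ≠ 1} => Q ψ'.1) =
      Finset.univ.image (fun i : Fin m =>
        (⟨h.tw i ψ, h.tw_ne_one i hψ⟩ : {ψ : (P : Subgroup G) →* ℂˣ // ψ ≠ 1})) := by
    ext ψ'
    simp only [Finset.mem_filter, Finset.mem_univ, true_and, Finset.mem_image]
    rw [hQ _ ψ'.2]
    constructor
    · rintro ⟨i, hi⟩; exact ⟨i, Subtype.ext hi.symm⟩
    · rintro ⟨i, hi⟩; exact ⟨i, by rw [← hi]⟩
  rw [h1, Finset.card_image_of_injective, Finset.card_univ, Fintype.card_fin]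
  intro i j hij
  exact h.tw_inj hψ (congrArg Subtype.val hij)

open Classical in
/-- The star structure. -/
structure Star (M : Ideal AlgInt) (h : AbM m P g) [Fintype (P : Subgroup G)] (δ d : ℤ)
    (u : IrrCharacter G → ℤ) (z : (↥(P : Subgroup G) →* ℂˣ) → IrrCharacter G) : Prop where
  hδ : δ = 1 ∨ δ = -1
  hz : ∀ ψ, ψ ≠ 1 → z ψ ∈ principalBlock M G
  hd : ∀ ψ, ψ ≠ 1 → u (z ψ) = d
  hW : ∀ ψ, ψ ≠ 1 → ∀ χ ∈ principalBlock M G, W P ψ χ = u χ - if χ = z ψ then δ else 0
  heq : ∀ ψ ψ', ψ ≠ 1 → ψ' ≠ 1 → (z ψ = z ψ' ↔ ∃ i : Fin m, ψ = h.tw i ψ')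

theorem exists_star [Fintype G] [Fact p.Prime] (hM : IsPModular p M) (h : AbM m P g)
    [Fintype (P : Subgroup G)] (hcard : m + 1 < Nat.card (P : Subgroup G)) :
    ∃ (δ d : ℤ) (u : IrrCharacter G → ℤ) (z : (↥(P : Subgroup G) →* ℂˣ) → IrrCharacter G),
      Star M h δ d u z := by
  classical
  have := Fintype.ofFinite (IrrCharacter G)
  have hpr := hM.2.1.isPrime
  haveI : Finite ((P : Subgroup G) →* ℂˣ) := finite_dual
  have := Fintype.ofFinite ((P : Subgroup G) →* ℂˣ)
  let κ := {χ : IrrCharacter G // χ ∈ principalBlock M G}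
  let ι := {ψ : (P : Subgroup G) →* ℂˣ // ψ ≠ 1}
  let w : ι → κ → ℤ := fun ψ χ => W P ψ.1 χ.1
  let R : ι → ι → Prop := fun i j => ∃ a : Fin m, i.1 = h.tw a j.1
  have hsum : ∀ F : IrrCharacter G → ℤ, ∑ k : κ, F k.1 =
      ∑ χ : IrrCharacter G with χ ∈ principalBlock M G, F χ := by
    intro F
    exact (Finset.sum_subtype _ (by simp) F).symm
  have hsumC : ∀ F : IrrCharacter G → ℂ, ∑ k : κ, F k.1 =
      ∑ χ : IrrCharacter G with χ ∈ principalBlock M G, F χ := by
    intro F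
    exact (Finset.sum_subtype _ (by simp) F).symm
  have hcardι2 : Fintype.card ι + 1 = Nat.card (P : Subgroup G) := by
    rw [← card_dual h.P_comm, Nat.card_eq_fintype_card]
    have h1 := Fintype.card_subtype_compl (fun ψ : (P : Subgroup G) →* ℂˣ => ψ = 1)
    rw [Fintype.card_subtype_eq] at h1
    have h2 : Fintype.card ι = Fintype.card {ψ : (P : Subgroup G) →* ℂˣ // ¬ ψ = 1} := rfl
    have h3 : 0 < Fintype.card ((P : Subgroup G) →* ℂˣ) := Fintype.card_pos
    omega
  have hpos : 0 < Fintype.card ι := by omega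
  obtain ⟨i0⟩ := Fintype.card_pos_iff.mp hpos
  obtain ⟨j0, hj0⟩ : ∃ j0, ¬ R i0 j0 := by
    by_contra hcon
    push Not at hcon
    have h1 := h.card_fiber (fun ψ' => ∃ a : Fin m, ψ' = h.tw a i0.1) i0.2 (fun ψ' _ => Iff.rfl)
    have h2 : (Finset.univ.filter (fun ψ' : ι => ∃ a : Fin m, ψ'.1 = h.tw a i0.1)) = Finset.univ := by
      ext j
      simp only [Finset.mem_filter, Finset.mem_univ, true_and, iff_true]
      obtain ⟨a, ha⟩ := hcon j
      -- i0 = tw a j ; invert
      refine ⟨⟨(m - a) % m, Nat.mod_lt _ h.mpos⟩, ?_⟩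
      ext y
      rw [ha, tw_apply, tw_apply]
      have e1 : h.rot (a : ℕ) (h.rot ((m - a) % m) y) = y := by
        rw [rot_rot]
        have hal := a.2
        by_cases ha0 : (a : ℕ) = 0
        · rw [ha0, Nat.sub_zero, Nat.mod_self, add_zero, rot_zero]
        · rw [Nat.mod_eq_of_lt (by omega), Nat.add_sub_of_le hal.le, rot_m]
      change _ = ((j.1 (h.rot (a : ℕ) (h.rot ((m - a) % m) y)) : ℂˣ) : ℂ)
      rw [e1]
    rw [h2, Finset.card_univ, ← Nat.card_eq_fintype_card] at h1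
    rw [← Nat.card_eq_fintype_card] at hcardι2
    have h3 : Nat.card ι = m := h1
    omega
  obtain ⟨δ, d, u, z, hδ, hd, hW, hz⟩ := star w R m (fun k => (charDegree (k.1 : G → ℂ) : ℤ))
    (fun k => by
      have := charDegree_pos k.1.2
      exact_mod_cast this)
    (fun i j hij => by
      obtain ⟨a, ha⟩ := hij
      have h1 := h.W_inner_self hM j.2
      rw [← hsum (fun χ => W P j.1 χ * W P j.1 χ)] at h1
      rw [← h1]
      apply Finset.sum_congr rfl
      intro k _
      change W P i.1 k.1 * W P j.1 k.1 = _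
      rw [ha, h.W_tw])
    (fun i j hij => by
      have h1 := h.W_inner_ne hM i.2 j.2 (fun a ha => hij ⟨a, ha⟩)
      rw [← hsum (fun χ => W P i.1 χ * W P j.1 χ)] at h1
      exact h1)
    (fun i => by
      have h1 := W_reg hM P i.1 (x := 1) (by
        rw [orderOf_one]; exact hM.1.one_lt.ne' ∘ Nat.dvd_one.mp)
      rw [← hsumC (fun χ => (W P i.1 χ : ℂ) * (χ : G → ℂ) 1)] at h1
      have h2 : ((∑ k : κ, w i k * (charDegree (k.1 : G → ℂ) : ℤ) : ℤ) : ℂ) = 0 := by
        push_cast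
        rw [← h1]
        apply Finset.sum_congr rfl
        intro k _
        rw [charDegree_cast (irr_isChar k.1.2)]
      exact_mod_cast h2)
    (fun i => ⟨⟨0, h.mpos⟩, (h.tw_zero i.1).symm⟩) i0 j0 hj0
  refine ⟨δ, d, fun χ => if hχ : χ ∈ principalBlock M G then u ⟨χ, hχ⟩ else 0,
    fun ψ => if hψ : ψ ≠ 1 then (z ⟨ψ, hψ⟩).1 else oneIrr G, hδ, ?_, ?_, ?_, ?_⟩
  · intro ψ hψ
    rw [dif_pos hψ]
    exact (z ⟨ψ, hψ⟩).2
  · intro ψ hψ
    simp only [dif_pos hψ]
    rw [dif_pos (z ⟨ψ, hψ⟩).2]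
    exact hd ⟨ψ, hψ⟩
  · intro ψ hψ χ hχ
    simp only [dif_pos hψ, dif_pos hχ]
    have h1 := hW ⟨ψ, hψ⟩ ⟨χ, hχ⟩
    change W P ψ χ = _ at h1
    rw [h1]
    congr 1
    by_cases h2 : χ = (z ⟨ψ, hψ⟩).1
    · rw [if_pos h2, if_pos (Subtype.ext h2)]
    · rw [if_neg h2, if_neg (fun h3 => h2 (congrArg Subtype.val h3))]
  · intro ψ ψ' hψ hψ'
    simp only [dif_pos hψ, dif_pos hψ']
    rw [← Subtype.ext_iff]
    exact hz ⟨ψ, hψ⟩ ⟨ψ', hψ'⟩

end AbM

end Cfsg.Agent.H11
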