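import Cfsg.Agent.H11.AbM3

set_option autoImplicit false

/-! # Principal blocks with abelian Sylow subgroups and `N/C` cyclic of order `m`, part 4 -/

universe u

namespace Cfsg.Agent.H11.AbM

open Subgroup Cfsg Cfsg.Agent.H3 Cfsg.Agent.H27 Cfsg.Agent.H11
open scoped ComplexConjugate Pointwise

variable {G : Type u} [Group G] {p : ℕ} {M : Ideal AlgInt}
variable {P : Sylow p G} {g : G} {m : ℕ} {h : AbM m P g} [Fintype (P : Subgroup G)] {δ d : ℤ}
    {u : IrrCharacter G → ℤ} {z : (↥(P : Subgroup G) →* ℂˣ) → IrrCharacter G}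

open Classical in
theorem value [Fintype G] (S : Star M h δ d u z) [Fintype ((P : Subgroup G) →* ℂˣ)]
    {χ : IrrCharacter G} (hχ : χ ∈ principalBlock M G) {y : (P : Subgroup G)} (hy : y ≠ 1) :
    (χ : G → ℂ) y = u χ + δ * ∑ ψ : (P : Subgroup G) →* ℂˣ,
      if ψ ≠ 1 ∧ z ψ = χ then (ψ y : ℂ) else 0 := by
  rw [value_eq h χ hy]
  have h1 : ∀ ψ : (P : Subgroup G) →* ℂˣ, (W P ψ χ : ℂ) * (ψ y : ℂ) =
      (u χ : ℂ) * (ψ y : ℂ) - (if ψ = 1 then (u χ : ℂ) else 0) -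
        (δ : ℂ) * (if ψ ≠ 1 ∧ z ψ = χ then (ψ y : ℂ) else 0) := by
    intro ψ
    by_cases hψ : ψ = 1
    · subst hψ
      rw [W_one, if_pos rfl, if_neg (fun hc => hc.1 rfl), MonoidHom.one_apply]
      simp
    · rw [S.hW ψ hψ χ hχ, if_neg hψ]
      by_cases hz : χ = z ψ
      · rw [if_pos hz, if_pos ⟨hψ, hz.symm⟩]; push_cast; ring
      · rw [if_neg hz, if_neg (fun hc => hz hc.2.symm)]; push_cast; ring
  simp only [h1]
  rw [Finset.sum_sub_distrib, Finset.sum_sub_distrib, ← Finset.mul_sum, ← Finset.mul_sum,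
    sum_dual h.P_comm y hy, Finset.sum_ite_eq']
  simp
  ring

theorem value_X [Fintype G] (S : Star M h δ d u z) {χ : IrrCharacter G}
    (hχ : χ ∈ principalBlock M G) (hX : ∀ ψ, ψ ≠ 1 → z ψ ≠ χ) {y : (P : Subgroup G)} (hy : y ≠ 1) :
    (χ : G → ℂ) y = u χ := by
  classical
  haveI : Finite ((P : Subgroup G) →* ℂˣ) := finite_dual
  have := Fintype.ofFinite ((P : Subgroup G) →* ℂˣ)
  rw [value S hχ hy, Finset.sum_eq_zero]
  · ring
  · intro ψ _
    rw [if_neg]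
    rintro ⟨h1, h2⟩
    exact hX ψ h1 h2

theorem value_z [Fintype G] (S : Star M h δ d u z) {ψ : (P : Subgroup G) →* ℂˣ} (hψ : ψ ≠ 1)
    {y : (P : Subgroup G)} (hy : y ≠ 1) :
    (z ψ : G → ℂ) y = d + δ * ∑ i : Fin m, (h.tw i ψ y : ℂ) := by
  classical
  haveI : Finite ((P : Subgroup G) →* ℂˣ) := finite_dual
  have := Fintype.ofFinite ((P : Subgroup G) →* ℂˣ)
  rw [value S (S.hz ψ hψ) hy, S.hd ψ hψ]
  congr 2
  rw [← Finset.sum_filter]
  have h1 : Finset.univ.filter (fun ψ' : (P : Subgroup G) →* ℂˣ => ψ' ≠ 1 ∧ z ψ' = z ψ) =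
      Finset.univ.image (fun i : Fin m => h.tw i ψ) := by
    ext ψ'
    simp only [Finset.mem_filter, Finset.mem_univ, true_and, Finset.mem_image]
    constructor
    · rintro ⟨h1, h2⟩
      obtain ⟨i, hi⟩ := (S.heq ψ' ψ h1 hψ).mp h2
      exact ⟨i, hi.symm⟩
    · rintro ⟨i, rfl⟩
      exact ⟨h.tw_ne_one i hψ, (S.heq _ ψ (h.tw_ne_one i hψ) hψ).mpr ⟨i, rfl⟩⟩
  rw [h1, Finset.sum_image (fun i _ j _ hij => h.tw_inj hψ hij)]

theorem card_Y [Fintype G] [Fact p.Prime] (S : Star M h δ d u z) :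
    Nat.card (P : Subgroup G) = m * Nat.card {η | ∃ ψ : (P : Subgroup G) →* ℂˣ, ψ ≠ 1 ∧ η = z ψ} + 1 := by
  classical
  haveI : Finite ((P : Subgroup G) →* ℂˣ) := finite_dual
  have := Fintype.ofFinite ((P : Subgroup G) →* ℂˣ)
  have hcardι2 : Fintype.card {ψ : (P : Subgroup G) →* ℂˣ // ψ ≠ 1} + 1 =
      Nat.card (P : Subgroup G) := by
    rw [← card_dual h.P_comm, Nat.card_eq_fintype_card]
    have h1 := Fintype.card_subtype_compl (fun ψ : (P : Subgroup G) →* ℂˣ => ψ = 1)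
    rw [Fintype.card_subtype_eq] at h1
    have h2 : Fintype.card {ψ : (P : Subgroup G) →* ℂˣ // ψ ≠ 1} =
      Fintype.card {ψ : (P : Subgroup G) →* ℂˣ // ¬ ψ = 1} := rfl
    have h3 : 0 < Fintype.card ((P : Subgroup G) →* ℂˣ) := Fintype.card_pos
    omega
  have h4 := card_of_fibers (fun ψ : {ψ : (P : Subgroup G) →* ℂˣ // ψ ≠ 1} => z ψ.1) m (by
    intro i
    exact h.card_fiber (fun ψ' => z ψ' = z i.1) i.2 (fun ψ' hψ' => S.heq ψ' i.1 hψ' i.2))
  have h5 : {η | ∃ ψ : (P : Subgroup G) →* ℂˣ, ψ ≠ 1 ∧ η = z ψ} =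
      ((Finset.univ.image (fun ψ : {ψ : (P : Subgroup G) →* ℂˣ // ψ ≠ 1} => z ψ.1) :
        Finset (IrrCharacter G)) : Set (IrrCharacter G)) := by
    ext η
    simp only [Set.mem_ofPred_eq, Finset.coe_image, Finset.coe_univ, Set.image_univ,
      Set.mem_range, Subtype.exists]
    constructor
    · rintro ⟨ψ, hψ, h6⟩; exact ⟨ψ, hψ, h6.symm⟩
    · rintro ⟨ψ, hψ, h6⟩; exact ⟨ψ, hψ, h6.symm⟩
  rw [h5, Nat.card_coe_set_eq, Set.ncard_coe_finset, ← hcardι2, h4]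

theorem one_X [Fintype G] [Fact p.Prime] (hM : IsPModular p M) (S : Star M h δ d u z)
    (hcard : m + 1 < Nat.card (P : Subgroup G)) : ∀ ψ, ψ ≠ 1 → z ψ ≠ oneIrr G := by
  classical
  intro ψ hψ hz
  have hpr := hM.2.1.isPrime
  obtain ⟨ψ', hψ', hne⟩ : ∃ ψ', ψ' ≠ 1 ∧ z ψ' ≠ z ψ := by
    by_contra hcon
    push Not at hcon
    have h1 := card_Y S
    have h2 : {η | ∃ ψ : (P : Subgroup G) →* ℂˣ, ψ ≠ 1 ∧ η = z ψ} = {z ψ} := by
      ext η
      constructor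
      · rintro ⟨ψ', hψ', rfl⟩; exact hcon ψ' hψ'
      · intro hη
        exact ⟨ψ, hψ, hη⟩
    rw [h2] at h1
    have h3 : Nat.card ({z ψ} : Set (IrrCharacter G)) = 1 := by
      rw [Nat.card_coe_set_eq, Set.ncard_singleton]
    rw [h3] at h1
    omega
  have h1 := S.hW ψ hψ (oneIrr G) oneIrr_mem
  have h2 := S.hW ψ' hψ' (oneIrr G) oneIrr_mem
  rw [W_principal P hψ, if_pos hz.symm] at h1
  rw [W_principal P hψ', if_neg (fun h3 => hne (h3.symm.trans hz.symm))] at h2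
  rcases S.hδ with h3 | h3 <;> rw [h3] at h1 <;> omega

theorem u_ne [Fintype G] [Fact p.Prime] (hM : IsPModular p M) (S : Star M h δ d u z)
    (hP1 : Nat.card (P : Subgroup G) ≠ 1) {χ : IrrCharacter G}
    (hχ : χ ∈ principalBlock M G) (hX : ∀ ψ, ψ ≠ 1 → z ψ ≠ χ) : u χ ≠ 0 := by
  classical
  have hpr := hM.2.1.isPrime
  intro hu
  have hv : ∀ y ∈ (P : Subgroup G), y ≠ 1 → (χ : G → ℂ) y = 0 := by
    intro y hy hy1
    have := value_X S hχ hX (y := ⟨y, hy⟩) (fun he => hy1 (congrArg Subtype.val he))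
    rw [hu, Int.cast_zero] at this
    exact this
  have h5 : blockOf M (χ : G → ℂ) = {χ} := by
    apply blockOf_eq_singleton hM
    exact fact_le_of_vanish_sylow P χ.2 hv
  have h6 : oneIrr G ∈ blockOf M (χ : G → ℂ) := by
    have h7 : SameBlock M ((oneIrr G : IrrCharacter G) : G → ℂ) (χ : G → ℂ) := hχ
    intro x
    have h8 := li_neg (h7 x)
    rwa [neg_sub] at h8
  rw [h5] at h6
  have h7 : oneIrr G = χ := Set.mem_singleton_iff.mp h6
  have hnt : (P : Subgroup G) ≠ ⊥ := fun hb => hP1 (by rw [hb]; exact Subgroup.card_bot)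
  obtain ⟨y, hy, hy1⟩ := (Subgroup.bot_or_exists_ne_one (P : Subgroup G)).resolve_left hnt
  have h8 := hv y hy hy1
  rw [← h7] at h8
  exact one_ne_zero h8

end Cfsg.Agent.H11.AbM
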