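import Mathlib

set_option autoImplicit false

/-! S4182: covering the `p`-elements by proper subgroups. -/

namespace Cfsg.Agent.H11.CoverP

universe u

open Subgroup

/-- `p`-elements -/
def Pel (p : ℕ) {G : Type*} [Group G] (g : G) : Prop := ∃ k : ℕ, orderOf g = p ^ k

/-- conjugate of a subgroup -/
def cg {G : Type*} [Group G] (g : G) (H : Subgroup G) : Subgroup G :=
  H.map (MulAut.conj g).toMonoidHom

section basic

variable {G : Type*} [Group G] {p : ℕ}

theorem mem_cg {g x : G} {H : Subgroup G} : x ∈ cg g H ↔ g⁻¹ * x * g ∈ H := by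
  unfold cg
  rw [Subgroup.mem_map]
  constructor
  · rintro ⟨y, hy, rfl⟩
    have : g⁻¹ * ((MulAut.conj g).toMonoidHom y) * g = y := by
      show g⁻¹ * (g * y * g⁻¹) * g = y
      group
    rw [this]; exact hy
  · intro hx
    refine ⟨_, hx, ?_⟩
    show g * (g⁻¹ * x * g) * g⁻¹ = x
    group

theorem cg_mul (g h : G) (H : Subgroup G) : cg (g * h) H = cg g (cg h H) := by
  ext x
  rw [mem_cg, mem_cg, mem_cg]
  have : (g * h)⁻¹ * x * (g * h) = h⁻¹ * (g⁻¹ * x * g) * h := by group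
  rw [this]

theorem cg_one (H : Subgroup G) : cg 1 H = H := by
  ext x; rw [mem_cg]; simp

theorem cg_mono {g : G} {H K : Subgroup G} (h : H ≤ K) : cg g H ≤ cg g K := Subgroup.map_mono h

theorem cg_self {g : G} {H : Subgroup G} (hg : g ∈ H) : cg g H = H := by
  ext x
  rw [mem_cg]
  constructor
  · intro h
    have := H.mul_mem (H.mul_mem hg h) (H.inv_mem hg)
    have e : g * (g⁻¹ * x * g) * g⁻¹ = x := by group
    rwa [e] at this
  · intro h
    exact H.mul_mem (H.mul_mem (H.inv_mem hg) h) hg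

theorem Pel.conj {x : G} (hx : Pel p x) (g : G) : Pel p (g * x * g⁻¹) := by
  obtain ⟨k, hk⟩ := hx
  refine ⟨k, ?_⟩
  have h1 : g * x * g⁻¹ = (MulAut.conj g) x := rfl
  rw [h1, MulEquiv.orderOf_eq, hk]

theorem Pel.conj' {x : G} (hx : Pel p x) (g : G) : Pel p (g⁻¹ * x * g) := by
  have := hx.conj g⁻¹
  rwa [inv_inv] at this

theorem cg_inj {g : G} {H K : Subgroup G} (h : cg g H = cg g K) : H = K := by
  have h1 := congrArg (cg g⁻¹) h
  rwa [← cg_mul, ← cg_mul, inv_mul_cancel, cg_one, cg_one] at h1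

/-- the subgroup generated by the `p`-elements of `K` -/
def pl (p : ℕ) (K : Subgroup G) : Subgroup G := closure {g : G | g ∈ K ∧ Pel p g}

theorem pl_le (K : Subgroup G) : pl p K ≤ K := by
  unfold pl
  rw [closure_le]
  exact fun g hg => hg.1

theorem mem_pl {K : Subgroup G} {x : G} (hx : x ∈ K) (h : Pel p x) : x ∈ pl p K :=
  subset_closure ⟨hx, h⟩

theorem pl_le_iff {K H : Subgroup G} : pl p K ≤ H ↔ ∀ x ∈ K, Pel p x → x ∈ H := by
  unfold pl
  rw [closure_le]
  exact ⟨fun h x hx h1 => h ⟨hx, h1⟩, fun h x hx => h x hx.1 hx.2⟩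

end basic

/-- the statement for the induction -/
def Good (p : ℕ) (G : Type u) [Group G] : Prop :=
  closure {g : G | Pel p g} = ⊤ → ∀ F : Finset (Subgroup G), (∀ K ∈ F, K ≠ ⊤) →
    (∀ g, Pel p g → ∃ K ∈ F, g ∈ K) → p + 1 ≤ F.card

variable {p : ℕ} [hp : Fact p.Prime]

/-- `p`-groups -/
theorem good_pGroup (G : Type u) [Group G] [Finite G] (hG : IsPGroup p G) : Good p G := by
  classical
  haveI := Fintype.ofFinite G
  intro _ F hF hcov
  by_contra hlt
  have hle : F.card ≤ p := by omega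
  obtain ⟨n, hn⟩ := hG.exists_card_eq
  have hidx : ∀ K ∈ F, Nat.card K * p ≤ Nat.card G := by
    intro K hK
    rw [← K.card_mul_index]
    apply Nat.mul_le_mul_left
    have h1 : K.index ∣ p ^ n := hn ▸ K.index_dvd_card
    obtain ⟨j, -, hj⟩ := (Nat.dvd_prime_pow hp.out).1 h1
    have hj0 : j ≠ 0 := by
      rintro rfl
      rw [pow_zero] at hj
      exact hF K hK (Subgroup.index_eq_one.1 hj)
    rw [hj]
    exact Nat.le_self_pow hj0 p
  have hsub : (Finset.univ.erase (1 : G)) ⊆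
      F.biUnion (fun K => (Finset.univ.filter (fun g : G => g ∈ K)).erase 1) := by
    intro g hg
    rw [Finset.mem_biUnion]
    obtain ⟨k, hk⟩ := (IsPGroup.iff_orderOf.1 hG) g
    obtain ⟨K, hK, hgK⟩ := hcov g ⟨k, hk⟩
    refine ⟨K, hK, ?_⟩
    rw [Finset.mem_erase, Finset.mem_filter]
    exact ⟨Finset.ne_of_mem_erase hg, Finset.mem_univ _, hgK⟩
  have h1 := (Finset.card_le_card hsub).trans Finset.card_biUnion_le
  have hcK : ∀ K : Subgroup G, ((Finset.univ.filter (fun g : G => g ∈ K)).erase 1).card =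
      Nat.card K - 1 := by
    intro K
    rw [Finset.card_erase_of_mem (by rw [Finset.mem_filter]; exact ⟨Finset.mem_univ _, one_mem _⟩)]
    congr 1
    rw [Nat.card_eq_fintype_card, Fintype.card_subtype]
  rw [Finset.card_erase_of_mem (Finset.mem_univ _), Finset.card_univ, ← Nat.card_eq_fintype_card,
    Finset.sum_congr rfl (fun K _ => hcK K)] at h1
  have hp2 := hp.out.two_le
  have hpos : 0 < Nat.card G := Nat.card_pos
  have h2 : ∀ K ∈ F, p * (Nat.card K - 1) ≤ Nat.card G - p := by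
    intro K hK
    have := hidx K hK
    rw [Nat.mul_sub, mul_one, mul_comm]
    omega
  have h3 : p * ∑ K ∈ F, (Nat.card K - 1) ≤ p * (Nat.card G - p) := by
    rw [Finset.mul_sum]
    calc ∑ K ∈ F, p * (Nat.card K - 1) ≤ ∑ _K ∈ F, (Nat.card G - p) := Finset.sum_le_sum h2
      _ = F.card * (Nat.card G - p) := by rw [Finset.sum_const, smul_eq_mul]
      _ ≤ p * (Nat.card G - p) := Nat.mul_le_mul_right _ hle
  have h4 := Nat.le_of_mul_le_mul_left h3 hp.out.pos
  obtain ⟨K, hK, -⟩ := hcov 1 ⟨0, by simp⟩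
  have h5 := hidx K hK
  have h6 : 0 < Nat.card K := Nat.card_pos
  have h7 : p ≤ Nat.card K * p := Nat.le_mul_of_pos_left _ h6
  omega

theorem good_of_lt (G : Type u) [Group G] [Finite G]
    (ih : ∀ H : Subgroup G, H ≠ ⊤ → Good p H) : Good p G := by
  classical
  intro hgen F₀ hF₀ hcov₀
  -- a minimal cover
  obtain ⟨F, hFm, hmin⟩ : ∃ F : Finset (Subgroup G), ((∀ K ∈ F, K ≠ ⊤) ∧
      ∀ g, Pel p g → ∃ K ∈ F, g ∈ K) ∧ ∀ F' : Finset (Subgroup G), ((∀ K ∈ F', K ≠ ⊤) ∧
      ∀ g, Pel p g → ∃ K ∈ F', g ∈ K) → F.card ≤ F'.card := by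
    obtain ⟨F, hF⟩ := exists_minimalFor_of_wellFoundedLT (fun F : Finset (Subgroup G) =>
      (∀ K ∈ F, K ≠ ⊤) ∧ ∀ g, Pel p g → ∃ K ∈ F, g ∈ K) Finset.card ⟨F₀, hF₀, hcov₀⟩
    refine ⟨F, hF.prop, fun F' hF' => ?_⟩
    rcases le_total F.card F'.card with h | h
    · exact h
    · exact hF.le_of_le hF' h
  obtain ⟨hF, hcov⟩ := hFm
  refine le_trans ?_ (hmin F₀ ⟨hF₀, hcov₀⟩)
  by_contra hlt
  have hle : F.card ≤ p := by omega
  -- not a p-group
  by_cases hpg : IsPGroup p G
  · exact hlt (good_pGroup G hpg hgen F hF hcov)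
  -- private elements
  have hpriv : ∀ K ∈ F, ∃ y ∈ K, Pel p y ∧ ∀ K' ∈ F, y ∈ K' → K' = K := by
    intro K hK
    by_contra hcon
    push Not at hcon
    have h1 := hmin (F.erase K) ⟨fun K' hK' => hF K' (Finset.mem_of_mem_erase hK'), fun g hg => by
      obtain ⟨K', hK', hgK'⟩ := hcov g hg
      by_cases h : K' = K
      · subst h
        obtain ⟨K'', h1, h2, h3⟩ := hcon g hgK' hg
        exact ⟨K'', Finset.mem_erase.2 ⟨h3, h1⟩, h2⟩
      · exact ⟨K', Finset.mem_erase.2 ⟨h, hK'⟩, hgK'⟩⟩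
    have h2 := Finset.card_erase_lt_of_mem hK
    omega
  -- proper subgroups generated by p-elements
  have hstar : ∀ a b : G, Pel p a → Pel p b → closure {a, b} ≠ ⊤ →
      ∃ K ∈ F, a ∈ K ∧ b ∈ K := by
    intro a b ha hb hne
    obtain ⟨H, hH⟩ : ∃ H, H = closure {a, b} := ⟨_, rfl⟩
    have haH : a ∈ H := hH ▸ subset_closure (Set.mem_insert _ _)
    have hbH : b ∈ H := hH ▸ subset_closure (Set.mem_insert_of_mem _ rfl)
    by_contra hcon
    push Not at hcon
    have hgenH : closure {g : H | Pel p g} = ⊤ := by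
      rw [eq_top_iff]
      have h1 : closure {a, b} ≤ (closure {g : H | Pel p g}).map H.subtype := by
        rw [closure_le]
        intro x hx
        rcases hx with rfl | hx
        · exact ⟨⟨x, haH⟩, subset_closure (by
            obtain ⟨k, hk⟩ := ha
            exact ⟨k, by rw [Subgroup.orderOf_mk, hk]⟩), rfl⟩
        · rw [Set.mem_singleton_iff] at hx
          subst hx
          exact ⟨⟨x, hbH⟩, subset_closure (by
            obtain ⟨k, hk⟩ := hb
            exact ⟨k, by rw [Subgroup.orderOf_mk, hk]⟩), rfl⟩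
      intro x _
      have h2 : (x : G) ∈ closure {a, b} := hH ▸ x.2
      obtain ⟨y, hy, hyx⟩ := h1 h2
      have : y = x := Subtype.ext hyx
      rwa [← this]
    have h1 := ih H (hH ▸ hne) hgenH (F.image (fun K => K.subgroupOf H)) (by
      intro K hK
      obtain ⟨K', hK', rfl⟩ := Finset.mem_image.1 hK
      intro h2
      rw [Subgroup.subgroupOf_eq_top] at h2
      exact hcon K' hK' (h2 haH) (h2 hbH)) (by
      intro g hg
      obtain ⟨k, hk⟩ := hg
      obtain ⟨K, hK, hgK⟩ := hcov (g : G) ⟨k, by rw [Subgroup.orderOf_coe, hk]⟩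
      exact ⟨_, Finset.mem_image_of_mem _ hK, Subgroup.mem_subgroupOf.2 hgK⟩)
    have h2 := h1.trans Finset.card_image_le
    omega
  choose! y hyK hyP hyu using hpriv
  -- (F1), first half
  have hF1 : ∀ K ∈ F, ∀ K' ∈ F, ∀ g : G, g * y K * g⁻¹ ∈ K' →
      ∀ z ∈ K', Pel p z → g⁻¹ * z * g ∈ K := by
    intro K hK K' hK' g hg z hz hzP
    have h1 : closure {y K, g⁻¹ * z * g} ≠ ⊤ := by
      intro h2
      have h3 : closure {y K, g⁻¹ * z * g} ≤ cg g⁻¹ K' := by
        rw [closure_le]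
        intro x hx
        rcases hx with rfl | hx
        · show y K ∈ cg g⁻¹ K'
          rw [mem_cg, inv_inv]; exact hg
        · rw [Set.mem_singleton_iff] at hx
          show x ∈ cg g⁻¹ K'
          rw [mem_cg, inv_inv, hx]
          have : g * (g⁻¹ * z * g) * g⁻¹ = z := by group
          rwa [this]
      rw [h2, top_le_iff] at h3
      apply hF K' hK'
      rw [eq_top_iff]
      intro x _
      have h4 : g⁻¹ * x * g ∈ cg g⁻¹ K' := by rw [h3]; exact mem_top _
      rw [mem_cg, inv_inv] at h4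
      have : g * (g⁻¹ * x * g) * g⁻¹ = x := by group
      rwa [this] at h4
    obtain ⟨K'', hK'', h2, h3⟩ := hstar _ _ (hyP K hK) (hzP.conj' g) h1
    rw [hyu K hK K'' hK'' h2] at h3
    exact h3
  have hF1' : ∀ K ∈ F, ∀ K' ∈ F, ∀ g : G, g * y K * g⁻¹ ∈ K' → pl p K' = cg g (pl p K) := by
    intro K hK K' hK' g hg
    apply le_antisymm
    · rw [pl_le_iff]
      intro z hz hzP
      rw [mem_cg]
      exact mem_pl (hF1 K hK K' hK' g hg z hz hzP) (hzP.conj' g)
    · have h1 := hF1 K hK K' hK' g hg (y K') (hyK K' hK') (hyP K' hK')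
      have h2 := hF1 K' hK' K hK g⁻¹ (by rwa [inv_inv])
      have h3 : pl p K ≤ cg g⁻¹ (pl p K') := by
        rw [pl_le_iff]
        intro z hz hzP
        have h4 := h2 z hz hzP
        rw [mem_cg]
        exact mem_pl h4 (hzP.conj' _)
      have h4 := cg_mono (g := g) h3
      rwa [← cg_mul, mul_inv_cancel, cg_one] at h4
  -- all conjugates
  have hconj : ∀ K ∈ F, ∀ g : G, ∃ K' ∈ F, pl p K' = cg g (pl p K) := by
    intro K hK g
    obtain ⟨K', hK', h1⟩ := hcov _ ((hyP K hK).conj g)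
    exact ⟨K', hK', hF1' K hK K' hK' g h1⟩
  -- p-elements normalize
  have hnorm : ∀ x, Pel p x → ∀ K ∈ F, cg x (pl p K) = pl p K := by
    intro x hx K hK
    by_contra hne
    obtain ⟨L, hL⟩ : ∃ L : Finset (Subgroup G), L = F.image (pl p) := ⟨_, rfl⟩
    have hLcard : L.card ≤ p := by rw [hL]; exact Finset.card_image_le.trans hle
    -- the orbit
    have hcyc : ∀ j : ℕ, cg (x ^ j) (pl p K) ∈ L := by
      intro j
      obtain ⟨K', hK', h1⟩ := hconj K hK (x ^ j)
      rw [hL, ← h1]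
      exact Finset.mem_image_of_mem _ hK'
    -- the first `p` conjugates are distinct
    obtain ⟨k, hk⟩ := hx
    have hstab : ∀ j : ℕ, cg (x ^ j) (pl p K) = pl p K → p ∣ j := by
      intro j hj
      by_contra hpj
      have hcop : Nat.Coprime j (orderOf x) := by
        rw [hk]
        exact (((Nat.Prime.coprime_iff_not_dvd hp.out).2 hpj).symm).pow_right k
      obtain ⟨m, hm⟩ := exists_pow_eq_self_of_coprime hcop
      apply hne
      have h1 : ∀ m : ℕ, cg ((x ^ j) ^ m) (pl p K) = pl p K := by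
        intro m
        induction m with
        | zero => rw [pow_zero, cg_one]
        | succ m ihm => rw [pow_succ, cg_mul, hj, ihm]
      rw [← hm]
      exact h1 m
    have hinj : Set.InjOn (fun j : ℕ => cg (x ^ j) (pl p K)) (Finset.range p) := by
      have key : ∀ i j : ℕ, i < p → j < p → i ≤ j →
          cg (x ^ i) (pl p K) = cg (x ^ j) (pl p K) → i = j := by
        intro i j hi hj hij h1
        obtain ⟨d, rfl⟩ := Nat.exists_eq_add_of_le hij
        rw [pow_add, cg_mul] at h1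
        have h2 := congrArg (cg (x ^ i)⁻¹) h1
        rw [← cg_mul, ← cg_mul, inv_mul_cancel, cg_one, cg_one] at h2
        have h3 := hstab d h2.symm
        have : d = 0 := Nat.eq_zero_of_dvd_of_lt h3 (by omega)
        omega
      intro i hi j hj h1
      rw [Finset.coe_range, Set.mem_Iio] at hi hj
      rcases le_total i j with h | h
      · exact key i j hi hj h h1
      · exact (key j i hj hi h h1.symm).symm
    have himg : (Finset.range p).image (fun j : ℕ => cg (x ^ j) (pl p K)) = L := by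
      apply Finset.eq_of_subset_of_card_le
      · intro H hH
        obtain ⟨j, -, rfl⟩ := Finset.mem_image.1 hH
        exact hcyc j
      · rw [Finset.card_image_of_injOn hinj, Finset.card_range]
        exact hLcard
    obtain ⟨K', hK', hxK'⟩ := hcov x ⟨k, hk⟩
    have h1 : pl p K' ∈ L := by rw [hL]; exact Finset.mem_image_of_mem _ hK'
    rw [← himg] at h1
    obtain ⟨j, -, hj⟩ := Finset.mem_image.1 h1
    have h2 : cg x (pl p K') = pl p K' := cg_self (mem_pl hxK' ⟨k, hk⟩)
    rw [← hj] at h2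
    rw [← cg_mul, ← pow_succ', pow_succ, cg_mul] at h2
    exact hne (cg_inj h2)
  have hnorm' : ∀ g : G, ∀ K ∈ F, cg g (pl p K) = pl p K := by
    intro g K hK
    have hg : g ∈ closure {g : G | Pel p g} := by rw [hgen]; exact mem_top _
    induction hg using closure_induction with
    | mem x hx => exact hnorm x hx K hK
    | one => exact cg_one _
    | mul a b _ _ ha hb => rw [cg_mul, hb, ha]
    | inv a _ ha =>
      have := congrArg (cg a⁻¹) ha
      rw [← cg_mul, inv_mul_cancel, cg_one] at this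
      exact this.symm
  -- two members
  obtain ⟨K₁, hK₁, -⟩ := hcov 1 ⟨0, by simp⟩
  have h2 : ∃ K₂ ∈ F, K₂ ≠ K₁ := by
    by_contra hcon
    push Not at hcon
    apply hF K₁ hK₁
    rw [eq_top_iff, ← hgen, closure_le]
    intro g hg
    obtain ⟨K, hK, hgK⟩ := hcov g hg
    rw [← hcon K hK]; exact hgK
  obtain ⟨K₂, hK₂, hne⟩ := h2
  obtain ⟨P⟩ : Nonempty (Sylow p G) := inferInstance
  have hconjP : ∀ x : G, Pel p x → ∃ c : G, c * x * c⁻¹ ∈ (P : Subgroup G) := by
    intro x hx
    obtain ⟨k, hk⟩ := hx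
    have h1 : IsPGroup p (Subgroup.zpowers x) := by
      apply IsPGroup.of_card (n := k)
      rw [Nat.card_zpowers, hk]
    obtain ⟨Q, hQ⟩ := h1.exists_le_sylow
    obtain ⟨c, hc⟩ := MulAction.exists_smul_eq G Q P
    refine ⟨c, ?_⟩
    rw [← hc]
    exact Subgroup.smul_mem_pointwise_smul x (MulAut.conj c) (Q : Subgroup G)
      (hQ (Subgroup.mem_zpowers x))
  obtain ⟨a, ha⟩ := hconjP _ (hyP K₁ hK₁)
  obtain ⟨b, hb⟩ := hconjP _ (hyP K₂ hK₂)
  have h3 : closure {a * y K₁ * a⁻¹, b * y K₂ * b⁻¹} ≠ ⊤ := by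
    intro h4
    have h5 : closure {a * y K₁ * a⁻¹, b * y K₂ * b⁻¹} ≤ (P : Subgroup G) := by
      rw [closure_le]
      intro x hx
      rcases hx with rfl | hx
      · exact ha
      · rw [Set.mem_singleton_iff] at hx
        rw [hx]; exact hb
    rw [h4, top_le_iff] at h5
    apply hpg
    have h6 := P.isPGroup'
    rw [h5] at h6
    exact h6.of_equiv Subgroup.topEquiv
  obtain ⟨K₃, hK₃, h5, h6⟩ := hstar _ _ ((hyP K₁ hK₁).conj a) ((hyP K₂ hK₂).conj b) h3
  have h7 := hF1' K₁ hK₁ K₃ hK₃ a h5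
  have h8 := hF1' K₂ hK₂ K₃ hK₃ b h6
  rw [hnorm' a K₁ hK₁] at h7
  rw [hnorm' b K₂ hK₂, h7] at h8
  have h9 : y K₁ ∈ K₂ := pl_le K₂ (h8 ▸ mem_pl (hyK K₁ hK₁) (hyP K₁ hK₁))
  exact hne (hyu K₁ hK₁ K₂ hK₂ h9)

theorem good_all : ∀ (n : ℕ) (G : Type u) [Group G] [Finite G], Nat.card G = n → Good p G := by
  intro n
  induction n using Nat.strong_induction_on with
  | _ n ih =>
    intro G _ _ hn
    refine good_of_lt G fun H hH => ih (Nat.card H) ?_ H rfl
    rw [← hn]
    exact lt_of_le_of_ne (Subgroup.card_le_card_group H) fun h => hH (Subgroup.eq_top_of_card_eq H h)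

theorem st4182 {G : Type u} [Group G] [Finite G]
    (hgen : Subgroup.closure {g : G | ∃ k : ℕ, orderOf g = p ^ k} = ⊤)
    {ι : Type*} [Fintype ι] (K : ι → Subgroup G) (hK : ∀ i, K i ≠ ⊤)
    (hcov : ∀ g : G, (∃ k : ℕ, orderOf g = p ^ k) → ∃ i, g ∈ K i) :
    p + 1 ≤ Fintype.card ι := by
  classical
  have h1 := good_all (p := p) (Nat.card G) G rfl hgen (Finset.univ.image K) (by
    intro H hH
    obtain ⟨i, -, rfl⟩ := Finset.mem_image.1 hH
    exact hK i) (by
    intro g hg
    obtain ⟨i, hi⟩ := hcov g hg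
    exact ⟨K i, Finset.mem_image_of_mem _ (Finset.mem_univ _), hi⟩)
  exact h1.trans (Finset.card_image_le.trans (by rw [Finset.card_univ]))

end Cfsg.Agent.H11.CoverP
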