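import Mathlib

/-! Derangements in 2-transitive groups: two-point stabilizers and their fixed points. -/

set_option autoImplicit false
set_option linter.all false

namespace Cfsg.Agent.H11.DR

open Finset
open scoped Classical

variable {G Ω : Type*} [Group G] [Fintype G] [MulAction G Ω] [Fintype Ω]

/-- the elements fixing `x` and `y` -/
noncomputable def DS (G : Type*) [Group G] [Fintype G] {Ω : Type*} [MulAction G Ω] (x y : Ω) : Finset G :=
  univ.filter (fun g => g • x = x ∧ g • y = y)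

/-- the points fixed by `g` -/
noncomputable def Fx (Ω : Type*) [Fintype Ω] {G : Type*} [Group G] [MulAction G Ω] (g : G) : Finset Ω :=
  univ.filter (fun z => g • z = z)

/-- the points fixed by `DS x y` -/
noncomputable def LN (G : Type*) [Group G] [Fintype G] {Ω : Type*} [Fintype Ω] [MulAction G Ω] (x y : Ω) : Finset Ω :=
  univ.filter (fun z => ∀ g ∈ DS G x y, g • z = z)

theorem mem_DS {x y : Ω} {g : G} : g ∈ DS G x y ↔ g • x = x ∧ g • y = y := by simp [DS]
theorem mem_Fx {g : G} {z : Ω} : z ∈ Fx Ω g ↔ g • z = z := by simp [Fx]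
theorem mem_LN {x y z : Ω} : z ∈ LN G x y ↔ ∀ g ∈ DS G x y, g • z = z := by simp [LN]

def Two (G Ω : Type*) [Group G] [MulAction G Ω] : Prop :=
  ∀ a b c e : Ω, a ≠ b → c ≠ e → ∃ g : G, g • a = c ∧ g • b = e

theorem card_DS_le (h2 : Two G Ω) {a b c e : Ω} (hab : a ≠ b) (hce : c ≠ e) :
    (DS G a b).card ≤ (DS G c e).card := by
  obtain ⟨g, h1, h3⟩ := h2 a b c e hab hce
  apply Finset.card_le_card_of_injOn (fun k => g * k * g⁻¹)
  · intro k hk
    have hk' := mem_DS.mp hk
    refine mem_DS.mpr ⟨?_, ?_⟩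
    · rw [← h1, mul_smul, inv_smul_smul, mul_smul, hk'.1]
    · rw [← h3, mul_smul, inv_smul_smul, mul_smul, hk'.2]
  · intro k _ l _ hkl
    simpa using hkl

theorem card_DS (h2 : Two G Ω) {a b c e : Ω} (hab : a ≠ b) (hce : c ≠ e) :
    (DS G a b).card = (DS G c e).card :=
  le_antisymm (card_DS_le h2 hab hce) (card_DS_le h2 hce hab)

theorem DS_eq (h2 : Two G Ω) {a b c e : Ω} (hab : a ≠ b) (hce : c ≠ e) (h : DS G a b ⊆ DS G c e) :
    DS G a b = DS G c e :=
  Finset.eq_of_subset_of_card_le h (card_DS_le h2 hce hab)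

theorem left_mem_LN (x y : Ω) : x ∈ LN G x y := mem_LN.mpr (fun g hg => (mem_DS.mp hg).1)
theorem right_mem_LN (x y : Ω) : y ∈ LN G x y := mem_LN.mpr (fun g hg => (mem_DS.mp hg).2)

theorem card_LN_le (h2 : Two G Ω) {a b c e : Ω} (hab : a ≠ b) (hce : c ≠ e) :
    (LN G a b).card ≤ (LN G c e).card := by
  obtain ⟨g, h1, h3⟩ := h2 a b c e hab hce
  apply Finset.card_le_card_of_injOn (fun z => g • z)
  · intro z hz
    have hz' := mem_LN.mp hz
    refine mem_LN.mpr (fun k hk => ?_)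
    have hk' := mem_DS.mp hk
    have h4 : g⁻¹ * k * g ∈ DS G a b := by
      refine mem_DS.mpr ⟨?_, ?_⟩
      · rw [mul_smul, h1, mul_smul, hk'.1, ← h1, inv_smul_smul]
      · rw [mul_smul, h3, mul_smul, hk'.2, ← h3, inv_smul_smul]
    have h5 := hz' _ h4
    show k • g • z = g • z
    rw [mul_smul, mul_smul, inv_smul_eq_iff] at h5
    exact h5
  · intro z _ w _ h
    exact smul_left_cancel g h

theorem card_LN (h2 : Two G Ω) {a b c e : Ω} (hab : a ≠ b) (hce : c ≠ e) :
    (LN G a b).card = (LN G c e).card :=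
  le_antisymm (card_LN_le h2 hab hce) (card_LN_le h2 hce hab)

/-- points of a line determine the line -/
theorem DS_eq_of_mem (h2 : Two G Ω) {a b u : Ω} (hab : a ≠ b) (hu : u ∈ LN G a b) (hau : a ≠ u) :
    DS G a b = DS G a u :=
  DS_eq h2 hab hau (fun g hg => mem_DS.mpr ⟨(mem_DS.mp hg).1, mem_LN.mp hu g hg⟩)

/-- the fixed points of a non-identity element form a proper subspace -/
theorem card_Fx_mul (h2 : Two G Ω) [FaithfulSMul G Ω] {x y : Ω} (hxy : x ≠ y) {g : G} (hg : g ≠ 1) :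
    (Fx Ω g).card * ((LN G x y).card - 1) ≤ Fintype.card Ω - 1 := by
  obtain ⟨v, hv⟩ : ∃ v : Ω, g • v ≠ v := by
    by_contra hcon
    push Not at hcon
    exact hg (FaithfulSMul.eq_of_smul_eq_smul (fun z : Ω => by rw [hcon z, one_smul]))
  have hvz : ∀ z ∈ Fx Ω g, v ≠ z := by
    rintro z hz rfl
    exact hv (mem_Fx.mp hz)
  have hdisj : ∀ z ∈ Fx Ω g, ∀ w ∈ Fx Ω g, z ≠ w → Disjoint ((LN G v z).erase v) ((LN G v w).erase v) := by
    intro z hz w hw hzw
    rw [Finset.disjoint_left]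
    intro u hu hu'
    rw [Finset.mem_erase] at hu hu'
    have e1 := DS_eq_of_mem h2 (hvz z hz) hu.2 (Ne.symm hu.1)
    have e2 := DS_eq_of_mem h2 (hvz w hw) hu'.2 (Ne.symm hu'.1)
    have e3 : DS G v z = DS G v w := e1.trans e2.symm
    have e4 : DS G v z = DS G z w := DS_eq h2 (hvz z hz) hzw (fun k hk =>
      mem_DS.mpr ⟨(mem_DS.mp hk).2, by rw [e3] at hk; exact (mem_DS.mp hk).2⟩)
    have e5 : g ∈ DS G z w := mem_DS.mpr ⟨mem_Fx.mp hz, mem_Fx.mp hw⟩
    rw [← e4] at e5
    exact hv (mem_DS.mp e5).1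
  have h3 : ((Fx Ω g).biUnion (fun z => (LN G v z).erase v)).card ≤ (univ.erase v : Finset Ω).card := by
    apply Finset.card_le_card
    intro u hu
    rw [Finset.mem_biUnion] at hu
    obtain ⟨z, _, hu⟩ := hu
    exact Finset.mem_erase.mpr ⟨(Finset.mem_erase.mp hu).1, Finset.mem_univ _⟩
  rw [Finset.card_biUnion hdisj, Finset.card_erase_of_mem (Finset.mem_univ _), Finset.card_univ] at h3
  refine le_trans (le_of_eq ?_) h3
  rw [← smul_eq_mul, ← Finset.sum_const]
  apply Finset.sum_congr rfl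
  intro z hz
  rw [Finset.card_erase_of_mem (left_mem_LN v z), card_LN h2 hxy (hvz z hz)]

/-- if all orbits of two-point stabilizers have length at most 2 then these have order at most 2 -/
theorem card_le_two (h2 : Two G Ω) [FaithfulSMul G Ω] {x y : Ω} (hxy : x ≠ y)
    (H : ∀ a b : Ω, a ≠ b → ∀ z : Ω, ∀ g ∈ DS G a b, ∀ h ∈ DS G a b, g • z ≠ z → h • z ≠ z → g • z = h • z) :
    (DS G x y).card ≤ 2 := by
  by_contra hcon
  push Not at hcon
  -- closure
  have hmul : ∀ {a b : Ω} {g h : G}, g ∈ DS G a b → h ∈ DS G a b → g * h ∈ DS G a b := by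
    intro a b g h hg hh
    have h1 := mem_DS.mp hg; have h3 := mem_DS.mp hh
    exact mem_DS.mpr ⟨by rw [mul_smul, h3.1, h1.1], by rw [mul_smul, h3.2, h1.2]⟩
  have hinv : ∀ {a b : Ω} {g : G}, g ∈ DS G a b → g⁻¹ ∈ DS G a b := by
    intro a b g hg
    have h1 := mem_DS.mp hg
    exact mem_DS.mpr ⟨by rw [inv_smul_eq_iff, h1.1], by rw [inv_smul_eq_iff, h1.2]⟩
  -- exponent two
  have hsq : ∀ a b : Ω, a ≠ b → ∀ g ∈ DS G a b, g * g = 1 := by
    intro a b hab g hg
    apply FaithfulSMul.eq_of_smul_eq_smul (α := Ω)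
    intro z
    rw [one_smul, mul_smul]
    by_cases hz : g • z = z
    · rw [hz, hz]
    · have hz' : g⁻¹ • z ≠ z := by
        intro h; apply hz; rw [inv_smul_eq_iff] at h; exact h.symm
      have := H a b hab z g hg g⁻¹ (hinv hg) hz hz'
      rw [this, smul_inv_smul]
  have hcomm : ∀ a b : Ω, a ≠ b → ∀ g ∈ DS G a b, ∀ h ∈ DS G a b, g * h = h * g := by
    intro a b hab g hg h hh
    have e1 := hsq a b hab g hg
    have e2 := hsq a b hab h hh
    have e3 := hsq a b hab (g * h) (hmul hg hh)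
    have i1 : g⁻¹ = g := inv_eq_of_mul_eq_one_right e1
    have i2 : h⁻¹ = h := inv_eq_of_mul_eq_one_right e2
    have i3 : (g * h)⁻¹ = g * h := inv_eq_of_mul_eq_one_right e3
    rw [mul_inv_rev, i1, i2] at i3
    exact i3.symm
  -- a nonidentity element fixing three points
  have hE : ∀ a y z : Ω, a ≠ y → ∃ e ∈ DS G a y, e • z = z ∧ e ≠ 1 := by
    intro a y' z hay
    by_contra hc
    push Not at hc
    have hcard := card_DS h2 hxy hay
    have h3 : (DS G a y').card ≤ 2 := by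
      by_contra h4
      push Not at h4
      obtain ⟨p, q, r, hp, hq, hr, hpq, hpr, hqr⟩ := Finset.two_lt_card_iff.mp h4
      -- differences
      have key : ∀ s ∈ DS G a y', ∀ t ∈ DS G a y', s • z ≠ z → t • z ≠ z → s = t := by
        intro s hs t ht h5 h6
        have h7 := H a y' hay z s hs t ht h5 h6
        have h8 : (t⁻¹ * s) • z = z := by rw [mul_smul, h7, inv_smul_smul]
        have h9 := hc (t⁻¹ * s) (hmul (hinv ht) hs) h8
        rw [inv_mul_eq_one] at h9
        exact h9.symm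
      by_cases p1 : p • z = z
      · have p1' := hc p hp p1
        have q1 : q • z ≠ z := fun h => hpq (by rw [p1', hc q hq h])
        have r1 : r • z ≠ z := fun h => hpr (by rw [p1', hc r hr h])
        exact hqr (key q hq r hr q1 r1)
      · by_cases q1 : q • z = z
        · have q1' := hc q hq q1
          have r1 : r • z ≠ z := fun h => hqr (by rw [q1', hc r hr h])
          exact hpr (key p hp r hr p1 r1)
        · exact hpq (key p hp q hq p1 q1)
    omega
  -- stabilizers with a common point commute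
  have hCom : ∀ a y z : Ω, a ≠ y → a ≠ z → ∀ p ∈ DS G a y, ∀ q ∈ DS G a z, p * q = q * p := by
    intro a y' z hay haz p hp q hq
    by_cases hpz : p • z = z
    · exact hcomm a z haz p (mem_DS.mpr ⟨(mem_DS.mp hp).1, hpz⟩) q hq
    by_cases hqy : q • y' = y'
    · exact hcomm a y' hay p hp q (mem_DS.mpr ⟨(mem_DS.mp hq).1, hqy⟩)
    obtain ⟨e, he, hez, he1⟩ := hE a y' z hay
    have hea := (mem_DS.mp he).1
    have hey := (mem_DS.mp he).2
    have he' : e ∈ DS G a z := mem_DS.mpr ⟨hea, hez⟩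
    obtain ⟨w, hw⟩ : ∃ w : Ω, e • w ≠ w := by
      by_contra hc
      push Not at hc
      exact he1 (FaithfulSMul.eq_of_smul_eq_smul (fun z : Ω => by rw [hc z, one_smul]))
    have haw : a ≠ w := by rintro rfl; exact hw hea
    -- e'
    have h1 : ∃ p' ∈ DS G a y', p' • w = w ∧ (p = p' ∨ p = e * p') := by
      by_cases h : p • w = w
      · exact ⟨p, hp, h, Or.inl rfl⟩
      · have h3 := H a y' hay w p hp e he h hw
        exact ⟨e⁻¹ * p, hmul (hinv he) hp, by rw [mul_smul, h3, inv_smul_smul], Or.inr (by group)⟩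
    have h1' : ∃ q' ∈ DS G a z, q' • w = w ∧ (q = q' ∨ q = e * q') := by
      by_cases h : q • w = w
      · exact ⟨q, hq, h, Or.inl rfl⟩
      · have h3 := H a z haz w q hq e he' h hw
        exact ⟨e⁻¹ * q, hmul (hinv he') hq, by rw [mul_smul, h3, inv_smul_smul], Or.inr (by group)⟩
    obtain ⟨p', hp', hpw, hpp⟩ := h1
    obtain ⟨q', hq', hqw, hqq⟩ := h1'
    have c1 : Commute e p' := hcomm a y' hay e he p' hp'
    have c2 : Commute e q' := hcomm a z haz e he' q' hq'
    have c3 : Commute p' q' := hcomm a w haw p' (mem_DS.mpr ⟨(mem_DS.mp hp').1, hpw⟩) q'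
      (mem_DS.mpr ⟨(mem_DS.mp hq').1, hqw⟩)
    have c4 : Commute p q := by
      rcases hpp with rfl | rfl
      · rcases hqq with rfl | rfl
        · exact c3
        · exact (c1.symm).mul_right c3
      · rcases hqq with rfl | rfl
        · exact (c2).mul_left c3
        · exact ((Commute.refl e).mul_left c1.symm).mul_right (c2.mul_left c3)
    exact c4.eq
  -- conclusion
  obtain ⟨g, hg, hg1⟩ : ∃ g ∈ DS G x y, g ≠ 1 := by
    obtain ⟨g, hg, hg1⟩ := Finset.exists_mem_ne (show 1 < (DS G x y).card by omega) (1 : G)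
    exact ⟨g, hg, hg1⟩
  obtain ⟨z, hz⟩ : ∃ w : Ω, g • w ≠ w := by
    by_contra hc
    push Not at hc
    exact hg1 (FaithfulSMul.eq_of_smul_eq_smul (fun z : Ω => by rw [hc z, one_smul]))
  have hgx := (mem_DS.mp hg).1
  have hgy := (mem_DS.mp hg).2
  have hxz : x ≠ z := by rintro rfl; exact hz hgx
  have hyz : y ≠ z := by rintro rfl; exact hz hgy
  have hg' : g ∈ DS G y x := mem_DS.mpr ⟨hgy, hgx⟩
  have k1 : DS G x z ⊆ DS G z (g • z) := by
    intro h hh
    refine mem_DS.mpr ⟨(mem_DS.mp hh).2, ?_⟩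
    rw [← mul_smul, ← hCom x y z hxy hxz g hg h hh, mul_smul, (mem_DS.mp hh).2]
  have k2 : DS G y z ⊆ DS G z (g • z) := by
    intro h hh
    refine mem_DS.mpr ⟨(mem_DS.mp hh).2, ?_⟩
    rw [← mul_smul, ← hCom y x z hxy.symm hyz g hg' h hh, mul_smul, (mem_DS.mp hh).2]
  have e1 := DS_eq h2 hxz (Ne.symm hz) k1
  have e2 := DS_eq h2 hyz (Ne.symm hz) k2
  have e3 : DS G x z ⊆ DS G x y := by
    intro h hh
    refine mem_DS.mpr ⟨(mem_DS.mp hh).1, ?_⟩
    rw [e1, ← e2] at hh
    exact (mem_DS.mp hh).1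
  have e4 := DS_eq h2 hxz hxy e3
  rw [← e4] at hg
  exact hz (mem_DS.mp hg).2

end Cfsg.Agent.H11.DR
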