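import Cfsg.Agent.H11.DR1

/-! Counting derangements. -/

set_option autoImplicit false
set_option linter.all false

namespace Cfsg.Agent.H11.DR

open Finset
open scoped Classical

variable {G Ω : Type*} [Group G] [Fintype G] [MulAction G Ω] [Fintype Ω]

/-- the number of derangements -/
noncomputable def der (G Ω : Type*) [Group G] [Fintype G] [MulAction G Ω] : ℕ :=
  (univ.filter (fun g : G => ∀ ω : Ω, g • ω ≠ ω)).card

theorem card_Fx_eq (g : G) : Fintype.card (MulAction.fixedBy Ω g) = (Fx Ω g).card := by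
  rw [Fintype.card_subtype]
  rfl

theorem sum_Fx [Nonempty Ω] (htr : MulAction.IsPretransitive G Ω) :
    ∑ g : G, (Fx Ω g).card = Fintype.card G := by
  have h := MulAction.sum_card_fixedBy_eq_card_orbits_mul_card_group G Ω
  have h1 : Fintype.card (Quotient (MulAction.orbitRel G Ω)) = 1 := by
    rw [Fintype.card_eq_one_iff]
    obtain ⟨x⟩ := ‹Nonempty Ω›
    refine ⟨Quotient.mk'' x, fun q => ?_⟩
    induction q using Quotient.inductionOn' with
    | h y => exact Quotient.sound' (MulAction.exists_smul_eq G x y)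
  rw [h1, one_mul] at h
  rw [← h]
  exact Finset.sum_congr rfl (fun g _ => (card_Fx_eq g).symm)

theorem Fx_eq_zero_iff (g : G) : (Fx Ω g).card = 0 ↔ ∀ ω : Ω, g • ω ≠ ω := by
  rw [Finset.card_eq_zero, Finset.eq_empty_iff_forall_notMem]
  exact forall_congr' (fun z => not_congr mem_Fx)

theorem Fx_conj (g k : G) : (Fx Ω (k * g * k⁻¹)).card = (Fx Ω g).card := by
  refine Finset.card_bij' (fun z _ => k⁻¹ • z) (fun z _ => k • z) ?_ ?_ ?_ ?_
  · intro z hz
    rw [mem_Fx] at hz ⊢
    rw [mul_smul, mul_smul] at hz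
    rw [eq_inv_smul_iff]; exact hz
  · intro z hz
    rw [mem_Fx] at hz ⊢
    rw [mul_smul, mul_smul, inv_smul_smul, hz]
  · intro z hz; exact smul_inv_smul k z
  · intro z hz; exact inv_smul_smul k z

/-- double counting -/
theorem sum_pairs (h2 : Two G Ω) {x y : Ω} (hxy : x ≠ y) (h : ℕ → ℚ) :
    ∑ g : G, ((Fx Ω g).card : ℚ) * ((Fx Ω g).card - 1) * h (Fx Ω g).card =
      (Fintype.card Ω) * ((Fintype.card Ω : ℚ) - 1) * ∑ g ∈ DS G x y, h (Fx Ω g).card := by
  have h1 : ∀ g : G, ((Fx Ω g).card : ℚ) * ((Fx Ω g).card - 1) * h (Fx Ω g).card =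
      ∑ p ∈ (univ : Finset Ω).offDiag, if g ∈ DS G p.1 p.2 then h (Fx Ω g).card else 0 := by
    intro g
    rw [← Finset.sum_filter, Finset.sum_const, nsmul_eq_mul]
    congr 1
    have h3 : (univ : Finset Ω).offDiag.filter (fun p => g ∈ DS G p.1 p.2) = (Fx Ω g).offDiag := by
      ext p
      simp only [Finset.mem_filter, Finset.mem_offDiag, Finset.mem_univ, true_and, mem_DS, mem_Fx]
      tauto
    rw [h3, Finset.offDiag_card]
    rw [Nat.cast_sub (Nat.le_mul_self _), Nat.cast_mul]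
    ring
  rw [Finset.sum_congr rfl (fun g _ => h1 g), Finset.sum_comm]
  have h4 : ∀ p ∈ (univ : Finset Ω).offDiag, ∑ g : G, (if g ∈ DS G p.1 p.2 then h (Fx Ω g).card else 0) =
      ∑ g ∈ DS G x y, h (Fx Ω g).card := by
    intro p hp
    have hp' : p.1 ≠ p.2 := (Finset.mem_offDiag.mp hp).2.2
    rw [← Finset.sum_filter]
    have h5 : (univ.filter (fun g => g ∈ DS G p.1 p.2)) = DS G p.1 p.2 := by ext g; simp
    rw [h5]
    obtain ⟨k, hk1, hk2⟩ := h2 p.1 p.2 x y hp' hxy
    apply Finset.sum_bij' (fun g _ => k * g * k⁻¹) (fun g _ => k⁻¹ * g * k)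
    · intro g hg
      have := mem_DS.mp hg
      refine mem_DS.mpr ⟨?_, ?_⟩
      · rw [← hk1, mul_smul, inv_smul_smul, mul_smul, this.1]
      · rw [← hk2, mul_smul, inv_smul_smul, mul_smul, this.2]
    · intro g hg
      have := mem_DS.mp hg
      refine mem_DS.mpr ⟨?_, ?_⟩
      · rw [mul_smul, hk1, mul_smul, this.1, ← hk1, inv_smul_smul]
      · rw [mul_smul, hk2, mul_smul, this.2, ← hk2, inv_smul_smul]
    · intro g hg; group
    · intro g hg; group
    · intro g hg; rw [Fx_conj]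
  rw [Finset.sum_congr rfl h4, Finset.sum_const, Finset.offDiag_card, nsmul_eq_mul, Finset.card_univ,
    Nat.cast_sub (Nat.le_mul_self _), Nat.cast_mul]
  ring

theorem Two.pretransitive (h2 : Two G Ω) (hn : 2 ≤ Fintype.card Ω) : MulAction.IsPretransitive G Ω := by
  constructor
  intro a b
  obtain ⟨c, hc⟩ : ∃ c : Ω, c ≠ a := Fintype.exists_ne_of_one_lt_card (by omega) a
  obtain ⟨e, he⟩ : ∃ e : Ω, e ≠ b := Fintype.exists_ne_of_one_lt_card (by omega) b
  obtain ⟨g, hg, _⟩ := h2 a c b e hc.symm he.symm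
  exact ⟨g, hg⟩

theorem card_fix_one (x : Ω) : True := trivial

theorem Fx_one : (Fx Ω (1 : G)).card = Fintype.card Ω := by
  have : Fx Ω (1 : G) = univ := by ext z; simp [Fx]
  rw [this, Finset.card_univ]

/-- `δ = E_D[1/F]` -/
theorem der_eq (h2 : Two G Ω) {x y : Ω} (hxy : x ≠ y) (hn : 2 ≤ Fintype.card Ω) :
    (der G Ω : ℚ) = (Fintype.card Ω) * ((Fintype.card Ω : ℚ) - 1) * ∑ g ∈ DS G x y, 1 / ((Fx Ω g).card : ℚ) := by
  haveI : Nonempty Ω := ⟨x⟩
  have h1 := sum_pairs h2 hxy (fun m => 1 / (m : ℚ))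
  rw [← h1]
  have h3 := sum_Fx (G := G) (Ω := Ω) (h2.pretransitive hn)
  have h4 : ∀ g : G, ((Fx Ω g).card : ℚ) * ((Fx Ω g).card - 1) * (1 / ((Fx Ω g).card : ℚ)) =
      (Fx Ω g).card - 1 + (if ∀ ω : Ω, g • ω ≠ ω then 1 else 0) := by
    intro g
    by_cases h : (Fx Ω g).card = 0
    · rw [if_pos ((Fx_eq_zero_iff g).mp h), h]; simp
    · rw [if_neg (fun h' => h ((Fx_eq_zero_iff g).mpr h'))]
      have : ((Fx Ω g).card : ℚ) ≠ 0 := by exact_mod_cast h
      field_simp
      ring
  rw [Finset.sum_congr rfl (fun g _ => h4 g), Finset.sum_add_distrib, Finset.sum_sub_distrib, ← Nat.cast_sum, h3]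
  simp [der]

theorem card_G_eq (h2 : Two G Ω) {x y : Ω} (hxy : x ≠ y) (hn : 2 ≤ Fintype.card Ω) :
    Fintype.card G = Fintype.card Ω * (Fintype.card Ω - 1) * (DS G x y).card := by
  have h1 : (univ : Finset G).card = ∑ p ∈ (univ : Finset Ω).offDiag, (univ.filter (fun g : G => (g • x, g • y) = p)).card := by
    apply Finset.card_eq_sum_card_fiberwise
    intro g _
    simp only [Finset.coe_offDiag, Finset.coe_univ, Set.mem_offDiag, Set.mem_univ, true_and]
    exact fun h => hxy (smul_left_cancel g h)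
  have h3 : ∀ p ∈ (univ : Finset Ω).offDiag, (univ.filter (fun g : G => (g • x, g • y) = p)).card = (DS G x y).card := by
    intro p hp
    have hp' : p.1 ≠ p.2 := (Finset.mem_offDiag.mp hp).2.2
    obtain ⟨k, hk1, hk2⟩ := h2 x y p.1 p.2 hxy hp'
    apply Finset.card_bij' (fun g _ => k⁻¹ * g) (fun g _ => k * g)
    · intro g hg
      have hg' : (g • x, g • y) = p := (Finset.mem_filter.mp hg).2
      refine mem_DS.mpr ⟨?_, ?_⟩
      · rw [mul_smul, inv_smul_eq_iff, hk1, ← hg']
      · rw [mul_smul, inv_smul_eq_iff, hk2, ← hg']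
    · intro g hg
      have := mem_DS.mp hg
      refine Finset.mem_filter.mpr ⟨Finset.mem_univ _, ?_⟩
      rw [mul_smul, mul_smul, this.1, this.2, hk1, hk2]
    · intro g hg; group
    · intro g hg; group
  rw [Finset.sum_congr rfl h3, Finset.sum_const, Finset.offDiag_card, Finset.card_univ, Finset.card_univ, smul_eq_mul] at h1
  rw [h1, Nat.mul_sub_one]

/-- Cameron–Cohen for groups that are not 2-transitive -/
theorem not_two [Nonempty Ω] (htr : MulAction.IsPretransitive G Ω) (h2 : ¬ Two G Ω) :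
    2 * Fintype.card G ≤ Fintype.card Ω * der G Ω := by
  have h := MulAction.sum_card_fixedBy_eq_card_orbits_mul_card_group G (Ω × Ω)
  have hr : 3 ≤ Fintype.card (Quotient (MulAction.orbitRel G (Ω × Ω))) := by
    unfold Two at h2
    push Not at h2
    obtain ⟨a, b, c, e, hab, hce, hno⟩ := h2
    let q1 : Quotient (MulAction.orbitRel G (Ω × Ω)) := Quotient.mk'' (a, a)
    let q2 : Quotient (MulAction.orbitRel G (Ω × Ω)) := Quotient.mk'' (a, b)
    let q3 : Quotient (MulAction.orbitRel G (Ω × Ω)) := Quotient.mk'' (c, e)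
    have n12 : q1 ≠ q2 := by
      intro h
      have := Quotient.exact' h
      obtain ⟨g, hg⟩ := this
      simp only [Prod.smul_mk, Prod.mk.injEq] at hg
      exact hab (smul_left_cancel g (hg.1.trans hg.2.symm))
    have n13 : q1 ≠ q3 := by
      intro h
      have := Quotient.exact' h
      obtain ⟨g, hg⟩ := this
      simp only [Prod.smul_mk, Prod.mk.injEq] at hg
      exact hce (smul_left_cancel g (hg.1.trans hg.2.symm))
    have n23 : q2 ≠ q3 := by
      intro h
      have := Quotient.exact' h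
      obtain ⟨g, hg⟩ := this
      simp only [Prod.smul_mk, Prod.mk.injEq] at hg
      exact hno g⁻¹ (by rw [inv_smul_eq_iff]; exact hg.1.symm) (by rw [inv_smul_eq_iff]; exact hg.2.symm)
    have h3 : ({q1, q2, q3} : Finset _).card = 3 := Finset.card_eq_three.mpr ⟨q1, q2, q3, n12, n13, n23, rfl⟩
    rw [← h3]
    exact Finset.card_le_univ _
  have h1 : ∀ g : G, Fintype.card (MulAction.fixedBy (Ω × Ω) g) = (Fx Ω g).card * (Fx Ω g).card := by
    intro g
    rw [Fintype.card_subtype, ← Finset.card_product]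
    congr 1
    ext p
    simp only [Finset.mem_filter, Finset.mem_univ, true_and, Finset.mem_product, mem_Fx, MulAction.mem_fixedBy]
    rw [Prod.ext_iff]
    rfl
  rw [Finset.sum_congr rfl (fun g _ => h1 g)] at h
  have h3 := sum_Fx (G := G) (Ω := Ω) htr
  have h4 : ∀ g : G, ((Fx Ω g).card : ℤ) * (Fx Ω g).card - (Fintype.card Ω + 1) * (Fx Ω g).card + Fintype.card Ω ≤
      (if ∀ ω : Ω, g • ω ≠ ω then (Fintype.card Ω : ℤ) else 0) := by
    intro g
    by_cases h0 : (Fx Ω g).card = 0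
    · rw [if_pos ((Fx_eq_zero_iff g).mp h0), h0]; simp
    · rw [if_neg (fun h' => h0 ((Fx_eq_zero_iff g).mpr h'))]
      have h5 : (1 : ℤ) ≤ (Fx Ω g).card := by exact_mod_cast Nat.one_le_iff_ne_zero.mpr h0
      have h6 : ((Fx Ω g).card : ℤ) ≤ Fintype.card Ω := by exact_mod_cast Finset.card_le_univ _
      nlinarith
  have h5 := Finset.sum_le_sum (fun g (_ : g ∈ (univ : Finset G)) => h4 g)
  rw [Finset.sum_add_distrib, Finset.sum_sub_distrib, ← Finset.mul_sum] at h5
  rw [← Finset.sum_filter, Finset.sum_const, Finset.sum_const, nsmul_eq_mul, nsmul_eq_mul] at h5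
  have h6 : ∑ g : G, ((Fx Ω g).card : ℤ) * (Fx Ω g).card = (Fintype.card (Quotient (MulAction.orbitRel G (Ω × Ω))) * Fintype.card G : ℕ) := by
    rw [← h]; push_cast; rfl
  have h7 : ∑ g : G, ((Fx Ω g).card : ℤ) = (Fintype.card G : ℤ) := by
    rw [← h3]; push_cast; rfl
  rw [h6, h7, Finset.card_univ] at h5
  have h8 : ((univ.filter (fun g : G => ∀ ω : Ω, g • ω ≠ ω)).card : ℤ) = (der G Ω : ℤ) := by
    unfold der; congr!
  rw [h8] at h5
  have h9 : (3 : ℤ) * Fintype.card G ≤ (Fintype.card (Quotient (MulAction.orbitRel G (Ω × Ω))) * Fintype.card G : ℕ) := by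
    exact_mod_cast Nat.mul_le_mul_right _ hr
  have h10 : (2 * Fintype.card G : ℤ) ≤ Fintype.card Ω * der G Ω := by linarith
  exact_mod_cast h10

end Cfsg.Agent.H11.DR
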