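import Cfsg.Agent.H11.DR2

/-! The main inequality for 2-transitive groups. -/

set_option autoImplicit false
set_option linter.all false

namespace Cfsg.Agent.H11.DR

open Finset
open scoped Classical

variable {G Ω : Type*} [Group G] [Fintype G] [MulAction G Ω] [Fintype Ω]

theorem DS_mul {a b : Ω} {g h : G} (hg : g ∈ DS G a b) (hh : h ∈ DS G a b) : g * h ∈ DS G a b := by
  have h1 := mem_DS.mp hg; have h3 := mem_DS.mp hh
  exact mem_DS.mpr ⟨by rw [mul_smul, h3.1, h1.1], by rw [mul_smul, h3.2, h1.2]⟩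

theorem DS_inv {a b : Ω} {g : G} (hg : g ∈ DS G a b) : g⁻¹ ∈ DS G a b := by
  have h1 := mem_DS.mp hg
  exact mem_DS.mpr ⟨by rw [inv_smul_eq_iff, h1.1], by rw [inv_smul_eq_iff, h1.2]⟩

theorem one_mem_DS {a b : Ω} : (1 : G) ∈ DS G a b := mem_DS.mpr ⟨one_smul _ _, one_smul _ _⟩

/-- number of elements of `DS x y` fixing `z` -/
noncomputable def mm (G : Type*) [Group G] [Fintype G] {Ω : Type*} [MulAction G Ω] (x y z : Ω) : ℕ :=
  ((DS G x y).filter (fun g => g • z = z)).card

/-- the orbit of `z` under `DS x y` -/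
noncomputable def Orb (G : Type*) [Group G] [Fintype G] {Ω : Type*} [MulAction G Ω] (x y z : Ω) : Finset Ω :=
  (DS G x y).image (fun g => g • z)

theorem sum_Fx_DS (x y : Ω) : ∑ g ∈ DS G x y, (Fx Ω g).card = ∑ z : Ω, mm G x y z := by
  have h1 : ∀ g ∈ DS G x y, (Fx Ω g).card = ∑ z : Ω, if g • z = z then 1 else 0 := by
    intro g _
    rw [← Finset.card_filter]; rfl
  have h3 : ∀ z ∈ (univ : Finset Ω), mm G x y z = ∑ g ∈ DS G x y, if g • z = z then 1 else 0 := by
    intro z _
    rw [← Finset.card_filter]; rfl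
  rw [Finset.sum_congr rfl h1, Finset.sum_congr rfl h3, Finset.sum_comm]

theorem mm_of_mem_LN {x y z : Ω} (hz : z ∈ LN G x y) : mm G x y z = (DS G x y).card := by
  unfold mm
  rw [Finset.filter_true_of_mem (mem_LN.mp hz)]

theorem two_mm_le {x y z : Ω} (hz : z ∉ LN G x y) : 2 * mm G x y z ≤ (DS G x y).card := by
  rw [mem_LN] at hz
  push Not at hz
  obtain ⟨g, hg, hgz⟩ := hz
  have h1 : ((DS G x y).filter (fun k => k • z = z)).card ≤ ((DS G x y).filter (fun k => ¬ k • z = z)).card := by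
    apply Finset.card_le_card_of_injOn (fun k => g * k)
    · intro k hk
      have hk' := Finset.mem_filter.mp hk
      refine Finset.mem_coe.mpr (Finset.mem_filter.mpr ⟨DS_mul hg hk'.1, ?_⟩)
      rw [mul_smul, hk'.2]; exact hgz
    · intro k _ l _ h
      exact mul_left_cancel h
  have h3 := Finset.card_filter_add_card_filter_not (s := DS G x y) (fun k => k • z = z)
  unfold mm
  omega

theorem orb_mul_mm (x y z : Ω) : (Orb G x y z).card * mm G x y z = (DS G x y).card := by
  have h1 : (DS G x y).card = ∑ w ∈ Orb G x y z, ((DS G x y).filter (fun g => g • z = w)).card := by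
    apply Finset.card_eq_sum_card_fiberwise
    intro g hg
    exact Finset.mem_coe.mpr (Finset.mem_image_of_mem _ hg)
  have h3 : ∀ w ∈ Orb G x y z, ((DS G x y).filter (fun g => g • z = w)).card = mm G x y z := by
    intro w hw
    obtain ⟨k, hk, rfl⟩ := Finset.mem_image.mp hw
    unfold mm
    refine Finset.card_bij' (fun g _ => k⁻¹ * g) (fun g _ => k * g) ?_ ?_ ?_ ?_
    · intro g hg
      have hg' := Finset.mem_filter.mp hg
      exact Finset.mem_filter.mpr ⟨DS_mul (DS_inv hk) hg'.1, by rw [mul_smul, hg'.2, inv_smul_smul]⟩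
    · intro g hg
      have hg' := Finset.mem_filter.mp hg
      exact Finset.mem_filter.mpr ⟨DS_mul hk hg'.1, by rw [mul_smul, hg'.2]⟩
    · intro g hg; group
    · intro g hg; group
  rw [h1, Finset.sum_congr rfl h3, Finset.sum_const, smul_eq_mul]

theorem Orb_eq {x y z w : Ω} (hw : w ∈ Orb G x y z) : Orb G x y w = Orb G x y z := by
  obtain ⟨k, hk, rfl⟩ := Finset.mem_image.mp hw
  ext u
  simp only [Orb, Finset.mem_image]
  constructor
  · rintro ⟨g, hg, rfl⟩
    exact ⟨g * k, DS_mul hg hk, by rw [mul_smul]⟩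
  · rintro ⟨g, hg, rfl⟩
    exact ⟨g * k⁻¹, DS_mul hg (DS_inv hk), by rw [mul_smul, inv_smul_smul]⟩

theorem mem_Orb_self (x y z : Ω) : z ∈ Orb G x y z :=
  Finset.mem_image.mpr ⟨1, one_mem_DS, one_smul _ _⟩

theorem Orb_not_LN {x y z w : Ω} (hz : z ∉ LN G x y) (hw : w ∈ Orb G x y z) : w ∉ LN G x y := by
  obtain ⟨k, hk, rfl⟩ := Finset.mem_image.mp hw
  intro h
  apply hz
  have h1 := mem_LN.mp h k⁻¹ (DS_inv hk)
  rw [inv_smul_smul] at h1
  rw [h1]; exact h

theorem mm_const {x y z w : Ω} (hw : w ∈ Orb G x y z) : mm G x y w = mm G x y z := by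
  have h1 := orb_mul_mm (G := G) x y z
  have h3 := orb_mul_mm (G := G) x y w
  rw [Orb_eq hw, ← h1] at h3
  exact Nat.eq_of_mul_eq_mul_left (Finset.card_pos.mpr ⟨z, mem_Orb_self x y z⟩) h3

/-- the defect -/
noncomputable def WW (G : Type*) [Group G] [Fintype G] {Ω : Type*} [Fintype Ω] [MulAction G Ω] (x y : Ω) : ℤ :=
  ∑ z ∈ univ.filter (fun z => z ∉ LN G x y), (((DS G x y).card : ℤ) - 2 * mm G x y z)

theorem two_sum_eq (x y : Ω) : 2 * (∑ g ∈ DS G x y, (Fx Ω g).card : ℤ) =
    (Fintype.card Ω + (LN G x y).card) * (DS G x y).card - WW G x y := by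
  have h1 : (∑ g ∈ DS G x y, (Fx Ω g).card : ℤ) = ∑ z : Ω, (mm G x y z : ℤ) := by
    exact_mod_cast sum_Fx_DS (G := G) x y
  rw [h1, ← Finset.sum_filter_add_sum_filter_not (univ : Finset Ω) (fun z => z ∈ LN G x y)]
  have h3 : ∑ z ∈ univ.filter (fun z => z ∈ LN G x y), (mm G x y z : ℤ) = (LN G x y).card * (DS G x y).card := by
    have h4 : univ.filter (fun z => z ∈ LN G x y) = LN G x y := by ext z; simp
    rw [h4, Finset.sum_congr rfl (fun z hz => by rw [mm_of_mem_LN hz] : ∀ z ∈ LN G x y, (mm G x y z : ℤ) = (DS G x y).card),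
      Finset.sum_const, nsmul_eq_mul]
  rw [h3]
  unfold WW
  rw [Finset.sum_sub_distrib, ← Finset.mul_sum, Finset.sum_const, nsmul_eq_mul]
  have h5 : ((univ.filter (fun z => z ∉ LN G x y)).card : ℤ) = Fintype.card Ω - (LN G x y).card := by
    have h6 := Finset.card_filter_add_card_filter_not (s := (univ : Finset Ω)) (fun z => z ∈ LN G x y)
    have h4 : univ.filter (fun z => z ∈ LN G x y) = LN G x y := by ext z; simp
    rw [h4, Finset.card_univ] at h6
    omega
  rw [h5]
  ring

theorem orb_le_WW {x y : Ω} {S : Finset Ω} (hS : ∀ z ∈ S, z ∉ LN G x y) :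
    ∑ z ∈ S, (((DS G x y).card : ℤ) - 2 * mm G x y z) ≤ WW G x y := by
  unfold WW
  apply Finset.sum_le_sum_of_subset_of_nonneg
  · intro z hz; exact Finset.mem_filter.mpr ⟨Finset.mem_univ _, hS z hz⟩
  · intro z hz _
    have := two_mm_le (Finset.mem_filter.mp hz).2
    have h : (2 * mm G x y z : ℤ) ≤ (DS G x y).card := by exact_mod_cast this
    linarith

theorem sum_orb {x y z : Ω} : ∑ w ∈ Orb G x y z, (((DS G x y).card : ℤ) - 2 * mm G x y w) =
    ((Orb G x y z).card - 2 : ℤ) * (DS G x y).card := by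
  rw [Finset.sum_congr rfl (fun w hw => by rw [mm_const hw] :
    ∀ w ∈ Orb G x y z, (((DS G x y).card : ℤ) - 2 * mm G x y w) = (((DS G x y).card : ℤ) - 2 * mm G x y z)),
    Finset.sum_const, nsmul_eq_mul]
  have h := orb_mul_mm (G := G) x y z
  have h' : ((Orb G x y z).card : ℤ) * mm G x y z = (DS G x y).card := by exact_mod_cast h
  linear_combination (-2) * h'

theorem orb_card_le {x y : Ω} (hW : WW G x y < 2 * (DS G x y).card) (z : Ω) (hz : z ∉ LN G x y) :
    (Orb G x y z).card ≤ 3 := by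
  have h1 := orb_le_WW (G := G) (x := x) (y := y) (S := Orb G x y z) (fun w hw => Orb_not_LN hz hw)
  rw [sum_orb] at h1
  by_contra h
  push Not at h
  have h3 : (4 : ℤ) ≤ (Orb G x y z).card := by exact_mod_cast h
  have h4 : (0 : ℤ) ≤ (DS G x y).card := by positivity
  nlinarith

theorem orb_three_unique {x y : Ω} (hW : WW G x y < 2 * (DS G x y).card) {z w : Ω} (hz : z ∉ LN G x y)
    (hw : w ∉ LN G x y) (hz3 : (Orb G x y z).card = 3) (hw3 : (Orb G x y w).card = 3) : w ∈ Orb G x y z := by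
  by_contra hcon
  have hdis : Disjoint (Orb G x y z) (Orb G x y w) := by
    rw [Finset.disjoint_left]
    intro u hu hu'
    apply hcon
    rw [← Orb_eq hu, Orb_eq hu']
    exact mem_Orb_self x y w
  have h1 := orb_le_WW (G := G) (x := x) (y := y) (S := Orb G x y z ∪ Orb G x y w) (by
    intro u hu
    rcases Finset.mem_union.mp hu with h | h
    · exact Orb_not_LN hz h
    · exact Orb_not_LN hw h)
  rw [Finset.sum_union hdis, sum_orb, sum_orb, hz3, hw3] at h1
  push_cast at h1
  linarith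

/-- an element of order three moving only the points of a three-element orbit -/
theorem exists_three {x y : Ω} (hW : WW G x y < 2 * (DS G x y).card) {z : Ω} (hz : z ∉ LN G x y)
    (hz3 : (Orb G x y z).card = 3) : ∃ g ∈ DS G x y, g ≠ 1 ∧ g * g * g = 1 ∧ ∀ u, u ∉ Orb G x y z → g • u = u := by
  let D : Subgroup G := MulAction.stabilizer G x ⊓ MulAction.stabilizer G y
  have hmem : ∀ g : G, g ∈ D ↔ g ∈ DS G x y := by
    intro g; rw [mem_DS]; rfl
  have hcard : Nat.card D = (DS G x y).card := by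
    rw [Nat.card_eq_fintype_card]
    apply Fintype.card_of_subtype
    intro g; exact (hmem g).symm
  have h3 : 3 ∣ Nat.card D := by
    rw [hcard, ← orb_mul_mm (G := G) x y z, hz3]
    exact dvd_mul_right _ _
  haveI : Fact (Nat.Prime 3) := ⟨Nat.prime_three⟩
  obtain ⟨g, hg⟩ := exists_prime_orderOf_dvd_card' 3 h3
  have hg3 : (g : G) * g * g = 1 := by
    have : g ^ 3 = 1 := by rw [← hg]; exact pow_orderOf_eq_one g
    have h4 : (g : G) ^ 3 = 1 := by exact_mod_cast congrArg Subtype.val this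
    rw [← h4, pow_succ, pow_two]
  have hg1 : (g : G) ≠ 1 := by
    intro h
    have : g = 1 := Subtype.ext h
    rw [this, orderOf_one] at hg
    omega
  refine ⟨g, (hmem _).mp g.2, hg1, hg3, ?_⟩
  intro u hu
  by_contra hgu
  have huL : u ∉ LN G x y := fun h => hgu (mem_LN.mp h g ((hmem _).mp g.2))
  apply hu
  apply orb_three_unique hW hz huL hz3
  apply le_antisymm (orb_card_le hW u huL)
  have h5 : ({u, (g : G) • u, (g : G) • (g : G) • u} : Finset Ω) ⊆ Orb G x y u := by
    intro w hw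
    simp only [Finset.mem_insert, Finset.mem_singleton] at hw
    rcases hw with rfl | rfl | rfl
    · exact mem_Orb_self x y w
    · exact Finset.mem_image.mpr ⟨g, (hmem _).mp g.2, rfl⟩
    · exact Finset.mem_image.mpr ⟨g * g, DS_mul ((hmem _).mp g.2) ((hmem _).mp g.2), mul_smul _ _ _⟩
  have hggu : (g : G) • (g : G) • u ≠ u := by
    intro h
    apply hgu
    have h6 : ((g : G) * g * g) • u = u := by rw [hg3, one_smul]
    rw [mul_assoc, mul_smul, mul_smul, h] at h6
    exact h6
  have h7 : ({u, (g : G) • u, (g : G) • (g : G) • u} : Finset Ω).card = 3 := by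
    apply Finset.card_eq_three.mpr
    refine ⟨_, _, _, Ne.symm hgu, Ne.symm hggu, ?_, rfl⟩
    intro h
    exact hgu (smul_left_cancel _ h.symm)
  rw [← h7]
  exact Finset.card_le_card h5

/-- a 3-cycle in a 2-transitive group: two-point stabilizers are transitive on the other points -/
theorem jordan (h2 : Two G Ω) (hn : 7 ≤ Fintype.card Ω) {x y : Ω} (hxy : x ≠ y) {z : Ω} (hz : z ∉ LN G x y)
    (hz3 : (Orb G x y z).card = 3) {g : G} (hg1 : g ≠ 1) [FaithfulSMul G Ω] (hg3 : g * g * g = 1)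
    (hg : ∀ u, u ∉ Orb G x y z → g • u = u) : False := by
  let H : Subgroup (Equiv.Perm Ω) := (MulAction.toPermHom G Ω).range
  have hH2 : MulAction.IsMultiplyPretransitive H Ω 2 := by
    rw [MulAction.is_two_pretransitive_iff]
    intro a b c e hab hce
    obtain ⟨k, hk1, hk2⟩ := h2 a b c e hab hce
    exact ⟨⟨MulAction.toPermHom G Ω k, ⟨k, rfl⟩⟩, hk1, hk2⟩
  have hprim : MulAction.IsPreprimitive H Ω := MulAction.isPreprimitive_of_is_two_pretransitive hH2
  obtain ⟨v, hv⟩ : ∃ w : Ω, g • w ≠ w := by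
    by_contra hc
    push Not at hc
    exact hg1 (FaithfulSMul.eq_of_smul_eq_smul (fun z : Ω => by rw [hc z, one_smul]))
  have hcyc : Equiv.Perm.IsThreeCycle (MulAction.toPermHom G Ω g) := by
    rw [← card_support_eq_three_iff]
    apply le_antisymm
    · rw [← hz3]
      apply Finset.card_le_card
      intro u hu
      rw [Equiv.Perm.mem_support] at hu
      by_contra h
      exact hu (hg u h)
    · have hggv : g • g • v ≠ v := by
        intro h
        apply hv
        have h6 : (g * g * g) • v = v := by rw [hg3, one_smul]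
        rw [mul_assoc, mul_smul, mul_smul, h] at h6
        exact h6
      have h7 : ({v, g • v, g • g • v} : Finset Ω).card = 3 := by
        apply Finset.card_eq_three.mpr
        refine ⟨_, _, _, Ne.symm hv, Ne.symm hggv, ?_, rfl⟩
        intro h
        exact hv (smul_left_cancel _ h.symm)
      rw [← h7]
      apply Finset.card_le_card
      intro w hw
      simp only [Finset.mem_insert, Finset.mem_singleton] at hw
      rw [Equiv.Perm.mem_support]
      rcases hw with rfl | rfl | rfl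
      · exact hv
      · intro h; exact hv (smul_left_cancel g h)
      · intro h; exact hv (smul_left_cancel g (smul_left_cancel g h))
  have hA := Equiv.Perm.alternatingGroup_le_of_isPreprimitive_of_isThreeCycle_mem hprim hcyc
    (show MulAction.toPermHom G Ω g ∈ H from ⟨g, rfl⟩)
  have hzx : z ≠ x := by rintro rfl; exact hz (left_mem_LN _ _)
  have hzy : z ≠ y := by rintro rfl; exact hz (right_mem_LN _ _)
  obtain ⟨w, hw⟩ : ∃ w, w ∉ Orb G x y z ∪ {x, y} := by
    by_contra hc
    push Not at hc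
    have h1 : (univ : Finset Ω) ⊆ Orb G x y z ∪ {x, y} := fun w _ => hc w
    have h3 := Finset.card_le_card h1
    have h4 := Finset.card_union_le (Orb G x y z) {x, y}
    have h5 : ({x, y} : Finset Ω).card ≤ 2 := Finset.card_le_two
    rw [Finset.card_univ] at h3
    omega
  simp only [Finset.mem_union, Finset.mem_insert, Finset.mem_singleton, not_or] at hw
  have hwz : w ≠ z := by rintro rfl; exact hw.1 (mem_Orb_self x y w)
  obtain ⟨u, hu⟩ : ∃ u, u ∉ ({x, y, z, w} : Finset Ω) := by
    by_contra hc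
    push Not at hc
    have h1 : (univ : Finset Ω) ⊆ {x, y, z, w} := fun w _ => hc w
    have h3 := Finset.card_le_card h1
    have h4 : ({x, y, z, w} : Finset Ω).card ≤ 4 := Finset.card_le_four
    rw [Finset.card_univ] at h3
    omega
  simp only [Finset.mem_insert, Finset.mem_singleton, not_or] at hu
  have hτ : Equiv.swap z w * Equiv.swap w u ∈ alternatingGroup Ω := by
    rw [Equiv.Perm.mem_alternatingGroup, map_mul, Equiv.Perm.sign_swap hwz.symm, Equiv.Perm.sign_swap (Ne.symm hu.2.2.2)]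
    norm_num
  obtain ⟨k, hk⟩ := hA hτ
  have hkx : ∀ v : Ω, k • v = (Equiv.swap z w * Equiv.swap w u) v := by
    intro v; rw [← hk]; rfl
  apply hw.1
  refine Finset.mem_image.mpr ⟨k, mem_DS.mpr ⟨?_, ?_⟩, ?_⟩
  · rw [hkx, Equiv.Perm.mul_apply, Equiv.swap_apply_of_ne_of_ne (Ne.symm hw.2.1) (Ne.symm hu.1),
      Equiv.swap_apply_of_ne_of_ne hzx.symm (Ne.symm hw.2.1)]
  · rw [hkx, Equiv.Perm.mul_apply, Equiv.swap_apply_of_ne_of_ne (Ne.symm hw.2.2) (Ne.symm hu.2.1),
      Equiv.swap_apply_of_ne_of_ne hzy.symm (Ne.symm hw.2.2)]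
  · rw [hkx, Equiv.Perm.mul_apply, Equiv.swap_apply_of_ne_of_ne hwz.symm (Ne.symm hu.2.2.1),
      Equiv.swap_apply_left]

end Cfsg.Agent.H11.DR
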