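import Cfsg.Agent.H11.DR3

set_option autoImplicit false
set_option linter.all false

namespace Cfsg.Agent.H11.DR

open Finset
open scoped Classical

variable {G Ω : Type*} [Group G] [Fintype G] [MulAction G Ω] [Fintype Ω]

theorem exists_moved [FaithfulSMul G Ω] {g : G} (hg : g ≠ 1) : ∃ v : Ω, g • v ≠ v := by
  by_contra hc
  push Not at hc
  exact hg (FaithfulSMul.eq_of_smul_eq_smul (fun z : Ω => by rw [hc z, one_smul]))

/-- no faithful group of order 84 and degree 7 -/
theorem seven [FaithfulSMul G Ω] (hn : Fintype.card Ω = 7) (hG : Fintype.card G = 84) (x : Ω)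
    (htr : MulAction.IsPretransitive G Ω) : False := by
  haveI : Fact (Nat.Prime 7) := ⟨by norm_num⟩
  have P : Sylow 7 G := default
  have hGn : Nat.card G = 84 := by rw [Nat.card_eq_fintype_card, hG]
  have hP : Nat.card P = 7 := by
    rw [P.card_eq_multiplicity, hGn]
    have : (84 : ℕ).factorization 7 = 1 := by
      have h84 : (84 : ℕ) = 7 * 12 := by norm_num
      rw [h84, Nat.factorization_mul (by norm_num) (by norm_num), Finsupp.add_apply,
        Nat.Prime.factorization_self (by norm_num), Nat.factorization_eq_zero_of_not_dvd (by norm_num)]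
    rw [this, pow_one]
  have hidx : (P : Subgroup G).index = 12 := by
    have h := (P : Subgroup G).card_mul_index
    rw [hP, hGn] at h
    omega
  have hmod := card_sylow_modEq_one 7 G
  have hdvd := P.card_dvd_index
  rw [hidx] at hdvd
  have hS1 : Nat.card (Sylow 7 G) = 1 := by
    have hle := Nat.le_of_dvd (by norm_num) hdvd
    unfold Nat.ModEq at hmod
    generalize Nat.card (Sylow 7 G) = s at *
    interval_cases s <;> omega
  have hPn : (P : Subgroup G).Normal := by
    haveI : Subsingleton (Sylow 7 G) := (Nat.card_eq_one_iff_unique.mp hS1).1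
    exact Sylow.normal_of_subsingleton P
  -- P is transitive
  have hPtr : ∀ w : Ω, ∃ p ∈ (P : Subgroup G), p • x = w := by
    obtain ⟨p0, hp0, hp01⟩ : ∃ p ∈ (P : Subgroup G), p ≠ 1 := by
      by_contra hc
      push Not at hc
      have : (P : Subgroup G) = ⊥ := (Subgroup.eq_bot_iff_forall _).mpr hc
      have h3 : Nat.card (P : Subgroup G) = 1 := by rw [this]; exact Subgroup.card_bot
      have h4 : Nat.card (P : Subgroup G) = 7 := hP
      omega
    obtain ⟨v, hv⟩ := exists_moved (Ω := Ω) hp01
    have h5 : Nat.card (MulAction.orbit (P : Subgroup G) v) = 7 := by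
      have h6 : Nat.card (MulAction.orbit (P : Subgroup G) v) ∣ 7 := by
        have h7 := MulAction.card_orbit_mul_card_stabilizer_eq_card_group (P : Subgroup G) v
        have h8 : Fintype.card (P : Subgroup G) = 7 := by rw [← Nat.card_eq_fintype_card]; exact hP
        rw [h8] at h7
        rw [Nat.card_eq_fintype_card]
        exact ⟨_, h7.symm⟩
      rcases (Nat.dvd_prime (by norm_num)).mp h6 with h | h
      · exfalso
        haveI := (Nat.card_eq_one_iff_unique.mp h).1
        have h9 : (⟨(⟨p0, hp0⟩ : (P : Subgroup G)) • v, MulAction.mem_orbit _ _⟩ : MulAction.orbit (P : Subgroup G) v) =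
          ⟨v, MulAction.mem_orbit_self _⟩ := Subsingleton.elim _ _
        exact hv (congrArg Subtype.val h9)
      · exact h
    have h10 : MulAction.orbit (P : Subgroup G) v = Set.univ := by
      apply Set.eq_univ_of_forall
      have h11 : (MulAction.orbit (P : Subgroup G) v).toFinset = univ := by
        apply Finset.eq_univ_of_card
        rw [Set.toFinset_card, hn, ← Nat.card_eq_fintype_card]
        exact h5
      intro w
      rw [← Set.mem_toFinset, h11]; exact Finset.mem_univ w
    intro w
    obtain ⟨a, ha⟩ : x ∈ MulAction.orbit (P : Subgroup G) v := by rw [h10]; trivial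
    obtain ⟨b, hb⟩ : w ∈ MulAction.orbit (P : Subgroup G) v := by rw [h10]; trivial
    refine ⟨(b * a⁻¹ : (P : Subgroup G)), (b * a⁻¹).2, ?_⟩
    have ha' : (a : G) • v = x := ha
    have hb' : (b : G) • v = w := hb
    rw [Subgroup.coe_mul, Subgroup.coe_inv, mul_smul, ← ha', inv_smul_smul, hb']
  -- stabilizer embeds in the automorphism group of P
  let φ : MulAction.stabilizer G x →* MulAut (P : Subgroup G) :=
    (MulAut.conjNormal (H := (P : Subgroup G))).comp (MulAction.stabilizer G x).subtype
  have hinj : Function.Injective φ := by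
    rw [injective_iff_map_eq_one]
    intro k hk
    apply Subtype.ext
    apply FaithfulSMul.eq_of_smul_eq_smul (α := Ω)
    intro w
    obtain ⟨p, hp, rfl⟩ := hPtr w
    have h1 : (φ k) ⟨p, hp⟩ = ⟨p, hp⟩ := by rw [hk]; rfl
    have h3 : (k : G) * p * (k : G)⁻¹ = p := by
      have := congrArg Subtype.val h1
      simpa [φ, MulAut.conjNormal_apply] using this
    have h4 : (k : G) * p = p * k := by rw [mul_inv_eq_iff_eq_mul] at h3; exact h3
    have hkx : (k : G) • x = x := k.2
    show (k : G) • p • x = (1 : G) • p • x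
    rw [one_smul, ← mul_smul, h4, mul_smul, hkx]
  have hcard : Nat.card (MulAction.stabilizer G x) = 12 := by
    have h1 := MulAction.card_orbit_mul_card_stabilizer_eq_card_group G x
    have h3 : Fintype.card (MulAction.orbit G x) = 7 := by
      rw [← hn]
      have : MulAction.orbit G x = Set.univ := MulAction.orbit_eq_univ G x
      rw [← Nat.card_eq_fintype_card, this, Nat.card_univ, Nat.card_eq_fintype_card]
    rw [h3, hG] at h1
    rw [Nat.card_eq_fintype_card]
    omega
  haveI : IsCyclic (P : Subgroup G) := isCyclic_of_prime_card (p := 7) hP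
  have h6 : Nat.card (MulAut (P : Subgroup G)) = 6 := by
    rw [IsCyclic.card_mulAut]
    have : Nat.card (P : Subgroup G) = 7 := hP
    rw [this]
    rw [Nat.totient_prime (by norm_num)]
  haveI : Finite (MulAut (P : Subgroup G)) := Nat.finite_of_card_ne_zero (by rw [h6]; norm_num)
  have h7 := Nat.card_le_card_of_injective φ hinj
  rw [hcard, h6] at h7
  omega

/-- the main inequality -/
theorem main2 (h2 : Two G Ω) [FaithfulSMul G Ω] {x y : Ω} (hxy : x ≠ y) (hn : 7 ≤ Fintype.card Ω)
    (hD : 1 < (DS G x y).card) :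
    2 * ((DS G x y).card : ℚ) ≤ Fintype.card Ω * ∑ g ∈ DS G x y, 1 / ((Fx Ω g).card : ℚ) := by
  by_contra hbad
  push Not at hbad
  set n := Fintype.card Ω with hndef
  set d := (DS G x y).card with hddef
  have hn0 : (0 : ℚ) < n := by exact_mod_cast (by omega : 0 < n)
  have hd1 : (2 : ℚ) ≤ d := by exact_mod_cast hD
  -- split off the identity
  have hsplit : (n : ℚ) * ∑ g ∈ DS G x y, 1 / ((Fx Ω g).card : ℚ) =
      1 + ∑ g ∈ (DS G x y).erase 1, (n : ℚ) / (Fx Ω g).card := by
    rw [← Finset.add_sum_erase _ _ (one_mem_DS (G := G) (a := x) (b := y)), Fx_one, mul_add, Finset.mul_sum, ← hndef,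
      mul_one_div_cancel hn0.ne']
    congr 1
    apply Finset.sum_congr rfl
    intro g _
    rw [mul_one_div]
  have hcard_erase : (((DS G x y).erase 1).card : ℚ) = d - 1 := by
    rw [Finset.card_erase_of_mem one_mem_DS, Nat.cast_sub (by omega), Nat.cast_one]
  have hlow : ∀ c : ℚ, (∀ g ∈ (DS G x y).erase 1, c ≤ (n : ℚ) / (Fx Ω g).card) → 1 + (d - 1) * c < 2 * d := by
    intro c hc
    have h1 := Finset.card_nsmul_le_sum _ _ _ hc
    rw [nsmul_eq_mul, hcard_erase] at h1
    linarith
  have hFpos : ∀ g ∈ DS G x y, 2 ≤ (Fx Ω g).card := by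
    intro g hg
    have h1 : ({x, y} : Finset Ω) ⊆ Fx Ω g := by
      intro w hw
      simp only [Finset.mem_insert, Finset.mem_singleton] at hw
      rcases hw with rfl | rfl
      · exact mem_Fx.mpr (mem_DS.mp hg).1
      · exact mem_Fx.mpr (mem_DS.mp hg).2
    rw [← Finset.card_pair hxy]
    exact Finset.card_le_card h1
  have hA : ∀ g : G, g ≠ 1 → (Fx Ω g).card * ((LN G x y).card - 1) ≤ n - 1 := fun g hg => card_Fx_mul h2 hxy hg
  have hf2 : 2 ≤ (LN G x y).card := by
    rw [← Finset.card_pair hxy]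
    apply Finset.card_le_card
    intro w hw
    simp only [Finset.mem_insert, Finset.mem_singleton] at hw
    rcases hw with rfl | rfl
    · exact left_mem_LN _ _
    · exact right_mem_LN _ _
  -- f ≤ 3
  have hf3 : (LN G x y).card ≤ 3 := by
    by_contra hf
    push Not at hf
    have h1 := hlow 3 (by
      intro g hg
      have hg' := Finset.mem_erase.mp hg
      have h3 := hA g hg'.1
      have h4 : (Fx Ω g).card * 3 ≤ (Fx Ω g).card * ((LN G x y).card - 1) := Nat.mul_le_mul_left _ (by omega)
      have h5 : (Fx Ω g).card * 3 ≤ n := by omega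
      have h6 := hFpos g hg'.2
      rw [le_div_iff₀ (by exact_mod_cast (by omega : 0 < (Fx Ω g).card))]
      have : (((Fx Ω g).card * 3 : ℕ) : ℚ) ≤ n := by exact_mod_cast h5
      push_cast at this
      linarith)
    linarith
  -- if f = 3 then 2 d ≤ n
  have hf3d : (LN G x y).card = 3 → 2 * d ≤ n := by
    intro hf
    by_contra hcon
    push Not at hcon
    have hn1 : (0 : ℚ) < n - 1 := by
      have : (7 : ℚ) ≤ n := by exact_mod_cast hn
      linarith
    have h1 := hlow (2 * n / (n - 1)) (by
      intro g hg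
      have hg' := Finset.mem_erase.mp hg
      have h3 := hA g hg'.1
      rw [hf] at h3
      have h6 := hFpos g hg'.2
      have hF : (0 : ℚ) < (Fx Ω g).card := by exact_mod_cast (by omega : 0 < (Fx Ω g).card)
      rw [div_le_div_iff₀ hn1 hF]
      have h7 : (((Fx Ω g).card * 2 + 1 : ℕ) : ℚ) ≤ n := by exact_mod_cast (by omega : (Fx Ω g).card * 2 + 1 ≤ n)
      push_cast at h7
      nlinarith)
    have h3 : (n : ℚ) + 1 ≤ 2 * d := by exact_mod_cast hcon
    have h4 : (d - 1 : ℚ) * (2 * n / (n - 1)) * (n - 1) = (d - 1) * (2 * n) := by field_simp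
    have h5 : (1 + (d - 1 : ℚ) * (2 * n / (n - 1))) * (n - 1) < 2 * d * (n - 1) := mul_lt_mul_of_pos_right h1 hn1
    have h6 : (1 + (d - 1 : ℚ) * (2 * n / (n - 1))) * (n - 1) = (n - 1) + (d - 1) * (2 * n) := by
      rw [add_mul, h4, one_mul]
    rw [h6] at h5
    nlinarith
  -- tangent
  have htan : (n : ℚ) * (2 * d + 1) < 4 * ∑ g ∈ DS G x y, ((Fx Ω g).card : ℚ) := by
    have h1 : ∑ g ∈ (DS G x y).erase 1, (4 - 4 * ((Fx Ω g).card : ℚ) / n) ≤ ∑ g ∈ (DS G x y).erase 1, (n : ℚ) / (Fx Ω g).card := by
      apply Finset.sum_le_sum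
      intro g hg
      have hg' := Finset.mem_erase.mp hg
      have h6 := hFpos g hg'.2
      have hF : (0 : ℚ) < (Fx Ω g).card := by exact_mod_cast (by omega : 0 < (Fx Ω g).card)
      rw [le_div_iff₀ hF]
      have h7 : (4 - 4 * ((Fx Ω g).card : ℚ) / n) * (Fx Ω g).card = n - (n - 2 * (Fx Ω g).card) ^ 2 / n := by
        field_simp; ring
      rw [h7]
      have h8 : 0 ≤ ((n : ℚ) - 2 * (Fx Ω g).card) ^ 2 / n := by positivity
      linarith
    rw [Finset.sum_sub_distrib, Finset.sum_const, nsmul_eq_mul, hcard_erase, ← Finset.sum_div, ← Finset.mul_sum] at h1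
    have h3 : ∑ g ∈ DS G x y, ((Fx Ω g).card : ℚ) = n + ∑ g ∈ (DS G x y).erase 1, ((Fx Ω g).card : ℚ) := by
      rw [← Finset.add_sum_erase _ _ (one_mem_DS (G := G) (a := x) (b := y)), Fx_one]
    rw [hsplit] at hbad
    have h4 : 1 + ((d - 1 : ℚ) * 4 - 4 * (∑ g ∈ (DS G x y).erase 1, ((Fx Ω g).card : ℚ)) / n) < 2 * d := by linarith
    have h5 := mul_lt_mul_of_pos_right h4 hn0
    have h6 : (1 + ((d - 1 : ℚ) * 4 - 4 * (∑ g ∈ (DS G x y).erase 1, ((Fx Ω g).card : ℚ)) / n)) * n =
        n + (d - 1) * 4 * n - 4 * (∑ g ∈ (DS G x y).erase 1, ((Fx Ω g).card : ℚ)) := by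
      field_simp
      ring
    rw [h6] at h5
    rw [h3]
    linarith
  have hW : WW G x y < 2 * (DS G x y).card := by
    have h1 := two_sum_eq (G := G) x y
    have h3 : ((n : ℤ)) * (2 * d + 1) < 4 * ∑ g ∈ DS G x y, ((Fx Ω g).card : ℤ) := by exact_mod_cast htan
    rw [← hndef, ← hddef] at h1
    rw [← hddef]
    have h4 : 2 * WW G x y < 2 * (LN G x y).card * d - n := by linarith
    have hnpos : (0 : ℤ) < n := by exact_mod_cast (by omega : 0 < n)
    rcases (show (LN G x y).card = 2 ∨ (LN G x y).card = 3 by omega) with hf | hf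
    · rw [hf] at h4; push_cast at h4; linarith
    · have h5 : (2 * d : ℤ) ≤ n := by exact_mod_cast hf3d hf
      rw [hf] at h4; push_cast at h4; linarith
  -- no orbits of length three
  have hno3 : ∀ z, z ∉ LN G x y → (Orb G x y z).card ≤ 2 := by
    intro z hz
    by_contra hcon
    have hz3 : (Orb G x y z).card = 3 := le_antisymm (orb_card_le hW z hz) (by omega)
    obtain ⟨g, hg, hg1, hg3, hgo⟩ := exists_three hW hz hz3
    rcases (show (LN G x y).card = 2 ∨ (LN G x y).card = 3 by omega) with hf | hf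
    · exact jordan h2 hn hxy hz hz3 hg1 hg3 hgo
    · have h1 := hA g hg1
      rw [hf] at h1
      have h3 : n - 3 ≤ (Fx Ω g).card := by
        have h4 : univ \ Orb G x y z ⊆ Fx Ω g := by
          intro u hu
          exact mem_Fx.mpr (hgo u (Finset.mem_sdiff.mp hu).2)
        have h5 := Finset.card_le_card h4
        rw [Finset.card_sdiff_of_subset (Finset.subset_univ _), Finset.card_univ, hz3] at h5
        exact h5
      omega
  -- all orbits have length at most two
  have hH0 : ∀ z : Ω, ∀ g ∈ DS G x y, ∀ h ∈ DS G x y, g • z ≠ z → h • z ≠ z → g • z = h • z := by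
    intro z g hg h hh hgz hhz
    by_contra hne
    have hzL : z ∉ LN G x y := fun hc => hgz (mem_LN.mp hc g hg)
    have h1 := hno3 z hzL
    have h3 : ({z, g • z, h • z} : Finset Ω).card = 3 :=
      Finset.card_eq_three.mpr ⟨_, _, _, Ne.symm hgz, Ne.symm hhz, hne, rfl⟩
    have h4 : ({z, g • z, h • z} : Finset Ω) ⊆ Orb G x y z := by
      intro w hw
      simp only [Finset.mem_insert, Finset.mem_singleton] at hw
      rcases hw with rfl | rfl | rfl
      · exact mem_Orb_self x y w
      · exact Finset.mem_image.mpr ⟨g, hg, rfl⟩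
      · exact Finset.mem_image.mpr ⟨h, hh, rfl⟩
    have h5 := Finset.card_le_card h4
    omega
  have hH : ∀ a b : Ω, a ≠ b → ∀ z : Ω, ∀ g ∈ DS G a b, ∀ h ∈ DS G a b, g • z ≠ z → h • z ≠ z → g • z = h • z := by
    intro a b hab z g hg h hh hgz hhz
    obtain ⟨k, hk1, hk2⟩ := h2 x y a b hxy hab
    have hc : ∀ g ∈ DS G a b, k⁻¹ * g * k ∈ DS G x y := by
      intro g hg
      refine mem_DS.mpr ⟨?_, ?_⟩
      · rw [mul_smul, hk1, mul_smul, (mem_DS.mp hg).1, ← hk1, inv_smul_smul]
      · rw [mul_smul, hk2, mul_smul, (mem_DS.mp hg).2, ← hk2, inv_smul_smul]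
    have hv : ∀ g : G, (k⁻¹ * g * k) • k⁻¹ • z = k⁻¹ • g • z := by
      intro g
      rw [mul_smul, smul_inv_smul, mul_smul]
    have h1 := hH0 (k⁻¹ • z) _ (hc g hg) _ (hc h hh) (by
      rw [hv]; intro hcc; exact hgz (smul_left_cancel _ hcc)) (by
      rw [hv]; intro hcc; exact hhz (smul_left_cancel _ hcc))
    rw [hv, hv] at h1
    exact smul_left_cancel _ h1
  have hd2 : d = 2 := le_antisymm (card_le_two h2 hxy hH) hD
  -- the group of order two
  obtain ⟨g, hg, hg1⟩ := Finset.exists_mem_ne (show 1 < (DS G x y).card from hD) (1 : G)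
  have hDS : DS G x y = {1, g} := by
    symm
    apply Finset.eq_of_subset_of_card_le
    · intro k hk
      simp only [Finset.mem_insert, Finset.mem_singleton] at hk
      rcases hk with rfl | rfl
      · exact one_mem_DS
      · exact hg
    · rw [Finset.card_pair (Ne.symm hg1)]; exact le_of_eq hd2
  have hLF : LN G x y = Fx Ω g := by
    ext z
    rw [mem_LN, mem_Fx, hDS]
    simp only [Finset.mem_insert, Finset.mem_singleton]
    constructor
    · intro h; exact h g (Or.inr rfl)
    · intro h k hk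
      rcases hk with rfl | rfl
      · exact one_smul _ _
      · exact h
  have hlt : n < 3 * (LN G x y).card := by
    by_contra hcon
    push Not at hcon
    have h1 := hlow 3 (by
      intro k hk
      have hk' := Finset.mem_erase.mp hk
      rw [hDS] at hk'
      simp only [Finset.mem_insert, Finset.mem_singleton] at hk'
      have hkg : k = g := hk'.2.resolve_left hk'.1
      rw [hkg, ← hLF, le_div_iff₀ (by exact_mod_cast (by omega : 0 < (LN G x y).card))]
      exact_mod_cast hcon)
    linarith
  have hf : (LN G x y).card = 3 := by omega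
  have hcG := card_G_eq h2 hxy (by omega)
  rw [← hndef, ← hddef, hd2] at hcG
  rcases (show n = 7 ∨ n = 8 by omega) with h7 | h8
  · rw [h7] at hcG
    exact seven (hndef ▸ h7) (by rw [hcG]) x (h2.pretransitive (by omega))
  · have hgg : g * g = 1 := by
      have h1 := DS_mul hg hg
      rw [hDS] at h1
      simp only [Finset.mem_insert, Finset.mem_singleton] at h1
      rcases h1 with h | h
      · exact h
      · exact absurd (mul_eq_left.mp h) hg1
    have h1 : (MulAction.toPermHom G Ω g) ^ 2 = 1 := by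
      rw [← map_pow, pow_two, hgg, map_one]
    have h3 := Equiv.Perm.two_dvd_card_support h1
    have h4 : (MulAction.toPermHom G Ω g).support = univ \ Fx Ω g := by
      ext z
      rw [Equiv.Perm.mem_support, Finset.mem_sdiff, mem_Fx]
      simp
    rw [h4, Finset.card_sdiff_of_subset (Finset.subset_univ _), Finset.card_univ, ← hLF, hf, ← hndef, h8] at h3
    omega

theorem der_eq_natCard : Nat.card {g : G // ∀ ω : Ω, g • ω ≠ ω} = der G Ω := by
  rw [Nat.card_eq_fintype_card, Fintype.card_subtype]
  unfold der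
  congr!

theorem main {G Ω : Type*} [Group G] [Finite G] [MulAction G Ω] [FaithfulSMul G Ω] [Fintype Ω] (htr : MulAction.IsPretransitive G Ω) (hn : 7 ≤ Fintype.card Ω) :
    (∃ a : ℕ, (a = 1 ∨ a = 2) ∧ (MulAction.IsPretransitive G Ω ∧ (∃ g : G, g ≠ 1 ∧ ∃ ω : Ω, g • ω = ω) ∧ ∀ g : G, g ≠ 1 → Nat.card (MulAction.fixedBy Ω g) ≤ 1) ∧ a * Nat.card G = Fintype.card Ω * (Fintype.card Ω - 1) ∧ Fintype.card Ω * Nat.card {g : G // ∀ ω : Ω, g • ω ≠ ω} = a * Nat.card G) ∨
    2 * Nat.card G ≤ Fintype.card Ω * Nat.card {g : G // ∀ ω : Ω, g • ω ≠ ω} := by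
  haveI : Fintype G := Fintype.ofFinite G
  obtain ⟨x, y, hxy⟩ := Fintype.exists_pair_of_one_lt_card (show 1 < Fintype.card Ω by omega)
  haveI : Nonempty Ω := ⟨x⟩
  rw [der_eq_natCard, Nat.card_eq_fintype_card]
  by_cases h2 : Two G Ω
  swap
  · exact Or.inr (not_two htr h2)
  have hcG := card_G_eq h2 hxy (by omega)
  have hder := der_eq h2 hxy (by omega)
  have hn0 : (0 : ℚ) < Fintype.card Ω := by exact_mod_cast (by omega : 0 < Fintype.card Ω)
  have hdpos : 0 < (DS G x y).card := Finset.card_pos.mpr ⟨1, one_mem_DS⟩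
  have hsub : ((Fintype.card Ω - 1 : ℕ) : ℚ) = (Fintype.card Ω : ℚ) - 1 := by
    rw [Nat.cast_sub (by omega), Nat.cast_one]
  by_cases hD : 1 < (DS G x y).card
  · right
    have h := main2 h2 hxy hn hD
    have h1 : (2 * Fintype.card G : ℚ) ≤ Fintype.card Ω * der G Ω := by
      have hn1 : (0 : ℚ) ≤ (Fintype.card Ω : ℚ) - 1 := by
        have : (7 : ℚ) ≤ Fintype.card Ω := by exact_mod_cast hn
        linarith
      rw [hcG, hder]
      push_cast
      rw [hsub]
      have h3 := mul_le_mul_of_nonneg_left h (mul_nonneg hn0.le hn1)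
      nlinarith
    exact_mod_cast h1
  · left
    have hd1 : (DS G x y).card = 1 := by omega
    refine ⟨1, Or.inl rfl, ⟨htr, ?_, ?_⟩, ?_, ?_⟩
    · -- a nonidentity element with a fixed point
      obtain ⟨z, hz⟩ : ∃ z, z ∉ ({x, y} : Finset Ω) := by
        by_contra hc
        push Not at hc
        have h3 := Finset.card_le_card (show (univ : Finset Ω) ⊆ {x, y} from fun w _ => hc w)
        have h5 : ({x, y} : Finset Ω).card ≤ 2 := Finset.card_le_two
        rw [Finset.card_univ] at h3
        omega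
      simp only [Finset.mem_insert, Finset.mem_singleton, not_or] at hz
      obtain ⟨g, hg1, hg2⟩ := h2 x y x z hxy (Ne.symm hz.1)
      refine ⟨g, ?_, x, hg1⟩
      rintro rfl
      rw [one_smul] at hg2
      exact hz.2 hg2.symm
    · intro g hg
      rw [Nat.card_eq_fintype_card, card_Fx_eq]
      by_contra hcon
      push Not at hcon
      obtain ⟨a, ha, b, hb, hab⟩ := Finset.one_lt_card.mp hcon
      have h3 : 1 < (DS G a b).card := by
        rw [Finset.one_lt_card]
        exact ⟨g, mem_DS.mpr ⟨mem_Fx.mp ha, mem_Fx.mp hb⟩, 1, one_mem_DS, hg⟩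
      rw [card_DS h2 hab hxy] at h3
      exact hD h3
    · rw [hcG, hd1, one_mul, mul_one]
    · have hDS : DS G x y = {1} := by
        obtain ⟨a, ha⟩ := Finset.card_eq_one.mp hd1
        have h3 : (1 : G) ∈ DS G x y := one_mem_DS
        rw [ha, Finset.mem_singleton] at h3
        rw [ha, ← h3]
      rw [hDS, Finset.sum_singleton, Fx_one] at hder
      have h3 : (Fintype.card Ω * der G Ω : ℚ) = 1 * Fintype.card G := by
        rw [hcG, hd1, hder]
        push_cast
        rw [hsub]
        field_simp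
      exact_mod_cast h3

end Cfsg.Agent.H11.DR
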