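import Cfsg.Agent.H25.FrobSylow
import Cfsg.Agent.H23.Nilp
import Cfsg.Agent.H1.Cores

set_option autoImplicit false

/-! S4155: equal order pairs. -/

namespace Cfsg.Agent.H11.EqOrd

open Subgroup Cfsg.Agent

universe u v

/-- a `p`-group acting freely on a nontrivial `p'`-group -/
theorem fpf_pgroup {X : Type u} [Group X] [Finite X] {M : Subgroup X} (hM : M ≠ ⊥) {p : ℕ}
    [Fact p.Prime] (hpM : ¬ p ∣ Nat.card M)
    {P : Type v} [Group P] [Finite P] (hP : IsPGroup p P) (f : P →* X)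
    (hf : Function.Injective f) (hn : ∀ x, f x ∈ normalizer (M : Set X))
    (hfpf : ∀ x : P, x ≠ 1 → M ⊓ centralizer ({f x} : Set X) = ⊥) :
    IsCyclic P ∨ (p = 2 ∧ ∃ n, 1 ≤ n ∧ Nonempty (P ≃* QuaternionGroup (2 ^ n))) := by
  apply H23.cyclic_or_quaternion hP
  have hcyc : ∀ A : Subgroup P, IsMulCommutative A → IsCyclic A := by
    intro A hA
    by_contra hnc
    have hAf : IsMulCommutative (A.map f) := by
      constructor
      constructor
      rintro ⟨_, a, ha, rfl⟩ ⟨_, b, hb, rfl⟩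
      apply Subtype.ext
      show f a * f b = f b * f a
      have h1 : (⟨a, ha⟩ : A) * ⟨b, hb⟩ = ⟨b, hb⟩ * ⟨a, ha⟩ := hA.is_comm.comm _ _
      have h2 : a * b = b * a := congrArg Subtype.val h1
      rw [← map_mul, h2, map_mul]
    have hncf : ¬ IsCyclic (A.map f) := by
      intro hc
      apply hnc
      exact (A.equivMapOfInjective f hf).isCyclic.2 hc
    have hcop : (Nat.card (A.map f)).Coprime (Nat.card M) := by
      have h1 : Nat.card (A.map f) = Nat.card A :=
        (Nat.card_congr (A.equivMapOfInjective f hf).toEquiv).symm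
      obtain ⟨n, hn'⟩ := (hP.to_subgroup A).exists_card_eq
      rw [h1, hn']
      exact Nat.Coprime.pow_left n ((Nat.Prime.coprime_iff_not_dvd Fact.out).2 hpM)
    have h1 := H23.iSup_centralizer_of_not_isCyclic hAf hncf (by
      rintro _ ⟨a, -, rfl⟩
      exact hn a) hcop
    have h2 : ∀ a : {a : X // a ∈ A.map f ∧ a ≠ 1}, M ⊓ centralizer ({(a : X)} : Set X) = ⊥ := by
      rintro ⟨_, ⟨a, haA, rfl⟩, ha1⟩
      exact hfpf a fun h => ha1 (by rw [h, map_one])
    rw [iSup_congr h2, iSup_bot] at h1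
    exact hM h1.symm
  have key : ∀ x z : P, Commute x z → orderOf x = p → orderOf z = p →
      Subgroup.zpowers x = Subgroup.zpowers z := by
    intro x z hxz hx hz
    let A : Subgroup P := closure {x, z}
    have hAc : IsMulCommutative A := by
      apply isMulCommutative_closure
      rintro a (rfl | ha) b (rfl | hb)
      · rfl
      · rw [Set.mem_singleton_iff.1 hb, hxz.eq]
      · rw [Set.mem_singleton_iff.1 ha, hxz.eq]
      · rw [Set.mem_singleton_iff.1 ha, Set.mem_singleton_iff.1 hb]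
    haveI := hcyc A hAc
    have hxA : x ∈ A := subset_closure (by simp)
    have hzA : z ∈ A := subset_closure (by simp)
    have h1 : Subgroup.zpowers (⟨x, hxA⟩ : A) = Subgroup.zpowers (⟨z, hzA⟩ : A) := by
      apply H2.zpowers_eq_of_orderOf_eq
      rw [Subgroup.orderOf_mk, Subgroup.orderOf_mk, hx, hz]
    have := congrArg (Subgroup.map A.subtype) h1
    rwa [MonoidHom.map_zpowers, MonoidHom.map_zpowers] at this
  intro x y hx hy
  haveI : Nontrivial P := by
    refine ⟨x, 1, ?_⟩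
    rintro rfl
    rw [orderOf_one] at hx
    exact (Fact.out : p.Prime).one_lt.ne hx
  haveI := hP.center_nontrivial
  obtain ⟨z, hz⟩ := exists_prime_orderOf_dvd_card' (G := Subgroup.center P) p (by
    have h1 := (hP.to_subgroup (Subgroup.center P)).card_eq_or_dvd
    rcases h1 with h1 | h1
    · exact absurd h1 (Finite.one_lt_card_iff_nontrivial.2 this).ne'
    · exact h1)
  have hz' : orderOf (z : P) = p := by rw [Subgroup.orderOf_coe, hz]
  have e1 := key x z (Subgroup.mem_center_iff.1 z.2 x) hx hz'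
  have e2 := key y z (Subgroup.mem_center_iff.1 z.2 y) hy hz'
  rw [e1, ← e2]
  exact Subgroup.mem_zpowers y

/-- homs with the same kernel have isomorphic ranges -/
theorem range_equiv {P A B : Type*} [Group P] [Group A] [Group B] (f : P →* A) (g : P →* B)
    (h : f.ker = g.ker) : Nonempty (f.range ≃* g.range) :=
  ⟨((QuotientGroup.quotientKerEquivRange f).symm.trans
    (QuotientGroup.quotientMulEquivOfEq h)).trans (QuotientGroup.quotientKerEquivRange g)⟩

variable {G : Type u} [Group G] [Finite G] {N : Subgroup G} [hNn : N.Normal]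

omit [Finite G] hNn in
theorem fpf (heq : ∀ x : G, x ∉ N → ∀ n ∈ N, orderOf (x * n) = orderOf x) {q : ℕ}
    (hq : q.Prime) {x : G} (hx : ∃ k : ℕ, orderOf x = q ^ k) (hxN : x ∉ N) {m : G} (hm : m ∈ N)
    (hqm : ¬ q ∣ orderOf m) (hc : Commute x m) : m = 1 := by
  obtain ⟨k, hk⟩ := hx
  have h1 := heq x hxN m hm
  have hcop : (orderOf x).Coprime (orderOf m) := by
    rw [hk]
    exact Nat.Coprime.pow_left k ((Nat.Prime.coprime_iff_not_dvd hq).2 hqm)
  rw [hc.orderOf_mul_eq_mul_orderOf_of_coprime hcop] at h1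
  have h2 : 0 < orderOf x := by rw [hk]; exact pow_pos hq.pos k
  have h3 : orderOf x * orderOf m = orderOf x * 1 := by rw [h1, mul_one]
  exact orderOf_eq_one_iff.1 (Nat.eq_of_mul_eq_mul_left h2 h3)

/-- another prime -/
theorem exists_prime_ne (hN1 : N ≠ ⊥) (hnpp : ¬ IsPrimePow (Nat.card N)) (q : ℕ) :
    ∃ r : ℕ, r.Prime ∧ r ≠ q ∧ r ∣ Nat.card N := by
  by_contra hcon
  push Not at hcon
  have h1 : 1 < Nat.card N := (one_lt_card_iff_ne_bot N).2 hN1
  obtain ⟨p, hp, hpd⟩ := Nat.exists_prime_and_dvd h1.ne'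
  have hpq : p = q := by
    by_contra h
    exact hcon p hp h hpd
  apply hnpp
  rw [isPrimePow_nat_iff]
  have h2 : Nat.card N = p ^ (Nat.card N).primeFactorsList.length := by
    apply Nat.eq_prime_pow_of_unique_prime_dvd (by omega)
    intro d hd hdd
    by_contra h
    exact hcon d hd (fun h' => h (by rw [h', hpq])) hdd
  refine ⟨p, (Nat.card N).primeFactorsList.length, hp, ?_, h2.symm⟩
  rw [Nat.pos_iff_ne_zero]
  intro h3
  rw [h3, pow_zero] at h2
  omega

theorem fitting_eq (hN1 : N ≠ ⊥)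
    (heq : ∀ x : G, x ∉ N → ∀ n ∈ N, orderOf (x * n) = orderOf x)
    (hnil : Group.IsNilpotent N) (hnpp : ¬ IsPrimePow (Nat.card N)) :
    N = Cfsg.fittingSubgroup G := by
  apply le_antisymm (H1.le_fitting hNn hnil)
  apply H23.le_of_forall_isSylowOf_le
  intro q hq
  obtain ⟨P, hP⟩ := H23.exists_isSylowOf q (Cfsg.fittingSubgroup G)
  refine ⟨P, hP, fun x hx => ?_⟩
  by_contra hxN
  obtain ⟨r, hr, hrq, hrd⟩ := exists_prime_ne hN1 hnpp q
  haveI : Fact r.Prime := ⟨hr⟩
  obtain ⟨m, hm⟩ := exists_prime_orderOf_dvd_card' (G := N) r hrd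
  have hmF : (m : G) ∈ Cfsg.fittingSubgroup G := H1.le_fitting hNn hnil m.2
  have hxF : x ∈ Cfsg.fittingSubgroup G := hP.le hx
  have hxq : IsPGroup q (zpowers x) := H23.isPGroup_zpowers_of_mem hP.isPGroup hx
  have hmr : IsPGroup r (zpowers (m : G)) := by
    apply IsPGroup.of_card (n := 1)
    rw [Nat.card_zpowers, Subgroup.orderOf_coe, hm, pow_one]
  have hc : Commute (⟨x, hxF⟩ : Cfsg.fittingSubgroup G) ⟨m, hmF⟩ := by
    apply H23.commute_of_isNilpotent (H1.fitting_isNilpotent G) (Ne.symm hrq)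
    · obtain ⟨k, hk⟩ := hxq.exists_card_eq
      apply IsPGroup.of_card (n := k)
      rw [Nat.card_zpowers, Subgroup.orderOf_mk, ← Nat.card_zpowers, hk]
    · apply IsPGroup.of_card (n := 1)
      rw [Nat.card_zpowers, Subgroup.orderOf_mk, Subgroup.orderOf_coe, hm, pow_one]
  have hc' : Commute x (m : G) := congrArg Subtype.val hc
  obtain ⟨k, hk⟩ := hxq.exists_card_eq
  rw [Nat.card_zpowers] at hk
  have h1 := fpf heq hq.out ⟨k, hk⟩ hxN m.2 (by
    rw [Subgroup.orderOf_coe, hm]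
    intro h2
    exact hrq ((Nat.prime_dvd_prime_iff_eq hq.out hr).1 h2).symm) hc'
  have h2 : m = 1 := Subtype.ext h1
  rw [h2, orderOf_one] at hm
  exact hr.one_lt.ne hm

/-- a `q`-element of `N` lies in `O_q(N)` -/
theorem mem_core (hnil : Group.IsNilpotent N) {q : ℕ} [hq : Fact q.Prime] {x : G} (hx : x ∈ N)
    (hxq : IsPGroup q (zpowers x)) : x ∈ (Cfsg.pCore q N).map N.subtype := by
  have h1 : IsPGroup q (zpowers (⟨x, hx⟩ : N)) := by
    obtain ⟨k, hk⟩ := hxq.exists_card_eq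
    apply IsPGroup.of_card (n := k)
    rw [Nat.card_zpowers, Subgroup.orderOf_mk, ← Nat.card_zpowers, hk]
  obtain ⟨P, hP⟩ := h1.exists_le_sylow
  have hPn : (P : Subgroup N).Normal := H1.isNilpotent_iff_sylow_normal.mp hnil q hq P
  exact ⟨_, H1.le_pCore hPn P.isPGroup' (hP (mem_zpowers _)), rfl⟩

theorem sylow_quot (hN1 : N ≠ ⊥)
    (heq : ∀ x : G, x ∉ N → ∀ n ∈ N, orderOf (x * n) = orderOf x)
    (hnil : Group.IsNilpotent N) (hnpp : ¬ IsPrimePow (Nat.card N))
    (q : ℕ) [hq : Fact q.Prime] (Q : Sylow q (G ⧸ N)) :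
    IsCyclic (Q : Subgroup (G ⧸ N)) ∨
      ∃ n : ℕ, Nonempty ((Q : Subgroup (G ⧸ N)) ≃* QuaternionGroup (2 ^ n)) := by
  classical
  obtain ⟨r, hr, hrq, hrd⟩ := exists_prime_ne hN1 hnpp q
  haveI : Fact r.Prime := ⟨hr⟩
  have hnormal : ∀ (s : ℕ), ((Cfsg.pCore s N).map N.subtype).Normal := by
    intro s
    haveI : (Cfsg.pCore s N).Characteristic := inferInstance
    have h1 := H23.normalizer_le_normalizer_map (Cfsg.pCore s N)
    rw [Subgroup.normalizer_eq_top (H := N), top_le_iff] at h1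
    exact Subgroup.normalizer_eq_top_iff.1 h1
  obtain ⟨K, hK⟩ : ∃ K, K = (Cfsg.pCore q N).map N.subtype := ⟨_, rfl⟩
  obtain ⟨M, hM⟩ : ∃ M, M = (Cfsg.pCore r N).map N.subtype := ⟨_, rfl⟩
  haveI hKn : K.Normal := hK ▸ hnormal q
  haveI hMn : M.Normal := hM ▸ hnormal r
  have hKN : K ≤ N := hK ▸ Subgroup.map_subtype_le _
  have hMN : M ≤ N := hM ▸ Subgroup.map_subtype_le _
  have hKq : IsPGroup q K := by rw [hK]; exact (H1.pCore_isPGroup q N).map _
  have hMr : IsPGroup r M := by rw [hM]; exact (H1.pCore_isPGroup r N).map _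
  have hMq : ¬ q ∣ Nat.card M := by
    obtain ⟨k, hk⟩ := hMr.exists_card_eq
    rw [hk]
    intro h
    exact hrq ((Nat.prime_dvd_prime_iff_eq hq.out hr).1 (hq.out.dvd_of_dvd_pow h)).symm
  have hdisj : K ⊓ M = ⊥ := (IsPGroup.disjoint_of_ne q r (Ne.symm hrq) _ _ hKq hMr).eq_bot
  obtain ⟨m₀, hm₀⟩ := exists_prime_orderOf_dvd_card' (G := N) r hrd
  have hm₀M : (m₀ : G) ∈ M := by
    rw [hM]
    apply mem_core hnil m₀.2
    apply IsPGroup.of_card (n := 1)
    rw [Nat.card_zpowers, Subgroup.orderOf_coe, hm₀, pow_one]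
  have hm₀1 : (m₀ : G) ≠ 1 := by
    intro h
    rw [← Subgroup.orderOf_coe, h, orderOf_one] at hm₀
    exact hr.one_lt.ne hm₀
  -- a Sylow subgroup of `G`
  obtain ⟨P⟩ : Nonempty (Sylow q G) := inferInstance
  have hPorder : ∀ x ∈ (P : Subgroup G), IsPGroup q (zpowers x) := fun x hx =>
    H23.isPGroup_zpowers_of_mem P.isPGroup' hx
  let f₁ : P →* G ⧸ N := (QuotientGroup.mk' N).comp (P : Subgroup G).subtype
  let f₂ : P →* G ⧸ K := (QuotientGroup.mk' K).comp (P : Subgroup G).subtype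
  have hk1 : ∀ x : P, f₁ x = 1 ↔ (x : G) ∈ N := fun x => QuotientGroup.eq_one_iff _
  have hk2 : ∀ x : P, f₂ x = 1 ↔ (x : G) ∈ K := fun x => QuotientGroup.eq_one_iff _
  have hkk : ∀ x : P, (x : G) ∈ N → (x : G) ∈ K := by
    intro x hx
    rw [hK]
    exact mem_core hnil hx (hPorder x x.2)
  have hker : f₁.ker = f₂.ker := by
    ext x
    rw [MonoidHom.mem_ker, MonoidHom.mem_ker, hk1, hk2]
    exact ⟨hkk x, fun h => hKN h⟩
  obtain ⟨e₁⟩ := range_equiv f₁ f₂ hker
  -- the Sylow subgroup of the quotient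
  have hsurj : Function.Surjective (QuotientGroup.mk' N) := QuotientGroup.mk'_surjective N
  have hrange : f₁.range = ((P.mapSurjective hsurj : Sylow q (G ⧸ N)) : Subgroup (G ⧸ N)) := by
    rw [Sylow.coe_mapSurjective, MonoidHom.range_comp, Subgroup.range_subtype]
  have e₂ : (Q : Subgroup (G ⧸ N)) ≃* f₁.range :=
    (Sylow.equiv Q (P.mapSurjective hsurj)).trans (MulEquiv.subgroupCongr hrange.symm)
  have e : (Q : Subgroup (G ⧸ N)) ≃* f₂.range := e₂.trans e₁
  -- the free action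
  have hrp : IsPGroup q f₂.range := by
    rw [MonoidHom.range_eq_map]
    exact (P.isPGroup'.of_equiv Subgroup.topEquiv.symm).map _
  have hMb : M.map (QuotientGroup.mk' K) ≠ ⊥ := by
    intro h
    have h1 : (QuotientGroup.mk' K) (m₀ : G) ∈ M.map (QuotientGroup.mk' K) := ⟨_, hm₀M, rfl⟩
    rw [h, Subgroup.mem_bot] at h1
    have h2 : (m₀ : G) ∈ K := (QuotientGroup.eq_one_iff _).1 h1
    have h3 : (m₀ : G) ∈ K ⊓ M := ⟨h2, hm₀M⟩
    rw [hdisj] at h3
    exact hm₀1 h3
  have hMbq : ¬ q ∣ Nat.card (M.map (QuotientGroup.mk' K)) := by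
    intro h
    exact hMq (h.trans (Subgroup.card_map_dvd _ _))
  have hres := fpf_pgroup hMb hMbq hrp f₂.range.subtype (Subgroup.subtype_injective _)
    (fun x => by
      haveI : (M.map (QuotientGroup.mk' K)).Normal := hMn.map _ (QuotientGroup.mk'_surjective K)
      rw [Subgroup.normalizer_eq_top]; exact mem_top _)
    (by
      rintro ⟨_, x, rfl⟩ hx1
      rw [eq_bot_iff]
      rintro _ ⟨⟨m, hm, rfl⟩, hc⟩
      have hxN : (x : G) ∉ N := by
        intro h
        apply hx1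
        apply Subtype.ext
        exact (hk2 x).2 (hkk x h)
      have hc1 : (QuotientGroup.mk' K) m * f₂ x = f₂ x * (QuotientGroup.mk' K) m :=
        Subgroup.mem_centralizer_singleton_iff.1 hc
      have hc2 : (QuotientGroup.mk' K) (m * (x : G)) = (QuotientGroup.mk' K) ((x : G) * m) := by
        rw [map_mul, map_mul]; exact hc1
      have hc3 : ((x : G) * m)⁻¹ * (m * (x : G)) ∈ K := QuotientGroup.eq.1 hc2.symm
      have hc4 : ((x : G) * m)⁻¹ * (m * (x : G)) ∈ M := by
        have e1 : ((x : G) * m)⁻¹ * (m * (x : G)) = m⁻¹ * ((x : G)⁻¹ * m * ((x : G)⁻¹)⁻¹) := by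
          group
        rw [e1]
        exact M.mul_mem (M.inv_mem hm) (hMn.conj_mem m hm _)
      have hc5 : ((x : G) * m)⁻¹ * (m * (x : G)) ∈ K ⊓ M := ⟨hc3, hc4⟩
      rw [hdisj, Subgroup.mem_bot, inv_mul_eq_one] at hc5
      obtain ⟨k, hk⟩ := (hPorder x x.2).exists_card_eq
      rw [Nat.card_zpowers] at hk
      have hm1 := fpf heq hq.out ⟨k, hk⟩ hxN (hMN hm) (by
        intro h
        apply hMq
        exact h.trans (Subgroup.orderOf_dvd_natCard M hm)) hc5
      rw [hm1, map_one]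
      exact Subgroup.mem_bot.2 rfl)
  rcases hres with h | ⟨-, n, -, ⟨g⟩⟩
  · left
    exact e.isCyclic.2 h
  · right
    exact ⟨n, ⟨e.trans g⟩⟩

end Cfsg.Agent.H11.EqOrd
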