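import Cfsg.Agent.H11.Laradji
import Cfsg.Agent.H26.Dict4
import Cfsg.Agent.H26.AugNil

set_option autoImplicit false
set_option linter.unusedSectionVars false

/-!
Green's theorem: defect groups are Sylow intersections.
-/

namespace Cfsg.Agent.H11

open Cfsg Finset Cfsg.Agent.H3
open Cfsg.Agent.L (cj nz SylIn)
open scoped ComplexConjugate

section free

variable {G : Type*} [Group G] [Fintype G] {p : ℕ} [Fact p.Prime]

/-- A nonzero idempotent of the group algebra in characteristic `p` has a nonzero coset sum for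
each `p`-subgroup commuting with it. -/
theorem exists_coset_sum_ne_zero {k : Type*} [CommRing k] [CharP k p] (P : Subgroup G)
    (hP : IsPGroup p P) [Fintype P] (e : MonoidAlgebra k G) (hee : e * e = e) (he0 : e ≠ 0)
    (hcomm : ∀ u ∈ P, MonoidAlgebra.single u 1 * e = e * MonoidAlgebra.single u 1) :
    ∃ x : G, ∑ u : P, e.coeff (x * u) ≠ 0 := by
  classical
  by_contra hcon
  push Not at hcon
  let V : AddSubgroup (MonoidAlgebra k G) :=
    { carrier := {y | e * y = y}
      zero_mem' := by simp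
      add_mem' := fun {a b} ha hb => by
        show e * (a + b) = a + b
        rw [mul_add]
        exact congrArg₂ (· + ·) ha hb
      neg_mem' := fun {a} ha => by
        show e * (-a) = -a
        rw [mul_neg]
        exact congrArg _ ha }
  have hV : ∀ (u : P) (y : V), e * (MonoidAlgebra.single (u : G) 1 * (y : MonoidAlgebra k G)) =
      MonoidAlgebra.single (u : G) 1 * (y : MonoidAlgebra k G) := by
    intro u y
    rw [← mul_assoc, ← hcomm u u.2, mul_assoc]
    congr 1
    exact y.2
  let act : DistribMulAction P V :=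
    { smul := fun u y => ⟨MonoidAlgebra.single (u : G) 1 * (y : MonoidAlgebra k G), hV u y⟩
      one_smul := fun y => by
        apply Subtype.ext
        show (MonoidAlgebra.single ((1 : P) : G) (1 : k) : MonoidAlgebra k G) *
          (y : MonoidAlgebra k G) = (y : MonoidAlgebra k G)
        rw [Subgroup.coe_one, ← MonoidAlgebra.one_def, one_mul]
      mul_smul := fun u v y => by
        apply Subtype.ext
        show MonoidAlgebra.single ((u * v : P) : G) 1 * (y : MonoidAlgebra k G) =
          MonoidAlgebra.single (u : G) 1 * (MonoidAlgebra.single (v : G) 1 *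
            (y : MonoidAlgebra k G))
        rw [← mul_assoc, MonoidAlgebra.single_mul_single, mul_one, Subgroup.coe_mul]
      smul_zero := fun u => by
        apply Subtype.ext
        show MonoidAlgebra.single (u : G) 1 * ((0 : V) : MonoidAlgebra k G) = _
        rw [AddSubgroup.coe_zero, mul_zero]
      smul_add := fun u a b => by
        apply Subtype.ext
        show MonoidAlgebra.single (u : G) 1 * ((a + b : V) : MonoidAlgebra k G) = _
        rw [AddSubgroup.coe_add, mul_add]
        rfl }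
  obtain ⟨w, hw0, hw⟩ := Cfsg.Agent.H26.exists_fixed_ne_zero (p := p) hP (V := V)
    (fun v => by
      apply Subtype.ext
      show p • (v : MonoidAlgebra k G) = 0
      ext x
      rw [MonoidAlgebra.coeff_smul]
      simp) ⟨e, hee⟩ (fun h => he0 (congrArg Subtype.val h))
  apply hw0
  apply Subtype.ext
  show (w : MonoidAlgebra k G) = 0
  have hinv : ∀ (u : G), u ∈ P → ∀ x : G, (w : MonoidAlgebra k G).coeff (u⁻¹ * x) =
      (w : MonoidAlgebra k G).coeff x := by
    intro u hu x
    have h1 := congrArg (fun z : V => (z : MonoidAlgebra k G).coeff x) (hw ⟨u, hu⟩)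
    have h2 : (MonoidAlgebra.single (u : G) 1 * (w : MonoidAlgebra k G)).coeff x =
      (w : MonoidAlgebra k G).coeff x := h1
    rwa [MonoidAlgebra.coeff_single_mul_apply, one_mul] at h2
  have hwe : e * (w : MonoidAlgebra k G) = w := w.2
  rw [← hwe]
  ext x
  rw [Cfsg.Agent.H26.coeff_mul_fintype]
  have : Fintype (G ⧸ P) := Fintype.ofFinite _
  rw [← (bij_out P).sum_comp (fun y => e.coeff y * (w : MonoidAlgebra k G).coeff (y⁻¹ * x)),
    Fintype.sum_prod_type]
  simp only [MonoidAlgebra.coeff_zero, Finsupp.coe_zero, Pi.zero_apply]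
  apply Finset.sum_eq_zero
  intro q _
  have h3 : ∀ u : P, e.coeff (q.out * (u : G)) *
      (w : MonoidAlgebra k G).coeff ((q.out * (u : G))⁻¹ * x) =
      e.coeff (q.out * (u : G)) * (w : MonoidAlgebra k G).coeff (q.out⁻¹ * x) := by
    intro u
    congr 1
    rw [mul_inv_rev, mul_assoc, hinv u u.2]
  rw [Finset.sum_congr rfl (fun u _ => h3 u), ← Finset.sum_mul, hcon, zero_mul]

end free

section green

variable {G : Type*} [Group G] [Fintype G] {p : ℕ} {M : Ideal AlgInt}

/-- The coset sums of the block coefficients over the centraliser of the defect group. -/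
theorem exists_coset_sum (hM : IsPModular p M) {B : Set (IrrCharacter G)} (hB : IsPBlock M B)
    {D : Subgroup G} (hD : IsPGroup p D) (hne : ∃ y ∈ Subgroup.centralizer (D : Set G),
      ¬ MemLocalIdeal M (blockCoeff B y))
    {R : Subgroup G} (hR : IsPGroup p R) [Fintype R]
    (hRC : R ≤ Subgroup.centralizer (D : Set G)) :
    ∃ x ∈ Subgroup.centralizer (D : Set G), ¬ MemLocalIdeal M (∑ u : R, blockCoeff B (x * u)) := by
  classical
  have hpr := hM.2.1.isPrime
  have hfp := Fact.mk hM.1
  have hch : CharP (Cfsg.Agent.H26.KF M) p := Cfsg.Agent.H26.charP_KF hM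
  set f := Cfsg.Agent.H26.EG M B with hf
  have hff : f * f = f := Cfsg.Agent.H26.Eb_mul_self _ hB
  have hfx : ∀ P : Subgroup G, Cfsg.Agent.H26.IsFx P f := Cfsg.Agent.H26.EG_isFx B
  set e := Cfsg.Agent.H26.br D f with he
  have hee : e * e = e := Cfsg.Agent.H26.isFx_br_idem hD (hfx D) hff
  have he0 : e ≠ 0 := by
    obtain ⟨y, hy, hy'⟩ := hne
    intro h0
    apply hy'
    rw [← Cfsg.Agent.H26.rd_eq_zero_iff (lr_blockCoeff hB y)]
    have h1 := Cfsg.Agent.H26.coeff_br_of_mem f hy
    rw [← he, h0, Cfsg.Agent.H26.coeff_EG] at h1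
    rw [← h1]; rfl
  have hcomm : ∀ u ∈ R, MonoidAlgebra.single u 1 * e = e * MonoidAlgebra.single u 1 := by
    intro u hu
    rw [Cfsg.Agent.H26.single_mul_eq]
    congr 1
    have huN : u ∈ Subgroup.normalizer (D : Set G) := centralizer_le_nz D (hRC hu)
    rw [he, Cfsg.Agent.H26.cj_br_of_normalizer huN]
    congr 1
    exact hfx ⊤ u (Subgroup.mem_top _)
  obtain ⟨x, hx⟩ := exists_coset_sum_ne_zero R hR e hee he0 hcomm
  have hxC : x ∈ Subgroup.centralizer (D : Set G) := by
    by_contra hxC
    apply hx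
    apply Finset.sum_eq_zero
    intro u _
    rw [he, Cfsg.Agent.H26.coeff_br_of_notMem]
    intro h
    exact hxC ((Subgroup.mul_mem_cancel_right _ (hRC u.2)).mp h)
  refine ⟨x, hxC, ?_⟩
  rw [← Cfsg.Agent.H26.rd_eq_zero_iff (lr_sum _ _ fun u _ => lr_blockCoeff hB _),
    Cfsg.Agent.H26.rd_sum _ _ (fun u _ => lr_blockCoeff hB _)]
  intro h0
  apply hx
  rw [← h0]
  refine Finset.sum_congr rfl fun u _ => ?_
  rw [he, Cfsg.Agent.H26.coeff_br_of_mem _ (mul_mem hxC (hRC u.2)), Cfsg.Agent.H26.coeff_EG]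

/-- **Green's theorem.** -/
theorem green (hM : IsPModular p M) {B : Set (IrrCharacter G)} (hB : IsPBlock M B)
    {D : Subgroup G} (hD : IsDefectGroup p M B D) {P : Subgroup G} (hP : IsPGroup p P)
    (hDP : D ≤ P) : ∃ x : G, ¬ p ∣ orderOf x ∧ SylIn p D (C1 x) ∧ P ⊓ cj x P = D := by
  classical
  have hpr := hM.2.1.isPrime
  have hp := hM.1
  have hfp := Fact.mk hp
  have hDp : IsPGroup p D := IsDefectGroup.isPGroup hM hD
  set R : Subgroup G := P ⊓ Subgroup.centralizer (D : Set G) with hR
  have hRp : IsPGroup p R := hP.to_le inf_le_left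
  have : Fintype R := Fintype.ofFinite _
  obtain ⟨g₀, hg₀, hS₀⟩ := (isDefectGroup_iff hM).mp hD
  obtain ⟨x, hxC, hx⟩ := exists_coset_sum hM hB hDp
    ⟨g₀, le_C1_iff.mp hS₀.1, hg₀.2.1⟩ hRp inf_le_right
  set Q : Subgroup G := P ⊓ cj x P with hQ
  have hxcm : ∀ d ∈ D, d * x = x * d := fun d hd => (Subgroup.mem_centralizer_iff.mp hxC d hd)
  have hDQ : D ≤ Q := by
    intro d hd
    refine Subgroup.mem_inf.mpr ⟨hDP hd, ?_⟩
    rw [Cfsg.Agent.L.mem_cj]
    have : x⁻¹ * d * x = d := by rw [mul_assoc, hxcm d hd, inv_mul_cancel_left]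
    rw [this]; exact hDP hd
  -- the subgroup N_Q(D) acts on the coset
  set T : Subgroup G := Q ⊓ nz D with hT
  have hTp : IsPGroup p T := hP.to_le (inf_le_left.trans inf_le_left)
  have hstab : ∀ t ∈ T, ∀ u ∈ R, x⁻¹ * (t * (x * u) * t⁻¹) ∈ R := by
    intro t ht u hu
    have e1 : x⁻¹ * (t * (x * u) * t⁻¹) = (x⁻¹ * t * x) * t⁻¹ * (t * u * t⁻¹) := by group
    rw [e1]
    have htP : t ∈ P := ht.1.1
    have htx : x⁻¹ * t * x ∈ P := Cfsg.Agent.L.mem_cj.mp ht.1.2
    have htC : ∀ c ∈ Subgroup.centralizer (D : Set G), t * c * t⁻¹ ∈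
        Subgroup.centralizer (D : Set G) := by
      intro c hc
      rw [Subgroup.mem_centralizer_iff]
      intro d hd
      have h3 : t⁻¹ * d * t ∈ D := by
        have := (Subgroup.mem_normalizer_iff.mp ((nz D).inv_mem ht.2) d).mp hd
        rwa [inv_inv] at this
      have h2 := Subgroup.mem_centralizer_iff.mp hc _ h3
      calc d * (t * c * t⁻¹) = t * ((t⁻¹ * d * t) * c) * t⁻¹ := by group
        _ = t * (c * (t⁻¹ * d * t)) * t⁻¹ := by rw [h2]
        _ = _ := by group
    refine Subgroup.mem_inf.mpr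
      ⟨mul_mem (mul_mem htx (inv_mem htP)) (mul_mem (mul_mem htP hu.1) (inv_mem htP)), ?_⟩
    refine mul_mem ?_ (htC u hu.2)
    have e2 : x⁻¹ * t * x * t⁻¹ = x⁻¹ * (t * x * t⁻¹) := by group
    rw [e2]
    exact mul_mem (inv_mem hxC) (htC x hxC)
  let act : MulAction T R :=
    { smul := fun t u => ⟨x⁻¹ * ((t : G) * (x * (u : G)) * (t : G)⁻¹), hstab t t.2 u u.2⟩
      one_smul := fun u => by
        apply Subtype.ext
        show x⁻¹ * (((1 : T) : G) * (x * (u : G)) * ((1 : T) : G)⁻¹) = u
        rw [Subgroup.coe_one]; group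
      mul_smul := fun s t u => by
        apply Subtype.ext
        show x⁻¹ * (((s * t : T) : G) * (x * (u : G)) * ((s * t : T) : G)⁻¹) =
          x⁻¹ * ((s : G) * (x * (x⁻¹ * ((t : G) * (x * (u : G)) * (t : G)⁻¹))) * (s : G)⁻¹)
        rw [Subgroup.coe_mul]; group }
  have hact : ∀ (t : T) (u : R), x * ((t • u : R) : G) = (t : G) * (x * (u : G)) * (t : G)⁻¹ := by
    intro t u
    show x * (x⁻¹ * ((t : G) * (x * (u : G)) * (t : G)⁻¹)) = _
    rw [mul_inv_cancel_left]
  have hfix : ∃ u : R, (∀ t : T, t • u = u) ∧ ¬ MemLocalIdeal M (blockCoeff B (x * u)) := by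
    by_contra hcon
    push Not at hcon
    apply hx
    have h1 := lr_sum_div_of_no_fixed hM hTp
      (fun u : R => if MemLocalIdeal M (blockCoeff B (x * u)) then 0 else blockCoeff B (x * u))
      (fun u => by
        split_ifs
        · exact lr_zero M
        · exact lr_blockCoeff hB _)
      (fun t u => by
        have h2 : blockCoeff B (x * ((t • u : R) : G)) = blockCoeff B (x * (u : G)) := by
          rw [hact]
          exact isCen_fIdem B _ _
        simp only [h2])
      (fun u hu => by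
        rw [if_pos (hcon u hu)])
    have h2 := li_of_lr_div hM h1
    have h3 : MemLocalIdeal M (∑ u : R, blockCoeff B (x * u) -
        ∑ u : R, (if MemLocalIdeal M (blockCoeff B (x * u)) then 0 else
          blockCoeff B (x * u))) := by
      rw [← Finset.sum_sub_distrib]
      apply li_sum
      intro u _
      split_ifs with h
      · rwa [sub_zero]
      · rw [sub_self]; exact li_zero M
    exact (li_congr h3).mpr h2
  obtain ⟨u, hu, hyu⟩ := hfix
  set y := x * (u : G) with hy
  have hyC : y ∈ Subgroup.centralizer (D : Set G) := mul_mem hxC u.2.2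
  have hyr : ¬ p ∣ orderOf y := by
    intro h
    apply hyu
    rw [blockCoeff_eq_zero hM hB y h]
    exact li_zero M
  have hTy : T ≤ C1 y := by
    intro t ht
    rw [mem_C1]
    have h1 := congrArg (fun v : R => x * (v : G)) (hu ⟨t, ht⟩)
    have h2 : t * y * t⁻¹ = y := (hact ⟨t, ht⟩ u).symm.trans h1
    exact mul_inv_eq_iff_eq_mul.mp h2
  have hDmax : ∀ S : Subgroup G, IsPGroup p S → S ≤ C1 y → Nat.card S ≤ Nat.card D := by
    intro S hS hSy
    obtain ⟨c, hc⟩ := exists_conj_le_defect hM hB hD hyu hS hSy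
    calc Nat.card S ≤ Nat.card (cj c D) := Subgroup.card_le_of_le hc
      _ = Nat.card D := Cfsg.Agent.L.card_cj _ _
  have hDT : D ≤ T := le_inf hDQ (Subgroup.le_normalizer)
  have hTD : D = T := Subgroup.eq_of_le_of_card_ge hDT (hDmax T hTp hTy)
  have hQD : Q = D := by
    have hQp : IsPGroup p Q := hP.to_le inf_le_left
    by_contra hne
    have hlt : D < Q := lt_of_le_of_ne hDQ (Ne.symm hne)
    have h1 := Cfsg.Agent.L.lt_inf_nz hQp hlt
    rw [← hT, ← hTD] at h1
    exact lt_irrefl _ h1
  refine ⟨y, hyr, ?_, ?_⟩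
  · obtain ⟨S, hS, hDS⟩ := Cfsg.Agent.L.exists_sylIn_ge (p := p) hDp (le_C1_iff.mpr hyC)
    have h1 : D = S := Subgroup.eq_of_le_of_card_ge hDS (hDmax S hS.isPGroup hS.le)
    rw [h1]; exact hS
  · rw [← hQD, hQ]
    congr 1
    rw [hy]
    ext z
    rw [Cfsg.Agent.L.mem_cj, Cfsg.Agent.L.mem_cj]
    have e1 : (x * (u : G))⁻¹ * z * (x * (u : G)) = (u : G)⁻¹ * (x⁻¹ * z * x) * (u : G) := by
      group
    rw [e1]
    have huP : (u : G) ∈ P := u.2.1
    constructor
    · intro h
      have h4 := mul_mem (mul_mem huP h) (inv_mem huP)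
      have h5 : (u : G) * ((u : G)⁻¹ * (x⁻¹ * z * x) * (u : G)) * (u : G)⁻¹ = x⁻¹ * z * x := by
        group
      rwa [h5] at h4
    · intro h
      exact mul_mem (mul_mem (inv_mem huP) h) huP

end green

end Cfsg.Agent.H11
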