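import Cfsg.Agent.H11.Third3
import Cfsg.Agent.H3.Isometry
import Cfsg.Agent.H3.IndSum
import Cfsg.Agent.H3.Perm
import Cfsg.Agent.H3.BrauerC

set_option autoImplicit false
set_option linter.unusedSectionVars false
open Cfsg Cfsg.Agent.H3 Finset
open scoped ComplexConjugate

namespace Cfsg.Agent.H11
namespace Leon

universe u

variable {G : Type u} [Group G] [Fintype G] {p : ℕ} [hpf : Fact p.Prime] {P : Sylow p G}

/-- the condition: all nontrivial elements of `P` have the same centralizer -/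
def Star (P : Sylow p G) : Prop :=
  ∀ x ∈ (P : Subgroup G), x ≠ 1 →
    Subgroup.centralizer ({x} : Set G) = Subgroup.centralizer ((P : Subgroup G) : Set G)

/-- the centralizer of `P` -/
abbrev CP (P : Sylow p G) : Subgroup G := Subgroup.centralizer ((P : Subgroup G) : Set G)

/-- the normalizer of `P` -/
abbrev NP (P : Sylow p G) : Subgroup G := Subgroup.normalizer ((P : Subgroup G) : Set G)

omit [Fintype G] hpf in
theorem le_CP (h : Star P) : (P : Subgroup G) ≤ CP P := by
  intro x hx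
  by_cases h1 : x = 1
  · subst h1; exact (CP P).one_mem
  · rw [CP, ← h x hx h1, Subgroup.mem_centralizer_singleton_iff]

omit [Fintype G] hpf in
theorem comm_of (h : Star P) {x y : G} (hx : x ∈ (P : Subgroup G)) (hy : y ∈ CP P) :
    x * y = y * x := Subgroup.mem_centralizer_iff.mp hy x hx

theorem exists_retract (h : Star P) (hne : (P : Subgroup G) ≠ ⊥) :
    ∃ f : CP P →* (P : Subgroup G),
      (∀ c : CP P, ∀ hc : (c : G) ∈ (P : Subgroup G), f c = ⟨c, hc⟩) ∧
      ∀ c : CP P, f c = 1 ↔ ¬ p ∣ orderOf (c : G) := by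
  classical
  have hPC := le_CP h
  let S : Sylow p (CP P) := P.subtype hPC
  have hSmem : ∀ c : CP P, c ∈ (S : Subgroup (CP P)) ↔ (c : G) ∈ (P : Subgroup G) := by
    intro c
    show c ∈ ((P.subtype hPC : Sylow p (CP P)) : Subgroup (CP P)) ↔ _
    rw [Sylow.coe_subtype, Subgroup.mem_subgroupOf]
  have hcomm : ∀ c : CP P, ∀ s ∈ (S : Subgroup (CP P)), s * c = c * s := by
    intro c s hs
    exact Subtype.ext (comm_of h ((hSmem s).mp hs) c.2)
  have hS : Subgroup.normalizer ((S : Subgroup (CP P)) : Set (CP P)) ≤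
      Subgroup.centralizer ((S : Subgroup (CP P)) : Set (CP P)) := by
    intro c _
    rw [Subgroup.mem_centralizer_iff]
    intro s hs
    exact hcomm c s hs
  let t := MonoidHom.transferSylow S hS
  set k := (S : Subgroup (CP P)).index with hk
  have hkp : ¬ p ∣ k := S.not_dvd_index
  obtain ⟨n, hn⟩ := IsPGroup.iff_card.mp S.isPGroup'
  have hcard : 1 < Nat.card S := by
    rw [Subgroup.one_lt_card_iff_ne_bot]
    intro hb
    apply hne
    rw [eq_bot_iff]
    intro x hx
    have : (⟨x, hPC hx⟩ : CP P) ∈ (S : Subgroup (CP P)) := (hSmem _).mpr hx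
    rw [hb, Subgroup.mem_bot] at this
    exact congrArg Subtype.val this
  have hcop : Nat.Coprime k (Nat.card S) := by
    rw [hn]
    exact Nat.Coprime.pow_right _ (Nat.coprime_comm.mp ((Nat.Prime.coprime_iff_not_dvd hpf.out).mpr hkp))
  obtain ⟨m, -, hm⟩ := Nat.exists_mul_mod_eq_one_of_coprime hcop hcard
  have hpow : ∀ s : (S : Subgroup (CP P)), s ^ (k * m) = s := by
    intro s
    rw [← pow_mod_natCard, hm, pow_one]
  have hScomm : ∀ a b : S, a * b = b * a := fun a b => Subtype.ext (hcomm _ _ a.2)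
  let f0 : CP P →* S :=
    { toFun := fun c => (t c) ^ m
      map_one' := by simp
      map_mul' := fun a b => by
        rw [map_mul]
        exact (show Commute (t a) (t b) from hScomm _ _).mul_pow m }
  let g0 : S →* (P : Subgroup G) :=
    { toFun := fun s => ⟨((s : CP P) : G), (hSmem _).mp s.2⟩
      map_one' := rfl
      map_mul' := fun a b => rfl }
  have hg0 : Function.Injective g0 := by
    intro a b hab
    exact Subtype.ext (Subtype.ext (congrArg (fun z : (P : Subgroup G) => (z : G)) hab))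
  refine ⟨g0.comp f0, ?_, ?_⟩
  · intro c hc
    have hcS : c ∈ (S : Subgroup (CP P)) := (hSmem c).mpr hc
    have h1 : t c = ⟨c, hcS⟩ ^ k := by
      rw [show t c = _ from MonoidHom.transferSylow_eq_pow S hS c hcS]
      rfl
    have h2 : f0 c = ⟨c, hcS⟩ := by
      show (t c) ^ m = _
      rw [h1, ← pow_mul, hpow]
    rw [MonoidHom.comp_apply, h2]
    rfl
  · intro c
    have h1 : (g0.comp f0) c = 1 ↔ t c = 1 := by
      rw [MonoidHom.comp_apply, ← map_one g0, hg0.eq_iff]
      constructor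
      · intro h2
        have h3 : (t c) ^ m = 1 := h2
        rw [← hpow (t c), mul_comm, pow_mul, h3, one_pow]
      · intro h2
        show (t c) ^ m = 1
        rw [h2, one_pow]
    rw [h1]
    constructor
    · intro h2 hd
      have h3 : c ∈ t.ker := h2
      have h4 : orderOf (⟨c, h3⟩ : t.ker) ∣ Nat.card t.ker := orderOf_dvd_natCard _
      rw [Subgroup.orderOf_mk] at h4
      have h5 : ¬ p ∣ Nat.card t.ker := MonoidHom.not_dvd_card_ker_transferSylow S hS
      apply h5
      refine dvd_trans ?_ h4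
      rwa [Subgroup.orderOf_coe] at hd
    · intro h2
      have h3 : orderOf (t c) ∣ orderOf c := orderOf_map_dvd t c
      rw [Subgroup.orderOf_coe] at h2
      have h4 : orderOf (t c) ∣ Nat.card S := orderOf_dvd_natCard _
      rw [hn, Nat.dvd_prime_pow hpf.out] at h4
      obtain ⟨j, _, hj⟩ := h4
      rw [← orderOf_eq_one_iff, hj]
      rcases Nat.eq_zero_or_pos j with h5 | h5
      · rw [h5, pow_zero]
      · exfalso
        apply h2
        refine dvd_trans ?_ h3
        rw [hj]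
        exact dvd_pow_self p h5.ne'

/-- the `p`-singular elements of the centralizer of `P` -/
def TS (P : Sylow p G) : Set G := {g | g ∈ CP P ∧ p ∣ orderOf g}

theorem pow_p_of_mem {x : G} (hx : x ∈ (P : Subgroup G)) : ∃ k : ℕ, orderOf x = p ^ k := by
  obtain ⟨n, hn⟩ := IsPGroup.iff_card.mp P.isPGroup'
  have h4 : orderOf (⟨x, hx⟩ : (P : Subgroup G)) ∣ Nat.card (P : Subgroup G) :=
    orderOf_dvd_natCard _
  rw [hn, Nat.dvd_prime_pow hpf.out, Subgroup.orderOf_mk] at h4
  obtain ⟨j, _, hj⟩ := h4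
  exact ⟨j, hj⟩

theorem mem_of_comm {x : G} (hx : x ∈ CP P) (hp : ∃ k : ℕ, orderOf x = p ^ k) :
    x ∈ (P : Subgroup G) := by
  have h1 : IsPGroup p (Subgroup.zpowers x) := by
    obtain ⟨k, hk⟩ := hp
    exact IsPGroup.of_card (n := k) (by rw [Nat.card_zpowers, hk])
  have h2 : Subgroup.zpowers x ≤ Subgroup.normalizer ((P : Subgroup G) : Set G) := by
    rw [Subgroup.zpowers_le]
    refine Subgroup.mem_normalizer_fintype ?_
    intro n hn
    have : n * x = x * n := Subgroup.mem_centralizer_iff.mp hx n hn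
    have h3 : x * n * x⁻¹ = n := by rw [← this]; group
    rw [h3]; exact hn
  have h3 := IsPGroup.to_sup_of_normal_right' h1 P.isPGroup' h2
  have h4 := P.is_maximal' h3 le_sup_right
  rw [← h4]
  exact Subgroup.mem_sup_left (Subgroup.mem_zpowers x)

theorem ti (h : Star P) : ∀ g : G, g ∉ NP P → ∀ t ∈ TS P, g * t * g⁻¹ ∈ TS P → t = 1 := by
  intro g hg t ht ht'
  exfalso
  apply hg
  obtain ⟨htC, htp⟩ := ht
  obtain ⟨htC', -⟩ := ht'
  set u := t ^ (orderOf t / p) with hu
  have hu1 : orderOf u = p := orderOf_pow_orderOf_div (orderOf_pos t).ne' htp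
  have huC : u ∈ CP P := (CP P).pow_mem htC _
  have huP : u ∈ (P : Subgroup G) := mem_of_comm huC ⟨1, by rw [hu1, pow_one]⟩
  have hu' : g * u * g⁻¹ = (g * t * g⁻¹) ^ (orderOf t / p) := by rw [hu, conj_pow]
  have huC' : g * u * g⁻¹ ∈ CP P := by rw [hu']; exact (CP P).pow_mem htC' _
  have hu1' : orderOf (g * u * g⁻¹) = p := by
    rw [← hu1]
    exact orderOf_injective (MulAut.conj g).toMonoidHom (MulAut.conj g).injective u
  have huP' : g * u * g⁻¹ ∈ (P : Subgroup G) := mem_of_comm huC' ⟨1, by rw [hu1', pow_one]⟩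
  have hne' : g * u * g⁻¹ ≠ 1 := by
    intro h1
    rw [h1, orderOf_one] at hu1'
    exact hpf.out.one_lt.ne hu1'
  refine Subgroup.mem_normalizer_fintype ?_
  intro y hy
  refine mem_of_comm ?_ ?_
  · rw [CP, ← h _ huP' hne', Subgroup.mem_centralizer_singleton_iff]
    have h1 : y * u = u * y := comm_of h hy huC
    calc g * y * g⁻¹ * (g * u * g⁻¹) = g * (y * u) * g⁻¹ := by group
      _ = g * (u * y) * g⁻¹ := by rw [h1]
      _ = g * u * g⁻¹ * (g * y * g⁻¹) := by group
  · obtain ⟨k, hk⟩ := pow_p_of_mem hy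
    refine ⟨k, ?_⟩
    rw [← hk]
    exact orderOf_injective (MulAut.conj g).toMonoidHom (MulAut.conj g).injective y

theorem surj_comm (h : Star P) {w : G} (hw : w ∈ NP P) (hw' : w ∉ CP P) {y : G}
    (hy : y ∈ (P : Subgroup G)) : ∃ u ∈ (P : Subgroup G), y = u⁻¹ * (w * u * w⁻¹) := by
  have hmem : ∀ u : (P : Subgroup G), (u : G)⁻¹ * (w * u * w⁻¹) ∈ (P : Subgroup G) := by
    intro u
    exact (P : Subgroup G).mul_mem ((P : Subgroup G).inv_mem u.2)
      ((Subgroup.mem_normalizer_iff.mp hw u).mp u.2)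
  let φ : ↥(P : Subgroup G) → ↥(P : Subgroup G) := fun u => ⟨_, hmem u⟩
  have hinj : Function.Injective φ := by
    intro u v huv
    have h1 : (u : G)⁻¹ * (w * u * w⁻¹) = (v : G)⁻¹ * (w * v * w⁻¹) :=
      congrArg Subtype.val huv
    by_contra hne
    apply hw'
    have hz : (v : G) * (u : G)⁻¹ ≠ 1 := by
      intro h2
      exact hne (Subtype.ext (mul_inv_eq_one.mp h2).symm)
    have hzP : (v : G) * (u : G)⁻¹ ∈ (P : Subgroup G) :=
      (P : Subgroup G).mul_mem v.2 ((P : Subgroup G).inv_mem u.2)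
    rw [CP, ← h _ hzP hz, Subgroup.mem_centralizer_singleton_iff]
    have hwu : w * u * w⁻¹ ∈ (P : Subgroup G) := (Subgroup.mem_normalizer_iff.mp hw u).mp u.2
    have h3 : (v : G) * (u : G)⁻¹ = (w * v * w⁻¹) * (w * u * w⁻¹)⁻¹ := by
      have h4 : (v : G) * ((u : G)⁻¹ * (w * u * w⁻¹)) = w * v * w⁻¹ := by rw [h1]; group
      rw [← h4]; group
    have h5 : (w * v * w⁻¹) * (w * u * w⁻¹)⁻¹ = w * (v * (u : G)⁻¹) * w⁻¹ := by group
    rw [h5] at h3
    calc w * (v * (u : G)⁻¹) = w * (v * (u : G)⁻¹) * w⁻¹ * w := by group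
      _ = v * (u : G)⁻¹ * w := by rw [← h3]
  obtain ⟨u, hu⟩ := Finite.surjective_of_injective hinj ⟨y, hy⟩
  exact ⟨u, u.2, (congrArg Subtype.val hu).symm⟩

/-- the centralizer inside the normalizer -/
abbrev KP (P : Sylow p G) : Subgroup (NP P) := (CP P).subgroupOf (NP P)

omit [Fintype G] hpf in
theorem mem_KP {x : NP P} : x ∈ KP P ↔ (x : G) ∈ CP P := Subgroup.mem_subgroupOf

theorem CP_le_NP : CP P ≤ NP P := by
  intro x hx
  refine Subgroup.mem_normalizer_fintype ?_
  intro n hn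
  have : n * x = x * n := Subgroup.mem_centralizer_iff.mp hx n hn
  have h3 : x * n * x⁻¹ = n := by rw [← this]; group
  rw [h3]; exact hn

theorem KP_normal : (KP P).Normal := by
  constructor
  intro k hk g
  rw [mem_KP] at hk ⊢
  show (g : G) * k * (g : G)⁻¹ ∈ CP P
  rw [Subgroup.mem_centralizer_iff] at hk ⊢
  intro y hy
  have h1 : (g : G)⁻¹ * y * g ∈ (P : Subgroup G) := by
    have := (Subgroup.mem_normalizer_iff.mp ((NP P).inv_mem g.2) y).mp hy
    simpa using this
  have h2 := hk _ h1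
  calc y * ((g : G) * k * (g : G)⁻¹) = g * ((g : G)⁻¹ * y * g * k) * (g : G)⁻¹ := by group
    _ = g * (k * ((g : G)⁻¹ * y * g)) * (g : G)⁻¹ := by rw [h2]
    _ = (g : G) * k * (g : G)⁻¹ * y := by group

/-- a retraction of `KP P` onto `P` -/
structure Ret (F : KP P →* (P : Subgroup G)) : Prop where
  id : ∀ k : KP P, ∀ hk : ((k : NP P) : G) ∈ (P : Subgroup G), F k = ⟨_, hk⟩
  ker : ∀ k : KP P, F k = 1 ↔ ¬ p ∣ orderOf ((k : NP P) : G)

theorem exists_ret (h : Star P) (hne : (P : Subgroup G) ≠ ⊥) :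
    ∃ F : KP P →* (P : Subgroup G), Ret F := by
  obtain ⟨f, hf1, hf2⟩ := exists_retract h hne
  let i : KP P →* CP P :=
    { toFun := fun k => ⟨((k : NP P) : G), mem_KP.mp k.2⟩
      map_one' := rfl
      map_mul' := fun a b => rfl }
  exact ⟨f.comp i, ⟨fun k hk => hf1 (i k) hk, fun k => hf2 (i k)⟩⟩

/-- the embedding of `P` into `KP P` -/
def emP (h : Star P) : (P : Subgroup G) →* KP P where
  toFun u := ⟨⟨u, CP_le_NP (le_CP h u.2)⟩, mem_KP.mpr (le_CP h u.2)⟩
  map_one' := rfl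
  map_mul' _ _ := rfl

theorem emP_coe (h : Star P) (u : (P : Subgroup G)) : ((emP h u : NP P) : G) = u := rfl

theorem emP_comm (h : Star P) (u : (P : Subgroup G)) (k : KP P) : emP h u * k = k * emP h u := by
  apply Subtype.ext
  apply Subtype.ext
  exact comm_of h u.2 (mem_KP.mp k.2)

theorem emP_center (h : Star P) (u : (P : Subgroup G)) : emP h u ∈ Subgroup.center (KP P) := by
  rw [Subgroup.mem_center_iff]
  intro k
  exact (emP_comm h u k).symm

theorem Ret.emP {F : KP P →* (P : Subgroup G)} (hF : Ret F) (h : Star P) (u : (P : Subgroup G)) :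
    F (emP h u) = u := hF.id _ u.2

theorem isIrr_indK [Fintype (NP P)] (h : Star P) {ψ : KP P → ℂ} (hψ : IsIrrCharacter (KP P) ψ)
    (hnt : ∃ u : (P : Subgroup G), ψ (emP h u) ≠ ψ 1) :
    IsIrrCharacter (NP P) (indFun (KP P) ψ) := by
  refine isIrr_ind_of_inertia_eq KP_normal hψ ?_
  intro x hx
  by_contra hxK
  obtain ⟨y, hy⟩ := hnt
  apply hy
  rw [mem_inertia'] at hx
  have hxC : (x : G) ∉ CP P := fun h1 => hxK (mem_KP.mpr h1)
  obtain ⟨u, hu, huy⟩ := surj_comm h x.2 hxC y.2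
  have h1 := hx (emP h ⟨u, hu⟩)
  have h2 : (⟨(x : NP P) * (emP h ⟨u, hu⟩ : KP P) * x⁻¹,
      KP_normal.conj_mem _ (emP h ⟨u, hu⟩).2 x⟩ : KP P) = emP h ⟨u, hu⟩ * emP h y := by
    apply Subtype.ext
    apply Subtype.ext
    show (x : G) * u * (x : G)⁻¹ = u * (y : G)
    rw [huy]; group
  rw [h2] at h1
  have h3 := irr_central_mul hψ (emP_center h ⟨u, hu⟩) (emP h y)
  rw [h1] at h3
  have h4 : ψ (emP h ⟨u, hu⟩) ≠ 0 := by
    intro h5
    have h6 := irr_central_mul hψ (emP_center h ⟨u, hu⟩) (emP h ⟨u, hu⟩)⁻¹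
    rw [mul_inv_cancel, h5, zero_mul] at h6
    exact mul_ne_zero (irr_one_ne_zero hψ) (irr_one_ne_zero hψ) h6
  exact (mul_left_cancel₀ h4 h3).symm

end Leon
end Cfsg.Agent.H11
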