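import Cfsg.Agent.H11.Leon1

set_option autoImplicit false
set_option linter.unusedSectionVars false
open Cfsg Cfsg.Agent.H3 Finset
open scoped ComplexConjugate

namespace Cfsg.Agent.H11
namespace Leon

universe u

/-- a character of an abelian group of small degree misses a nontrivial linear character -/
theorem exists_missing {A : Type u} [Group A] [Fintype A] (hc : ∀ a b : A, a * b = b * a)
    {Φ : A → ℂ} (hΦ : IsCharacter A Φ) {d : ℕ} (hd : Φ 1 = d) (hlt : d + 1 < Nat.card A) :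
    ∃ μ : A →* ℂˣ, μ ≠ 1 ∧ classInner Φ (fun a => (μ a : ℂ)) = 0 := by
  classical
  by_contra hcon
  push Not at hcon
  have := Fintype.ofFinite (IrrCharacter A)
  obtain ⟨m, hm, hexp⟩ := char_expand hΦ
  have hn : ∀ ψ : IrrCharacter A, ∃ n : ℕ, 0 < n ∧ (ψ : A → ℂ) 1 = n := fun ψ => irr_one_eq_nat ψ.2
  choose n hn0 hn1 using hn
  have h1 : d = ∑ ψ : IrrCharacter A, m ψ * n ψ := by
    have h2 := congrFun hexp 1
    rw [hd] at h2
    simp only [Finset.sum_apply, Pi.smul_apply, smul_eq_mul, hn1] at h2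
    exact_mod_cast h2
  letI : CommGroup A := { (inferInstance : Group A) with mul_comm := hc }
  have hcard : Nat.card (A →* ℂˣ) = Nat.card A :=
    CommGroup.card_monoidHom_of_hasEnoughRootsOfUnity A ℂ
  have hfin : Finite (A →* ℂˣ) := by
    apply Nat.finite_of_card_ne_zero
    rw [hcard]
    exact Nat.card_pos.ne'
  have := Fintype.ofFinite (A →* ℂˣ)
  let e : (A →* ℂˣ) → IrrCharacter A := fun μ => ⟨fun a => (μ a : ℂ), isIrr_of_hom μ⟩
  have he : Function.Injective e := by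
    intro μ ν h
    exact hom_coe_injective (congrArg (fun z : IrrCharacter A => (z : A → ℂ)) h)
  have h3 : Nat.card A - 1 ≤ ∑ ψ : IrrCharacter A, m ψ * n ψ := by
    calc Nat.card A - 1 = (Finset.univ.erase (1 : A →* ℂˣ)).card := by
          rw [Finset.card_erase_of_mem (Finset.mem_univ _), Finset.card_univ,
            ← Nat.card_eq_fintype_card, hcard]
      _ = ∑ _μ ∈ Finset.univ.erase (1 : A →* ℂˣ), 1 := by simp
      _ ≤ ∑ μ ∈ Finset.univ.erase (1 : A →* ℂˣ), m (e μ) * n (e μ) := by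
          refine Finset.sum_le_sum fun μ hμ => ?_
          have h4 := hcon μ (Finset.ne_of_mem_erase hμ)
          rw [show classInner Φ (fun a => (μ a : ℂ)) = m (e μ) from hm (e μ)] at h4
          have h5 : m (e μ) ≠ 0 := by exact_mod_cast h4
          exact Nat.one_le_iff_ne_zero.mpr (Nat.mul_ne_zero h5 (hn0 _).ne')
      _ = ∑ ψ ∈ (Finset.univ.erase (1 : A →* ℂˣ)).image e, m ψ * n ψ := by
          rw [Finset.sum_image (fun a _ b _ hab => he hab)]
      _ ≤ ∑ ψ : IrrCharacter A, m ψ * n ψ :=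
          Finset.sum_le_sum_of_subset (Finset.subset_univ _)
  omega

/-- transitivity of being a constituent -/
theorem inner_trans {X : Type u} {Y : Type u} [Group X] [Fintype X] [Group Y] [Fintype Y]
    (i : Y →* X) {Θ : X → ℂ} (hΘ : IsCharacter X Θ) {ψ : X → ℂ} (hψ : IsIrrCharacter X ψ)
    (h1 : classInner Θ ψ ≠ 0) {μ : Y → ℂ} (hμ : IsCharacter Y μ)
    (h2 : classInner (fun y => ψ (i y)) μ ≠ 0) : classInner (fun y => Θ (i y)) μ ≠ 0 := by
  classical
  have := Fintype.ofFinite (IrrCharacter X)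
  obtain ⟨m, hm, hexp⟩ := char_expand hΘ
  have hn : ∀ η : IrrCharacter X, ∃ n : ℕ, classInner (fun y => (η : X → ℂ) (i y)) μ = n :=
    fun η => classInner_char_nat (isChar_comp (irr_isChar η.2) i) hμ
  choose n hn using hn
  have h3 : classInner (fun y => Θ (i y)) μ = ∑ η : IrrCharacter X, (m η : ℂ) * n η := by
    have h4 : (fun y => Θ (i y)) = ∑ η : IrrCharacter X, (m η : ℂ) • (fun y => (η : X → ℂ) (i y)) := by
      ext y
      have := congrFun hexp (i y)
      rw [this]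
      simp
    rw [h4, classInner_sum_left]
    refine Finset.sum_congr rfl fun η _ => ?_
    rw [classInner_smul_left, hn]
  rw [h3]
  have h5 : (∑ η : IrrCharacter X, (m η : ℂ) * n η) = ((∑ η : IrrCharacter X, m η * n η : ℕ) : ℂ) := by
    push_cast; rfl
  rw [h5]
  have h6 : m ⟨ψ, hψ⟩ ≠ 0 := by
    intro h7
    apply h1
    rw [show classInner Θ ψ = m ⟨ψ, hψ⟩ from hm ⟨ψ, hψ⟩, h7, Nat.cast_zero]
  have h8 : n ⟨ψ, hψ⟩ ≠ 0 := by
    intro h7
    apply h2
    rw [show classInner (fun y => ψ (i y)) μ = n ⟨ψ, hψ⟩ from hn ⟨ψ, hψ⟩, h7, Nat.cast_zero]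
  have h9 : m ⟨ψ, hψ⟩ * n ⟨ψ, hψ⟩ ≤ ∑ η : IrrCharacter X, m η * n η :=
    Finset.single_le_sum (f := fun η => m η * n η) (fun _ _ => Nat.zero_le _) (Finset.mem_univ _)
  have h10 : 0 < m ⟨ψ, hψ⟩ * n ⟨ψ, hψ⟩ :=
    Nat.mul_pos (Nat.pos_of_ne_zero h6) (Nat.pos_of_ne_zero h8)
  have h11 : (∑ η : IrrCharacter X, m η * n η) ≠ 0 := by omega
  exact_mod_cast h11

variable {G : Type u} [Group G] [Fintype G] {p : ℕ} [hpf : Fact p.Prime] {P : Sylow p G}

theorem exists_central (h : Star P) {ψ : KP P → ℂ} (hψ : IsIrrCharacter (KP P) ψ) :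
    ∃ lam : (P : Subgroup G) →* ℂˣ, ∀ (u : (P : Subgroup G)) (k : KP P),
      ψ (emP h u * k) = (lam u : ℂ) * ψ k := by
  have h1 := irr_one_ne_zero hψ
  let l : (P : Subgroup G) →* ℂ :=
    { toFun := fun u => ψ (emP h u) / ψ 1
      map_one' := by rw [map_one, div_self h1]
      map_mul' := fun u v => by
        have h2 := irr_central_mul hψ (emP_center h u) (emP h v)
        rw [map_mul]
        field_simp
        rw [h2] }
  refine ⟨l.toHomUnits, fun u k => ?_⟩
  have h2 := irr_central_mul hψ (emP_center h u) k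
  rw [show ((l.toHomUnits u : ℂˣ) : ℂ) = ψ (emP h u) / ψ 1 from rfl]
  field_simp
  rw [← h2]

theorem mem_TS_conj {g : G} (h : ∀ x : G, x⁻¹ * g * x ∉ TS P) (N' : Subgroup G) (hN : N' = NP P)
    (φ : N' → ℂ) (hφ : ∀ x : N', (x : G) ∉ TS P → φ x = 0) : indFun N' φ g = 0 := by
  simp only [indFun]
  rw [Finset.sum_eq_zero, mul_zero]
  intro x _
  by_cases hx : x⁻¹ * g * x ∈ N'
  · rw [extendByZero_mem _ _ hx]
    exact hφ _ (h x)
  · exact extendByZero_not_mem _ _ hx

/-- two characters of `KP P` agreeing on `p'`-elements induce to characters of the normalizer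
agreeing off `TS P` -/
theorem indK_eq [Fintype (NP P)] {ψ ψ' : KP P → ℂ}
    (hag : ∀ k : KP P, ¬ p ∣ orderOf ((k : NP P) : G) → ψ' k = ψ k) (x : NP P)
    (hx : (x : G) ∉ TS P) : indFun (KP P) ψ x = indFun (KP P) ψ' x := by
  by_cases hxK : x ∈ KP P
  · have h1 := indFun_restrict_normal (KP_normal (P := P)) ψ ⟨x, hxK⟩
    have h2 := indFun_restrict_normal (KP_normal (P := P)) ψ' ⟨x, hxK⟩
    rw [h1, h2]
    congr 1
    refine Finset.sum_congr rfl fun y _ => ?_
    rw [cj_apply, cj_apply, hag]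
    intro hd
    apply hx
    refine ⟨mem_KP.mp hxK, ?_⟩
    have h3 : orderOf ((y : G) * (x : G) * (y : G)⁻¹) = orderOf (x : G) :=
      orderOf_injective (MulAut.conj (y : G)).toMonoidHom (MulAut.conj (y : G)).injective _
    rw [← h3]
    exact hd
  · rw [indFun_not_mem_normal KP_normal _ hxK, indFun_not_mem_normal KP_normal _ hxK]

theorem one_not_TS : (1 : G) ∉ TS P := by
  rintro ⟨-, h⟩
  rw [orderOf_one] at h
  exact hpf.out.one_lt.ne' (Nat.dvd_one.mp h)

theorem partner (h : Star P) (hne : (P : Subgroup G) ≠ ⊥) {χ : G → ℂ} (hχ : IsIrrCharacter G χ)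
    (hnk : ∃ u ∈ (P : Subgroup G), χ u ≠ χ 1) {d : ℕ} (hd : χ 1 = d)
    (hdeg : d + 1 < Nat.card (P : Subgroup G)) :
    ∃ χ' : G → ℂ, IsIrrCharacter G χ' ∧ χ' ≠ χ ∧ χ' 1 = χ 1 ∧
      ∀ g, (∀ x : G, x⁻¹ * g * x ∉ TS P) → χ' g = χ g := by
  classical
  have := Fintype.ofFinite (NP P)
  have := Fintype.ofFinite (KP P)
  have := Fintype.ofFinite (P : Subgroup G)
  have := Fintype.ofFinite (IrrCharacter (KP P))
  obtain ⟨F, hF⟩ := exists_ret h hne
  -- restriction to K
  have hcK : IsCharacter (KP P) (fun k => χ ((k : NP P) : G)) :=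
    isChar_comp (irr_isChar hχ) ((NP P).subtype.comp (KP P).subtype)
  obtain ⟨m, hm, hexp⟩ := char_expand hcK
  -- a constituent nontrivial on P
  obtain ⟨ψ, hψm, hψP⟩ : ∃ ψ : IrrCharacter (KP P), m ψ ≠ 0 ∧
      ∃ u : (P : Subgroup G), (ψ : KP P → ℂ) (emP h u) ≠ (ψ : KP P → ℂ) 1 := by
    by_contra hcon
    push Not at hcon
    obtain ⟨u, hu, hu1⟩ := hnk
    apply hu1
    have h1 := congrFun hexp (emP h ⟨u, hu⟩)
    have h2 := congrFun hexp 1
    simp only [Finset.sum_apply, Pi.smul_apply, smul_eq_mul] at h1 h2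
    have h3 : χ u = χ 1 := by
      calc χ u = _ := h1
        _ = ∑ ψ : IrrCharacter (KP P), (m ψ : ℂ) * (ψ : KP P → ℂ) 1 := by
            refine Finset.sum_congr rfl fun ψ _ => ?_
            by_cases h4 : m ψ = 0
            · rw [h4]; simp
            · rw [hcon ψ h4]
        _ = _ := h2.symm
    exact h3
  obtain ⟨lam, hlam⟩ := exists_central h ψ.2
  -- a missing linear character
  have hPc : ∀ a b : (P : Subgroup G), a * b = b * a := fun a b =>
    Subtype.ext (comm_of h a.2 (le_CP h b.2))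
  obtain ⟨μ, hμ1, hμ0⟩ := exists_missing hPc
    (isChar_comp (irr_isChar hχ) (P : Subgroup G).subtype) (Φ := fun u => χ (u : G)) hd hdeg
  let ψ' : KP P → ℂ := fun k => (((μ * lam⁻¹).comp F) k : ℂ) * (ψ : KP P → ℂ) k
  have hψ' : IsIrrCharacter (KP P) ψ' := isIrr_mul_hom ψ.2 ((μ * lam⁻¹).comp F)
  have hψ'P : ∀ u : (P : Subgroup G), ψ' (emP h u) = (μ u : ℂ) * (ψ : KP P → ℂ) 1 := by
    intro u
    have h1 := hlam u 1
    rw [mul_one] at h1
    show (((μ * lam⁻¹) (F (emP h u)) : ℂˣ) : ℂ) * (ψ : KP P → ℂ) (emP h u) = _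
    rw [hF.emP h u, h1, MonoidHom.mul_apply, MonoidHom.inv_apply]
    push_cast
    have : (lam u : ℂ) ≠ 0 := (lam u).ne_zero
    field_simp
  have hinner' : classInner (fun k : KP P => χ ((k : NP P) : G)) ψ' = 0 := by
    by_contra hne0
    have h1 := inner_trans (emP h) hcK hψ' hne0 (irr_isChar (isIrr_of_hom μ)) (by
      have h2 : (fun y => ψ' (emP h y)) = (ψ : KP P → ℂ) 1 • (fun y => (μ y : ℂ)) := by
        ext y
        rw [hψ'P y, Pi.smul_apply, smul_eq_mul, mul_comm]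
      rw [h2, classInner_smul_left, classInner_self_of_irr (isIrr_of_hom μ), mul_one]
      exact irr_one_ne_zero ψ.2)
    exact h1 hμ0
  have hψ'nt : ∃ u : (P : Subgroup G), ψ' (emP h u) ≠ ψ' 1 := by
    by_contra hcon
    push Not at hcon
    apply hμ1
    ext u
    have h1 := hcon u
    have h2 := hψ'P 1
    rw [map_one, map_one, Units.val_one, one_mul] at h2
    rw [hψ'P u, h2] at h1
    have h3 := irr_one_ne_zero ψ.2
    rw [MonoidHom.one_apply, Units.val_one]
    exact mul_right_cancel₀ h3 (by rw [h1, one_mul])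
  have hag : ∀ k : KP P, ¬ p ∣ orderOf ((k : NP P) : G) → ψ' k = (ψ : KP P → ℂ) k := by
    intro k hk
    show (((μ * lam⁻¹) (F k) : ℂˣ) : ℂ) * (ψ : KP P → ℂ) k = _
    rw [(hF.ker k).mpr hk, map_one, Units.val_one, one_mul]
  have hirr := isIrr_indK h ψ.2 hψP
  have hirr' := isIrr_indK h hψ' hψ'nt
  have hNchar : IsCharacter (NP P) (fun n => χ (n : G)) :=
    isChar_comp (irr_isChar hχ) (NP P).subtype
  have hi1 : classInner (fun n : NP P => χ (n : G)) (indFun (KP P) (ψ : KP P → ℂ)) = m ψ := by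
    rw [frobenius_reciprocity' (KP P) _ (char_classFun hNchar)]
    exact hm ψ
  have hi2 : classInner (fun n : NP P => χ (n : G)) (indFun (KP P) ψ') = 0 := by
    rw [frobenius_reciprocity' (KP P) _ (char_classFun hNchar)]
    exact hinner'
  -- exceptional characters
  let ι := {φ : NP P → ℂ // φ = indFun (KP P) (ψ : KP P → ℂ) ∨ φ = indFun (KP P) ψ'}
  let i0 : ι := ⟨indFun (KP P) (ψ : KP P → ℂ), Or.inl rfl⟩
  let i1 : ι := ⟨indFun (KP P) ψ', Or.inr rfl⟩
  have hvan0 : ∀ x : NP P, (x : G) ∉ TS P →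
      indFun (KP P) (ψ : KP P → ℂ) x = indFun (KP P) ψ' x := fun x hx => indK_eq hag x hx
  have hvan : ∀ i j : ι, ∀ x : NP P, (x : G) ∉ TS P → i.1 x = j.1 x := by
    rintro ⟨i, rfl | rfl⟩ ⟨j, rfl | rfl⟩ x hx
    · rfl
    · exact hvan0 x hx
    · exact (hvan0 x hx).symm
    · rfl
  obtain ⟨ε, hε, θ, hθ, hθinj, hdiff⟩ := exceptional_characters (NP P) (TS P) (ti h) i0
    (fun i : ι => i.1) (by rintro ⟨i, rfl | rfl⟩; exacts [hirr, hirr']) Subtype.val_injective
    hvan (fun i j => hvan i j 1 one_not_TS)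
  have hne01 : i0 ≠ i1 := by
    intro h1
    have h2 : indFun (KP P) (ψ : KP P → ℂ) = indFun (KP P) ψ' := congrArg Subtype.val h1
    rw [h2, hi2] at hi1
    exact hψm (by exact_mod_cast hi1.symm)
  have hD := hdiff i0 i1
  have hval : ∀ g : G, (∀ x : G, x⁻¹ * g * x ∉ TS P) → θ i0 g = θ i1 g := by
    intro g hg
    have h1 : indFun (NP P) (i0.1) g - indFun (NP P) (i1.1) g = 0 := by
      have h2 : indFun (NP P) (i0.1 - i1.1) g = 0 :=
        mem_TS_conj hg _ rfl _ (fun x hx => by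
          rw [Pi.sub_apply, hvan i0 i1 x hx, sub_self])
      rw [indFun_sub] at h2
      exact h2
    have h3 := congrFun hD g
    rw [Pi.sub_apply, h1, Pi.smul_apply, Pi.sub_apply, smul_eq_mul] at h3
    have hε0 : ε ≠ 0 := by rcases hε with rfl | rfl <;> norm_num
    have h4 := (mul_eq_zero.mp h3.symm).resolve_left hε0
    exact sub_eq_zero.mp h4
  have hinnerD : classInner χ (indFun (NP P) (i0.1) - indFun (NP P) (i1.1)) = m ψ := by
    rw [classInner_sub_right, frobenius_reciprocity' (NP P) _ (irr_classFun hχ),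
      frobenius_reciprocity' (NP P) _ (irr_classFun hχ)]
    rw [show classInner (fun h : NP P => χ h) i0.1 = m ψ from hi1,
      show classInner (fun h : NP P => χ h) i1.1 = 0 from hi2, sub_zero]
  rw [hD, classInner_smul_right, classInner_sub_right, classInner_irr hχ (hθ i0),
    classInner_irr hχ (hθ i1)] at hinnerD
  have h1conj : ∀ x : G, x⁻¹ * 1 * x ∉ TS P := by
    intro x
    rw [mul_one, inv_mul_cancel]
    exact one_not_TS
  by_cases hA : χ = θ i0
  · refine ⟨θ i1, hθ i1, ?_, ?_, ?_⟩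
    · rw [hA]
      exact fun h2 => hne01 (hθinj h2).symm
    · rw [hA]; exact (hval 1 h1conj).symm
    · intro g hg
      rw [hA]; exact (hval g hg).symm
  · by_cases hB : χ = θ i1
    · refine ⟨θ i0, hθ i0, ?_, ?_, ?_⟩
      · rw [hB]
        exact fun h2 => hne01 (hθinj h2)
      · rw [hB]; exact hval 1 h1conj
      · intro g hg
        rw [hB]; exact hval g hg
    · exfalso
      rw [if_neg hA, if_neg hB, sub_zero, mul_zero] at hinnerD
      exact hψm (by exact_mod_cast hinnerD.symm)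

end Leon
end Cfsg.Agent.H11
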