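import Cfsg.Agent.H11.Leon2
import Cfsg.Agent.H27.PMod
import Cfsg.Agent.H27.Kernel
import Cfsg.Agent.H3.Basic2

set_option autoImplicit false
set_option linter.unusedSectionVars false
open Cfsg Cfsg.Agent.H3 Finset
open scoped ComplexConjugate

namespace Cfsg.Agent.H11
namespace Leon

universe u

variable {G : Type u} [Group G] [Fintype G] {p : ℕ} [hpf : Fact p.Prime] {P : Sylow p G}

/-- constituents of products with a partner -/
theorem theta {χ χ' : G → ℂ} (hχ : IsIrrCharacter G χ) (hχ' : IsIrrCharacter G χ') (hne : χ' ≠ χ)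
    (hag : ∀ g, (∀ x : G, x⁻¹ * g * x ∉ TS P) → χ' g = χ g) {ψ : G → ℂ}
    (hψ : IsIrrCharacter G ψ) {k : ℂ} (hk0 : k ≠ 0) (hk : ∀ t ∈ TS P, ψ t = k) :
    classInner (χ * fun g => conj (χ g)) ψ ≠ 0 ∨ classInner (χ * fun g => conj (χ' g)) ψ ≠ 0 := by
  by_contra hcon
  push Not at hcon
  obtain ⟨h1, h2⟩ := hcon
  have h3 : classInner (χ * (fun g => conj (χ g)) - χ * (fun g => conj (χ' g))) ψ =
      conj k * (classInner χ χ - classInner χ χ') := by
    have e1 : conj k * (classInner χ χ - classInner χ χ') = (Nat.card G : ℂ)⁻¹ *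
        ∑ g : G, conj k * (χ g * conj (χ g) - χ g * conj (χ' g)) := by
      unfold classInner
      rw [← Finset.mul_sum, Finset.sum_sub_distrib]
      ring
    rw [e1]
    unfold classInner
    congr 1
    refine Finset.sum_congr rfl fun g _ => ?_
    simp only [Pi.sub_apply, Pi.mul_apply]
    by_cases hg : ∀ x : G, x⁻¹ * g * x ∉ TS P
    · rw [hag g hg]; ring
    · push Not at hg
      obtain ⟨x, hx⟩ := hg
      have h4 : ψ g = k := by
        rw [← hk _ hx]
        have h5 := irr_classFun hψ g x⁻¹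
        rw [inv_inv] at h5
        exact h5.symm
      rw [h4]; ring
  rw [classInner_sub_left, h1, h2, classInner_self_of_irr hχ,
    classInner_of_irr_ne hχ hχ' (Ne.symm hne)] at h3
  simp only [sub_zero, mul_one] at h3
  exact hk0 ((map_eq_zero _).mp h3.symm)

/-- a character of small degree which is constant on `P#` has `P` in its kernel -/
theorem ker_of_const (h : Star P) {ψ : G → ℂ} (hψ : IsCharacter G ψ) {k : ℂ}
    (hk : ∀ u ∈ (P : Subgroup G), u ≠ 1 → ψ u = k) {d : ℕ} (hd : ψ 1 = d)
    (hdeg : d + 1 < Nat.card (P : Subgroup G)) : ∀ u ∈ (P : Subgroup G), ψ u = ψ 1 := by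
  classical
  have := Fintype.ofFinite (P : Subgroup G)
  have hPc : ∀ a b : (P : Subgroup G), a * b = b * a := fun a b =>
    Subtype.ext (comm_of h a.2 (le_CP h b.2))
  obtain ⟨μ, hμ1, hμ0⟩ := exists_missing hPc
    (isChar_comp hψ (P : Subgroup G).subtype) (Φ := fun u => ψ (u : G)) hd hdeg
  have h1 : classInner (fun _ : (P : Subgroup G) => (1 : ℂ)) (fun u => (μ u : ℂ)) = 0 := by
    refine classInner_of_irr_ne isIrr_one (isIrr_of_hom μ) ?_
    intro h2
    apply hμ1
    ext u
    exact (congrFun h2 u).symm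
  have h2 : (fun u : (P : Subgroup G) => ψ (u : G)) =
      k • (fun _ => (1 : ℂ)) + (ψ 1 - k) • (fun u => if u = 1 then (1 : ℂ) else 0) := by
    ext u
    by_cases hu : u = 1
    · subst hu; simp
    · simp only [Pi.add_apply, Pi.smul_apply, smul_eq_mul, mul_one, if_neg hu, mul_zero, add_zero]
      exact hk u u.2 (fun h3 => hu (Subtype.ext h3))
  rw [h2, classInner_add_left, classInner_smul_left, classInner_smul_left, h1, mul_zero,
    zero_add] at hμ0
  have h3 : classInner (fun u : (P : Subgroup G) => if u = 1 then (1 : ℂ) else 0)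
      (fun u => (μ u : ℂ)) = (Nat.card (P : Subgroup G) : ℂ)⁻¹ := by
    unfold classInner
    rw [Finset.sum_eq_single (1 : (P : Subgroup G))]
    · simp
    · intro b _ hb; simp [hb]
    · intro hb; exact absurd (Finset.mem_univ _) hb
  rw [h3] at hμ0
  have h4 : (Nat.card (P : Subgroup G) : ℂ)⁻¹ ≠ 0 := inv_ne_zero card_ne_zeroC
  have h5 : ψ 1 = k := sub_eq_zero.mp ((mul_eq_zero.mp hμ0).resolve_right h4)
  intro u hu
  by_cases hu1 : u = 1
  · rw [hu1]
  · rw [hk u hu hu1, h5]

variable {M : Ideal AlgInt}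

/-- values of principal block characters on `TS P` -/
theorem principal_val (hM : IsPModular p M) (h : Star P) {F : KP P →* (P : Subgroup G)}
    (hF : Ret F) {ψ : IrrCharacter G} (hψ : ψ ∈ principalBlock M G) (k : KP P) (hk : F k ≠ 1) :
    (ψ : G → ℂ) ((k : NP P) : G) = (ψ : G → ℂ) (F k) := by
  classical
  set u : G := (F k : G) with hu
  have huP : u ∈ (P : Subgroup G) := (F k).2
  have hu1 : u ≠ 1 := fun h1 => hk (Subtype.ext h1)
  have hC : Subgroup.centralizer ({u} : Set G) = CP P := h u huP hu1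
  let i : Subgroup.centralizer ({u} : Set G) →* KP P :=
    { toFun := fun c => ⟨⟨c, CP_le_NP (hC.le c.2)⟩, mem_KP.mpr (hC.le c.2)⟩
      map_one' := rfl
      map_mul' := fun a b => rfl }
  let N := (F.comp i).ker
  have hN : ¬ p ∣ Nat.card N := by
    intro hd
    obtain ⟨c, hc⟩ := exists_prime_orderOf_dvd_card' p hd
    have h1 : F (i (c : Subgroup.centralizer ({u} : Set G))) = 1 := c.2
    have h2 := (hF.ker _).mp h1
    apply h2
    have h3 : orderOf ((i (c : Subgroup.centralizer ({u} : Set G)) : NP P) : G) = orderOf c := by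
      show orderOf ((c : Subgroup.centralizer ({u} : Set G)) : G) = _
      rw [Subgroup.orderOf_coe, Subgroup.orderOf_coe]
    rw [h3, hc]
  have hkC : ((k : NP P) : G) ∈ Subgroup.centralizer ({u} : Set G) := hC.ge (mem_KP.mp k.2)
  have huC : u ∈ Subgroup.centralizer ({u} : Set G) := by
    rw [Subgroup.mem_centralizer_singleton_iff]
  let v : Subgroup.centralizer ({u} : Set G) := ⟨u⁻¹ * ((k : NP P) : G),
    (Subgroup.centralizer ({u} : Set G)).mul_mem
      ((Subgroup.centralizer ({u} : Set G)).inv_mem huC) hkC⟩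
  have hv : v ∈ N := by
    show F (i v) = 1
    have h1 : i v = (emP h (F k))⁻¹ * k := rfl
    rw [h1, map_mul, map_inv, hF.emP h, inv_mul_cancel]
  have h1 := principal_const hM (pow_p_of_mem huP) hN hv hψ
  rw [← h1]
  have h2 : ((k : NP P) : G) = u * (v : G) := by
    show ((k : NP P) : G) = u * (u⁻¹ * ((k : NP P) : G))
    group
  rw [← h2]

theorem ret_surj (h : Star P) {F : KP P →* (P : Subgroup G)} (hF : Ret F) :
    Function.Surjective F := fun u => ⟨emP h u, hF.emP h u⟩

/-- inner products of principal block characters with differences of linear characters -/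
theorem principal_diff [Fintype (KP P)] [Fintype (P : Subgroup G)]
    (hM : IsPModular p M) (h : Star P) {F : KP P →* (P : Subgroup G)}
    (hF : Ret F) {ψ : IrrCharacter G} (hψ : ψ ∈ principalBlock M G)
    (μ ν : (P : Subgroup G) →* ℂˣ) :
    classInner (fun k : KP P => (ψ : G → ℂ) ((k : NP P) : G)) (fun k => (μ (F k) : ℂ)) -
      classInner (fun k : KP P => (ψ : G → ℂ) ((k : NP P) : G)) (fun k => (ν (F k) : ℂ)) =
    classInner (fun u : (P : Subgroup G) => (ψ : G → ℂ) u) (fun u => (μ u : ℂ)) -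
      classInner (fun u : (P : Subgroup G) => (ψ : G → ℂ) u) (fun u => (ν u : ℂ)) := by
  rw [← classInner_sub_right, ← classInner_sub_right]
  have h1 := H27.classInner_comp_surjective F (ret_surj h hF)
    (fun u : (P : Subgroup G) => (ψ : G → ℂ) u)
    ((fun u => (μ u : ℂ)) - (fun u => (ν u : ℂ)))
  rw [← h1]
  unfold classInner
  congr 1
  refine Finset.sum_congr rfl fun k _ => ?_
  by_cases hk : F k = 1
  · simp [hk]
  · have h2 := principal_val hM h hF hψ k hk
    show (ψ : G → ℂ) ((k : NP P) : G) * _ = (ψ : G → ℂ) (F k) * _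
    rw [h2]
    rfl

/-- the relation coming from block orthogonality -/
theorem principal_rel [Fintype (P : Subgroup G)] [Fintype (IrrCharacter G)]
    [DecidablePred (· ∈ principalBlock M G)]
    (hM : IsPModular p M) (lam : (P : Subgroup G) →* ℂˣ)
    {y : G} (hy : ¬ p ∣ orderOf y) :
    ∑ ψ : IrrCharacter G with ψ ∈ principalBlock M G,
      (classInner (fun u : (P : Subgroup G) => (ψ : G → ℂ) u) (fun _ => 1) -
        classInner (fun u : (P : Subgroup G) => (ψ : G → ℂ) u) (fun u => (lam u : ℂ))) *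
        (ψ : G → ℂ) y = 0 := by
  classical
  have h1 : ∀ ψ : IrrCharacter G,
      (classInner (fun u : (P : Subgroup G) => (ψ : G → ℂ) u) (fun _ => 1) -
        classInner (fun u : (P : Subgroup G) => (ψ : G → ℂ) u) (fun u => (lam u : ℂ))) *
        (ψ : G → ℂ) y = (Nat.card (P : Subgroup G) : ℂ)⁻¹ * ∑ u : (P : Subgroup G),
          (1 - conj (lam u : ℂ)) * ((ψ : G → ℂ) u * (ψ : G → ℂ) y) := by
    intro ψ
    unfold classInner
    rw [← mul_sub, ← Finset.sum_sub_distrib, mul_assoc, Finset.sum_mul]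
    congr 1
    refine Finset.sum_congr rfl fun u _ => ?_
    rw [map_one]; ring
  rw [Finset.sum_congr rfl fun ψ _ => h1 ψ, ← Finset.mul_sum, Finset.sum_comm]
  rw [Finset.sum_eq_zero, mul_zero]
  intro u _
  rw [← Finset.mul_sum]
  by_cases hu : u = 1
  · subst hu; simp
  · have hup : IsPPart p (u : G) (u : G) := by
      refine ⟨1, by simp, Commute.one_right _, pow_p_of_mem u.2, ?_⟩
      rw [orderOf_one]
      exact fun h2 => hpf.out.one_lt.ne' (Nat.dvd_one.mp h2)
    have hyp : IsPPart p y⁻¹ (1 : G) := by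
      refine ⟨y⁻¹, by simp, Commute.one_left _, ⟨0, by simp⟩, ?_⟩
      rwa [orderOf_inv]
    have hnc : ¬ IsConj (u : G) 1 := by
      intro h2
      exact hu (Subtype.ext (isConj_one_left.mp h2))
    have h2 := block_orthogonality hM hup hyp hnc (B := principalBlock M G) principalBlock_isPBlock
    rw [inv_inv] at h2
    have h3 : ∑ ψ : IrrCharacter G with ψ ∈ principalBlock M G, (ψ : G → ℂ) u * (ψ : G → ℂ) y
        = 0 := by
      rw [← h2, finsum_mem_irr]
    rw [h3, mul_zero]

end Leon
end Cfsg.Agent.H11
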