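import Cfsg.Agent.H11.Leon3

set_option autoImplicit false
set_option linter.unusedSectionVars false
open Cfsg Cfsg.Agent.H3 Finset
open scoped ComplexConjugate commutatorElement

namespace Cfsg.Agent.H11
namespace Leon

universe u

variable {G : Type u} [Group G] [Fintype G] {p : ℕ} [hpf : Fact p.Prime] {P : Sylow p G}
variable {M : Ideal AlgInt}

/-- a character of an abelian group with equal multiplicities of the nontrivial characters -/
theorem const_of_mult {A : Type u} [Group A] [Fintype A] (hc : ∀ a b : A, a * b = b * a)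
    {Φ : A → ℂ} (hΦ : IsClassFunction A Φ) {a b : ℂ}
    (h1 : classInner Φ (fun _ => 1) = b)
    (h2 : ∀ μ : A →* ℂˣ, μ ≠ 1 → classInner Φ (fun x => (μ x : ℂ)) = a) (x : A) (hx : x ≠ 1) :
    Φ x = b - a := by
  classical
  haveI : IsMulCommutative A := ⟨⟨hc⟩⟩
  have hcl : ∀ f : A → ℂ, IsClassFunction A f := by
    intro f g y
    rw [hc y g, mul_inv_cancel_right]
  have h3 : Φ = (b - a) • (fun _ => (1 : ℂ)) +
      (a * Nat.card A) • (fun u => if u = 1 then (1 : ℂ) else 0) := by
    apply classFun_ext_inner hΦ (hcl _)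
    intro χ
    have hone := irr_degree_one_of_comm χ.2
    obtain ⟨μ, hμ⟩ := exists_hom_of_char_one (irr_isChar χ.2) hone
    have h4 : classInner (fun u : A => if u = 1 then (1 : ℂ) else 0) (χ : A → ℂ) =
        (Nat.card A : ℂ)⁻¹ := by
      unfold classInner
      rw [Finset.sum_eq_single (1 : A)]
      · simp [hone]
      · intro b _ hb; simp [hb]
      · intro hb; exact absurd (Finset.mem_univ _) hb
    rw [classInner_add_left, classInner_smul_left, classInner_smul_left, h4]
    have h5 : (Nat.card A : ℂ) ≠ 0 := card_ne_zeroC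
    have h6 : a * (Nat.card A : ℂ) * (Nat.card A : ℂ)⁻¹ = a := by field_simp
    rw [h6]
    by_cases hμ1 : μ = 1
    · have h7 : (χ : A → ℂ) = fun _ => 1 := by
        rw [hμ, hμ1]; ext; simp
      rw [h7, h1, classInner_self_of_irr isIrr_one]
      ring
    · have h7 : classInner (fun _ : A => (1 : ℂ)) (χ : A → ℂ) = 0 := by
        refine classInner_of_irr_ne isIrr_one χ.2 ?_
        intro h8
        apply hμ1
        ext u
        rw [hμ] at h8
        exact (congrFun h8 u).symm
      rw [h7, hμ, h2 μ hμ1]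
      ring
  rw [h3]
  simp [hx]

theorem nontrivial_quot_contra (h : Star P) {w : G} (hw : w ∈ NP P) (hw' : w ∉ CP P)
    {K : Subgroup G} (hK : K.Normal) (hKt : K ≠ ⊤) (hreg : ∀ y : G, ¬ p ∣ orderOf y → y ∈ K) :
    False := by
  classical
  -- `G/K` is a `p`-group
  have hpg : IsPGroup p (G ⧸ K) := by
    intro x
    obtain ⟨g, rfl⟩ := QuotientGroup.mk_surjective x
    refine ⟨(orderOf g).factorization p, ?_⟩
    rw [← QuotientGroup.mk_pow, QuotientGroup.eq_one_iff]
    apply hreg
    rw [orderOf_pow' _ (pow_ne_zero _ hpf.out.ne_zero)]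
    have h1 : (orderOf g).gcd (p ^ (orderOf g).factorization p) = p ^ (orderOf g).factorization p :=
      Nat.gcd_eq_right (Nat.ordProj_dvd _ _)
    rw [h1]
    exact Nat.not_dvd_ordCompl hpf.out (orderOf_pos g).ne'
  haveI : Nontrivial (G ⧸ K) := by
    rw [QuotientGroup.nontrivial_iff]
    exact hKt
  have hsol : Group.IsSolvable (G ⧸ K) := by
    haveI := hpg.isNilpotent
    infer_instance
  have hlt := Group.IsSolvable.commutator_lt_top_of_nontrivial (G ⧸ K)
  apply hlt.ne
  rw [eq_top_iff]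
  -- the image of `P` is everything
  have hPK : (P : Subgroup G) ⊔ K = ⊤ := by
    rw [← Subgroup.index_eq_one]
    have h1 : ((P : Subgroup G) ⊔ K).index ∣ (P : Subgroup G).index :=
      Subgroup.index_dvd_of_le le_sup_left
    have h2 : ((P : Subgroup G) ⊔ K).index ∣ K.index := Subgroup.index_dvd_of_le le_sup_right
    obtain ⟨n, hn⟩ := IsPGroup.iff_card.mp hpg
    rw [← Subgroup.index_eq_card] at hn
    rw [hn, Nat.dvd_prime_pow hpf.out] at h2
    obtain ⟨j, _, hj⟩ := h2
    rcases Nat.eq_zero_or_pos j with h3 | h3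
    · rw [hj, h3, pow_zero]
    · exfalso
      apply P.not_dvd_index
      refine dvd_trans ?_ h1
      rw [hj]
      exact dvd_pow_self p h3.ne'
  intro x _
  obtain ⟨g, rfl⟩ := QuotientGroup.mk_surjective x
  have hg : g ∈ (P : Subgroup G) ⊔ K := by rw [hPK]; trivial
  rw [Subgroup.mem_sup_of_normal_right] at hg
  obtain ⟨y, hy, z, hz, rfl⟩ := hg
  obtain ⟨u, hu, hyu⟩ := surj_comm h hw hw' hy
  have h1 : (QuotientGroup.mk (y * z) : G ⧸ K) =
      ⁅(QuotientGroup.mk u⁻¹ : G ⧸ K), (QuotientGroup.mk w : G ⧸ K)⁆ := by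
    rw [QuotientGroup.mk_mul, (QuotientGroup.eq_one_iff z).mpr hz, mul_one, hyu]
    rw [commutatorElement_def]
    simp only [QuotientGroup.mk_mul, QuotientGroup.mk_inv, inv_inv]
    group
  rw [h1]
  exact Subgroup.commutator_mem_commutator (Subgroup.mem_top _) (Subgroup.mem_top _)

theorem irr_eq_one_of_ker {χ : G → ℂ} (hχ : IsIrrCharacter G χ) (h : ∀ g, χ g = χ 1) :
    χ = fun _ => 1 := by
  by_contra hne
  have h1 : χ = χ 1 • (fun _ => (1 : ℂ)) := by
    ext g
    simp [h g]
  have h2 : classInner χ (fun _ => 1) = 0 := classInner_of_irr_ne hχ isIrr_one hne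
  rw [h1, classInner_smul_left, classInner_self_of_irr isIrr_one, mul_one] at h2
  exact irr_one_ne_zero hχ h2

/-- existence of a nonprincipal character in the principal block which is constant (and nonzero)
on the `p`-singular elements -/
theorem exists_good (hM : IsPModular p M) (h : Star P) (hne : (P : Subgroup G) ≠ ⊥) {w : G}
    (hw : w ∈ NP P) (hw' : w ∉ CP P) :
    ∃ ψ : IrrCharacter G, (ψ : G → ℂ) ≠ (fun _ => 1) ∧ ∃ k : ℂ, k ≠ 0 ∧
      ∀ t ∈ TS P, (ψ : G → ℂ) t = k := by
  classical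
  have := Fintype.ofFinite (NP P)
  have := Fintype.ofFinite (KP P)
  have := Fintype.ofFinite (P : Subgroup G)
  have := Fintype.ofFinite (IrrCharacter G)
  obtain ⟨F, hF⟩ := exists_ret h hne
  by_contra hcon
  push Not at hcon
  have hPc : ∀ a b : (P : Subgroup G), a * b = b * a := fun a b =>
    Subtype.ext (comm_of h a.2 (le_CP h b.2))
  have hcard : 1 < Nat.card (P : Subgroup G) := (Subgroup.one_lt_card_iff_ne_bot _).mpr hne
  obtain ⟨lam, hlam1, -⟩ := exists_missing hPc (isChar_zero (G := (P : Subgroup G))) (d := 0)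
    (by simp) (by omega)
  have hirr : ∀ μ : (P : Subgroup G) →* ℂˣ, μ ≠ 1 →
      IsIrrCharacter (NP P) (indFun (KP P) (fun k => (μ (F k) : ℂ))) := by
    intro μ hμ
    refine isIrr_indK h (isIrr_of_hom (μ.comp F)) ?_
    by_contra hcon2
    push Not at hcon2
    apply hμ
    ext u
    have h1 := hcon2 u
    simp only [MonoidHom.comp_apply, hF.emP h u, map_one, Units.val_one] at h1
    exact h1
  let ι := {φ : NP P → ℂ // ∃ μ : (P : Subgroup G) →* ℂˣ, μ ≠ 1 ∧
    φ = indFun (KP P) (fun k => (μ (F k) : ℂ))}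
  let i0 : ι := ⟨_, lam, hlam1, rfl⟩
  have hvan : ∀ i j : ι, ∀ x : NP P, (x : G) ∉ TS P → i.1 x = j.1 x := by
    rintro ⟨i, μ, hμ, rfl⟩ ⟨j, ν, hν, rfl⟩ x hx
    refine indK_eq (fun k hk => ?_) x hx
    have := (hF.ker k).mpr hk
    simp only [this, map_one]
  obtain ⟨ε, hε, θ, hθ, hθinj, hdiff⟩ := exceptional_characters (NP P) (TS P) (ti h) i0
    (fun i : ι => i.1) (by rintro ⟨i, μ, hμ, rfl⟩; exact hirr μ hμ) Subtype.val_injective
    hvan (fun i j => hvan i j 1 one_not_TS)
  have hε0 : ε ≠ 0 := by rcases hε with rfl | rfl <;> norm_num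
  have hval : ∀ i j : ι, ∀ g : G, ¬ p ∣ orderOf g → θ i g = θ j g := by
    intro i j g hg
    have hg' : ∀ x : G, x⁻¹ * g * x ∉ TS P := by
      rintro x ⟨-, h1⟩
      apply hg
      have h3 : orderOf (x⁻¹ * g * x) = orderOf g := by
        have := orderOf_injective (MulAut.conj x⁻¹).toMonoidHom (MulAut.conj x⁻¹).injective g
        simpa using this
      rwa [h3] at h1
    have h1 : indFun (NP P) (i.1) g - indFun (NP P) (j.1) g = 0 := by
      have h2 : indFun (NP P) (i.1 - j.1) g = 0 :=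
        mem_TS_conj hg' _ rfl _ (fun x hx => by
          rw [Pi.sub_apply, hvan i j x hx, sub_self])
      rw [indFun_sub] at h2
      exact h2
    have h3 := congrFun (hdiff i j) g
    rw [Pi.sub_apply, h1, Pi.smul_apply, Pi.sub_apply, smul_eq_mul] at h3
    exact sub_eq_zero.mp ((mul_eq_zero.mp h3.symm).resolve_left hε0)
  let n : IrrCharacter G → ℂ := fun ψ =>
    classInner (fun u : (P : Subgroup G) => (ψ : G → ℂ) u) (fun _ => 1) -
      classInner (fun u : (P : Subgroup G) => (ψ : G → ℂ) u) (fun u => (lam u : ℂ))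
  -- claim 1
  have claim1 : ∀ ψ : IrrCharacter G, ψ ∈ principalBlock M G → (ψ : G → ℂ) ≠ (fun _ => 1) →
      n ψ ≠ 0 → ∃ i, (ψ : G → ℂ) = θ i := by
    intro ψ hψ hψ1 hn
    by_contra hno
    push Not at hno
    have h1 : ∀ μ : (P : Subgroup G) →* ℂˣ, μ ≠ 1 →
        classInner (fun u : (P : Subgroup G) => (ψ : G → ℂ) u) (fun u => (μ u : ℂ)) =
        classInner (fun u : (P : Subgroup G) => (ψ : G → ℂ) u) (fun u => (lam u : ℂ)) := by
      intro μ hμ
      rw [← sub_eq_zero, ← principal_diff hM h hF hψ μ lam]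
      let j : ι := ⟨_, μ, hμ, rfl⟩
      have h2 := congrArg (classInner (ψ : G → ℂ)) (hdiff j i0)
      rw [classInner_sub_right, classInner_smul_right, classInner_sub_right,
        classInner_of_irr_ne ψ.2 (hθ j) (hno j), classInner_of_irr_ne ψ.2 (hθ i0) (hno i0),
        sub_zero, mul_zero, frobenius_reciprocity' (NP P) _ (irr_classFun ψ.2),
        frobenius_reciprocity' (NP P) _ (irr_classFun ψ.2)] at h2
      have hNchar : IsClassFunction (NP P) (fun n : NP P => (ψ : G → ℂ) (n : G)) :=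
        classFun_restrict _ (irr_classFun ψ.2)
      rw [show (j.1 : NP P → ℂ) = indFun (KP P) (fun k => (μ (F k) : ℂ)) from rfl,
        show (i0.1 : NP P → ℂ) = indFun (KP P) (fun k => (lam (F k) : ℂ)) from rfl,
        frobenius_reciprocity' (KP P) _ hNchar, frobenius_reciprocity' (KP P) _ hNchar] at h2
      exact h2
    obtain ⟨t, ht, htk⟩ := hcon ψ hψ1 (n ψ) hn
    apply htk
    let k : KP P := ⟨⟨t, CP_le_NP ht.1⟩, mem_KP.mpr ht.1⟩
    have hk : F k ≠ 1 := by
      intro h2
      exact (hF.ker k).mp h2 ht.2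
    have h2 : (ψ : G → ℂ) t = (ψ : G → ℂ) (F k) := principal_val hM h hF hψ k hk
    rw [h2]
    exact const_of_mult hPc (classFun_restrict _ (irr_classFun ψ.2)) rfl h1 (F k) hk
  -- claim 2
  have hMp := hM.2.1.isPrime
  have hone : (⟨fun _ => 1, isIrr_one⟩ : IrrCharacter G) ∈ principalBlock M G :=
    mem_principalBlock_iff.mpr (sameBlock_refl _)
  let S : Finset (IrrCharacter G) := (Finset.univ.filter (· ∈ principalBlock M G)).erase
    ⟨fun _ => 1, isIrr_one⟩
  have hn1 : n ⟨fun _ => 1, isIrr_one⟩ = 1 := by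
    show classInner (fun u : (P : Subgroup G) => (1 : ℂ)) (fun _ => 1) -
      classInner (fun u : (P : Subgroup G) => (1 : ℂ)) (fun u => (lam u : ℂ)) = 1
    rw [classInner_self_of_irr isIrr_one, classInner_of_irr_ne isIrr_one (isIrr_of_hom lam),
      sub_zero]
    intro h2
    apply hlam1
    ext u
    exact (congrFun h2 u).symm
  have claim2 : ∀ y : G, ¬ p ∣ orderOf y → 1 + (∑ ψ ∈ S, n ψ) * θ i0 y = 0 := by
    intro y hy
    have h1 := principal_rel hM lam hy
    rw [← Finset.add_sum_erase _ _ (show (⟨fun _ => 1, isIrr_one⟩ : IrrCharacter G) ∈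
      Finset.univ.filter (· ∈ principalBlock M G) from
        Finset.mem_filter.mpr ⟨Finset.mem_univ _, hone⟩)] at h1
    rw [← h1, Finset.sum_mul]
    congr 1
    · show (1 : ℂ) = n ⟨fun _ => 1, isIrr_one⟩ * 1
      rw [hn1, mul_one]
    · refine Finset.sum_congr rfl fun ψ hψ => ?_
      show n ψ * θ i0 y = n ψ * (ψ : G → ℂ) y
      by_cases hn0 : n ψ = 0
      · rw [hn0, zero_mul, zero_mul]
      · obtain ⟨i, hi⟩ := claim1 ψ (Finset.mem_filter.mp (Finset.mem_of_mem_erase hψ)).2
          (fun h3 => (Finset.ne_of_mem_erase hψ) (Subtype.ext h3)) hn0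
        rw [hi, hval i i0 y hy]
  have hp1 : ¬ p ∣ orderOf (1 : G) := by
    rw [orderOf_one]
    exact fun h2 => hpf.out.one_lt.ne' (Nat.dvd_one.mp h2)
  have hs : (∑ ψ ∈ S, n ψ) ≠ 0 := by
    intro h2
    have h3 := claim2 1 hp1
    rw [h2, zero_mul, add_zero] at h3
    exact one_ne_zero h3
  obtain ⟨ψ, hψS, hψn⟩ := Finset.exists_ne_zero_of_sum_ne_zero hs
  have hψ1 : (ψ : G → ℂ) ≠ fun _ => 1 := fun h3 => (Finset.ne_of_mem_erase hψS) (Subtype.ext h3)
  obtain ⟨i, hi⟩ := claim1 ψ (Finset.mem_filter.mp (Finset.mem_of_mem_erase hψS)).2 hψ1 hψn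
  have hker : ∀ y : G, ¬ p ∣ orderOf y → (ψ : G → ℂ) y = (ψ : G → ℂ) 1 := by
    intro y hy
    have h3 := claim2 y hy
    have h4 := claim2 1 hp1
    have h5 : (∑ ψ ∈ S, n ψ) * θ i0 y = (∑ ψ ∈ S, n ψ) * θ i0 1 := by
      linear_combination h3 - h4
    rw [hi, hval i i0 y hy, hval i i0 1 hp1]
    exact mul_left_cancel₀ hs h5
  refine nontrivial_quot_contra h hw hw' (K := H27.charKer (irr_isChar ψ.2))
    (H27.charKer_normal _) ?_ ?_
  · intro h3
    apply hψ1
    apply irr_eq_one_of_ker ψ.2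
    intro g
    rw [← H27.mem_charKer (irr_isChar ψ.2), h3]
    trivial
  · intro y hy
    rw [H27.mem_charKer]
    exact hker y hy

end Leon
end Cfsg.Agent.H11
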