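import Mathlib

set_option autoImplicit false
set_option linter.all false

/-! Counting lemmas for an abelian subgroup all of whose nontrivial elements have the same number of fixed points. -/

namespace Cfsg.Agent.H11.MI

open scoped Pointwise

variable {G Ω : Type*} [Group G] [MulAction G Ω]

/-- number of fixed points is conjugation invariant -/
theorem fix_conj (g h : G) : Nat.card (MulAction.fixedBy Ω (h * g * h⁻¹)) = Nat.card (MulAction.fixedBy Ω g) := by
  have h1 := MulAction.smul_fixedBy (α := Ω) g h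
  rw [← h1]
  exact Nat.card_congr (Equiv.ofBijective (fun z : ((h • (MulAction.fixedBy Ω g) : Set Ω)) => (⟨h⁻¹ • (z : Ω), by
    obtain ⟨z, hz⟩ := z
    rw [Set.mem_smul_set_iff_inv_smul_mem] at hz
    exact hz⟩ : (MulAction.fixedBy Ω g))) ⟨by
      rintro ⟨a, ha⟩ ⟨b, hb⟩ hab
      have := congrArg Subtype.val hab
      exact Subtype.ext (smul_left_cancel _ this), by
      rintro ⟨a, ha⟩
      refine ⟨⟨h • a, Set.smul_mem_smul_set ha⟩, ?_⟩
      apply Subtype.ext
      simp⟩)

theorem sum_stab [Finite G] [Fintype Ω] (Y : Subgroup G) (f : ℕ)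
    (hf : ∀ a ∈ Y, a ≠ 1 → Nat.card (MulAction.fixedBy Ω a) = f) :
    ∑ z : Ω, Nat.card (Y ⊓ MulAction.stabilizer G z : Subgroup G) = Nat.card Ω + (Nat.card Y - 1) * f := by
  classical
  haveI := Fintype.ofFinite G
  have h1 : ∀ z : Ω, Nat.card (Y ⊓ MulAction.stabilizer G z : Subgroup G) =
      ∑ g : G, if g ∈ Y ∧ g • z = z then 1 else 0 := by
    intro z
    rw [Nat.card_eq_fintype_card, Fintype.card_subtype, Finset.card_filter]
    apply Finset.sum_congr rfl
    intro g _
    simp only [Subgroup.mem_inf, MulAction.mem_stabilizer_iff]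
  have h2 : ∑ z : Ω, Nat.card (Y ⊓ MulAction.stabilizer G z : Subgroup G) =
      ∑ g : G, if g ∈ Y then Nat.card (MulAction.fixedBy Ω g) else 0 := by
    rw [Finset.sum_congr rfl (fun z _ => h1 z), Finset.sum_comm]
    apply Finset.sum_congr rfl
    intro g _
    by_cases hg : g ∈ Y
    · rw [if_pos hg, Nat.card_eq_fintype_card, Fintype.card_subtype, Finset.card_filter]
      apply Finset.sum_congr rfl
      intro z _
      simp [hg, MulAction.mem_fixedBy]
    · rw [if_neg hg]
      apply Finset.sum_eq_zero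
      intro z _
      simp [hg]
  rw [h2, ← Finset.sum_filter, ← Finset.add_sum_erase _ _ (show (1 : G) ∈ Finset.univ.filter (fun g => g ∈ Y) by simp [Y.one_mem])]
  have h3 : Nat.card (MulAction.fixedBy Ω (1 : G)) = Nat.card Ω := by
    apply Nat.card_congr
    refine (Equiv.subtypeUnivEquiv ?_)
    intro z
    simp [MulAction.mem_fixedBy]
  rw [h3]
  congr 1
  rw [Finset.sum_congr rfl (g := fun _ => f)]
  · rw [Finset.sum_const, smul_eq_mul, Finset.card_erase_of_mem (by simp [Y.one_mem])]
    congr 2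
    rw [Nat.card_eq_fintype_card, Fintype.card_subtype]
  · intro g hg
    rw [Finset.mem_erase, Finset.mem_filter] at hg
    exact hf g hg.2.2 hg.1

/-- the `A`-orbit of `x`, counted with stabilizers -/
theorem orbit_count [Finite G] [Finite Ω] (A : Subgroup G) (x : Ω) :
    Nat.card (MulAction.orbit A x) * Nat.card (A ⊓ MulAction.stabilizer G x : Subgroup G) = Nat.card A := by
  classical
  haveI := Fintype.ofFinite A
  haveI := Fintype.ofFinite (MulAction.orbit A x)
  haveI := Fintype.ofFinite (MulAction.stabilizer A x)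
  have h1 := MulAction.card_orbit_mul_card_stabilizer_eq_card_group A x
  rw [Nat.card_eq_fintype_card, Nat.card_eq_fintype_card (α := A), ← h1]
  congr 1
  rw [← Nat.card_eq_fintype_card]
  refine Nat.card_congr ⟨fun z => ⟨⟨z, z.2.1⟩, z.2.2⟩, fun z => ⟨z.1, z.1.2, z.2⟩, fun z => rfl, fun z => rfl⟩

/-- Points of different orbits: the stabilizers generate. -/
theorem split [Finite G] [Finite Ω] (A Y : Subgroup G) (hYA : Y ≤ A) (hab : ∀ a ∈ A, ∀ b ∈ A, a * b = b * a) (f : ℕ)
    (hf : ∀ a ∈ A, a ≠ 1 → Nat.card (MulAction.fixedBy Ω a) = f) (hΩ : Nat.card Ω = f + Nat.card A)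
    (x x' : Ω) (hx : A ⊓ MulAction.stabilizer G x ≤ Y) (hx' : A ⊓ MulAction.stabilizer G x' ≤ Y)
    (hxx : x' ∉ MulAction.orbit A x) : Y = A := by
  classical
  haveI := Fintype.ofFinite Ω
  have hA := sum_stab (Ω := Ω) A f hf
  have hY := sum_stab (Ω := Ω) Y f (fun a ha => hf a (hYA ha))
  have hcA : 1 ≤ Nat.card A := Nat.card_pos
  have hcY : 1 ≤ Nat.card Y := Nat.card_pos
  obtain ⟨a, ha⟩ : ∃ a, Nat.card A = a + 1 := ⟨Nat.card A - 1, by omega⟩
  obtain ⟨y, hy⟩ : ∃ y, Nat.card Y = y + 1 := ⟨Nat.card Y - 1, by omega⟩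
  -- termwise inequality
  have hterm : ∀ z : Ω, Nat.card (A ⊓ MulAction.stabilizer G z : Subgroup G) * Nat.card Y ≤
      Nat.card (Y ⊓ MulAction.stabilizer G z : Subgroup G) * Nat.card A := by
    intro z
    set Az := A ⊓ MulAction.stabilizer G z with hAz
    have h1 : Y.relIndex Az ≤ Y.relIndex A := Subgroup.relIndex_le_of_le_right inf_le_left (Subgroup.FiniteIndex.index_ne_zero)
    have h2 : Nat.card (Y ⊓ Az : Subgroup G) * Y.relIndex Az = Nat.card Az := by
      have := Subgroup.card_mul_index (Y.subgroupOf Az)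
      rw [← this]
      congr 1
      rw [← Subgroup.inf_subgroupOf_right]
      exact (Nat.card_congr (Subgroup.subgroupOfEquivOfLe inf_le_right).toEquiv).symm
    have h3 : Nat.card Y * Y.relIndex A = Nat.card A := by
      have := Subgroup.card_mul_index (Y.subgroupOf A)
      rw [← this]
      congr 1
      exact (Nat.card_congr (Subgroup.subgroupOfEquivOfLe hYA).toEquiv).symm
    have h4 : Y ⊓ Az = Y ⊓ MulAction.stabilizer G z := by
      rw [hAz, ← inf_assoc, inf_eq_left.2 hYA]
    rw [← h2, ← h3, h4]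
    calc _ = Nat.card (Y ⊓ MulAction.stabilizer G z : Subgroup G) * Nat.card Y * Y.relIndex Az := by ring
      _ ≤ Nat.card (Y ⊓ MulAction.stabilizer G z : Subgroup G) * Nat.card Y * Y.relIndex A := Nat.mul_le_mul_left _ h1
      _ = _ := by ring
  -- on the orbit of a point with stabilizer in `Y`
  have horb : ∀ w : Ω, A ⊓ MulAction.stabilizer G w ≤ Y → ∀ z ∈ MulAction.orbit A w,
      A ⊓ MulAction.stabilizer G z = A ⊓ MulAction.stabilizer G w ∧ Y ⊓ MulAction.stabilizer G z = A ⊓ MulAction.stabilizer G w := by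
    intro w hw z hz
    obtain ⟨⟨b, hb⟩, rfl⟩ := hz
    have h1 : A ⊓ MulAction.stabilizer G ((⟨b, hb⟩ : A) • w) = A ⊓ MulAction.stabilizer G w := by
      ext g
      simp only [Subgroup.mem_inf, MulAction.mem_stabilizer_iff]
      constructor
      · rintro ⟨h1, h2⟩
        refine ⟨h1, ?_⟩
        change g • b • w = b • w at h2
        rw [smul_smul, hab g h1 b hb, ← smul_smul] at h2
        exact smul_left_cancel _ h2
      · rintro ⟨h1, h2⟩
        refine ⟨h1, ?_⟩
        change g • b • w = b • w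
        rw [smul_smul, hab g h1 b hb, ← smul_smul, h2]
    refine ⟨h1, ?_⟩
    rw [← h1]
    apply le_antisymm
    · exact inf_le_inf_right _ hYA
    · exact le_inf (h1 ▸ hw) inf_le_right
  have hsumorb : ∀ w : Ω, A ⊓ MulAction.stabilizer G w ≤ Y →
      ∑ z ∈ Finset.univ.filter (fun z => z ∈ MulAction.orbit A w), ((Nat.card (Y ⊓ MulAction.stabilizer G z : Subgroup G) : ℤ) * Nat.card A -
        (Nat.card (A ⊓ MulAction.stabilizer G z : Subgroup G) : ℤ) * Nat.card Y) = (Nat.card A : ℤ) * (Nat.card A - Nat.card Y) := by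
    intro w hw
    rw [Finset.sum_congr rfl (g := fun _ => (Nat.card (A ⊓ MulAction.stabilizer G w : Subgroup G) : ℤ) * (Nat.card A - Nat.card Y))]
    · rw [Finset.sum_const, nsmul_eq_mul, ← mul_assoc]
      congr 1
      have h1 := orbit_count A w
      have h2 : Nat.card (MulAction.orbit A w) = (Finset.univ.filter (fun z => z ∈ MulAction.orbit A w)).card := by
        rw [Nat.card_eq_fintype_card, Fintype.card_subtype]
      rw [← h2, ← Nat.cast_mul, h1]
    · intro z hz
      rw [Finset.mem_filter] at hz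
      obtain ⟨h1, h2⟩ := horb w hw z hz.2
      rw [h1, h2]; ring
  have hdisj : Disjoint (Finset.univ.filter (fun z => z ∈ MulAction.orbit A x)) (Finset.univ.filter (fun z => z ∈ MulAction.orbit A x')) := by
    rw [Finset.disjoint_left]
    intro z hz hz'
    rw [Finset.mem_filter] at hz hz'
    apply hxx
    rw [← MulAction.orbit_eq_iff.2 hz.2, MulAction.orbit_eq_iff.2 hz'.2]
    exact MulAction.mem_orbit_self _
  have hge : (Nat.card A : ℤ) * (Nat.card A - Nat.card Y) + (Nat.card A : ℤ) * (Nat.card A - Nat.card Y) ≤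
      ∑ z : Ω, ((Nat.card (Y ⊓ MulAction.stabilizer G z : Subgroup G) : ℤ) * Nat.card A -
        (Nat.card (A ⊓ MulAction.stabilizer G z : Subgroup G) : ℤ) * Nat.card Y) := by
    have e1 := hsumorb x hx
    have e2 := hsumorb x' hx'
    refine le_trans (le_of_eq (congrArg₂ (· + ·) e1.symm e2.symm)) ?_
    show _ + _ ≤ _
    rw [← Finset.sum_union hdisj]
    apply Finset.sum_le_sum_of_subset_of_nonneg (Finset.subset_univ _)
    intro z _ _
    have := hterm z
    have h2 : (Nat.card (A ⊓ MulAction.stabilizer G z : Subgroup G) : ℤ) * Nat.card Y ≤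
      (Nat.card (Y ⊓ MulAction.stabilizer G z : Subgroup G) : ℤ) * Nat.card A := by exact_mod_cast this
    linarith
  have htot : ∑ z : Ω, ((Nat.card (Y ⊓ MulAction.stabilizer G z : Subgroup G) : ℤ) * Nat.card A -
        (Nat.card (A ⊓ MulAction.stabilizer G z : Subgroup G) : ℤ) * Nat.card Y) = (Nat.card A : ℤ) * (Nat.card A - Nat.card Y) := by
    rw [Finset.sum_sub_distrib, ← Finset.sum_mul, ← Finset.sum_mul]
    rw [← Nat.cast_sum, ← Nat.cast_sum, hA, hY, hΩ, ha, hy]
    push_cast
    ring
  rw [htot] at hge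
  have h5 : (0:ℤ) < Nat.card A := by exact_mod_cast hcA
  have h6 : (Nat.card A : ℤ) ≤ Nat.card Y := by nlinarith
  exact Subgroup.eq_of_le_of_card_ge hYA (by exact_mod_cast h6)

end Cfsg.Agent.H11.MI
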