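import Mathlib
import Cfsg.Agent.H11.MI1
import Cfsg.Agent.H16.TvA
import Cfsg.Agent.H16.TrvA

set_option autoImplicit false
set_option linter.all false

/-! Transvections of `SL_n(F)` in a subgroup: linear algebra. -/

namespace Cfsg.Agent.H11.MI

open Matrix Cfsg.Agent.H12 Cfsg.Agent.H17 Cfsg.Agent.H16

variable {F : Type*} [Field F] {n : ℕ}

abbrev SL' (n : ℕ) (F : Type*) [Field F] := SpecialLinearGroup (Fin n) F

/-- the hyperplane `φ = 0` -/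
def P (φ : Fin n → F) : AddSubgroup (Fin n → F) where
  carrier := {v | φ ⬝ᵥ v = 0}
  zero_mem' := by simp
  add_mem' := by
    intro a b ha hb
    simp only [Set.mem_setOf_eq] at *
    rw [dotProduct_add, ha, hb, add_zero]
  neg_mem' := by
    intro a ha
    simp only [Set.mem_setOf_eq] at *
    rw [dotProduct_neg, ha, neg_zero]

theorem mem_P {φ v : Fin n → F} : v ∈ P φ ↔ φ ⬝ᵥ v = 0 := Iff.rfl

/-- the centers of transvections of axis `φ` in `H` -/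
def U (H : Subgroup (SL' n F)) (φ : Fin n → F) : AddSubgroup (Fin n → F) where
  carrier := {v | InT H v φ}
  zero_mem' := InT.zero_left φ
  add_mem' := fun ha hb => InT.add_left ha hb
  neg_mem' := fun ha => InT.neg_left ha

theorem mem_U {H : Subgroup (SL' n F)} {φ v : Fin n → F} : v ∈ U H φ ↔ InT H v φ := Iff.rfl

theorem U_le (H : Subgroup (SL' n F)) (φ : Fin n → F) : U H φ ≤ P φ := fun v hv => hv.1

/-- the axes of transvections of center `v` in `H` -/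
def D (H : Subgroup (SL' n F)) (v : Fin n → F) : AddSubgroup (Fin n → F) where
  carrier := {φ | InT H v φ}
  zero_mem' := ⟨by simp, 1, H.one_mem, by ext i j; simp [vecMulVec_apply]⟩
  add_mem' := fun ha hb => InT.add_right ha hb
  neg_mem' := fun ha => InT.neg_right ha

theorem mem_D {H : Subgroup (SL' n F)} {φ v : Fin n → F} : φ ∈ D H v ↔ InT H v φ := Iff.rfl

theorem D_le (H : Subgroup (SL' n F)) (v : Fin n → F) : D H v ≤ P v := fun φ hφ => by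
  rw [mem_P, dotProduct_comm]; exact hφ.1

/-- line -/
def ln (w : Fin n → F) : AddSubgroup (Fin n → F) where
  carrier := {v | ∃ c : F, v = c • w}
  zero_mem' := ⟨0, by simp⟩
  add_mem' := by
    rintro a b ⟨c, rfl⟩ ⟨d, rfl⟩
    exact ⟨c + d, by rw [add_smul]⟩
  neg_mem' := by
    rintro a ⟨c, rfl⟩
    exact ⟨-c, by rw [neg_smul]⟩

theorem mem_ln {w v : Fin n → F} : v ∈ ln w ↔ ∃ c : F, v = c • w := Iff.rfl

/-- dual existence -/
theorem dual_ex {u w : Fin n → F} (h : u ∉ ln w) : ∃ ψ : Fin n → F, ψ ⬝ᵥ w = 0 ∧ ψ ⬝ᵥ u = 1 := by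
  by_cases hw : w = 0
  · subst hw
    have hu : u ≠ 0 := fun h0 => h (by rw [h0]; exact (ln 0).zero_mem)
    obtain ⟨f, hf⟩ := Cfsg.Agent.H17.exists_dot_eq_one hu
    exact ⟨f, by simp, hf⟩
  · by_contra hcon
    push Not at hcon
    apply h
    apply exists_smul_of_perp hw
    intro f hf
    by_contra hne
    have := hcon ((f ⬝ᵥ u)⁻¹ • f) (by rw [smul_dotProduct, hf, smul_zero])
    rw [smul_dotProduct, smul_eq_mul, inv_mul_cancel₀ hne] at this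
    exact this rfl

/-- vector in `P φ` off the line of `v`; `n ≥ 3`. -/
theorem ex_off (hn : 3 ≤ n) (φ : Fin n → F) {v : Fin n → F} (hv : v ≠ 0) : ∃ w, w ≠ 0 ∧ φ ⬝ᵥ w = 0 ∧ w ∉ ln v := by
  obtain ⟨θ, hθ⟩ := Cfsg.Agent.H17.exists_dot_eq_one hv
  obtain ⟨w, hw, h1, h2⟩ := exists_ne_zero_dot_dot hn φ θ
  refine ⟨w, hw, h1, ?_⟩
  rintro ⟨c, rfl⟩
  rw [dotProduct_smul, hθ] at h2
  simp only [smul_eq_mul, mul_one] at h2
  exact hw (by rw [h2, zero_smul])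

/-- transitivity on incident pairs -/
theorem sl_pair (hn : 3 ≤ n) {v φ v' φ' : Fin n → F} (hv : v ≠ 0) (hφ : φ ≠ 0) (h : φ ⬝ᵥ v = 0) (hv' : v' ≠ 0) (hφ' : φ' ≠ 0)
    (h' : φ' ⬝ᵥ v' = 0) : ∃ σ : SL' n F, (σ : Matrix (Fin n) (Fin n) F) *ᵥ v = v' ∧ φ' ᵥ* (σ : Matrix (Fin n) (Fin n) F) = φ := by
  obtain ⟨g, hg1, hg2⟩ := exists_gl_pair hv hφ h hv' hφ' h'
  have hdet : (g : Matrix (Fin n) (Fin n) F).det ≠ 0 := (Matrix.isUnit_iff_isUnit_det _).1 g.isUnit |>.ne_zero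
  obtain ⟨E, hD1, hD2, hD3⟩ := Cfsg.Agent.H16.Trv.exists_dil hn hv hφ h ((g : Matrix (Fin n) (Fin n) F).det)⁻¹ (inv_ne_zero hdet)
  have hg3 : φ' ᵥ* (g : Matrix (Fin n) (Fin n) F) = φ := by
    rw [← hg2, vecMul_vecMul, ← Units.val_mul, inv_mul_cancel, Units.val_one, vecMul_one]
  refine ⟨⟨(g : Matrix (Fin n) (Fin n) F) * E, by rw [det_mul, hD1, mul_inv_cancel₀ hdet]⟩, ?_, ?_⟩
  · show ((g : Matrix (Fin n) (Fin n) F) * E) *ᵥ v = v'
    rw [← mulVec_mulVec, hD2, hg1]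
  · show φ' ᵥ* ((g : Matrix (Fin n) (Fin n) F) * E) = φ
    rw [← vecMul_vecMul, hg3, hD3]

/-- transitivity on covectors -/
theorem sl_cov (hn : 3 ≤ n) {φ φ' : Fin n → F} (hφ : φ ≠ 0) (hφ' : φ' ≠ 0) : ∃ σ : SL' n F, φ' ᵥ* (σ : Matrix (Fin n) (Fin n) F) = φ := by
  obtain ⟨v, hv, hv0⟩ := exists_ne_zero_dot (by omega : 2 ≤ n) φ
  obtain ⟨v', hv', hv0'⟩ := exists_ne_zero_dot (by omega : 2 ≤ n) φ'
  obtain ⟨σ, h1, h2⟩ := sl_pair hn hv hφ hv0 hv' hφ' hv0'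
  exact ⟨σ, h2⟩

theorem tv_ext {v φ v' φ' : Fin n → F} (h : φ ⬝ᵥ v = 0) (h' : φ' ⬝ᵥ v' = 0) (hv : v = v') (hφ : φ = φ') : tv v φ h = tv v' φ' h' := by
  subst hv; subst hφ; rfl

theorem conj_tv (g : SL' n F) (a φ' : Fin n → F) (h : (φ' ᵥ* (g : Matrix (Fin n) (Fin n) F)) ⬝ᵥ a = 0) :
    g * tv a (φ' ᵥ* (g : Matrix (Fin n) (Fin n) F)) h * g⁻¹ = tv ((g : Matrix (Fin n) (Fin n) F) *ᵥ a) φ' (by rw [dotProduct_mulVec]; exact h) := by
  rw [mul_inv_eq_iff_eq_mul]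
  apply sl_ext
  rw [Matrix.SpecialLinearGroup.coe_mul, Matrix.SpecialLinearGroup.coe_mul, tv_coe, tv_coe, Matrix.mul_add, Matrix.mul_one, Matrix.add_mul, Matrix.one_mul,
        mul_vecMulVec, vecMulVec_mul]

theorem InT_iff {H : Subgroup (SL' n F)} {a φ : Fin n → F} : InT H a φ ↔ ∃ h : φ ⬝ᵥ a = 0, tv a φ h ∈ H := by
  constructor
  · intro h
    exact ⟨h.1, h.mem (tv_coe a φ h.1)⟩
  · rintro ⟨h, h1⟩
    exact ⟨h, _, h1, tv_coe a φ h⟩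

theorem tv_conj_fix {Ω : Type*} [MulAction (SL' n F) Ω] (hn : 3 ≤ n) {v φ v' φ' : Fin n → F} (hv : v ≠ 0) (hφ : φ ≠ 0) (h : φ ⬝ᵥ v = 0) (hv' : v' ≠ 0) (hφ' : φ' ≠ 0)
    (h' : φ' ⬝ᵥ v' = 0) : Nat.card (MulAction.fixedBy Ω (tv v φ h : SL' n F)) = Nat.card (MulAction.fixedBy Ω (tv v' φ' h' : SL' n F)) := by
  obtain ⟨σ, h1, h2⟩ := sl_pair hn hv hφ h hv' hφ' h'
  have h3 := conj_tv σ v φ' (by rw [h2]; exact h)
  rw [tv_ext (v' := v) (φ' := φ) _ h rfl h2, tv_ext _ h' h1 rfl] at h3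
  rw [← h3, fix_conj]

/-- conjugation of transvections in a stabilizer -/
theorem InT_smul {Ω : Type*} [MulAction (SL' n F) Ω] {g : SL' n F} {x : Ω} {a φ : Fin n → F}
    (h : InT (MulAction.stabilizer (SL' n F) x) a (φ ᵥ* (g : Matrix (Fin n) (Fin n) F))) :
    InT (MulAction.stabilizer (SL' n F) (g • x)) ((g : Matrix (Fin n) (Fin n) F) *ᵥ a) φ := by
  rw [InT_iff] at h ⊢
  obtain ⟨h0, h1⟩ := h
  refine ⟨by rw [dotProduct_mulVec]; exact h0, ?_⟩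
  rw [← conj_tv g a φ h0, MulAction.mem_stabilizer_iff]
  rw [MulAction.mem_stabilizer_iff] at h1
  rw [mul_smul, mul_smul, inv_smul_smul, h1]

theorem tv_add {a b φ : Fin n → F} (h : φ ⬝ᵥ a = 0) (h' : φ ⬝ᵥ b = 0) :
    tv a φ h * tv b φ h' = tv (a + b) φ (by rw [dotProduct_add, h, h', add_zero]) := by
  apply sl_ext
  rw [Matrix.SpecialLinearGroup.coe_mul, tv_coe, tv_coe, tv_coe, Matrix.mul_add, Matrix.mul_one, Matrix.add_mul, Matrix.one_mul, vecMulVec_mul_vecMulVec, h', zero_smul, vecMulVec_zero, add_zero,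
    add_vecMulVec, add_assoc]

/-- the group of transvections of axis `φ` with centers in `W` -/
def grp (W : AddSubgroup (Fin n → F)) (φ : Fin n → F) : Subgroup (SL' n F) where
  carrier := {g | ∃ u ∈ W, ∃ h : φ ⬝ᵥ u = 0, g = tv u φ h}
  one_mem' := ⟨0, W.zero_mem, by simp, by apply sl_ext; rw [tv_coe, zero_vecMulVec, add_zero]; rfl⟩
  mul_mem' := by
    rintro a b ⟨u, hu, h, rfl⟩ ⟨u', hu', h', rfl⟩
    exact ⟨u + u', W.add_mem hu hu', _, tv_add h h'⟩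
  inv_mem' := by
    rintro a ⟨u, hu, h, rfl⟩
    refine ⟨-u, W.neg_mem hu, by rw [dotProduct_neg, h, neg_zero], ?_⟩
    rw [inv_eq_iff_mul_eq_one, tv_add]
    apply sl_ext; rw [tv_coe, add_neg_cancel, zero_vecMulVec, add_zero]; rfl

theorem mem_grp {W : AddSubgroup (Fin n → F)} {φ : Fin n → F} {g : SL' n F} : g ∈ grp W φ ↔ ∃ u ∈ W, ∃ h : φ ⬝ᵥ u = 0, g = tv u φ h := Iff.rfl

theorem tv_inj {φ u u' : Fin n → F} (hφ : φ ≠ 0) (h : φ ⬝ᵥ u = 0) (h' : φ ⬝ᵥ u' = 0) (he : tv u φ h = tv u' φ h') : u = u' := by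
  obtain ⟨j, hj⟩ : ∃ j, φ j ≠ 0 := by
    by_contra hcon
    push Not at hcon
    exact hφ (funext hcon)
  have h1 := congrArg (fun g : SL' n F => (g : Matrix (Fin n) (Fin n) F)) he
  simp only [tv_coe, add_right_inj] at h1
  funext i
  have h2 := congrFun (congrFun h1 i) j
  rw [vecMulVec_apply, vecMulVec_apply] at h2
  exact mul_right_cancel₀ hj h2

theorem grp_card {W : AddSubgroup (Fin n → F)} {φ : Fin n → F} (hφ : φ ≠ 0) (hW : W ≤ P φ) : Nat.card (grp W φ) = Nat.card W := by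
  refine (Nat.card_congr (Equiv.ofBijective (fun w : W => (⟨tv (w : Fin n → F) φ (hW w.2), ⟨w, w.2, hW w.2, rfl⟩⟩ : grp W φ)) ⟨?_, ?_⟩)).symm
  · intro a b hab
    have := congrArg Subtype.val hab
    exact Subtype.ext (tv_inj hφ (hW a.2) (hW b.2) this)
  · rintro ⟨g, u, hu, h, rfl⟩
    exact ⟨⟨u, hu⟩, rfl⟩

theorem grp_mono {W W' : AddSubgroup (Fin n → F)} (h : W ≤ W') (φ : Fin n → F) : grp W φ ≤ grp W' φ := by
  rintro g ⟨u, hu, h0, rfl⟩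
  exact ⟨u, h hu, h0, rfl⟩

theorem grp_inf (H : Subgroup (SL' n F)) (φ : Fin n → F) : grp (P φ) φ ⊓ H = grp (U H φ) φ := by
  ext g
  rw [Subgroup.mem_inf]
  constructor
  · rintro ⟨⟨u, hu, h, rfl⟩, h2⟩
    exact ⟨u, InT_iff.2 ⟨h, h2⟩, h, rfl⟩
  · rintro ⟨u, hu, h, rfl⟩
    refine ⟨⟨u, h, h, rfl⟩, ?_⟩
    obtain ⟨h1, h2⟩ := InT_iff.1 hu
    exact h2

theorem grp_comm {φ : Fin n → F} : ∀ a ∈ grp (P φ) φ, ∀ b ∈ grp (P φ) φ, a * b = b * a := by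
  rintro a ⟨u, hu, h, rfl⟩ b ⟨u', hu', h', rfl⟩
  rw [tv_add, tv_add]
  exact tv_ext _ _ (add_comm _ _) rfl

end Cfsg.Agent.H11.MI
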