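import Mathlib
import Cfsg.Agent.H11.MI2

set_option autoImplicit false
set_option linter.all false

/-! Transvections in subgroups of small index of `SL_n(F)`. -/

namespace Cfsg.Agent.H11.MI

open Matrix Cfsg.Agent.H12 Cfsg.Agent.H17 Cfsg.Agent.H16

variable {F : Type*} [Field F] [Finite F] {n : ℕ}

theorem card_P (hn : 1 ≤ n) {φ : Fin n → F} (hφ : φ ≠ 0) : Nat.card (P φ) = Nat.card F ^ (n - 1) := by
  set W : Submodule F (Fin n → F) := LinearMap.ker (dotProductEquiv F (Fin n) φ) with hW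
  have h0 : Nat.card (P φ) = Nat.card W := Nat.card_congr (Equiv.subtypeEquivRight (fun v => Iff.rfl))
  rw [h0, Module.natCard_eq_pow_finrank (K := F)]
  congr 1
  have h1 := LinearMap.finrank_range_add_finrank_ker (dotProductEquiv F (Fin n) φ)
  rw [Module.finrank_fin_fun] at h1
  have h2 : LinearMap.range (dotProductEquiv F (Fin n) φ) = ⊤ := by
    rw [LinearMap.range_eq_top]
    obtain ⟨v, hv⟩ := exists_dot_eq_one' hφ
    intro c
    refine ⟨c • v, ?_⟩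
    show φ ⬝ᵥ (c • v) = c
    rw [dotProduct_smul, hv]; simp
  rw [h2, finrank_top, Module.finrank_self] at h1
  rw [hW]; omega

theorem card_sup_ln {W : AddSubgroup (Fin n → F)} {w : Fin n → F} : Nat.card (W ⊔ ln w : AddSubgroup (Fin n → F)) ≤ Nat.card F * Nat.card W := by
  rw [← Nat.card_prod]
  apply Nat.card_le_card_of_surjective (fun p : F × W => (⟨(p.2 : Fin n → F) + p.1 • w, AddSubgroup.add_mem_sup p.2.2 ⟨p.1, rfl⟩⟩ : (W ⊔ ln w : AddSubgroup (Fin n → F))))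
  rintro ⟨y, hy⟩
  obtain ⟨a, ha, b, ⟨c, rfl⟩, rfl⟩ := AddSubgroup.mem_sup.1 hy
  exact ⟨(c, ⟨a, ha⟩), rfl⟩

theorem card_sup_ln_lt {W : AddSubgroup (Fin n → F)} {w : Fin n → F} (hw : w ∈ W) (hw0 : w ≠ 0) : Nat.card (W ⊔ ln w : AddSubgroup (Fin n → F)) < Nat.card F * Nat.card W := by
  refine lt_of_le_of_ne card_sup_ln ?_
  intro heq
  rw [← Nat.card_prod] at heq
  have hsurj : Function.Surjective (fun p : F × W => (⟨(p.2 : Fin n → F) + p.1 • w, AddSubgroup.add_mem_sup p.2.2 ⟨p.1, rfl⟩⟩ : (W ⊔ ln w : AddSubgroup (Fin n → F)))) := by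
    rintro ⟨y, hy⟩
    obtain ⟨a, ha, b, ⟨c, rfl⟩, rfl⟩ := AddSubgroup.mem_sup.1 hy
    exact ⟨(c, ⟨a, ha⟩), rfl⟩
  have hinj := (Nat.bijective_iff_surjective_and_card _ |>.2 ⟨hsurj, heq.symm⟩).1
  have h1 : ((0 : F), (⟨w, hw⟩ : W)) = ((1 : F), (0 : W)) := by
    apply hinj
    apply Subtype.ext
    simp
  exact zero_ne_one (congrArg Prod.fst h1)

/-- step C2 -/
theorem linear_step {H : AddSubgroup (Fin n → F)} {w u : Fin n → F} (hu : u ∈ H) (huw : u ∉ ln w)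
    (hst : ∀ u ∈ H, ∀ ψ : Fin n → F, ψ ⬝ᵥ w = 0 → (ψ ⬝ᵥ u) • w ∈ H) (c : F) : c • w ∈ H := by
  obtain ⟨ψ, h1, h2⟩ := dual_ex huw
  have := hst u hu (c • ψ) (by rw [smul_dotProduct, h1, smul_zero])
  rwa [smul_dotProduct, h2, smul_eq_mul, mul_one] at this

section
variable {Ω : Type*} [MulAction (SL' n F) Ω] [Finite Ω]

/-- different orbits -/
theorem stepP {φ : Fin n → F} (hφ : φ ≠ 0) (f : ℕ)
    (hf : ∀ (v : Fin n → F) (h : φ ⬝ᵥ v = 0), v ≠ 0 → Nat.card (MulAction.fixedBy Ω (tv v φ h : SL' n F)) = f)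
    (hΩ : Nat.card Ω = f + Nat.card (P φ)) (x x' : Ω) (hx : x' ∉ MulAction.orbit (grp (P φ) φ) x) :
    U (MulAction.stabilizer (SL' n F) x) φ ⊔ U (MulAction.stabilizer (SL' n F) x') φ = P φ := by
  set W := U (MulAction.stabilizer (SL' n F) x) φ ⊔ U (MulAction.stabilizer (SL' n F) x') φ with hW
  have hWP : W ≤ P φ := sup_le (U_le _ _) (U_le _ _)
  have h1 := split (Ω := Ω) (grp (P φ) φ) (grp W φ) (grp_mono hWP φ) grp_comm f (by
    rintro a ⟨u, hu, h, rfl⟩ ha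
    apply hf
    rintro rfl
    apply ha
    apply sl_ext; rw [tv_coe, zero_vecMulVec, add_zero]; rfl) (by rw [grp_card hφ le_rfl]; exact hΩ) x x'
    (by rw [grp_inf]; exact grp_mono le_sup_left φ) (by rw [grp_inf]; exact grp_mono le_sup_right φ) hx
  apply le_antisymm hWP
  intro v hv
  have h2 : tv v φ hv ∈ grp W φ := by
    rw [h1]; exact ⟨v, hv, hv, rfl⟩
  obtain ⟨u, hu, h3, h4⟩ := h2
  rw [tv_inj hφ hv h3 h4]; exact hu

omit [Finite Ω] in
theorem U_orbit {φ : Fin n → F} (hφ : φ ≠ 0) {x x' : Ω} (hx : x' ∈ MulAction.orbit (grp (P φ) φ) x) :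
    U (MulAction.stabilizer (SL' n F) x') φ = U (MulAction.stabilizer (SL' n F) x) φ := by
  obtain ⟨⟨b, hb⟩, rfl⟩ := hx
  ext v
  rw [mem_U, mem_U, InT_iff, InT_iff]
  constructor
  · rintro ⟨h, h1⟩
    refine ⟨h, ?_⟩
    rw [MulAction.mem_stabilizer_iff] at *
    change tv v φ h • b • x = b • x at h1
    rw [smul_smul, grp_comm _ ⟨v, h, h, rfl⟩ b hb, ← smul_smul] at h1
    exact smul_left_cancel _ h1
  · rintro ⟨h, h1⟩
    refine ⟨h, ?_⟩
    rw [MulAction.mem_stabilizer_iff] at *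
    change tv v φ h • b • x = b • x
    rw [smul_smul, grp_comm _ ⟨v, h, h, rfl⟩ b hb, ← smul_smul, h1]

omit [Finite F] [Finite Ω] in
/-- conjugation -/
theorem U_smul {φ : Fin n → F} (g : SL' n F) (x : Ω) {v : Fin n → F} :
    (g : Matrix (Fin n) (Fin n) F) *ᵥ v ∈ U (MulAction.stabilizer (SL' n F) (g • x)) φ ↔ v ∈ U (MulAction.stabilizer (SL' n F) x) (φ ᵥ* (g : Matrix (Fin n) (Fin n) F)) := by
  constructor
  · intro h
    rw [mem_U] at *
    have h1 : InT (MulAction.stabilizer (SL' n F) (g • x)) ((g : Matrix (Fin n) (Fin n) F) *ᵥ v)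
        ((φ ᵥ* (g : Matrix (Fin n) (Fin n) F)) ᵥ* ((g⁻¹ : SL' n F) : Matrix (Fin n) (Fin n) F)) := by
      rw [vecMul_vecMul, ← Matrix.SpecialLinearGroup.coe_mul, mul_inv_cancel, Matrix.SpecialLinearGroup.coe_one, vecMul_one]
      exact h
    have h2 := InT_smul h1
    rwa [inv_smul_smul, mulVec_mulVec, ← Matrix.SpecialLinearGroup.coe_mul, inv_mul_cancel, Matrix.SpecialLinearGroup.coe_one, one_mulVec] at h2
  · intro h
    exact InT_smul h

/-- step C1 -/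
theorem stepC {φ : Fin n → F} (hφ : φ ≠ 0) (f : ℕ)
    (hf : ∀ (v : Fin n → F) (h : φ ⬝ᵥ v = 0), v ≠ 0 → Nat.card (MulAction.fixedBy Ω (tv v φ h : SL' n F)) = f)
    (hΩ : Nat.card Ω = f + Nat.card (P φ)) (x : Ω) {w : Fin n → F} (hw : φ ⬝ᵥ w = 0)
    (hsup : U (MulAction.stabilizer (SL' n F) x) φ ⊔ ln w ≠ P φ) :
    ∀ u ∈ U (MulAction.stabilizer (SL' n F) x) φ, ∀ ψ : Fin n → F, ψ ⬝ᵥ w = 0 → (ψ ⬝ᵥ u) • w ∈ U (MulAction.stabilizer (SL' n F) x) φ := by
  intro u hu ψ hψ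
  set g : SL' n F := tv w ψ hψ with hg
  have hgφ : φ ᵥ* (g : Matrix (Fin n) (Fin n) F) = φ := by
    rw [hg, tv_coe, vecMul_one_add, hw, zero_smul, add_zero]
  have hgv : ∀ v : Fin n → F, (g : Matrix (Fin n) (Fin n) F) *ᵥ v = v + (ψ ⬝ᵥ v) • w := by
    intro v; rw [hg, tv_coe, one_add_mulVec]
  have h1 : g • x ∈ MulAction.orbit (grp (P φ) φ) x := by
    by_contra hcon
    have h2 := stepP hφ f hf hΩ x (g • x) hcon
    apply hsup
    apply le_antisymm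
    · refine sup_le (U_le _ _) ?_
      rintro y ⟨c, rfl⟩
      rw [mem_P, dotProduct_smul, hw, smul_zero]
    · rw [← h2]
      refine sup_le le_sup_left ?_
      intro y hy
      set z := ((g⁻¹ : SL' n F) : Matrix (Fin n) (Fin n) F) *ᵥ y with hz
      have hyz : y = (g : Matrix (Fin n) (Fin n) F) *ᵥ z := by
        rw [hz, mulVec_mulVec, ← Matrix.SpecialLinearGroup.coe_mul, mul_inv_cancel, Matrix.SpecialLinearGroup.coe_one, one_mulVec]
      rw [hyz] at hy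
      rw [U_smul, hgφ] at hy
      rw [hyz, hgv]
      exact AddSubgroup.add_mem_sup hy ⟨_, rfl⟩
  have h3 := U_orbit hφ h1
  have h4 : (g : Matrix (Fin n) (Fin n) F) *ᵥ u ∈ U (MulAction.stabilizer (SL' n F) (g • x)) φ := by
    rw [U_smul, hgφ]; exact hu
  rw [h3, hgv] at h4
  have := AddSubgroup.sub_mem _ h4 hu
  rwa [add_sub_cancel_left] at this

end

end Cfsg.Agent.H11.MI
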