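import Cfsg.Agent.H23.PCompl
import Cfsg.Agent.H1.Sylow

set_option autoImplicit false

/-! S4176. -/

namespace Cfsg.Agent.H11.PSolvRep

open Finset

variable {k V H : Type*} [Field k] [AddCommGroup V] [Module k V] [Group H] [Finite H]

/-- the stabilizer -/
def stb (ρ : Representation k H V) (a : V) : Subgroup H where
  carrier := {h | ρ h a = a}
  one_mem' := by simp
  mul_mem' := by
    intro x y hx hy
    show ρ (x * y) a = a
    rw [map_mul, Module.End.mul_apply, show ρ y a = a from hy, show ρ x a = a from hx]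
  inv_mem' := by
    intro x hx
    show ρ x⁻¹ a = a
    have h1 : ρ x⁻¹ (ρ x a) = a := by
      rw [← Module.End.mul_apply, ← map_mul, inv_mul_cancel, map_one, Module.End.one_apply]
    rwa [show ρ x a = a from hx] at h1

omit [Finite H] in
theorem mem_stb {ρ : Representation k H V} {a : V} {h : H} : h ∈ stb ρ a ↔ ρ h a = a := Iff.rfl

omit [Finite H] in
theorem card_orbit (ρ : Representation k H V) (a : V) :
    Nat.card {u : V | ∃ h : H, ρ h a = u} = (stb ρ a).index := by
  rw [Subgroup.index_eq_card]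
  symm
  apply Nat.card_congr
  refine Equiv.ofBijective (Quotient.lift (fun h : H => (⟨ρ h a, h, rfl⟩ :
    {u : V | ∃ h : H, ρ h a = u})) ?_) ⟨?_, ?_⟩
  · intro x y hxy
    have h1 : x⁻¹ * y ∈ stb ρ a := QuotientGroup.leftRel_apply.1 hxy
    apply Subtype.ext
    show ρ x a = ρ y a
    have h2 : ρ y a = ρ x (ρ (x⁻¹ * y) a) := by
      rw [← Module.End.mul_apply, ← map_mul, mul_inv_cancel_left]
    rw [h2, mem_stb.1 h1]
  · intro x y
    induction x using Quotient.inductionOn with
    | _ x =>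
    induction y using Quotient.inductionOn with
    | _ y =>
    intro h
    have h1 : ρ x a = ρ y a := congrArg Subtype.val h
    apply Quotient.sound
    apply QuotientGroup.leftRel_apply.2
    show ρ (x⁻¹ * y) a = a
    rw [map_mul, Module.End.mul_apply, ← h1, ← Module.End.mul_apply, ← map_mul, inv_mul_cancel,
      map_one, Module.End.one_apply]
  · rintro ⟨u, h, rfl⟩
    exact ⟨Quotient.mk _ h, rfl⟩

/-- averaging over a transitive `p'`-subgroup -/
theorem mem_span_of_transitive (ρ : Representation k H V) (a : V)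
    (hspan : Submodule.span k {u : V | ∃ h : H, ρ h a = u} = ⊤) (L : Subgroup H)
    (hL : (Nat.card L : k) ≠ 0) (htr : ∀ h : H, ∃ l ∈ L, ρ h a = ρ l a) :
    ∃ t : V, (∀ h : H, ρ h t = t) ∧ ∀ v : V, (∀ l ∈ L, ρ l v = v) → ∃ c : k, v = c • t := by
  classical
  haveI := Fintype.ofFinite L
  obtain ⟨s, hs⟩ : ∃ s : V, s = ∑ l : L, ρ (l : H) a := ⟨_, rfl⟩
  -- `s` does not depend on the point
  have h1 : ∀ l₀ ∈ L, ∑ l : L, ρ (l : H) (ρ l₀ a) = s := by
    intro l₀ hl₀
    rw [hs]
    refine Fintype.sum_equiv (Equiv.mulRight (⟨l₀, hl₀⟩ : L)) _ _ fun l => ?_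
    show ρ (l : H) (ρ l₀ a) = ρ ((l : H) * l₀) a
    rw [map_mul, Module.End.mul_apply]
  have h2 : ∀ h : H, ∑ l : L, ρ (l : H) (ρ h a) = s := by
    intro h
    obtain ⟨l₀, hl₀, h3⟩ := htr h
    rw [h3]
    exact h1 l₀ hl₀
  have h3 : ∀ v : V, ∃ c : k, ∑ l : L, ρ (l : H) v = c • s := by
    intro v
    have hv : v ∈ Submodule.span k {u : V | ∃ h : H, ρ h a = u} := by rw [hspan]; trivial
    induction hv using Submodule.span_induction with
    | mem x hx =>
      obtain ⟨h, rfl⟩ := hx
      exact ⟨1, by rw [one_smul]; exact h2 h⟩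
    | zero => exact ⟨0, by simp⟩
    | add x y _ _ hx hy =>
      obtain ⟨c, hc⟩ := hx
      obtain ⟨d, hd⟩ := hy
      refine ⟨c + d, ?_⟩
      simp only [map_add]
      rw [Finset.sum_add_distrib, hc, hd, add_smul]
    | smul r x _ hx =>
      obtain ⟨c, hc⟩ := hx
      refine ⟨r * c, ?_⟩
      simp only [map_smul]
      rw [← Finset.smul_sum, hc, mul_smul]
  refine ⟨s, ?_, ?_⟩
  · -- `s` is a multiple of the sum over the orbit
    obtain ⟨O, hO⟩ : ∃ O : Finset V, O = (Finset.univ : Finset L).image (fun l : L => ρ (l : H) a) :=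
      ⟨_, rfl⟩
    have hOmem : ∀ u, u ∈ O ↔ ∃ h : H, ρ h a = u := by
      intro u
      rw [hO, Finset.mem_image]
      constructor
      · rintro ⟨l, -, rfl⟩; exact ⟨l, rfl⟩
      · rintro ⟨h, rfl⟩
        obtain ⟨l, hl, h4⟩ := htr h
        exact ⟨⟨l, hl⟩, Finset.mem_univ _, h4.symm⟩
    obtain ⟨m, hm⟩ : ∃ m : ℕ, m = (Finset.univ.filter (fun l : L => ρ (l : H) a = a)).card := ⟨_, rfl⟩
    have hfib : ∀ b ∈ O, (Finset.univ.filter (fun l : L => ρ (l : H) a = b)).card = m := by
      intro b hb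
      rw [hO, Finset.mem_image] at hb
      obtain ⟨l₀, -, rfl⟩ := hb
      rw [hm]
      symm
      refine Finset.card_bij (fun l _ => l₀ * l) ?_ ?_ ?_
      · intro l hl
        rw [Finset.mem_filter] at hl ⊢
        refine ⟨Finset.mem_univ _, ?_⟩
        show ρ ((l₀ : H) * (l : H)) a = _
        rw [map_mul, Module.End.mul_apply, hl.2]
      · intro x _ y _ h
        exact mul_left_cancel h
      · intro l hl
        rw [Finset.mem_filter] at hl
        refine ⟨l₀⁻¹ * l, ?_, by group⟩
        rw [Finset.mem_filter]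
        refine ⟨Finset.mem_univ _, ?_⟩
        show ρ ((l₀ : H)⁻¹ * (l : H)) a = a
        rw [map_mul, Module.End.mul_apply, hl.2, ← Module.End.mul_apply, ← map_mul,
          inv_mul_cancel, map_one, Module.End.one_apply]
    have hst : s = m • ∑ b ∈ O, b := by
      rw [hs, Finset.smul_sum, Finset.sum_comp (fun u : V => u) (fun l : L => ρ (l : H) a), ← hO]
      exact Finset.sum_congr rfl fun b hb => by rw [hfib b hb]
    have hfix : ∀ h : H, ρ h (∑ b ∈ O, b) = ∑ b ∈ O, b := by
      intro h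
      rw [map_sum]
      refine Finset.sum_bij (fun b _ => ρ h b) ?_ ?_ ?_ ?_
      · intro b hb
        rw [hOmem] at hb ⊢
        obtain ⟨x, rfl⟩ := hb
        exact ⟨h * x, by rw [map_mul, Module.End.mul_apply]⟩
      · intro b _ c _ hbc
        have h4 := congrArg (ρ h⁻¹) hbc
        simp only [← Module.End.mul_apply, ← map_mul, inv_mul_cancel, map_one,
          Module.End.one_apply] at h4
        exact h4
      · intro b hb
        rw [hOmem] at hb
        obtain ⟨x, rfl⟩ := hb
        refine ⟨ρ (h⁻¹ * x) a, (hOmem _).2 ⟨_, rfl⟩, ?_⟩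
        rw [← Module.End.mul_apply, ← map_mul, mul_inv_cancel_left]
      · intro b _; rfl
    intro h
    rw [hst, map_nsmul, hfix]
  · intro v hv
    obtain ⟨c, hc⟩ := h3 v
    have h4 : ∑ l : L, ρ (l : H) v = (Nat.card L : k) • v := by
      rw [Finset.sum_congr rfl (fun (l : L) _ => hv (l : H) l.2), Finset.sum_const,
        Finset.card_univ, ← Nat.card_eq_fintype_card, Nat.cast_smul_eq_nsmul]
    rw [h4] at hc
    refine ⟨(Nat.card L : k)⁻¹ * c, ?_⟩
    rw [mul_smul, ← hc, smul_smul, inv_mul_cancel₀ hL, one_smul]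

theorem st4176 (p : ℕ) [hp : Fact p.Prime] [CharP k p] (hsol : Cfsg.IsPSolvable p H)
    (ρ : Representation k H V) (a : V)
    (hfix : ∃ P : Sylow p H, ∀ x : H, x ∈ (P : Subgroup H) → ρ x a = a)
    (hspan : Submodule.span k {u : V | ∃ h : H, ρ h a = u} = ⊤) :
    Module.finrank k ρ.invariants ≤ 1 ∧
    ∀ b : V, (Nat.card {u : V | ∃ h : H, ρ h a = u}).Coprime
      (Nat.card {u : V | ∃ h : H, ρ h b = u}) → ∀ h : H, ρ h b = b := by
  classical
  obtain ⟨P, hP⟩ := hfix
  have hPs : (P : Subgroup H) ≤ stb ρ a := fun x hx => hP x hx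
  have hidx : (stb ρ a).index.Coprime p := by
    have h1 : (stb ρ a).index ∣ (P : Subgroup H).index := Subgroup.index_dvd_of_le hPs
    exact Nat.Coprime.coprime_dvd_left h1
      (((Nat.Prime.coprime_iff_not_dvd hp.out).2 P.not_dvd_index).symm)
  have hcast : ∀ L : Subgroup H, (Nat.card L).Coprime p → (Nat.card L : k) ≠ 0 := by
    intro L hL h0
    rw [CharP.cast_eq_zero_iff k p] at h0
    exact (Nat.Prime.coprime_iff_not_dvd hp.out).1 hL.symm h0
  have htr : ∀ L : Subgroup H, L.index.Coprime (stb ρ a).index → ∀ h : H, ∃ l ∈ L,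
      ρ h a = ρ l a := by
    intro L hL h
    obtain ⟨x, hx, y, hy, rfl⟩ := Cfsg.Agent.H1.factor_of_coprime_index hL h
    refine ⟨x, hx, ?_⟩
    rw [map_mul, Module.End.mul_apply, mem_stb.1 hy]
  constructor
  · obtain ⟨L, hL, n, hn⟩ := Cfsg.Agent.H23.pcompl_exists hsol
    obtain ⟨t, -, ht⟩ := mem_span_of_transitive ρ a hspan L (hcast L hL) (htr L (by
      rw [hn]; exact (hidx.pow_right n).symm))
    have h1 : ρ.invariants ≤ Submodule.span k {t} := by
      intro v hv
      obtain ⟨c, hc⟩ := ht v (fun l _ => hv l)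
      rw [Submodule.mem_span_singleton]
      exact ⟨c, hc.symm⟩
    haveI : Module.Finite k (Submodule.span k {t}) := by infer_instance
    refine (Submodule.finrank_mono h1).trans ?_
    exact (finrank_span_le_card ({t} : Set V)).trans (by simp)
  · intro b hb
    rw [card_orbit, card_orbit] at hb
    obtain ⟨L, hL, n, hn⟩ := Cfsg.Agent.H23.pcompl_exists
      (Cfsg.Agent.H23.isPSolvable_subgroup (stb ρ b) hsol)
    have hcardL : Nat.card (L.map (stb ρ b).subtype) = Nat.card L :=
      (Nat.card_congr (L.equivMapOfInjective _ (Subgroup.subtype_injective _)).toEquiv).symm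
    have hidxL : (L.map (stb ρ b).subtype).index = p ^ n * (stb ρ b).index := by
      rw [Subgroup.index_map_subtype, hn]
    obtain ⟨t, ht0, ht⟩ := mem_span_of_transitive ρ a hspan (L.map (stb ρ b).subtype)
      (hcast _ (by rw [hcardL]; exact hL)) (htr _ (by
        rw [hidxL]
        exact Nat.Coprime.mul_left (hidx.pow_right n).symm hb.symm))
    obtain ⟨c, hc⟩ := ht b (by
      rintro l ⟨y, -, rfl⟩
      exact y.2)
    intro h
    rw [hc, map_smul, ht0]

end Cfsg.Agent.H11.PSolvRep
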