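import Mathlib

set_option autoImplicit false

/-! S4152: classes of `π`-elements and normal subgroups. -/

namespace Cfsg.Agent.H11.PiClass

open Subgroup

universe u

/-- `π`-element -/
def PiEl (π : Set ℕ) {G : Type*} [Group G] (g : G) : Prop :=
  ∀ q : ℕ, q.Prime → q ∣ orderOf g → q ∈ π

theorem exists_split (π : Set ℕ) : ∀ n : ℕ, n ≠ 0 → ∃ A B : ℕ, n = A * B ∧
    (∀ q : ℕ, q.Prime → q ∣ A → q ∈ π) ∧ ∀ q : ℕ, q.Prime → q ∣ B → q ∉ π := by
  classical
  intro n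
  induction n using Nat.strong_induction_on with
  | _ n ih =>
    intro hn
    by_cases h1 : n = 1
    · refine ⟨1, 1, by rw [h1], fun q hq hd => ?_, fun q hq hd => ?_⟩
      · exact absurd (Nat.dvd_one.1 hd) hq.one_lt.ne'
      · exact absurd (Nat.dvd_one.1 hd) hq.one_lt.ne'
    · obtain ⟨p, hp, m, rfl⟩ := Nat.exists_prime_and_dvd h1
      have hm0 : m ≠ 0 := by rintro rfl; simp at hn
      obtain ⟨A, B, hAB, hA, hB⟩ := ih m (by
        have := hp.two_le
        have : 0 < m := Nat.pos_of_ne_zero hm0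
        nlinarith) hm0
      by_cases hpπ : p ∈ π
      · refine ⟨p * A, B, by rw [hAB, mul_assoc], fun q hq hd => ?_, hB⟩
        rcases (Nat.Prime.dvd_mul hq).1 hd with h | h
        · rwa [(Nat.prime_dvd_prime_iff_eq hq hp).1 h]
        · exact hA q hq h
      · refine ⟨A, p * B, by rw [hAB]; ring, hA, fun q hq hd => ?_⟩
        rcases (Nat.Prime.dvd_mul hq).1 hd with h | h
        · rwa [(Nat.prime_dvd_prime_iff_eq hq hp).1 h]
        · exact hB q hq h

/-- exponents extracting the two parts -/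
theorem exists_exponents (π : Set ℕ) (n : ℕ) (hn : n ≠ 0) : ∃ u v : ℕ,
    n ∣ u * v ∧ u + v ≡ 1 [MOD n] ∧
    (∀ m : ℕ, m ∣ n → (∀ q : ℕ, q.Prime → q ∣ m → q ∈ π) → m ∣ v) ∧
    (∀ m : ℕ, m ∣ n → m ∣ v → ∀ q : ℕ, q.Prime → q ∣ m → q ∈ π) := by
  obtain ⟨A, B, hAB, hA, hB⟩ := exists_split π n hn
  have hcop : Nat.Coprime A B := by
    rw [Nat.coprime_iff_gcd_eq_one]
    by_contra hne
    obtain ⟨q, hq, hqd⟩ := Nat.exists_prime_and_dvd hne
    exact hB q hq (hqd.trans (Nat.gcd_dvd_right _ _)) (hA q hq (hqd.trans (Nat.gcd_dvd_left _ _)))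
  obtain ⟨u, hu1, hu0⟩ := Nat.chineseRemainder hcop 1 0
  obtain ⟨v, hv0, hv1⟩ := Nat.chineseRemainder hcop 0 1
  have hBu : B ∣ u := (Nat.modEq_zero_iff_dvd).1 hu0
  have hAv : A ∣ v := (Nat.modEq_zero_iff_dvd).1 hv0
  refine ⟨u, v, ?_, ?_, ?_, ?_⟩
  · rw [hAB, mul_comm A B]
    exact Nat.mul_dvd_mul hBu hAv
  · rw [hAB]
    apply (Nat.modEq_and_modEq_iff_modEq_mul hcop).1
    exact ⟨by simpa using hu1.add hv0, by simpa using hu0.add hv1⟩
  · intro m hm hmπ
    have h1 : Nat.Coprime m B := by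
      rw [Nat.coprime_iff_gcd_eq_one]
      by_contra hne
      obtain ⟨q, hq, hqd⟩ := Nat.exists_prime_and_dvd hne
      exact hB q hq (hqd.trans (Nat.gcd_dvd_right _ _)) (hmπ q hq (hqd.trans (Nat.gcd_dvd_left _ _)))
    exact (h1.dvd_of_dvd_mul_right (hAB ▸ hm)).trans hAv
  · intro m hm hmv q hq hqm
    by_contra hqπ
    -- then `q ∣ B` and `q ∣ v`
    have h1 : q ∣ A * B := hAB ▸ hqm.trans hm
    rcases (Nat.Prime.dvd_mul hq).1 h1 with h | h
    · exact hqπ (hA q hq h)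
    · have h2 : q ∣ v := hqm.trans hmv
      have h3 : v ≡ 1 [MOD q] := hv1.of_dvd h
      have h4 : v ≡ 0 [MOD q] := (Nat.modEq_zero_iff_dvd).2 h2
      have h5 : (1 : ℕ) ≡ 0 [MOD q] := h3.symm.trans h4
      exact hq.one_lt.ne' (Nat.dvd_one.1 ((Nat.modEq_zero_iff_dvd).1 h5))

section

variable {G : Type u} [Group G] [Finite G] {π : Set ℕ} {u v : ℕ}

/-- the exponents for `G` -/
structure Ex (π : Set ℕ) (n u v : ℕ) : Prop where
  uv : n ∣ u * v
  add : u + v ≡ 1 [MOD n]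
  to' : ∀ m : ℕ, m ∣ n → (∀ q : ℕ, q.Prime → q ∣ m → q ∈ π) → m ∣ v
  of : ∀ m : ℕ, m ∣ n → m ∣ v → ∀ q : ℕ, q.Prime → q ∣ m → q ∈ π

omit [Finite G] in
theorem Ex.piEl_iff {n : ℕ} (h : Ex π n u v) {g : G} (hg : orderOf g ∣ n) :
    PiEl π g ↔ g ^ v = 1 := by
  rw [← orderOf_dvd_iff_pow_eq_one]
  exact ⟨fun h1 => h.to' _ hg h1, fun h1 => h.of _ hg h1⟩

omit [Finite G] in
theorem Ex.pow_uv {n : ℕ} (h : Ex π n u v) {g : G} (hg : orderOf g ∣ n) : (g ^ u) ^ v = 1 := by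
  rw [← pow_mul, ← orderOf_dvd_iff_pow_eq_one]
  exact hg.trans h.uv

omit [Finite G] in
theorem Ex.pow_vu {n : ℕ} (h : Ex π n u v) {g : G} (hg : orderOf g ∣ n) : (g ^ v) ^ u = 1 := by
  rw [← pow_mul, mul_comm, pow_mul]; exact h.pow_uv hg

omit [Finite G] in
theorem Ex.mul {n : ℕ} (h : Ex π n u v) {g : G} (hg : orderOf g ∣ n) : g ^ u * g ^ v = g := by
  rw [← pow_add]
  have h1 : u + v ≡ 1 [MOD orderOf g] := h.add.of_dvd hg
  have h2 := (pow_eq_pow_iff_modEq (x := g) (n := u + v) (m := 1)).2 h1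
  rw [h2, pow_one]

omit [Finite G] in
theorem Ex.pow_uu {n : ℕ} (h : Ex π n u v) {g : G} (hg : orderOf g ∣ n) :
    (g ^ u) ^ u = g ^ u := by
  have h1 : (g ^ u) ^ u * (g ^ u) ^ v = g ^ u := h.mul ((orderOf_pow_dvd u).trans hg)
  rwa [h.pow_uv hg, mul_one] at h1

omit [Finite G] in
theorem Ex.pow_vv {n : ℕ} (h : Ex π n u v) {g : G} (hg : orderOf g ∣ n) :
    (g ^ v) ^ v = g ^ v := by
  have h1 : (g ^ v) ^ u * (g ^ v) ^ v = g ^ v := h.mul ((orderOf_pow_dvd v).trans hg)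
  rwa [h.pow_vu hg, one_mul] at h1

variable (N : Subgroup G) [hN : N.Normal]

/-- the `π`-elements of a coset -/
abbrev XX (π : Set ℕ) (x : G) : Type u := {y : G // (y : G ⧸ N) = (x : G ⧸ N) ∧ PiEl π y}

/-- conjugation action of `N` on the `π`-elements of a coset -/
def act (π : Set ℕ) (x : G) : MulAction N (XX N π x) where
  smul n y := ⟨n * y.1 * (n : G)⁻¹, by
    refine ⟨?_, ?_⟩
    · have hy := y.2.1
      have h1 : ((n : G) : G ⧸ N) = 1 := (QuotientGroup.eq_one_iff _).2 n.2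
      rw [QuotientGroup.mk_mul, QuotientGroup.mk_mul, QuotientGroup.mk_inv, h1, hy]
      simp
    · have h1 : (n : G) * y.1 * (n : G)⁻¹ = (MulAut.conj (n : G)) y.1 := rfl
      intro q hq hd
      rw [h1, MulEquiv.orderOf_eq] at hd
      exact y.2.2 q hq hd⟩
  one_smul y := Subtype.ext (by
    show ((1 : N) : G) * y.1 * ((1 : N) : G)⁻¹ = y.1
    simp)
  mul_smul a b y := Subtype.ext (by
    show ((a * b : N) : G) * y.1 * ((a * b : N) : G)⁻¹ = a * (b * y.1 * (b : G)⁻¹) * (a : G)⁻¹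
    push_cast
    group)

/-- commuting pairs -/
abbrev Pairs (π : Set ℕ) (x : G) : Type u :=
  {t : G × N // (t.1 : G ⧸ N) = (x : G ⧸ N) ∧ PiEl π t.1 ∧ (t.2 : G) * t.1 = t.1 * t.2}

abbrev Pairs' (π : Set ℕ) (x : G) : Type u :=
  {t : G × N // (t.1 : G ⧸ N) = (x : G ⧸ N) ∧ PiEl π (t.2 : G) ∧ (t.2 : G) * t.1 = t.1 * t.2}

open Classical in
theorem card_orbits (x : G) :
    letI := act N π x
    Nat.card (MulAction.orbitRel.Quotient N (XX N π x)) * Nat.card N = Nat.card (Pairs N π x) := by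
  classical
  letI := act N π x
  haveI := Fintype.ofFinite G
  haveI := Fintype.ofFinite N
  haveI := Fintype.ofFinite (XX N π x)
  haveI : Fintype (MulAction.orbitRel.Quotient N (XX N π x)) := Fintype.ofFinite _
  have h1 := MulAction.sum_card_fixedBy_eq_card_orbits_mul_card_group N (XX N π x)
  have h0 : ∑ g : N, Fintype.card (MulAction.fixedBy (XX N π x) g) =
      Nat.card (Σ g : N, MulAction.fixedBy (XX N π x) g) := by
    rw [Nat.card_eq_fintype_card]; exact Fintype.card_sigma.symm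
  rw [Nat.card_eq_fintype_card, Nat.card_eq_fintype_card (α := N)]
  refine (h1.symm.trans h0).trans ?_
  apply Nat.card_congr
  exact
    { toFun := fun s => ⟨(s.2.1.1, s.1), s.2.1.2.1, s.2.1.2.2, by
        have h2 := congrArg Subtype.val s.2.2
        have h3 : (s.1 : G) * s.2.1.1 * (s.1 : G)⁻¹ = s.2.1.1 := h2
        calc (s.1 : G) * s.2.1.1 = (s.1 : G) * s.2.1.1 * (s.1 : G)⁻¹ * s.1 := by group
          _ = s.2.1.1 * s.1 := by rw [h3]⟩
      invFun := fun t => ⟨t.1.2, ⟨⟨t.1.1, t.2.1, t.2.2.1⟩, Subtype.ext (by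
        show (t.1.2 : G) * t.1.1 * (t.1.2 : G)⁻¹ = t.1.1
        rw [t.2.2.2]; group)⟩⟩
      left_inv := fun s => rfl
      right_inv := fun t => rfl }

/-- exchanging the `π'`-parts -/
theorem card_pairs_eq (h : Ex π (Nat.card G) u v) (x : G) (hx : PiEl π (x : G ⧸ N)) :
    Nat.card (Pairs N π x) = Nat.card (Pairs' N π x) := by
  have hord : ∀ g : G, orderOf g ∣ Nat.card G := fun g => orderOf_dvd_natCard g
  have hxo : orderOf (x : G ⧸ N) ∣ Nat.card G :=
    (orderOf_map_dvd (QuotientGroup.mk' N) x).trans (hord x)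
  have hxv : (x : G ⧸ N) ^ v = 1 := (h.piEl_iff hxo).1 hx
  have hxu : (x : G ⧸ N) ^ u = x := by
    have := h.mul hxo
    rwa [hxv, mul_one] at this
  have hco : ∀ (y n : G), n * y = y * n → ∀ a b : ℕ, Commute (y ^ a) (n ^ b) := by
    intro y n hyn a b
    exact (show Commute y n from hyn.symm).pow_pow a b
  let f : G × G → G × G := fun t => (t.1 ^ u * t.2 ^ v, t.2 ^ u * t.1 ^ v)
  have hff : ∀ y n : G, n * y = y * n → f (f (y, n)) = (y, n) := by
    intro y n hyn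
    have e1 : (y ^ u * n ^ v) ^ u = y ^ u := by
      rw [(hco y n hyn u v).mul_pow, h.pow_uu (hord y), h.pow_vu (hord n), mul_one]
    have e2 : (y ^ u * n ^ v) ^ v = n ^ v := by
      rw [(hco y n hyn u v).mul_pow, h.pow_uv (hord y), h.pow_vv (hord n), one_mul]
    have e3 : (n ^ u * y ^ v) ^ u = n ^ u := by
      rw [(hco n y hyn.symm u v).mul_pow, h.pow_uu (hord n), h.pow_vu (hord y), mul_one]
    have e4 : (n ^ u * y ^ v) ^ v = y ^ v := by
      rw [(hco n y hyn.symm u v).mul_pow, h.pow_uv (hord n), h.pow_vv (hord y), one_mul]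
    show ((y ^ u * n ^ v) ^ u * (n ^ u * y ^ v) ^ v, (n ^ u * y ^ v) ^ u * (y ^ u * n ^ v) ^ v) = _
    rw [e1, e2, e3, e4, h.mul (hord y), h.mul (hord n)]
  have hmem : ∀ y n : G, (y : G ⧸ N) = (x : G ⧸ N) → n ∈ N → n * y = y * n →
      ((f (y, n)).1 : G ⧸ N) = (x : G ⧸ N) ∧ (f (y, n)).2 ∈ N ∧
      (f (y, n)).2 * (f (y, n)).1 = (f (y, n)).1 * (f (y, n)).2 ∧
      (PiEl π y → PiEl π (f (y, n)).2) ∧ (PiEl π n → PiEl π (f (y, n)).1) := by
    intro y n hy hn hyn
    have hn1 : (n : G ⧸ N) = 1 := (QuotientGroup.eq_one_iff _).2 hn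
    refine ⟨?_, ?_, ?_, ?_, ?_⟩
    · show ((y ^ u * n ^ v : G) : G ⧸ N) = x
      rw [QuotientGroup.mk_mul, QuotientGroup.mk_pow, QuotientGroup.mk_pow, hn1, hy, one_pow,
        mul_one, hxu]
    · show n ^ u * y ^ v ∈ N
      apply N.mul_mem (N.pow_mem hn u)
      rw [← QuotientGroup.eq_one_iff, QuotientGroup.mk_pow, hy, hxv]
    · show n ^ u * y ^ v * (y ^ u * n ^ v) = y ^ u * n ^ v * (n ^ u * y ^ v)
      have c1 := hco y n hyn
      have : Commute (n ^ u * y ^ v) (y ^ u * n ^ v) := by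
        apply Commute.mul_left
        · exact ((c1 u u).symm).mul_right ((Commute.refl n).pow_pow u v)
        · exact ((Commute.refl y).pow_pow v u).mul_right (c1 v v)
      exact this
    · intro hyπ
      show PiEl π (n ^ u * y ^ v)
      rw [(h.piEl_iff (hord y)).1 hyπ, mul_one, h.piEl_iff (hord _), h.pow_uv (hord n)]
    · intro hnπ
      show PiEl π (y ^ u * n ^ v)
      rw [(h.piEl_iff (hord n)).1 hnπ, mul_one, h.piEl_iff (hord _), h.pow_uv (hord y)]
  apply Nat.card_congr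
  exact
    { toFun := fun t => ⟨((f (t.1.1, t.1.2)).1, ⟨(f (t.1.1, t.1.2)).2,
          (hmem t.1.1 t.1.2 t.2.1 t.1.2.2 t.2.2.2).2.1⟩),
          (hmem t.1.1 t.1.2 t.2.1 t.1.2.2 t.2.2.2).1,
          (hmem t.1.1 t.1.2 t.2.1 t.1.2.2 t.2.2.2).2.2.2.1 t.2.2.1,
          (hmem t.1.1 t.1.2 t.2.1 t.1.2.2 t.2.2.2).2.2.1⟩
      invFun := fun t => ⟨((f (t.1.1, t.1.2)).1, ⟨(f (t.1.1, t.1.2)).2,
          (hmem t.1.1 t.1.2 t.2.1 t.1.2.2 t.2.2.2).2.1⟩),
          (hmem t.1.1 t.1.2 t.2.1 t.1.2.2 t.2.2.2).1,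
          (hmem t.1.1 t.1.2 t.2.1 t.1.2.2 t.2.2.2).2.2.2.2 t.2.2.1,
          (hmem t.1.1 t.1.2 t.2.1 t.1.2.2 t.2.2.2).2.2.1⟩
      left_inv := fun t => by
        have h1 := hff t.1.1 t.1.2 t.2.2.2
        apply Subtype.ext
        apply Prod.ext
        · exact (congrArg Prod.fst h1 : (f (f (t.1.1, (t.1.2 : G)))).1 = t.1.1)
        · apply Subtype.ext
          exact (congrArg Prod.snd h1 : (f (f (t.1.1, (t.1.2 : G)))).2 = (t.1.2 : G))
      right_inv := fun t => by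
        have h1 := hff t.1.1 t.1.2 t.2.2.2
        apply Subtype.ext
        apply Prod.ext
        · exact (congrArg Prod.fst h1 : (f (f (t.1.1, (t.1.2 : G)))).1 = t.1.1)
        · apply Subtype.ext
          exact (congrArg Prod.snd h1 : (f (f (t.1.1, (t.1.2 : G)))).2 = (t.1.2 : G)) }

/-- comparison with the trivial coset -/
theorem card_pairs'_le (x : G) : Nat.card (Pairs' N π x) ≤ Nat.card (Pairs' N π 1) := by
  classical
  -- choose a point over each `n`
  let Q : N → Prop := fun n => ∃ y : G, (y : G ⧸ N) = (x : G ⧸ N) ∧ (n : G) * y = y * n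
  let s : N → G := fun n => if h : Q n then h.choose else 1
  have hs : ∀ n : N, Q n → ((s n : G) : G ⧸ N) = (x : G ⧸ N) ∧ (n : G) * s n = s n * n := by
    intro n hn
    have : s n = hn.choose := dif_pos hn
    rw [this]
    exact hn.choose_spec
  refine Nat.card_le_card_of_injective (fun t : Pairs' N π x =>
    (⟨((s t.1.2)⁻¹ * t.1.1, t.1.2), ?_, t.2.2.1, ?_⟩ : Pairs' N π 1)) ?_
  · have hq : Q t.1.2 := ⟨t.1.1, t.2.1, t.2.2.2⟩
    show (((s t.1.2)⁻¹ * t.1.1 : G) : G ⧸ N) = ((1 : G) : G ⧸ N)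
    rw [QuotientGroup.mk_mul, QuotientGroup.mk_inv, (hs _ hq).1, t.2.1, inv_mul_cancel]
    rfl
  · have hq : Q t.1.2 := ⟨t.1.1, t.2.1, t.2.2.2⟩
    show (t.1.2 : G) * ((s t.1.2)⁻¹ * t.1.1) = (s t.1.2)⁻¹ * t.1.1 * t.1.2
    have h1 : Commute (t.1.2 : G) (s t.1.2) := (hs _ hq).2
    have h2 : Commute (t.1.2 : G) t.1.1 := t.2.2.2
    exact (h1.inv_right.mul_right h2).eq
  · intro t t' htt
    have h1 : ((s t.1.2)⁻¹ * t.1.1, t.1.2) = ((s t'.1.2)⁻¹ * t'.1.1, t'.1.2) :=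
      congrArg Subtype.val htt
    have h2 : t.1.2 = t'.1.2 := (Prod.mk.injEq _ _ _ _ ▸ h1).2
    have h3 : (s t.1.2)⁻¹ * t.1.1 = (s t'.1.2)⁻¹ * t'.1.1 := (Prod.mk.injEq _ _ _ _ ▸ h1).1
    rw [h2] at h3
    exact Subtype.ext (Prod.ext (mul_left_cancel h3) h2)

theorem card_orbits_le (h : Ex π (Nat.card G) u v) (x : G) (hx : PiEl π (x : G ⧸ N)) :
    (letI := act N π x
     Nat.card (MulAction.orbitRel.Quotient N (XX N π x))) ≤
    (letI := act N π 1
     Nat.card (MulAction.orbitRel.Quotient N (XX N π 1))) := by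
  have h1 := card_orbits N (π := π) x
  have h2 := card_orbits N (π := π) (1 : G)
  have h3 := card_pairs_eq N h x hx
  have h4 := card_pairs_eq N h 1 (by
    intro q hq hd
    rw [QuotientGroup.mk_one, orderOf_one] at hd
    exact absurd (Nat.dvd_one.1 hd) hq.one_lt.ne')
  have h5 := card_pairs'_le N (π := π) x
  rw [← h3, ← h4, ← h1, ← h2] at h5
  exact Nat.le_of_mul_le_mul_right h5 Nat.card_pos

end

/-- the classes of `π`-elements -/
abbrev CP (π : Set ℕ) (G : Type u) [Group G] : Type u := {C : ConjClasses G //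
  ∀ q : ℕ, q.Prime → (∃ g : G, ConjClasses.mk g = C ∧ q ∣ orderOf g) → q ∈ π}

section

variable {G : Type u} [Group G] [Finite G] {π : Set ℕ}

omit [Finite G] in
theorem orderOf_eq_of_isConj {a b : G} (h : IsConj a b) : orderOf a = orderOf b := by
  obtain ⟨c, rfl⟩ := isConj_iff.1 h
  have h1 : c * a * c⁻¹ = (MulAut.conj c) a := rfl
  rw [h1, MulEquiv.orderOf_eq]

omit [Finite G] in
theorem cp_mk {y : G} (hy : PiEl π y) : ∀ q : ℕ, q.Prime →
    (∃ g : G, ConjClasses.mk g = ConjClasses.mk y ∧ q ∣ orderOf g) → q ∈ π := by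
  rintro q hq ⟨g, hg, hd⟩
  rw [ConjClasses.mk_eq_mk_iff_isConj] at hg
  rw [orderOf_eq_of_isConj hg] at hd
  exact hy q hq hd

omit [Finite G] in
theorem cp_piEl {C : CP π G} {g : G} (hg : ConjClasses.mk g = C.1) : PiEl π g :=
  fun q hq hd => C.2 q hq ⟨g, hg, hd⟩

theorem orbits_one_le (N : Subgroup G) [hN : N.Normal] :
    (letI := act N π 1
     Nat.card (MulAction.orbitRel.Quotient N (XX N π 1))) ≤ Nat.card (CP π N) := by
  letI := act N π (1 : G)
  have hmem : ∀ y : XX N π 1, y.1 ∈ N := fun y => (QuotientGroup.eq_one_iff _).1 y.2.1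
  haveI : Finite (CP π N) := inferInstance
  refine Nat.card_le_card_of_injective (Quotient.lift (fun y : XX N π 1 =>
    (⟨ConjClasses.mk (⟨y.1, hmem y⟩ : N), cp_mk (by
      intro q hq hd
      rw [Subgroup.orderOf_mk] at hd
      exact y.2.2 q hq hd)⟩ : CP π N)) ?_) ?_
  · rintro a b ⟨n, hn⟩
    apply Subtype.ext
    show ConjClasses.mk _ = ConjClasses.mk _
    rw [ConjClasses.mk_eq_mk_iff_isConj]
    apply IsConj.symm
    refine isConj_iff.2 ⟨n, Subtype.ext ?_⟩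
    have h1 : (n : G) * b.1 * (n : G)⁻¹ = a.1 := congrArg (fun z : XX N π 1 => z.1) hn
    exact h1
  · intro a b
    induction a using Quotient.inductionOn with
    | _ a =>
    induction b using Quotient.inductionOn with
    | _ b =>
    intro hab
    have h1 : ConjClasses.mk (⟨a.1, hmem a⟩ : N) = ConjClasses.mk (⟨b.1, hmem b⟩ : N) :=
      congrArg Subtype.val hab
    rw [ConjClasses.mk_eq_mk_iff_isConj] at h1
    obtain ⟨c, hc⟩ := isConj_iff.1 h1.symm
    apply Quotient.sound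
    have h2 : (c : G) * b.1 * (c : G)⁻¹ = a.1 := congrArg (fun z : N => (z : G)) hc
    exact ⟨c, Subtype.ext h2⟩

theorem st4152 (N : Subgroup G) [hN : N.Normal] :
    Nat.card (CP π G) ≤ Nat.card (CP π N) * Nat.card (CP π (G ⧸ N)) := by
  classical
  obtain ⟨u, v, huv, hadd, hto, hof⟩ := exists_exponents π (Nat.card G) Nat.card_pos.ne'
  have hex : Ex π (Nat.card G) u v := ⟨huv, hadd, hto, hof⟩
  haveI : Finite (CP π G) := inferInstance
  haveI : Finite (CP π (G ⧸ N)) := inferInstance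
  haveI := Fintype.ofFinite (CP π G)
  haveI := Fintype.ofFinite (CP π (G ⧸ N))
  -- the map on classes
  let φ : CP π G → CP π (G ⧸ N) := fun C => ⟨ConjClasses.map (QuotientGroup.mk' N) C.1, by
    obtain ⟨g, hg⟩ := ConjClasses.exists_rep C.1
    have h1 := cp_piEl hg
    rw [← hg]
    exact cp_mk (y := (g : G ⧸ N)) (by
      intro q hq hd
      exact h1 q hq (hd.trans (orderOf_map_dvd (QuotientGroup.mk' N) g)))⟩
  have hfib : ∀ D : CP π (G ⧸ N), Nat.card {C : CP π G // φ C = D} ≤ Nat.card (CP π N) := by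
    intro D
    obtain ⟨xb, hxb⟩ := ConjClasses.exists_rep D.1
    obtain ⟨x, rfl⟩ := QuotientGroup.mk_surjective xb
    have hxπ : PiEl π (x : G ⧸ N) := cp_piEl hxb
    refine le_trans ?_ ((card_orbits_le N hex x hxπ).trans (orbits_one_le N))
    letI := act N π x
    haveI : Finite (MulAction.orbitRel.Quotient N (XX N π x)) := inferInstance
    refine Nat.card_le_card_of_surjective (Quotient.lift (fun y : XX N π x =>
      (⟨⟨ConjClasses.mk y.1, cp_mk y.2.2⟩, Subtype.ext (by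
        have h1 : ConjClasses.mk ((y.1 : G) : G ⧸ N) = ConjClasses.mk ((x : G) : G ⧸ N) :=
          congrArg _ y.2.1
        rw [← hxb]; exact h1)⟩ : {C : CP π G // φ C = D})) ?_) ?_
    · rintro a b ⟨n, hn⟩
      apply Subtype.ext
      apply Subtype.ext
      show ConjClasses.mk a.1 = ConjClasses.mk b.1
      rw [ConjClasses.mk_eq_mk_iff_isConj]
      apply IsConj.symm
      have h1 : (n : G) * b.1 * (n : G)⁻¹ = a.1 := congrArg (fun z : XX N π x => z.1) hn
      exact isConj_iff.2 ⟨n, h1⟩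
    · rintro ⟨C, hC⟩
      obtain ⟨g, hg⟩ := ConjClasses.exists_rep C.1
      have h1 := cp_piEl hg
      have h2 : ConjClasses.mk (g : G ⧸ N) = ConjClasses.mk (x : G ⧸ N) := by
        have h3 := congrArg Subtype.val hC
        rw [hxb, ← h3]
        show _ = ConjClasses.map (QuotientGroup.mk' N) C.1
        rw [← hg]; rfl
      rw [ConjClasses.mk_eq_mk_iff_isConj] at h2
      obtain ⟨cb, hcb⟩ := isConj_iff.1 h2
      obtain ⟨c, rfl⟩ := QuotientGroup.mk_surjective cb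
      have h3 : IsConj g (c * g * c⁻¹) := isConj_iff.2 ⟨c, rfl⟩
      refine ⟨Quotient.mk _ ⟨c * g * c⁻¹, ?_, ?_⟩, ?_⟩
      · rw [← hcb]; rfl
      · intro q hq hd
        rw [← orderOf_eq_of_isConj h3] at hd
        exact h1 q hq hd
      · apply Subtype.ext
        apply Subtype.ext
        show ConjClasses.mk (c * g * c⁻¹) = C.1
        rw [← hg, ConjClasses.mk_eq_mk_iff_isConj]
        exact h3.symm
  have h1 : Nat.card (CP π G) = ∑ D : CP π (G ⧸ N), Nat.card {C : CP π G // φ C = D} := by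
    rw [Nat.card_congr (Equiv.sigmaFiberEquiv φ).symm, Nat.card_sigma]
  rw [h1]
  calc ∑ D : CP π (G ⧸ N), Nat.card {C : CP π G // φ C = D} ≤
      ∑ _D : CP π (G ⧸ N), Nat.card (CP π N) := Finset.sum_le_sum fun D _ => hfib D
    _ = Nat.card (CP π N) * Nat.card (CP π (G ⧸ N)) := by
      rw [Finset.sum_const, Finset.card_univ, smul_eq_mul, mul_comm, Nat.card_eq_fintype_card
        (α := CP π (G ⧸ N))]

end

end Cfsg.Agent.H11.PiClass
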