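import Cfsg.Agent.H11.HC1
import Cfsg.Agent.S0071
import Mathlib.GroupTheory.SpecificGroups.Quaternion

/-! Sylow 2-subgroups isomorphic to the quaternion group of order 8 (helper11). -/

set_option autoImplicit false
open Cfsg

namespace Cfsg.Agent.H11

universe u

namespace Q8

abbrev Q := QuaternionGroup 2

theorem sq_one : ∀ x : Q, x * x = 1 → x = 1 ∨ x = QuaternionGroup.a 2 := by decide

theorem pow_four : ∀ x : Q, x * x * (x * x) = 1 := by decide

theorem sq_a2 : ∀ x : Q, x * x ≠ 1 → x * x = QuaternionGroup.a 2 := by decide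

theorem cases : ∀ x : Q, x * x ≠ 1 →
    (x = QuaternionGroup.a 1 ∨ x = QuaternionGroup.a 1 * (QuaternionGroup.a 1 * QuaternionGroup.a 1)) ∨
    (x = QuaternionGroup.xa 0 ∨
      x = QuaternionGroup.xa 0 * (QuaternionGroup.xa 0 * QuaternionGroup.xa 0)) ∨
    (x = QuaternionGroup.xa 1 ∨
      x = QuaternionGroup.xa 1 * (QuaternionGroup.xa 1 * QuaternionGroup.xa 1)) := by decide

end Q8

variable {G : Type u} [Group G] [Finite G]

/-- facts about a subgroup isomorphic to the quaternion group of order 8 -/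
structure IsQ8 (S : Subgroup G) (z i j k : G) : Prop where
  card : Nat.card S = 8
  z_mem : z ∈ S
  z_ne : z ≠ 1
  z_sq : z * z = 1
  i_mem : i ∈ S
  j_mem : j ∈ S
  k_mem : k ∈ S
  inv : ∀ x ∈ S, x * x = 1 → x = 1 ∨ x = z
  sq : ∀ x ∈ S, x * x ≠ 1 → x * x = z
  cases : ∀ x ∈ S, x * x ≠ 1 → (x = i ∨ x = i * (i * i)) ∨ (x = j ∨ x = j * (j * j)) ∨
    (x = k ∨ x = k * (k * k))

omit [Finite G] in
theorem isQ8_of_equiv {S : Subgroup G} (e : S ≃* QuaternionGroup 2) :
    ∃ z i j k, IsQ8 S z i j k := by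
  have hc : Nat.card S = 8 := by
    rw [Nat.card_congr e.toEquiv, Nat.card_eq_fintype_card]; decide
  refine ⟨e.symm (QuaternionGroup.a 2), e.symm (QuaternionGroup.a 1), e.symm (QuaternionGroup.xa 0),
    e.symm (QuaternionGroup.xa 1), hc, (e.symm _).2, ?_, ?_, (e.symm _).2, (e.symm _).2,
    (e.symm _).2, ?_, ?_, ?_⟩
  · intro h
    have h2 : e.symm (QuaternionGroup.a 2) = 1 := Subtype.ext h
    rw [map_eq_one_iff e.symm e.symm.injective] at h2
    revert h2; decide
  · have h2 : e.symm (QuaternionGroup.a 2) * e.symm (QuaternionGroup.a 2) = 1 := by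
      rw [← map_mul, map_eq_one_iff e.symm e.symm.injective]; decide
    exact congrArg Subtype.val h2
  · intro x hx h
    have h1 : e ⟨x, hx⟩ * e ⟨x, hx⟩ = 1 := by
      rw [← map_mul, map_eq_one_iff e e.injective]; exact Subtype.ext h
    rcases Q8.sq_one _ h1 with h2 | h2
    · left
      rw [map_eq_one_iff e e.injective] at h2
      exact congrArg Subtype.val h2
    · right
      rw [← h2, MulEquiv.symm_apply_apply]
  · intro x hx h
    have h1 : e ⟨x, hx⟩ * e ⟨x, hx⟩ ≠ 1 := by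
      rw [← map_mul]
      intro h2
      rw [map_eq_one_iff e e.injective] at h2
      exact h (congrArg Subtype.val h2)
    have h2 := Q8.sq_a2 _ h1
    rw [← h2, map_mul, MulEquiv.symm_apply_apply]
    rfl
  · intro x hx h
    have h1 : e ⟨x, hx⟩ * e ⟨x, hx⟩ ≠ 1 := by
      rw [← map_mul]
      intro h2
      rw [map_eq_one_iff e e.injective] at h2
      exact h (congrArg Subtype.val h2)
    have h3 : ∀ y : QuaternionGroup 2, (e ⟨x, hx⟩ = y ∨ e ⟨x, hx⟩ = y * (y * y)) →
        (x = e.symm y ∨ x = (e.symm y : G) * ((e.symm y : G) * (e.symm y : G))) := by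
      intro y hy
      rcases hy with hy | hy
      · left; rw [← hy, MulEquiv.symm_apply_apply]
      · right
        have h4 : (⟨x, hx⟩ : S) = e.symm y * (e.symm y * e.symm y) := by
          rw [← map_mul, ← map_mul, ← hy, MulEquiv.symm_apply_apply]
        exact congrArg Subtype.val h4
    rcases Q8.cases _ h1 with h2 | h2 | h2
    · exact Or.inl (h3 _ h2)
    · exact Or.inr (Or.inl (h3 _ h2))
    · exact Or.inr (Or.inr (h3 _ h2))

namespace IsQ8

variable {S : Subgroup G} {z i j k : G} (h : IsQ8 S z i j k)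

include h

theorem order_four {x : G} (hx : x ∈ S) (hx2 : x * x ≠ 1) : orderOf x = 4 := by
  refine orderOf_eq_prime_pow (p := 2) (n := 1) ?_ ?_
  · rw [pow_one, pow_two]; exact hx2
  · have h1 := h.sq x hx hx2
    calc x ^ (2 ^ (1 + 1)) = x * x * (x * x) := by
          show x ^ 4 = _
          rw [pow_succ, pow_succ, pow_two, mul_assoc (x * x)]
      _ = 1 := by rw [h1, h.z_sq]

/-- a subgroup of order 4 is generated by an element of order 4 -/
theorem gen {A : Subgroup G} (hA : A ≤ S) (hA4 : Nat.card A = 4) :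
    ∃ x ∈ A, x * x ≠ 1 := by
  by_contra hcon
  push Not at hcon
  have hle : A ≤ Subgroup.zpowers z := by
    intro x hx
    rcases h.inv x (hA hx) (hcon x hx) with h1 | h1
    · rw [h1]; exact one_mem _
    · rw [h1]; exact Subgroup.mem_zpowers z
  have h1 := Subgroup.card_le_of_le hle
  rw [Nat.card_zpowers, hA4] at h1
  have h2 : orderOf z ≤ 2 := orderOf_le_of_pow_eq_one (by norm_num) (by rw [pow_two]; exact h.z_sq)
  omega

theorem eq_zpowers {A : Subgroup G} (hA : A ≤ S) (hA4 : Nat.card A = 4) {x : G} (hx : x ∈ A)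
    (hx2 : x * x ≠ 1) : A = Subgroup.zpowers x := by
  symm
  apply Subgroup.eq_of_le_of_card_ge
  · rw [Subgroup.zpowers_le]; exact hx
  · rw [Nat.card_zpowers, h.order_four (hA hx) hx2, hA4]

theorem zpowers_cube {y : G} (hy : y ∈ S) : Subgroup.zpowers (y * (y * y)) =
    Subgroup.zpowers y := by
  by_cases hy2 : y * y = 1
  · rw [hy2, mul_one]
  · have h4 : y ^ 4 = 1 := by rw [← h.order_four hy hy2]; exact pow_orderOf_eq_one y
    have h3 : y * (y * y) = y⁻¹ := by
      rw [eq_inv_iff_mul_eq_one, ← h4, pow_succ, pow_succ, pow_two, mul_assoc y y y]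
    rw [h3]
    exact Subgroup.zpowers_inv

theorem three {A : Subgroup G} (hA : A ≤ S) (hA4 : Nat.card A = 4) :
    A = Subgroup.zpowers i ∨ A = Subgroup.zpowers j ∨ A = Subgroup.zpowers k := by
  obtain ⟨x, hx, hx2⟩ := h.gen hA hA4
  rw [h.eq_zpowers hA hA4 hx hx2]
  rcases h.cases x (hA hx) hx2 with (h1 | h1) | (h1 | h1) | (h1 | h1)
  · exact Or.inl (by rw [h1])
  · exact Or.inl (by rw [h1, h.zpowers_cube h.i_mem])
  · exact Or.inr (Or.inl (by rw [h1]))
  · exact Or.inr (Or.inl (by rw [h1, h.zpowers_cube h.j_mem]))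
  · exact Or.inr (Or.inr (by rw [h1]))
  · exact Or.inr (Or.inr (by rw [h1, h.zpowers_cube h.k_mem]))

/-- an element of odd order normalizing `⟨x⟩` centralizes it -/
theorem cyc {x g : G} (hx : x ∈ S) (hx2 : x * x ≠ 1) (hg : Odd (orderOf g))
    (hn : g * x * g⁻¹ ∈ Subgroup.zpowers x) : g * x * g⁻¹ = x := by
  classical
  have h4 := h.order_four hx hx2
  obtain ⟨r, hr, hr2⟩ := (mem_zpowers_iff_mem_range_orderOf).1 hn |> Finset.mem_image.1
  rw [h4, Finset.mem_range] at hr
  have key : g * x * g⁻¹ = x ∨ g * x * g⁻¹ = x⁻¹ := by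
    have hsq : (g * x * g⁻¹) * (g * x * g⁻¹) ≠ 1 := by
      intro h1
      apply hx2
      have h2 : (g * x * g⁻¹) * (g * x * g⁻¹) = g * (x * x) * g⁻¹ := by group
      rw [h2] at h1
      have h3 : g⁻¹ * (g * (x * x) * g⁻¹) * g = x * x := by group
      rw [← h3, h1]; group
    have hz2 := h.sq x hx hx2
    interval_cases r
    · rw [pow_zero] at hr2
      rw [← hr2] at hsq
      exact absurd (one_mul 1) hsq
    · left; rw [← hr2, pow_one]
    · rw [← hr2] at hsq
      exact absurd (by rw [pow_two, hz2, h.z_sq]) hsq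
    · right
      have h5 : x ^ 4 = 1 := by rw [← h4]; exact pow_orderOf_eq_one x
      rw [← hr2, eq_inv_iff_mul_eq_one, ← h5, pow_succ x 3]
  rcases key with h1 | h1
  · exact h1
  · -- `g ^ 2` commutes with `x`
    have h2 : Commute (g ^ 2) x := by
      have h3 : g * (g * x * g⁻¹) * g⁻¹ = x := by
        rw [h1]
        have h5 : g * x⁻¹ * g⁻¹ = (g * x * g⁻¹)⁻¹ := by group
        rw [h5, h1, inv_inv]
      show g ^ 2 * x = x * g ^ 2
      calc g ^ 2 * x = (g * (g * x * g⁻¹) * g⁻¹) * g ^ 2 := by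
            rw [pow_two]; group
        _ = x * g ^ 2 := by rw [h3]
    obtain ⟨m, hm⟩ := hg
    have h3 : (g ^ 2) ^ (m + 1) = g := by
      rw [← pow_mul, show 2 * (m + 1) = (2 * m + 1) + 1 by ring, ← hm, pow_succ,
        pow_orderOf_eq_one, one_mul]
    have h5 : Commute g x := by rw [← h3]; exact h2.pow_left _
    rw [h5.eq]; group

theorem index_two {A : Subgroup G} (hA : A ≤ S) (hA4 : Nat.card A = 4) :
    (A.subgroupOf S).index = 2 := by
  have h1 := (A.subgroupOf S).card_mul_index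
  have h2 : Nat.card (A.subgroupOf S) = 4 := by
    rw [← hA4]; exact Nat.card_congr (Subgroup.subgroupOfEquivOfLe hA).toEquiv
  rw [h2, h.card] at h1
  omega

/-- an element of odd order normalizing a subgroup of order 4 of `S` and `S` centralizes `S` -/
theorem fix {A : Subgroup G} (hA : A ≤ S) (hA4 : Nat.card A = 4) {g : G}
    (hg : Odd (orderOf g)) (hS : ∀ s ∈ S, g * s * g⁻¹ ∈ S)
    (hn : ∀ s, g * s * g⁻¹ ∈ A ↔ s ∈ A) : ∀ s ∈ S, g * s * g⁻¹ = s := by
  obtain ⟨x, hx, hx2⟩ := h.gen hA hA4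
  have hAx := h.eq_zpowers hA hA4 hx hx2
  have h1 : g * x * g⁻¹ = x := h.cyc (hA hx) hx2 hg (hAx ▸ (hn x).2 hx)
  have h2 : ∀ t ∈ A, g * t * g⁻¹ = t := by
    intro t ht
    rw [hAx] at ht
    obtain ⟨r, rfl⟩ := Subgroup.mem_zpowers_iff.1 ht
    have : g * x ^ r * g⁻¹ = (g * x * g⁻¹) ^ r := by rw [conj_zpow]
    rw [this, h1]
  intro s hs
  obtain ⟨t, ht⟩ : ∃ t, t = g * s * g⁻¹ * s⁻¹ := ⟨_, rfl⟩
  have htA : t ∈ A := by
    have h3 := Subgroup.mul_mem_iff_of_index_two (h.index_two hA hA4)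
      (a := (⟨g * s * g⁻¹, hS s hs⟩ : S)) (b := (⟨s, hs⟩ : S)⁻¹)
    have h4 : ((⟨g * s * g⁻¹, hS s hs⟩ : S) * (⟨s, hs⟩ : S)⁻¹ : S) ∈ A.subgroupOf S := by
      rw [h3]
      rw [inv_mem_iff, Subgroup.mem_subgroupOf, Subgroup.mem_subgroupOf]
      exact hn s
    rw [ht]
    exact h4
  have h5 : g * s * g⁻¹ = t * s := by rw [ht]; group
  have h6 := conj_pow_eq h5 (h2 t htA) (orderOf g)
  rw [pow_orderOf_eq_one] at h6
  have h7 : t ^ orderOf g = 1 := by
    have h8 : s = t ^ orderOf g * s := by simpa using h6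
    have h9 : (1 : G) * s = t ^ orderOf g * s := by rw [one_mul]; exact h8
    exact (mul_right_cancel h9).symm
  have h8 : orderOf t ∣ 4 := by rw [← hA4]; exact Subgroup.orderOf_dvd_natCard A htA
  have h9 : orderOf t ∣ orderOf g := orderOf_dvd_of_pow_eq_one h7
  have h10 : orderOf t = 1 := by
    have hco : Nat.Coprime (orderOf g) 4 := by
      rw [show 4 = 2 ^ 2 by norm_num]
      exact Nat.Coprime.pow_right 2 (Nat.coprime_two_right.2 hg)
    exact Nat.eq_one_of_dvd_coprimes hco h9 h8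
  rw [orderOf_eq_one_iff] at h10
  rw [h5, h10, one_mul]

end IsQ8

theorem not_mem_centralizer_iff {S : Subgroup G} {g : G} :
    g ∈ Subgroup.centralizer (S : Set G) ↔ ∀ s ∈ S, g * s * g⁻¹ = s := by
  rw [Subgroup.mem_centralizer_iff]
  constructor
  · intro h s hs
    rw [← h s hs]; group
  · intro h s hs
    have := h s hs
    calc s * g = g * s * g⁻¹ * g := by rw [this]
      _ = g * s := by group

/-- there is an element of odd order of the normalizer of `S` which doesn't centralize `S` -/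
theorem exists_odd_q8 (S : Sylow 2 G) {z i j k : G} (h : IsQ8 (S : Subgroup G) z i j k)
    (hnc : ∀ N : Subgroup G, N.Normal → ¬ Subgroup.IsComplement' N (S : Subgroup G)) :
    ∃ g ∈ Subgroup.normalizer ((S : Subgroup G) : Set G), Odd (orderOf g) ∧
      g ∉ Subgroup.centralizer ((S : Subgroup G) : Set G) := by
  by_contra hcon
  push Not at hcon
  have h1 : ∃ N : Subgroup G, N.Normal ∧ N.IsComplement' (S : Subgroup G) := by
    rw [Cfsg.Agent.S0071.result (p := 2) S]
    intro Q hQ g hg hco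
    have hodd : Odd (orderOf g) := Nat.coprime_two_right.1 hco
    have hgn : ∀ s ∈ Q, g * s * g⁻¹ ∈ Q := fun s hs => (Subgroup.mem_normalizer_iff.1 hg s).1 hs
    rw [not_mem_centralizer_iff]
    by_cases hq : ∃ x ∈ Q, x * x ≠ 1
    · obtain ⟨x, hx, hx2⟩ := hq
      have h4 := h.order_four (hQ hx) hx2
      have hd4 : 4 ∣ Nat.card Q := h4 ▸ Subgroup.orderOf_dvd_natCard Q hx
      have hd8 : Nat.card Q ∣ 8 := h.card ▸ Subgroup.card_dvd_of_le hQ
      have h48 : Nat.card Q = 4 ∨ Nat.card Q = 8 := by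
        obtain ⟨a, ha⟩ := hd4
        have hle := Nat.le_of_dvd (by norm_num) hd8
        have hpos : 0 < Nat.card Q := Nat.card_pos
        have : a = 1 ∨ a = 2 := by omega
        rcases this with rfl | rfl
        · left; omega
        · right; omega
      rcases h48 with h5 | h5
      · have hz := h.eq_zpowers hQ h5 hx hx2
        have h6 := h.cyc (hQ hx) hx2 hodd (hz ▸ hgn x hx)
        intro s hs
        rw [hz] at hs
        obtain ⟨r, rfl⟩ := Subgroup.mem_zpowers_iff.1 hs
        rw [← conj_zpow, h6]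
      · have h6 : Q = (S : Subgroup G) :=
          Subgroup.eq_of_le_of_card_ge hQ (by rw [h5, h.card])
        have := hcon g (h6 ▸ hg) hodd
        rw [h6]
        exact not_mem_centralizer_iff.1 this
    · push Not at hq
      intro s hs
      rcases h.inv s (hQ hs) (hq s hs) with h5 | h5
      · rw [h5]; group
      · rcases h.inv _ (hQ (hgn s hs)) (hq _ (hgn s hs)) with h6 | h6
        · have h7 : s = 1 := by
            have h8 : g⁻¹ * (g * s * g⁻¹) * g = s := by group
            rw [← h8, h6]; group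
          rw [h7]; group
        · rw [h6, h5]
  obtain ⟨N, hN, hN2⟩ := h1
  exact hnc N hN hN2

theorem mapc_mem {A : Subgroup G} {g s : G} :
    s ∈ A.map (MulAut.conj g).toMonoidHom ↔ g⁻¹ * s * g ∈ A := by
  rw [Subgroup.mem_map]
  constructor
  · rintro ⟨x, hx, rfl⟩
    have : g⁻¹ * ((MulAut.conj g).toMonoidHom x) * g = x := by
      show g⁻¹ * (g * x * g⁻¹) * g = x
      group
    rw [this]; exact hx
  · intro hs
    refine ⟨_, hs, ?_⟩
    show g * (g⁻¹ * s * g) * g⁻¹ = s
    group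

/-- S0950 -/
theorem st0950 (S : Sylow 2 G) (e : (S : Subgroup G) ≃* QuaternionGroup 2)
    (hnc : ∀ N : Subgroup G, N.Normal → ¬ Subgroup.IsComplement' N (S : Subgroup G))
    (A B : Subgroup G) (hA : A ≤ S) (hB : B ≤ S) (hA4 : Nat.card A = 4) (hB4 : Nat.card B = 4) :
    ∃ n ∈ Subgroup.normalizer ((S : Subgroup G) : Set G),
      B = A.map (MulAut.conj n).toMonoidHom := by
  classical
  obtain ⟨z, i, j, k, h⟩ := isQ8_of_equiv e
  obtain ⟨g, hg, hodd, hnot⟩ := exists_odd_q8 S h hnc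
  have hgS : ∀ s, g * s * g⁻¹ ∈ (S : Subgroup G) ↔ s ∈ (S : Subgroup G) :=
    fun s => (Subgroup.mem_normalizer_iff.1 hg s).symm
  -- conjugates of subgroups of order 4
  have hc : ∀ (C : Subgroup G) (y : G), y ∈ Subgroup.normalizer ((S : Subgroup G) : Set G) →
      C ≤ S → Nat.card C = 4 → C.map (MulAut.conj y).toMonoidHom ≤ S ∧
        Nat.card (C.map (MulAut.conj y).toMonoidHom) = 4 := by
    intro C y hy hC hC4
    constructor
    · intro s hs
      rw [mapc_mem] at hs
      have h1 := (Subgroup.mem_normalizer_iff.1 hy _).1 (hC hs)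
      have h2 : y * (y⁻¹ * s * y) * y⁻¹ = s := by group
      rwa [h2] at h1
    · rw [← hC4]
      exact (Nat.card_congr (C.equivMapOfInjective _ (MulAut.conj y).injective).toEquiv).symm
  have hfix : ∀ (C : Subgroup G), C ≤ S → Nat.card C = 4 →
      C.map (MulAut.conj g).toMonoidHom ≠ C := by
    intro C hC hC4 heq
    apply hnot
    rw [not_mem_centralizer_iff]
    refine h.fix hC hC4 hodd (fun s hs => (hgS s).2 hs) fun s => ?_
    constructor
    · intro hs
      rw [← heq, mapc_mem] at hs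
      have : g⁻¹ * (g * s * g⁻¹) * g = s := by group
      rwa [this] at hs
    · intro hs
      rw [← heq, mapc_mem]
      have : g⁻¹ * (g * s * g⁻¹) * g = s := by group
      rwa [this]
  have hg2 : (g ^ 2) ∈ Subgroup.normalizer ((S : Subgroup G) : Set G) := Subgroup.pow_mem _ hg 2
  have hmap2 : ∀ C : Subgroup G, (C.map (MulAut.conj g).toMonoidHom).map
      (MulAut.conj g).toMonoidHom = C.map (MulAut.conj (g ^ 2)).toMonoidHom := by
    intro C
    ext s
    rw [mapc_mem, mapc_mem, mapc_mem, pow_two]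
    have : g⁻¹ * (g⁻¹ * s * g) * g = (g * g)⁻¹ * s * (g * g) := by group
    rw [this]
  obtain ⟨A1, hA1⟩ : ∃ A1, A1 = A.map (MulAut.conj g).toMonoidHom := ⟨_, rfl⟩
  obtain ⟨A2, hA2⟩ : ∃ A2, A2 = A1.map (MulAut.conj g).toMonoidHom := ⟨_, rfl⟩
  have c1 := hc A g hg hA hA4
  rw [← hA1] at c1
  have c2 := hc A1 g hg c1.1 c1.2
  rw [← hA2] at c2
  have n1 : A1 ≠ A := hA1 ▸ hfix A hA hA4
  have n2 : A2 ≠ A1 := by rw [hA2]; exact hfix A1 c1.1 c1.2
  have n3 : A2 ≠ A := by
    intro h1
    -- `g ^ 2` fixes `A`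
    rw [hA2, hA1, hmap2] at h1
    apply hnot
    rw [not_mem_centralizer_iff]
    obtain ⟨m, hm⟩ := hodd
    have h3 : (g ^ 2) ^ (m + 1) = g := by
      rw [← pow_mul, show 2 * (m + 1) = (2 * m + 1) + 1 by ring, ← hm, pow_succ,
        pow_orderOf_eq_one, one_mul]
    have h4 : ∀ s ∈ (S : Subgroup G), g ^ 2 * s * (g ^ 2)⁻¹ = s := by
      refine h.fix hA hA4 (g := g ^ 2) ?_ (fun s hs => (Subgroup.mem_normalizer_iff.1 hg2 s).1 hs)
        fun s => ?_
      · rw [orderOf_pow]
        exact Odd.of_dvd_nat ⟨m, hm⟩ (Nat.div_dvd_of_dvd (Nat.gcd_dvd_left _ _))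
      · constructor
        · intro hs
          rw [← h1, mapc_mem] at hs
          have : (g ^ 2)⁻¹ * (g ^ 2 * s * (g ^ 2)⁻¹) * g ^ 2 = s := by group
          rwa [this] at hs
        · intro hs
          rw [← h1, mapc_mem]
          have : (g ^ 2)⁻¹ * (g ^ 2 * s * (g ^ 2)⁻¹) * g ^ 2 = s := by group
          rwa [this]
    intro s hs
    have h5 : Commute (g ^ 2) s := by
      show g ^ 2 * s = s * g ^ 2
      have := h4 s hs
      calc g ^ 2 * s = g ^ 2 * s * (g ^ 2)⁻¹ * g ^ 2 := by group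
        _ = s * g ^ 2 := by rw [this]
    have h6 : Commute g s := by rw [← h3]; exact h5.pow_left _
    rw [h6.eq]; group
  have hsub : ({A, A1, A2} : Finset (Subgroup G)) ⊆
      {Subgroup.zpowers i, Subgroup.zpowers j, Subgroup.zpowers k} := by
    intro C hC
    simp only [Finset.mem_insert, Finset.mem_singleton] at hC ⊢
    rcases hC with rfl | rfl | rfl
    · exact h.three hA hA4
    · exact h.three c1.1 c1.2
    · exact h.three c2.1 c2.2
  have hcard : ({A, A1, A2} : Finset (Subgroup G)).card = 3 := by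
    rw [Finset.card_eq_three]
    exact ⟨A, A1, A2, n1.symm, n3.symm, n2.symm, rfl⟩
  have heq := Finset.eq_of_subset_of_card_le hsub (by rw [hcard]; exact Finset.card_le_three)
  have hBm : B ∈ ({A, A1, A2} : Finset (Subgroup G)) := by
    rw [heq]
    simp only [Finset.mem_insert, Finset.mem_singleton]
    exact h.three hB hB4
  simp only [Finset.mem_insert, Finset.mem_singleton] at hBm
  rcases hBm with rfl | rfl | rfl
  · refine ⟨1, one_mem _, ?_⟩
    ext s
    rw [mapc_mem]; simp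
  · exact ⟨g, hg, hA1⟩
  · exact ⟨g ^ 2, hg2, by rw [hA2, hA1, hmap2]⟩

end Cfsg.Agent.H11
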