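import Mathlib
import Cfsg.Prelude.Def_CaseTheorems

set_option autoImplicit false

/-! S4168. -/

namespace Cfsg.Agent.H11

open Subgroup
open scoped Pointwise

theorem perfect_center_dvd {L : Type*} [Group L] [Finite L] (hL : commutator L = ⊤) (p : ℕ)
    (hp : p.Prime) (hdiv : p ∣ Nat.card (Subgroup.center L)) : p ∣ (Subgroup.center L).index := by
  by_contra hnd
  haveI : Fact p.Prime := ⟨hp⟩
  obtain ⟨P⟩ : Nonempty (Sylow p L) := inferInstance
  -- the Sylow subgroup is central
  have hPZ : (P : Subgroup L) ≤ Subgroup.center L := by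
    obtain ⟨Q⟩ : Nonempty (Sylow p (Subgroup.center L)) := inferInstance
    have h1 : Nat.card ((Q : Subgroup (Subgroup.center L)).map (Subgroup.center L).subtype) =
        Nat.card Q := (Nat.card_congr ((Q : Subgroup (Subgroup.center L)).equivMapOfInjective _
          (Subgroup.subtype_injective _)).toEquiv).symm
    have h2 : Nat.card Q = p ^ (Nat.card L).factorization p := by
      rw [Q.card_eq_multiplicity, ← (Subgroup.center L).card_mul_index,
        Nat.factorization_mul Nat.card_pos.ne' Subgroup.index_ne_zero_of_finite,
        Finsupp.add_apply, Nat.factorization_eq_zero_of_not_dvd hnd, add_zero]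
    have h3 : IsPGroup p ((Q : Subgroup (Subgroup.center L)).map (Subgroup.center L).subtype) :=
      Q.2.map _
    obtain ⟨R, hR⟩ := h3.exists_le_sylow
    have h4 : (Q : Subgroup (Subgroup.center L)).map (Subgroup.center L).subtype = R := by
      apply Subgroup.eq_of_le_of_card_ge hR
      rw [h1, h2, R.card_eq_multiplicity]
    have h5 : (R : Subgroup L) ≤ Subgroup.center L := by
      rw [← h4]; exact Subgroup.map_subtype_le _
    obtain ⟨c, hc⟩ := MulAction.exists_smul_eq L R P
    intro x hx
    rw [← hc] at hx
    change x ∈ (MulAut.conj c • (R : Subgroup L)) at hx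
    rw [Subgroup.mem_smul_pointwise_iff_exists] at hx
    obtain ⟨y, hy, rfl⟩ := hx
    have h6 := h5 hy
    have h7 : MulAut.conj c • y = y := by
      rw [MulAut.smul_def, MulAut.conj_apply, Subgroup.mem_center_iff.1 h6 c]; group
    rw [h7]; exact h6
  have hN : Subgroup.normalizer ((P : Subgroup L) : Set L) ≤
      Subgroup.centralizer ((P : Subgroup L) : Set L) := by
    intro n _
    rw [Subgroup.mem_centralizer_iff]
    intro y hy
    exact (Subgroup.mem_center_iff.1 (hPZ hy) n).symm
  have hcompl := MonoidHom.ker_transferSylow_isComplement' P hN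
  have hker : (MonoidHom.transferSylow P hN).ker = ⊤ := by
    rw [eq_top_iff, ← hL]
    haveI : (MonoidHom.transferSylow P hN).ker.Normal := inferInstance
    rw [_root_.commutator_def, Subgroup.commutator_le]
    intro x _ y _
    rw [MonoidHom.mem_ker, map_commutatorElement]
    have hab : ∀ a b : (P : Subgroup L), a * b = b * a := fun a b =>
      Subtype.ext (Subgroup.mem_center_iff.1 (hPZ b.2) a)
    rw [commutatorElement_def, hab (MonoidHom.transferSylow P hN x)]
    group
  rw [hker] at hcompl
  have h1 : (P : Subgroup L) = ⊥ := by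
    have := hcompl.symm
    rwa [Subgroup.isComplement'_top_right] at this
  have h2 : p ∣ Nat.card P := by
    apply P.dvd_card_of_dvd_card
    exact hdiv.trans (Subgroup.card_subgroup_dvd_card _)
  rw [h1, Subgroup.card_bot] at h2
  exact hp.one_lt.ne' (Nat.dvd_one.1 h2)

end Cfsg.Agent.H11
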