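import Mathlib
import Cfsg.Agent.H17.AutPSL0
import Cfsg.Agent.H10.SLBlk
import Cfsg.Agent.H11.MI2

set_option autoImplicit false
set_option linter.all false

/-! Smallest degree of `SL_n(q)`: the unipotent radical of a point stabiliser and its Levi complement. -/

namespace Cfsg.Agent.H11.WL

open Matrix Cfsg.Agent.H17 Cfsg.Agent.H10

variable {F : Type*} [Field F] {m : ℕ}

/-- `(x, c)` -/
def sn (x : Fin m → F) (c : F) : Fin (m + 1) → F := Fin.snoc (α := fun _ => F) x c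

theorem sn_cs (x : Fin m → F) (c : F) (i : Fin m) : sn x c i.castSucc = x i := Fin.snoc_castSucc _ _ _
theorem sn_last (x : Fin m → F) (c : F) : sn x c (Fin.last m) = c := Fin.snoc_last _ _

theorem sn_dot (x y : Fin m → F) (c d : F) : sn x c ⬝ᵥ sn y d = x ⬝ᵥ y + c * d := by
  simp only [dotProduct]
  rw [Fin.sum_univ_castSucc]
  simp only [sn_cs, sn_last]

theorem sn_surj (v : Fin (m + 1) → F) : ∃ x c, v = sn x c := by
  refine ⟨fun i => v i.castSucc, v (Fin.last m), ?_⟩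
  funext i
  refine Fin.lastCases ?_ (fun j => ?_) i
  · rw [sn_last]
  · rw [sn_cs]

theorem sn_add (x y : Fin m → F) (c d : F) : sn x c + sn y d = sn (x + y) (c + d) := by
  funext i
  refine Fin.lastCases ?_ (fun j => ?_) i
  · simp [sn_last]
  · simp [sn_cs]

theorem sn_smul (a : F) (x : Fin m → F) (c : F) : a • sn x c = sn (a • x) (a * c) := by
  funext i
  refine Fin.lastCases ?_ (fun j => ?_) i
  · simp [sn_last]
  · simp [sn_cs]

theorem sn_inj {x y : Fin m → F} {c d : F} (h : sn x c = sn y d) : x = y ∧ c = d := by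
  constructor
  · funext i
    have := congrFun h i.castSucc
    rwa [sn_cs, sn_cs] at this
  · have := congrFun h (Fin.last m)
    rwa [sn_last, sn_last] at this

theorem sn_zero : sn (0 : Fin m → F) 0 = 0 := by
  funext i
  refine Fin.lastCases ?_ (fun j => ?_) i
  · simp [sn_last]
  · simp [sn_cs]

/-- the last basis vector -/
def ee (m : ℕ) (F : Type*) [Field F] : Fin (m + 1) → F := sn 0 1

theorem ee_ne : ee m F ≠ 0 := by
  intro h
  rw [ee, ← sn_zero] at h
  exact one_ne_zero (sn_inj h).2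

theorem slBlk_mulVec (g : SpecialLinearGroup (Fin m) F) (x : Fin m → F) (c : F) :
    (slBlk m g : Matrix (Fin (m + 1)) (Fin (m + 1)) F) *ᵥ sn x c = sn ((g : Matrix (Fin m) (Fin m) F) *ᵥ x) c := by
  show blk (g : Matrix (Fin m) (Fin m) F) *ᵥ sn x c = _
  funext i
  rw [mulVec, dotProduct, Fin.sum_univ_castSucc]
  refine Fin.lastCases ?_ (fun j => ?_) i
  · simp [sn_last, sn_cs, blk_lc, blk_ll]
  · simp only [sn_last, sn_cs, blk_cc, blk_cl, zero_mul, add_zero]
    rfl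

theorem vecMul_slBlk (g : SpecialLinearGroup (Fin m) F) (x : Fin m → F) (c : F) :
    sn x c ᵥ* (slBlk m g : Matrix (Fin (m + 1)) (Fin (m + 1)) F) = sn (x ᵥ* (g : Matrix (Fin m) (Fin m) F)) c := by
  show sn x c ᵥ* blk (g : Matrix (Fin m) (Fin m) F) = _
  funext i
  rw [vecMul, dotProduct, Fin.sum_univ_castSucc]
  refine Fin.lastCases ?_ (fun j => ?_) i
  · simp [sn_last, sn_cs, blk_cl, blk_ll]
  · simp only [sn_last, sn_cs, blk_cc, blk_lc, mul_zero, add_zero]
    rfl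

theorem dot_ee (r : Fin m → F) : sn r 0 ⬝ᵥ ee m F = 0 := by rw [ee, sn_dot]; simp

/-- the unipotent radical -/
noncomputable def uu (r : Fin m → F) : SpecialLinearGroup (Fin (m + 1)) F := tS (ee m F) (sn r 0)

theorem uu_mulVec (r x : Fin m → F) (c : F) :
    (uu r : Matrix (Fin (m + 1)) (Fin (m + 1)) F) *ᵥ sn x c = sn x (c + r ⬝ᵥ x) := by
  rw [uu, tS_mulVec (dot_ee r), sn_dot, ee, sn_smul, sn_add]
  simp

theorem uu_add (r s : Fin m → F) : uu (r + s) = uu r * uu s := by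
  rw [uu, uu, uu, tS_mul (dot_ee r) (dot_ee s), sn_add, add_zero]

theorem uu_zero : uu (0 : Fin m → F) = 1 := by rw [uu, sn_zero, tS_zero]

theorem uu_ee (r : Fin m → F) : (uu r : Matrix (Fin (m + 1)) (Fin (m + 1)) F) *ᵥ ee m F = ee m F := by
  rw [ee, uu_mulVec]; simp

theorem sl_ext_sn {s t : SpecialLinearGroup (Fin (m + 1)) F}
    (h : ∀ x c, (s : Matrix (Fin (m + 1)) (Fin (m + 1)) F) *ᵥ sn x c = (t : Matrix (Fin (m + 1)) (Fin (m + 1)) F) *ᵥ sn x c) : s = t := by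
  apply sl_ext_mulVec
  intro v
  obtain ⟨x, c, rfl⟩ := sn_surj v
  exact h x c

theorem conj_uu (g : SpecialLinearGroup (Fin m) F) (r : Fin m → F) :
    slBlk m g * uu (r ᵥ* (g : Matrix (Fin m) (Fin m) F)) = uu r * slBlk m g := by
  apply sl_ext_sn
  intro x c
  rw [sl_mul_mulVec, sl_mul_mulVec, slBlk_mulVec, uu_mulVec, uu_mulVec, slBlk_mulVec, dotProduct_mulVec]

/-- the stabiliser of `e` is the product of the radical and the Levi complement -/
theorem stab_ee {g : SpecialLinearGroup (Fin (m + 1)) F} (hg : (g : Matrix (Fin (m + 1)) (Fin (m + 1)) F) *ᵥ ee m F = ee m F) :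
    ∃ r h, g = slBlk m h * uu r := by
  set r : Fin m → F := fun i => (g : Matrix (Fin (m + 1)) (Fin (m + 1)) F) (Fin.last m) i.castSucc with hr
  have key : g * uu (-r) ∈ (slBlk (F := F) m).range := by
    rw [mem_slBlk_range]
    have hcol : ∀ j, ((g * uu (-r) : SpecialLinearGroup (Fin (m + 1)) F) : Matrix (Fin (m + 1)) (Fin (m + 1)) F) j (Fin.last m) = ee m F j := by
      intro j
      have h1 : ((g * uu (-r) : SpecialLinearGroup (Fin (m + 1)) F) : Matrix (Fin (m + 1)) (Fin (m + 1)) F) *ᵥ ee m F = ee m F := by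
        rw [sl_mul_mulVec, uu_ee, hg]
      have h2 := congrFun h1 j
      rw [← h2, ee]
      rw [mulVec, dotProduct, Fin.sum_univ_castSucc]
      simp [sn_cs, sn_last]
    refine ⟨?_, ?_, ?_⟩
    · intro i hi
      rw [hcol, ee]
      obtain ⟨i, rfl⟩ := Fin.exists_castSucc_eq.2 hi
      rw [sn_cs]; rfl
    · intro i hi
      obtain ⟨i, rfl⟩ := Fin.exists_castSucc_eq.2 hi
      have h1 : ((g * uu (-r) : SpecialLinearGroup (Fin (m + 1)) F) : Matrix (Fin (m + 1)) (Fin (m + 1)) F) *ᵥ sn (Pi.single i 1) 0 =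
        (g : Matrix (Fin (m + 1)) (Fin (m + 1)) F) *ᵥ sn (Pi.single i 1) 0 + (-r i) • ee m F := by
        rw [sl_mul_mulVec, uu_mulVec]
        have h3 : sn (Pi.single i (1 : F)) (0 + (-r) ⬝ᵥ Pi.single i 1) = sn (Pi.single i 1) 0 + (-r i) • ee m F := by
          rw [ee, sn_smul, sn_add]; simp
        rw [h3, mulVec_add, mulVec_smul, hg]
      have h2 := congrFun h1 (Fin.last m)
      have h4 : ∀ (M : Matrix (Fin (m + 1)) (Fin (m + 1)) F), (M *ᵥ sn (Pi.single i 1) 0) (Fin.last m) = M (Fin.last m) i.castSucc := by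
        intro M
        rw [mulVec, dotProduct, Fin.sum_univ_castSucc]
        simp [sn_cs, sn_last, Pi.single_apply]
      rw [h4, Pi.add_apply, h4, Pi.smul_apply, ee, sn_last] at h2
      rw [h2]
      simp [hr]
    · rw [hcol, ee, sn_last]
  obtain ⟨h, hh⟩ := key
  refine ⟨r, h, ?_⟩
  rw [hh, mul_assoc, ← uu_add]
  simp [uu_zero]

theorem tS_slBlk (y f : Fin m → F) (h : f ⬝ᵥ y = 0) : slBlk m (tS y f) = tS (sn y 0) (sn f 0) := by
  have h' : sn f 0 ⬝ᵥ sn y 0 = 0 := by rw [sn_dot, h]; simp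
  apply sl_ext_sn
  intro x c
  rw [slBlk_mulVec, tS_mulVec h, tS_mulVec h', sn_dot, sn_smul, sn_add]
  simp

theorem uu_ne_one {r : Fin m → F} (hr : r ≠ 0) : uu r ≠ 1 := by
  rw [uu, Ne, tS_eq_one_iff (dot_ee r)]
  push Not
  refine ⟨ee_ne, fun h => hr ?_⟩
  rw [← sn_zero] at h
  exact (sn_inj h).1

/-- conjugacy of transvections -/
theorem tS_conj {n : ℕ} (hn : 3 ≤ n) {v f v' f' : Fin n → F} (hv : v ≠ 0) (hf : f ≠ 0) (h : f ⬝ᵥ v = 0) (hv' : v' ≠ 0) (hf' : f' ≠ 0)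
    (h' : f' ⬝ᵥ v' = 0) : ∃ g : SpecialLinearGroup (Fin n) F, g * tS v f * g⁻¹ = tS v' f' := by
  obtain ⟨g, h1, h2⟩ := MI.sl_pair hn hv hf h hv' hf' h'
  refine ⟨g, ?_⟩
  rw [mul_inv_eq_iff_eq_mul]
  apply sl_ext_mulVec
  intro x
  rw [sl_mul_mulVec, sl_mul_mulVec, tS_mulVec h, tS_mulVec h', mulVec_add, mulVec_smul, h1, dotProduct_mulVec, h2]

theorem uu_conj (hm : 2 ≤ m) {r s : Fin m → F} (hr : r ≠ 0) (hs : s ≠ 0) :
    ∃ g : SpecialLinearGroup (Fin (m + 1)) F, g * uu r * g⁻¹ = uu s := by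
  refine tS_conj (by omega) ee_ne (fun h => hr ?_) (dot_ee r) ee_ne (fun h => hs ?_) (dot_ee s)
  · rw [← sn_zero] at h; exact (sn_inj h).1
  · rw [← sn_zero] at h; exact (sn_inj h).1

end Cfsg.Agent.H11.WL
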