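import Mathlib
import Cfsg.Agent.H11.WL1

set_option autoImplicit false
set_option linter.all false

/-! Smallest degree of `SL_n(q)`: spectral idempotents of the unipotent radical. -/

namespace Cfsg.Agent.H11.WL

open Matrix Cfsg.Agent.H17 Cfsg.Agent.H10 Module

variable {F : Type*} [Field F] [Fintype F] [DecidableEq F] {m : ℕ}

theorem exists_psi (F : Type*) [Field F] [Fintype F] : ∃ ψ : AddChar F ℂ, ∃ a, ψ a ≠ 1 := by
  obtain ⟨ψ, h⟩ := (AddChar.exists_apply_ne_zero (α := F) (a := 1)).2 one_ne_zero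
  exact ⟨ψ, 1, h⟩

/-- a fixed nontrivial additive character -/
noncomputable def psi (F : Type*) [Field F] [Fintype F] : AddChar F ℂ := (exists_psi F).choose

theorem psi_ne : ∃ a : F, psi F a ≠ 1 := (exists_psi F).choose_spec

theorem sum_psi (b : Fin m → F) : ∑ r : Fin m → F, psi F (b ⬝ᵥ r) = if b = 0 then (Fintype.card F : ℂ) ^ m else 0 := by
  split_ifs with hb
  · subst hb
    simp [Finset.card_univ]
  · let φ : (Fin m → F) →+ F := ⟨⟨fun r => b ⬝ᵥ r, dotProduct_zero b⟩, fun r s => dotProduct_add b r s⟩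
    have h1 : (psi F).compAddMonoidHom φ ≠ 1 := by
      intro h
      obtain ⟨a, ha⟩ := psi_ne (F := F)
      obtain ⟨i, hi⟩ := Function.ne_iff.1 hb
      apply ha
      have h2 := DFunLike.congr_fun h (Pi.single i (a / b i))
      rw [AddChar.compAddMonoidHom_apply, AddChar.one_apply] at h2
      have h3 : φ (Pi.single i (a / b i)) = a := by
        show b ⬝ᵥ Pi.single i (a / b i) = a
        rw [dotProduct_single]
        exact mul_div_cancel₀ _ hi
      rwa [h3] at h2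
    exact AddChar.sum_eq_zero_of_ne_one h1

variable {W : Type*} [AddCommGroup W] [Module ℂ W]
  (ρ : Representation ℂ (SpecialLinearGroup (Fin (m + 1)) F) W)

/-- the spectral idempotent -/
noncomputable def E (b : Fin m → F) : Module.End ℂ W :=
  ((Fintype.card F : ℂ) ^ m)⁻¹ • ∑ r : Fin m → F, psi F (b ⬝ᵥ (-r)) • ρ (uu r)

theorem qm_ne (F : Type*) [Field F] [Fintype F] (m : ℕ) : (Fintype.card F : ℂ) ^ m ≠ 0 :=
  pow_ne_zero _ (Nat.cast_ne_zero.2 Fintype.card_ne_zero)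

theorem u_mul_E (b s : Fin m → F) : ρ (uu s) * E ρ b = psi F (b ⬝ᵥ s) • E ρ b := by
  rw [E, mul_smul_comm, smul_comm (psi F (b ⬝ᵥ s)) (((Fintype.card F : ℂ) ^ m)⁻¹)]
  congr 1
  rw [Finset.mul_sum, Finset.smul_sum]
  rw [← Equiv.sum_comp (Equiv.addLeft s) (fun r => psi F (b ⬝ᵥ s) • psi F (b ⬝ᵥ (-r)) • ρ (uu r))]
  refine Finset.sum_congr rfl fun r _ => ?_
  rw [mul_smul_comm, ← map_mul, ← uu_add, Equiv.coe_addLeft, smul_smul, ← AddChar.map_add_eq_mul, ← dotProduct_add]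
  have hsr : s + -(s + r) = -r := by abel
  rw [hsr]

theorem E_mul_E (b c : Fin m → F) : E ρ b * E ρ c = if b = c then E ρ c else 0 := by
  have h1 : E ρ b * E ρ c = (((Fintype.card F : ℂ) ^ m)⁻¹ * ∑ r : Fin m → F, psi F ((c - b) ⬝ᵥ r)) • E ρ c := by
    conv_lhs => rw [E]
    rw [smul_mul_assoc, Finset.sum_mul, mul_smul, Finset.sum_smul]
    congr 1
    refine Finset.sum_congr rfl fun r _ => ?_
    rw [smul_mul_assoc, u_mul_E, smul_smul, ← AddChar.map_add_eq_mul]
    congr 2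
    rw [sub_dotProduct, dotProduct_neg]
    ring
  rw [h1, sum_psi]
  by_cases h : b = c
  · subst h
    simp [qm_ne F m]
  · rw [if_neg h, if_neg (sub_ne_zero.2 (Ne.symm h))]
    simp

theorem sum_E : ∑ b : Fin m → F, E ρ b = 1 := by
  simp only [E]
  rw [← Finset.smul_sum, Finset.sum_comm]
  have h1 : ∀ r : Fin m → F, ∑ b : Fin m → F, psi F (b ⬝ᵥ (-r)) • ρ (uu r) = if r = 0 then ((Fintype.card F : ℂ) ^ m) • (1 : Module.End ℂ W) else 0 := by
    intro r
    rw [← Finset.sum_smul]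
    have h2 : ∑ b : Fin m → F, psi F (b ⬝ᵥ (-r)) = ∑ b : Fin m → F, psi F ((-r) ⬝ᵥ b) := by
      refine Finset.sum_congr rfl fun b _ => ?_
      rw [dotProduct_comm]
    rw [h2, sum_psi]
    by_cases hr : r = 0
    · subst hr
      rw [if_pos rfl, if_pos (neg_zero), uu_zero, map_one]
    · rw [if_neg hr, if_neg (neg_ne_zero.2 hr), zero_smul]
  rw [Finset.sum_congr rfl fun r _ => h1 r, Finset.sum_ite_eq' Finset.univ (0 : Fin m → F)]
  rw [if_pos (Finset.mem_univ _), smul_smul, inv_mul_cancel₀ (qm_ne F m), one_smul]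

theorem vmv (g : SpecialLinearGroup (Fin m) F) (r : Fin m → F) :
    (r ᵥ* (g : Matrix (Fin m) (Fin m) F)) ᵥ* ((g⁻¹ : SpecialLinearGroup (Fin m) F) : Matrix (Fin m) (Fin m) F) = r := by
  have h : (g : Matrix (Fin m) (Fin m) F) * ((g⁻¹ : SpecialLinearGroup (Fin m) F) : Matrix (Fin m) (Fin m) F) = 1 :=
    (Matrix.SpecialLinearGroup.coe_mul g g⁻¹).symm.trans (by rw [mul_inv_cancel, Matrix.SpecialLinearGroup.coe_one])
  rw [vecMul_vecMul, h, vecMul_one]

theorem vmv' (g : SpecialLinearGroup (Fin m) F) (r : Fin m → F) :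
    (r ᵥ* ((g⁻¹ : SpecialLinearGroup (Fin m) F) : Matrix (Fin m) (Fin m) F)) ᵥ* (g : Matrix (Fin m) (Fin m) F) = r := by
  have := vmv g⁻¹ r
  rwa [inv_inv] at this

theorem conj_E (g : SpecialLinearGroup (Fin m) F) (b : Fin m → F) :
    ρ (slBlk m g) * E ρ b = E ρ ((g : Matrix (Fin m) (Fin m) F) *ᵥ b) * ρ (slBlk m g) := by
  rw [E, E, mul_smul_comm, smul_mul_assoc, Finset.mul_sum, Finset.sum_mul]
  congr 1
  have hb : Function.Bijective (fun r : Fin m → F => r ᵥ* (g : Matrix (Fin m) (Fin m) F)) := by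
    refine ⟨fun r s h => ?_, fun r => ⟨r ᵥ* ((g⁻¹ : SpecialLinearGroup (Fin m) F) : Matrix (Fin m) (Fin m) F), ?_⟩⟩
    · have := congrArg (fun x => x ᵥ* ((g⁻¹ : SpecialLinearGroup (Fin m) F) : Matrix (Fin m) (Fin m) F)) h
      simp only [vmv] at this
      exact this
    · exact vmv' g r
  rw [← Function.Bijective.sum_comp hb]
  refine Finset.sum_congr rfl fun r _ => ?_
  rw [mul_smul_comm, smul_mul_assoc, ← map_mul, ← map_mul, conj_uu]
  congr 2
  rw [dotProduct_neg, dotProduct_neg, dotProduct_comm b, ← dotProduct_mulVec, dotProduct_comm r]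

variable [FiniteDimensional ℂ W]

theorem E_idem (b : Fin m → F) : IsIdempotentElem (E ρ b) := by
  rw [IsIdempotentElem, E_mul_E, if_pos rfl]

theorem trace_E' (b : Fin m → F) : LinearMap.trace ℂ W (E ρ b) = (finrank ℂ (LinearMap.range (E ρ b)) : ℂ) := by
  exact (LinearMap.IsIdempotentElem.isProj_range _ (E_idem ρ b)).trace

/-- multiplicities -/
theorem trace_E {t : ℂ} (ht : ∀ r : Fin m → F, r ≠ 0 → ρ.character (uu r) = t) (b : Fin m → F) :
    (Fintype.card F : ℂ) ^ m * LinearMap.trace ℂ W (E ρ b) = (finrank ℂ W : ℂ) - t + if b = 0 then (Fintype.card F : ℂ) ^ m * t else 0 := by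
  rw [E, map_smul, smul_eq_mul, mul_inv_cancel_left₀ (qm_ne F m), map_sum]
  have h1 : ∀ r : Fin m → F, LinearMap.trace ℂ W (psi F (b ⬝ᵥ (-r)) • ρ (uu r)) = t * psi F ((-b) ⬝ᵥ r) + if r = 0 then ((finrank ℂ W : ℂ) - t) else 0 := by
    intro r
    rw [map_smul, smul_eq_mul]
    by_cases hr : r = 0
    · subst hr
      rw [if_pos rfl, uu_zero, map_one, LinearMap.trace_one]
      simp
    · rw [if_neg hr, add_zero, mul_comm, dotProduct_neg, ← neg_dotProduct]
      congr 1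
      exact ht r hr
  rw [Finset.sum_congr rfl fun r _ => h1 r, Finset.sum_add_distrib, ← Finset.mul_sum, sum_psi, Finset.sum_ite_eq' Finset.univ (0 : Fin m → F),
    if_pos (Finset.mem_univ _)]
  by_cases hb : b = 0
  · subst hb
    simp
    ring
  · rw [if_neg (neg_ne_zero.2 hb), if_neg hb]
    ring

end Cfsg.Agent.H11.WL
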