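import Mathlib
import Cfsg.Agent.H11.WL2

set_option autoImplicit false
set_option linter.all false

/-! Smallest degree of `SL_n(q)`: multiplicities, the fixed space of the radical as a Levi module. -/

namespace Cfsg.Agent.H11.WL

open Matrix Cfsg.Agent.H17 Cfsg.Agent.H10 Module

variable {F : Type*} [Field F] [Fintype F] [DecidableEq F] {m : ℕ}
variable {W : Type*} [AddCommGroup W] [Module ℂ W]
  (ρ : Representation ℂ (Matrix.SpecialLinearGroup (Fin (m + 1)) F) W)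

theorem E_zero_apply_of_fix {w : W} (h : ∀ r : Fin m → F, ρ (uu r) w = w) : E ρ 0 w = w := by
  rw [E, LinearMap.smul_apply, LinearMap.sum_apply]
  have h1 : ∀ r : Fin m → F, (psi F (0 ⬝ᵥ (-r)) • ρ (uu r)) w = w := by
    intro r
    rw [zero_dotProduct, AddChar.map_zero_eq_one, one_smul, h]
  rw [Finset.sum_congr rfl fun r _ => h1 r, Finset.sum_const, Finset.card_univ, Fintype.card_fun, Fintype.card_fin,
    ← Nat.cast_smul_eq_nsmul ℂ, smul_smul, Nat.cast_pow, inv_mul_cancel₀ (qm_ne F m), one_smul]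

theorem fix_of_mem {w : W} (h : w ∈ LinearMap.range (E ρ 0)) (r : Fin m → F) : ρ (uu r) w = w := by
  obtain ⟨x, rfl⟩ := h
  have h1 := congrArg (fun f : Module.End ℂ W => f x) (u_mul_E ρ 0 r)
  simp only [zero_dotProduct, AddChar.map_zero_eq_one, one_smul] at h1
  exact h1

theorem E_apply_mem {b : Fin m → F} {w : W} (h : w ∈ LinearMap.range (E ρ b)) : E ρ b w = w := by
  obtain ⟨x, rfl⟩ := h
  have h1 := congrArg (fun f : Module.End ℂ W => f x) (E_mul_E ρ b b)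
  simpa using h1

/-- the fixed space of the radical, as a module for the Levi complement -/
noncomputable def rC : Representation ℂ (Matrix.SpecialLinearGroup (Fin m) F) (LinearMap.range (E ρ 0)) where
  toFun g := (ρ (slBlk m g)).restrict (fun x hx => by
    obtain ⟨y, rfl⟩ := hx
    refine ⟨ρ (slBlk m g) y, ?_⟩
    have h1 := congrArg (fun f : Module.End ℂ W => f y) (conj_E ρ g 0)
    simp only [mulVec_zero] at h1
    exact h1.symm)
  map_one' := by ext; simp
  map_mul' x y := by ext; simp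

theorem rC_apply (g : Matrix.SpecialLinearGroup (Fin m) F) (w : LinearMap.range (E ρ 0)) :
    ((rC ρ g w : LinearMap.range (E ρ 0)) : W) = ρ (slBlk m g) w := rfl

theorem rC_char [FiniteDimensional ℂ W] (g : Matrix.SpecialLinearGroup (Fin m) F) :
    (rC ρ).character g = LinearMap.trace ℂ W (ρ (slBlk m g) * E ρ 0) := by
  have hmem : ∀ x, (ρ (slBlk m g) * E ρ 0) x ∈ LinearMap.range (E ρ 0) := by
    intro x
    refine ⟨ρ (slBlk m g) x, ?_⟩
    have h1 := congrArg (fun f : Module.End ℂ W => f x) (conj_E ρ g 0)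
    simp only [mulVec_zero] at h1
    exact h1.symm
  rw [← LinearMap.trace_restrict_eq_of_forall_mem _ _ hmem]
  show LinearMap.trace ℂ _ (rC ρ g) = _
  congr 1
  ext x
  rw [rC_apply]
  show _ = ρ (slBlk m g) (E ρ 0 x)
  rw [E_apply_mem ρ x.2]

variable [FiniteDimensional ℂ W]

theorem dims {t : ℂ} (hm : 1 ≤ m) (ht : ∀ r : Fin m → F, r ≠ 0 → ρ.character (uu r) = t) :
    ∃ k s : ℕ, finrank ℂ W + k = s + k * Fintype.card F ^ m ∧ t = s - k ∧ finrank ℂ (LinearMap.range (E ρ 0)) = s ∧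
      ∀ b : Fin m → F, b ≠ 0 → finrank ℂ (LinearMap.range (E ρ b)) = k := by
  have h0 := trace_E ρ ht 0
  rw [if_pos rfl, trace_E'] at h0
  obtain ⟨b1, hb1⟩ : ∃ b : Fin m → F, b ≠ 0 := ⟨Pi.single ⟨0, hm⟩ 1, by simp⟩
  have h1 := trace_E ρ ht b1
  rw [if_neg hb1, trace_E', add_zero] at h1
  have hq := qm_ne F m
  have h3 : t = (finrank ℂ (LinearMap.range (E ρ 0)) : ℂ) - (finrank ℂ (LinearMap.range (E ρ b1)) : ℂ) := by
    have : (Fintype.card F : ℂ) ^ m * t = (Fintype.card F : ℂ) ^ m * ((finrank ℂ (LinearMap.range (E ρ 0)) : ℂ) - (finrank ℂ (LinearMap.range (E ρ b1)) : ℂ)) := by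
      rw [mul_sub, h0, h1]; ring
    exact mul_left_cancel₀ hq this
  refine ⟨finrank ℂ (LinearMap.range (E ρ b1)), finrank ℂ (LinearMap.range (E ρ 0)), ?_, h3, rfl, ?_⟩
  · have : ((finrank ℂ W + finrank ℂ (LinearMap.range (E ρ b1)) : ℕ) : ℂ) = ((finrank ℂ (LinearMap.range (E ρ 0)) + finrank ℂ (LinearMap.range (E ρ b1)) * Fintype.card F ^ m : ℕ) : ℂ) := by
      push_cast
      linear_combination -h1 + h3
    exact_mod_cast this
  · intro b hb
    have h2 := trace_E ρ ht b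
    rw [if_neg hb, trace_E', add_zero, ← h1] at h2
    exact_mod_cast mul_left_cancel₀ hq h2

theorem scal {b : Fin m → F} (hk : finrank ℂ (LinearMap.range (E ρ b)) = 1) {h : Matrix.SpecialLinearGroup (Fin (m + 1)) F}
    (hc : ρ h * E ρ b = E ρ b * ρ h) : ∃ c : ℂ, ρ h * E ρ b = c • E ρ b := by
  obtain ⟨v, hv, hv2⟩ := finrank_eq_one_iff'.1 hk
  have h1 : ρ h (v : W) ∈ LinearMap.range (E ρ b) := by
    obtain ⟨x, hx⟩ := v.2
    refine ⟨ρ h x, ?_⟩
    rw [← hx]
    exact (congrArg (fun f : Module.End ℂ W => f x) hc).symm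
  obtain ⟨c, hcc⟩ := hv2 ⟨_, h1⟩
  have hcc' : c • (v : W) = ρ h (v : W) := congrArg Subtype.val hcc
  refine ⟨c, LinearMap.ext fun w => ?_⟩
  obtain ⟨a, ha⟩ := hv2 ⟨E ρ b w, ⟨w, rfl⟩⟩
  have ha' : a • (v : W) = E ρ b w := congrArg Subtype.val ha
  show ρ h (E ρ b w) = c • E ρ b w
  rw [← ha', map_smul, ← hcc', smul_comm]

theorem comm_fix {b : Fin m → F} (hk : finrank ℂ (LinearMap.range (E ρ b)) = 1) {x y h : Matrix.SpecialLinearGroup (Fin (m + 1)) F}
    (hx : ρ x * E ρ b = E ρ b * ρ x) (hy : ρ y * E ρ b = E ρ b * ρ y) (hh : h * (y * x) = x * y) : ρ h * E ρ b = E ρ b := by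
  have hE : E ρ b ≠ 0 := by
    intro h0
    rw [h0, LinearMap.range_zero, finrank_bot] at hk
    exact zero_ne_one hk
  have hne : ∀ (z : Matrix.SpecialLinearGroup (Fin (m + 1)) F) (c : ℂ), ρ z * E ρ b = c • E ρ b → c ≠ 0 := by
    intro z c hz hc
    rw [hc, zero_smul] at hz
    apply hE
    have := congrArg (fun f => ρ z⁻¹ * f) hz
    simp only [← mul_assoc, ← map_mul, inv_mul_cancel, map_one, one_mul, mul_zero] at this
    exact this
  obtain ⟨c, hc⟩ := scal ρ hk hx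
  obtain ⟨d, hd⟩ := scal ρ hk hy
  have h1 : ρ (y * x) * E ρ b = (c * d) • E ρ b := by
    rw [map_mul, mul_assoc, hc, mul_smul_comm, hd, smul_smul]
  have h2 : ρ (x * y) * E ρ b = (c * d) • E ρ b := by
    rw [map_mul, mul_assoc, hd, mul_smul_comm, hc, smul_smul, mul_comm]
  have h3 : ρ h * ((c * d) • E ρ b) = (c * d) • E ρ b := by
    rw [← h1, ← mul_assoc, ← map_mul, hh, h2, h1]
  rw [mul_smul_comm] at h3
  exact smul_right_injective _ (mul_ne_zero (hne _ _ hc) (hne _ _ hd)) h3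

theorem trace_fix (hk : ∀ b : Fin m → F, b ≠ 0 → finrank ℂ (LinearMap.range (E ρ b)) = 1) (τ : Matrix.SpecialLinearGroup (Fin m) F)
    (hfix : ∀ b : Fin m → F, b ≠ 0 → (τ : Matrix (Fin m) (Fin m) F) *ᵥ b = b → ρ (slBlk m τ) * E ρ b = E ρ b) :
    (rC ρ).character τ = ρ.character (slBlk m τ) - ((Finset.univ.filter fun b : Fin m → F => b ≠ 0 ∧ (τ : Matrix (Fin m) (Fin m) F) *ᵥ b = b).card : ℂ) := by
  have h1 : ρ.character (slBlk m τ) = ∑ b : Fin m → F, LinearMap.trace ℂ W (ρ (slBlk m τ) * E ρ b) := by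
    rw [← map_sum, ← Finset.mul_sum, sum_E, mul_one]
    rfl
  rw [rC_char, h1, ← Finset.add_sum_erase Finset.univ _ (Finset.mem_univ (0 : Fin m → F)), add_sub_assoc]
  suffices h2 : ∑ x ∈ Finset.univ.erase (0 : Fin m → F), LinearMap.trace ℂ W (ρ (slBlk m τ) * E ρ x) =
      ((Finset.univ.filter fun b : Fin m → F => b ≠ 0 ∧ (τ : Matrix (Fin m) (Fin m) F) *ᵥ b = b).card : ℂ) by
    rw [h2, sub_self, add_zero]
  rw [Finset.card_filter, Nat.cast_sum, ← Finset.add_sum_erase Finset.univ (fun b : Fin m → F => (((if b ≠ 0 ∧ (τ : Matrix (Fin m) (Fin m) F) *ᵥ b = b then 1 else 0 : ℕ)) : ℂ)) (Finset.mem_univ (0 : Fin m → F))]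
  simp only [ne_eq, not_true_eq_false, false_and, if_false, Nat.cast_zero, zero_add]
  refine Finset.sum_congr rfl fun b hb => ?_
  have hb0 : b ≠ 0 := (Finset.mem_erase.1 hb).1
  by_cases hτ : (τ : Matrix (Fin m) (Fin m) F) *ᵥ b = b
  · rw [if_pos ⟨hb0, hτ⟩, hfix b hb0 hτ, trace_E', hk b hb0]
  · rw [if_neg (fun h => hτ h.2), Nat.cast_zero]
    have h3 : ρ (slBlk m τ) * E ρ b = ρ (slBlk m τ) * E ρ b * E ρ b := by
      rw [mul_assoc, E_mul_E, if_pos rfl]
    rw [h3, LinearMap.trace_mul_comm, conj_E, ← mul_assoc, E_mul_E, if_neg (Ne.symm hτ), zero_mul, map_zero]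

end Cfsg.Agent.H11.WL
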