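import Mathlib
import Cfsg.Agent.H11.WL3
import Cfsg.Agent.H11.MI3

set_option autoImplicit false
set_option linter.all false

/-! Smallest degree of `SL_n(q)`: transvections of the Levi complement act trivially on the one-dimensional eigenspaces. -/

namespace Cfsg.Agent.H11.WL

open Matrix Cfsg.Agent.H17 Cfsg.Agent.H10 Module

/-- commutator of two transvections -/
theorem ts_comm {F : Type*} [Field F] {n : ℕ} {y f f' z : Fin n → F} (h1 : f ⬝ᵥ y = 0) (h2 : f' ⬝ᵥ y = 0) (h3 : f' ⬝ᵥ z = 1) (h4 : f ⬝ᵥ z = 0) :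
    tS y f * (tS y f' * tS z (-f)) = tS z (-f) * tS y f' := by
  have h5 : (-f) ⬝ᵥ z = 0 := by rw [neg_dotProduct, h4, neg_zero]
  apply sl_ext_mulVec
  intro v
  simp only [sl_mul_mulVec, tS_mulVec h1, tS_mulVec h2, tS_mulVec h5, dotProduct_add, dotProduct_smul, neg_dotProduct, h1, h2, h3, h4,
    smul_eq_mul, mul_zero, mul_one, add_zero]
  funext i
  simp only [Pi.add_apply, Pi.smul_apply, smul_eq_mul]
  ring

/-- scaling a transvection -/
theorem ts_scale {F : Type*} [Field F] {n : ℕ} {y f : Fin n → F} (h1 : f ⬝ᵥ y = 0) {X : Matrix.SpecialLinearGroup (Fin n) F} {c d : F}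
    (hX : (X : Matrix (Fin n) (Fin n) F) *ᵥ y = c • y) (hX2 : f ᵥ* (X : Matrix (Fin n) (Fin n) F) = d • f) (hcd : c ≠ d) :
    tS y f * (tS y ((d / (c - d)) • f) * X) = X * tS y ((d / (c - d)) • f) := by
  have h2 : ((d / (c - d)) • f) ⬝ᵥ y = 0 := by rw [smul_dotProduct, h1, smul_zero]
  have hcd' : c - d ≠ 0 := sub_ne_zero.2 hcd
  apply sl_ext_mulVec
  intro v
  have h3 : f ⬝ᵥ ((X : Matrix (Fin n) (Fin n) F) *ᵥ v) = d * (f ⬝ᵥ v) := by rw [dotProduct_mulVec, hX2, smul_dotProduct, smul_eq_mul]
  simp only [sl_mul_mulVec, tS_mulVec h1, tS_mulVec h2, dotProduct_add, dotProduct_smul, h1, smul_dotProduct, mulVec_add, mulVec_smul, hX, h3,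
    smul_eq_mul, mul_zero, add_zero]
  funext i
  simp only [Pi.add_apply, Pi.smul_apply, smul_eq_mul]
  field_simp
  ring

variable {F : Type*} [Field F] [Fintype F] [DecidableEq F] {m : ℕ}
variable {W : Type*} [AddCommGroup W] [Module ℂ W]
  (ρ : Representation ℂ (Matrix.SpecialLinearGroup (Fin (m + 1)) F) W)

theorem commute_E {b : Fin m → F} (X : Matrix.SpecialLinearGroup (Fin (m + 1)) F) (φ : (Fin m → F) → (Fin m → F)) (hφ : Function.Bijective φ)
    (hX : ∀ r, X * uu r = uu (φ r) * X) (hb : ∀ r, b ⬝ᵥ φ r = b ⬝ᵥ r) : ρ X * E ρ b = E ρ b * ρ X := by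
  rw [E, mul_smul_comm, smul_mul_assoc, Finset.mul_sum, Finset.sum_mul]
  congr 1
  rw [← Function.Bijective.sum_comp hφ (fun r => (psi F (b ⬝ᵥ (-r)) • ρ (uu r)) * ρ X)]
  refine Finset.sum_congr rfl fun r _ => ?_
  rw [mul_smul_comm, smul_mul_assoc, ← map_mul, ← map_mul, hX, dotProduct_neg, dotProduct_neg, hb]

theorem commute_blk {b : Fin m → F} {g : Matrix.SpecialLinearGroup (Fin m) F} (h : (g : Matrix (Fin m) (Fin m) F) *ᵥ b = b) :
    ρ (slBlk m g) * E ρ b = E ρ b * ρ (slBlk m g) := by rw [conj_E, h]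

variable [FiniteDimensional ℂ W]

/-- the case of rank at least three of the Levi complement -/
theorem fix_A (hm : 3 ≤ m) (hq : m = 3 → 4 ≤ Fintype.card F) {i j : Fin m} (hij : i ≠ j) {b : Fin m → F}
    (hk : finrank ℂ (LinearMap.range (E ρ b)) = 1) (hb : b j = 0) :
    ρ (slBlk m (tS (Pi.single i 1) (Pi.single j 1))) * E ρ b = E ρ b := by
  have h1 : (Pi.single j 1 : Fin m → F) ⬝ᵥ Pi.single i 1 = 0 := by simp [hij.symm]
  by_cases hex : ∃ f' z : Fin m → F, f' ⬝ᵥ (Pi.single i 1 : Fin m → F) = 0 ∧ f' ⬝ᵥ b = 0 ∧ f' ⬝ᵥ z = 1 ∧ (Pi.single j 1 : Fin m → F) ⬝ᵥ z = 0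
  · obtain ⟨f', z, h2, h3, h4, h5⟩ := hex
    have h6 : (-(Pi.single j 1 : Fin m → F)) ⬝ᵥ z = 0 := by rw [neg_dotProduct, h5, neg_zero]
    refine comm_fix ρ hk (x := slBlk m (tS z (-(Pi.single j 1 : Fin m → F)))) (y := slBlk m (tS (Pi.single i 1) f')) (commute_blk ρ ?_) (commute_blk ρ ?_) ?_
    · rw [tS_mulVec h6]; simp [hb]
    · rw [tS_mulVec h2, h3]; simp
    · rw [← map_mul, ← map_mul, ← map_mul, ts_comm h1 h2 h4 h5]
  · push Not at hex
    have hk0 : ∀ k, k ≠ i → k ≠ j → b k ≠ 0 := by
      intro k hki hkj hbk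
      refine hex (Pi.single k 1) (Pi.single k 1) ?_ ?_ ?_ ?_
      · simp [hki]
      · simp [hbk]
      · simp
      · simp [hkj.symm]
    have huniq : ∀ k l, k ≠ i → k ≠ j → l ≠ i → l ≠ j → k = l := by
      intro k l hki hkj hli hlj
      by_contra hkl
      refine hex (b l • Pi.single k 1 - b k • Pi.single l 1) ((b l)⁻¹ • Pi.single k 1) ?_ ?_ ?_ ?_
      · simp [sub_dotProduct, smul_dotProduct, hki, hli]
      · simp only [sub_dotProduct, smul_dotProduct, single_dotProduct, one_mul, smul_eq_mul]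
        ring
      · simp [sub_dotProduct, smul_dotProduct, hkl, Ne.symm hkl, hk0 l hli hlj]
      · simp [dotProduct_smul, hkj.symm]
    have hm3 : m = 3 := by
      by_contra hne
      have h4 : 4 ≤ m := by omega
      have hcard : ((Finset.univ.erase i).erase j : Finset (Fin m)).card = m - 2 := by
        rw [Finset.card_erase_of_mem (Finset.mem_erase.2 ⟨hij.symm, Finset.mem_univ _⟩), Finset.card_erase_of_mem (Finset.mem_univ _), Finset.card_univ, Fintype.card_fin]
        omega
      have h2 : 1 < ((Finset.univ.erase i).erase j : Finset (Fin m)).card := by omega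
      obtain ⟨k, hk', l, hl', hkl⟩ := Finset.one_lt_card.1 h2
      simp only [Finset.mem_erase, Finset.mem_univ, and_true] at hk' hl'
      exact hkl (huniq k l hk'.2 hk'.1 hl'.2 hl'.1)
    have h4 := hq hm3
    obtain ⟨k, hki, hkj⟩ : ∃ k : Fin m, k ≠ i ∧ k ≠ j := by
      by_contra hcon
      push Not at hcon
      have : (Finset.univ : Finset (Fin m)) ⊆ {i, j} := by
        intro k _
        simp only [Finset.mem_insert, Finset.mem_singleton]
        by_cases h : k = i
        · exact Or.inl h
        · exact Or.inr (hcon k h)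
      have h2 := Finset.card_le_card this
      rw [Finset.card_univ, Fintype.card_fin] at h2
      have := Finset.card_le_two (a := i) (b := j)
      omega
    have hbk := hk0 k hki hkj
    obtain ⟨c, hc0, hc1⟩ : ∃ c : F, c ≠ 0 ∧ c ^ 2 ≠ 1 := by
      by_contra hcon
      push Not at hcon
      have hsub : (Finset.univ : Finset F) ⊆ {0, 1, -1} := by
        intro x _
        simp only [Finset.mem_insert, Finset.mem_singleton]
        by_cases hx : x = 0
        · exact Or.inl hx
        · right
          have := hcon x hx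
          have h9 : (x - 1) * (x + 1) = 0 := by linear_combination this
          rcases mul_eq_zero.1 h9 with h | h
          · exact Or.inl (sub_eq_zero.1 h)
          · exact Or.inr (eq_neg_of_add_eq_zero_left h)
      have h2 := Finset.card_le_card hsub
      rw [Finset.card_univ] at h2
      have := Finset.card_le_three (a := (0 : F)) (b := 1) (c := -1)
      omega
    have hαi : ((((1 - c) * b i / b k) • (Pi.single k 1 : Fin m → F)) ⬝ᵥ (Pi.single i 1 : Fin m → F)) = 0 := by simp [hki]
    set D := Matrix.SpecialLinearGroup.diag2n hij c hc0 with hD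
    set T := tS (Pi.single i 1 : Fin m → F) (((1 - c) * b i / b k) • (Pi.single k 1 : Fin m → F)) with hT
    have hDm : ∀ v : Fin m → F, (D : Matrix (Fin m) (Fin m) F) *ᵥ v = fun l => (if l = i then c else if l = j then c⁻¹ else 1) * v l := by
      intro v
      rw [hD, Matrix.SpecialLinearGroup.diag2n_coe]
      funext l
      rw [mulVec_diagonal]
    have hDm' : ∀ v : Fin m → F, v ᵥ* (D : Matrix (Fin m) (Fin m) F) = fun l => v l * (if l = i then c else if l = j then c⁻¹ else 1) := by
      intro v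
      rw [hD, Matrix.SpecialLinearGroup.diag2n_coe]
      funext l
      rw [vecMul_diagonal]
    have hb' : ∀ l, l ≠ i → l ≠ k → b l = 0 := by
      intro l hli hlk
      by_cases hlj : l = j
      · rw [hlj, hb]
      · exact absurd (huniq l k hli hlj hki hkj) hlk
    refine comm_fix ρ hk (x := slBlk m (T * D)) (y := slBlk m (tS (Pi.single i 1) ((c⁻¹ / (c - c⁻¹)) • Pi.single j 1))) (commute_blk ρ ?_) (commute_blk ρ ?_) ?_
    · rw [sl_mul_mulVec, hDm, hT, tS_mulVec hαi]
      funext l
      by_cases hli : l = i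
      · subst hli
        simp [hki, hkj, smul_dotProduct]
        field_simp
        ring
      · by_cases hlk : l = k
        · subst hlk
          simp [hki, hkj]
        · simp [hli, hki, hkj, hb' l hli hlk]
    · rw [tS_mulVec (by rw [smul_dotProduct, h1, smul_zero])]; simp [hb]
    · rw [← map_mul, ← map_mul, ← map_mul]
      congr 1
      refine ts_scale h1 ?_ ?_ ?_
      · rw [sl_mul_mulVec, hDm, hT, tS_mulVec hαi]
        funext l
        by_cases hli : l = i
        · subst hli
          simp [hki, hkj, smul_dotProduct]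
        · simp [hli, hki, hkj]
      · rw [Matrix.SpecialLinearGroup.coe_mul, ← vecMul_vecMul]
        have h8 : (Pi.single j 1 : Fin m → F) ᵥ* (T : Matrix (Fin m) (Fin m) F) = Pi.single j 1 := by
          rw [hT, coe_tS hαi, Cfsg.Agent.H12.tvm, vecMul_add, vecMul_one, vecMul_vecMulVec]
          simp [hij.symm]
        rw [h8, hDm']
        funext l
        by_cases hlj : l = j
        · subst hlj; simp [hij.symm]
        · simp [hlj]
      · intro h
        apply hc1
        rw [sq]
        nth_rewrite 1 [h]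
        exact inv_mul_cancel₀ hc0

end Cfsg.Agent.H11.WL
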