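import Mathlib
import Cfsg.Agent.H11.WL4

set_option autoImplicit false
set_option linter.all false

/-! Smallest degree of `SL_n(q)`: trace of transvections on the fixed space of the radical. -/

namespace Cfsg.Agent.H11.WL

open Matrix Cfsg.Agent.H17 Cfsg.Agent.H10 Module

theorem exists_cube {F : Type*} [Field F] [Fintype F] [DecidableEq F] (h2 : Fintype.card F ≠ 2) (h4 : Fintype.card F ≠ 4) :
    ∃ a : F, a ≠ 0 ∧ a ≠ a⁻¹ * a⁻¹ := by
  obtain ⟨g, hg⟩ := IsCyclic.exists_generator (α := Fˣ)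
  have ho := orderOf_eq_card_of_forall_mem_zpowers hg
  rw [Nat.card_eq_fintype_card, Fintype.card_units] at ho
  refine ⟨g, g.ne_zero, fun h => ?_⟩
  have h3 : g ^ 3 = 1 := by
    ext
    rw [Units.val_pow_eq_pow_val, Units.val_one]
    have : (g : F) ^ 3 = (g : F) * ((g : F)⁻¹ * (g : F)⁻¹) * (g : F) := by rw [← h]; ring
    rw [this]
    have hg0 := g.ne_zero
    field_simp
  have h5 := orderOf_dvd_of_pow_eq_one h3
  rw [ho, Nat.dvd_prime Nat.prime_three] at h5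
  omega

/-- diagonal element of `SL₃` -/
noncomputable def dg {F : Type*} [Field F] (a : F) (ha : a ≠ 0) : Matrix.SpecialLinearGroup (Fin (2 + 1)) F :=
  ⟨Matrix.diagonal (sn ![a⁻¹ * a⁻¹, a] a), by
    rw [det_diagonal, Fin.prod_univ_castSucc]
    simp only [sn_cs, sn_last, Fin.prod_univ_two, Matrix.cons_val_zero, Matrix.cons_val_one]
    field_simp⟩

theorem dg_mulVec {F : Type*} [Field F] (a : F) (ha : a ≠ 0) (x : Fin 2 → F) (c : F) :
    (dg a ha : Matrix (Fin (2 + 1)) (Fin (2 + 1)) F) *ᵥ sn x c = sn (fun i => ![a⁻¹ * a⁻¹, a] i * x i) (a * c) := by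
  show Matrix.diagonal (sn ![a⁻¹ * a⁻¹, a] a) *ᵥ sn x c = _
  funext i
  rw [mulVec_diagonal]
  refine Fin.lastCases ?_ (fun j => ?_) i
  · rw [sn_last, sn_last, sn_last]
  · rw [sn_cs, sn_cs, sn_cs]

theorem vecMul_dg {F : Type*} [Field F] (a : F) (ha : a ≠ 0) (x : Fin 2 → F) (c : F) :
    sn x c ᵥ* (dg a ha : Matrix (Fin (2 + 1)) (Fin (2 + 1)) F) = sn (fun i => ![a⁻¹ * a⁻¹, a] i * x i) (a * c) := by
  show sn x c ᵥ* Matrix.diagonal (sn ![a⁻¹ * a⁻¹, a] a) = _
  funext i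
  rw [vecMul_diagonal, mul_comm]
  refine Fin.lastCases ?_ (fun j => ?_) i
  · rw [sn_last, sn_last, sn_last]
  · rw [sn_cs, sn_cs, sn_cs]

variable {F : Type*} [Field F] [Fintype F] [DecidableEq F]
variable {W : Type*} [AddCommGroup W] [Module ℂ W] [FiniteDimensional ℂ W]

theorem fix_C (ρ : Representation ℂ (Matrix.SpecialLinearGroup (Fin (2 + 1)) F) W) (h2 : Fintype.card F ≠ 2) (h4 : Fintype.card F ≠ 4)
    (r : Fin 1 → F) {b : Fin 2 → F} (hk : finrank ℂ (LinearMap.range (E ρ b)) = 1) (hb : b 0 = 0) :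
    ρ (slBlk 2 (uu r)) * E ρ b = E ρ b := by
  obtain ⟨a, ha, ha2⟩ := exists_cube h2 h4
  set c := r 0 with hc
  have hr : (sn r 0 : Fin 2 → F) = ![c, 0] := by
    funext i
    fin_cases i
    · exact sn_cs r 0 0
    · exact sn_last r 0
  have hee : (ee 1 F : Fin 2 → F) = ![0, 1] := by
    funext i
    fin_cases i
    · exact sn_cs 0 1 0
    · exact sn_last 0 1
  have h1 : (![c, 0] : Fin 2 → F) ⬝ᵥ ![0, 1] = 0 := by simp [dotProduct, Fin.sum_univ_two]
  have h1' : (sn (![c, 0] : Fin 2 → F) 0) ⬝ᵥ (sn ![0, 1] 0) = 0 := by rw [sn_dot, h1]; simp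
  have hτ : slBlk 2 (uu r) = tS (sn ![0, 1] 0) (sn ![c, 0] 0) := by
    have : (uu r : Matrix.SpecialLinearGroup (Fin 2) F) = tS ![0, 1] ![c, 0] := by
      rw [uu, hr, hee]
    rw [this, tS_slBlk _ _ h1]
  rw [hτ]
  set φ : (Fin 2 → F) → (Fin 2 → F) := fun r => ![a ^ 3 * r 0, r 1] with hφ
  have hφb : Function.Bijective φ := by
    refine ⟨fun x y h => ?_, fun y => ⟨![(a ^ 3)⁻¹ * y 0, y 1], ?_⟩⟩
    · have e0 : a ^ 3 * x 0 = a ^ 3 * y 0 := congrFun h 0
      have e1 : x 1 = y 1 := congrFun h 1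
      funext i
      fin_cases i
      · exact mul_left_cancel₀ (pow_ne_zero 3 ha) e0
      · exact e1
    · funext i
      fin_cases i
      · simp [hφ, ha]
      · simp [hφ]
  refine comm_fix ρ hk (x := dg a ha) (y := slBlk 2 (tS ![0, 1] (((a⁻¹ * a⁻¹) / (a - a⁻¹ * a⁻¹)) • ![c, 0]))) (commute_E ρ _ φ hφb ?_ ?_) (commute_blk ρ ?_) ?_
  · intro s
    apply sl_ext_sn
    intro x d
    rw [sl_mul_mulVec, sl_mul_mulVec, uu_mulVec, dg_mulVec, dg_mulVec, uu_mulVec]
    congr 1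
    simp only [dotProduct, Fin.sum_univ_two, hφ, Matrix.cons_val_zero, Matrix.cons_val_one]
    field_simp
  · intro s
    simp only [dotProduct, Fin.sum_univ_two, hφ, Matrix.cons_val_zero, Matrix.cons_val_one, hb, zero_mul]
  · rw [tS_mulVec (by rw [smul_dotProduct, h1, smul_zero])]
    simp [dotProduct, Fin.sum_univ_two, hb]
  · rw [tS_slBlk _ _ (by rw [smul_dotProduct, h1, smul_zero])]
    have h5 : (sn ((a⁻¹ * a⁻¹ / (a - a⁻¹ * a⁻¹)) • (![c, 0] : Fin 2 → F)) 0) = (a⁻¹ * a⁻¹ / (a - a⁻¹ * a⁻¹)) • sn ![c, 0] 0 := by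
      rw [sn_smul, mul_zero]
    rw [h5]
    refine ts_scale h1' ?_ ?_ ha2
    · rw [dg_mulVec, sn_smul]
      congr 1
      funext i
      fin_cases i <;> simp
    · rw [vecMul_dg, sn_smul]
      congr 1
      · funext i
        fin_cases i <;> simp
      · simp

/-- number of fixed vectors of a transvection -/
theorem card_fixed {m : ℕ} (hm : 1 ≤ m) {y f : Fin m → F} (hy : y ≠ 0) (hf : f ≠ 0) (h : f ⬝ᵥ y = 0) :
    (Finset.univ.filter fun b : Fin m → F => b ≠ 0 ∧ ((tS y f : Matrix.SpecialLinearGroup (Fin m) F) : Matrix (Fin m) (Fin m) F) *ᵥ b = b).card + 1 = Fintype.card F ^ (m - 1) := by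
  have h1 := MI.card_P hm hf
  rw [Nat.card_eq_fintype_card (α := F)] at h1
  rw [← h1]
  have h2 : Nat.card (MI.P f) = (Finset.univ.filter fun b : Fin m → F => f ⬝ᵥ b = 0).card := by
    apply Nat.subtype_card
    intro x
    simp [MI.mem_P]
  rw [h2]
  have h3 : (Finset.univ.filter fun b : Fin m → F => b ≠ 0 ∧ ((tS y f : Matrix.SpecialLinearGroup (Fin m) F) : Matrix (Fin m) (Fin m) F) *ᵥ b = b) =
      (Finset.univ.filter fun b : Fin m → F => f ⬝ᵥ b = 0).erase 0 := by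
    ext b
    simp only [Finset.mem_filter, Finset.mem_univ, true_and, Finset.mem_erase]
    rw [tS_mulVec h]
    constructor
    · rintro ⟨h4, h5⟩
      refine ⟨h4, ?_⟩
      have h6 : (f ⬝ᵥ b) • y = 0 := by simpa using h5
      exact (smul_eq_zero.1 h6).resolve_right hy
    · rintro ⟨h4, h5⟩
      refine ⟨h4, ?_⟩
      rw [h5, zero_smul, add_zero]
  rw [h3, Finset.card_erase_of_mem (by simp)]
  have h7 : 0 < (Finset.univ.filter fun b : Fin m → F => f ⬝ᵥ b = 0).card := Finset.card_pos.2 ⟨0, by simp⟩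
  omega

theorem sn_ne {m : ℕ} {x : Fin m → F} (h : x ≠ 0) (c : F) : sn x c ≠ 0 := by
  intro h0
  rw [← sn_zero] at h0
  exact h (sn_inj h0).1

theorem char_tr {n : ℕ} (hn : 3 ≤ n) (ρ : Representation ℂ (Matrix.SpecialLinearGroup (Fin n) F) W) {v f v' f' : Fin n → F}
    (hv : v ≠ 0) (hf : f ≠ 0) (h : f ⬝ᵥ v = 0) (hv' : v' ≠ 0) (hf' : f' ≠ 0) (h' : f' ⬝ᵥ v' = 0) :
    ρ.character (tS v' f') = ρ.character (tS v f) := by
  obtain ⟨g, hg⟩ := tS_conj hn hv hf h hv' hf' h'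
  rw [← hg, Representation.char_conj]

/-- the trace of a transvection of the Levi complement on the fixed space of the radical -/
theorem levi_trace {p : ℕ} (hp : 1 ≤ p) (ρ : Representation ℂ (Matrix.SpecialLinearGroup (Fin (p + 1 + 1)) F) W)
    (hc1 : p = 1 → Fintype.card F ≠ 2 ∧ Fintype.card F ≠ 4) (hc2 : p = 2 → 4 ≤ Fintype.card F) {t : ℂ}
    (hk : ∀ b : Fin (p + 1) → F, b ≠ 0 → finrank ℂ (LinearMap.range (E ρ b)) = 1)
    (ht : ∀ r : Fin (p + 1) → F, r ≠ 0 → ρ.character (uu r) = t) (r : Fin p → F) (hr : r ≠ 0) :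
    (rC ρ).character (uu r) = t + 1 - (Fintype.card F : ℂ) ^ p := by
  obtain ⟨r', hr'⟩ : ∃ r' : Fin (p + 1) → F, r' ≠ 0 := ⟨sn r 0, sn_ne hr 0⟩
  have key : ∀ (y f : Fin (p + 1) → F) (hy : y ≠ 0) (hf : f ≠ 0) (h : f ⬝ᵥ y = 0),
      (∀ b : Fin (p + 1) → F, b ≠ 0 → f ⬝ᵥ b = 0 → ρ (slBlk (p + 1) (tS y f)) * E ρ b = E ρ b) →
      (rC ρ).character (tS y f) = t + 1 - (Fintype.card F : ℂ) ^ p := by
    intro y f hy hf h hfix
    rw [trace_fix ρ hk (tS y f)]
    · have h1 := card_fixed (by omega) hy hf h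
      rw [Nat.add_sub_cancel] at h1
      have h2 : ρ.character (slBlk (p + 1) (tS y f)) = t := by
        rw [tS_slBlk _ _ h, ← ht r' hr', uu]
        refine char_tr (by omega) ρ ee_ne (sn_ne hr' 0) (dot_ee r') (sn_ne hy 0) (sn_ne hf 0) ?_
        rw [sn_dot, h]; simp
      rw [h2]
      have h3 : ((Finset.univ.filter fun b : Fin (p + 1) → F => b ≠ 0 ∧ ((tS y f : Matrix.SpecialLinearGroup (Fin (p + 1)) F) : Matrix (Fin (p + 1)) (Fin (p + 1)) F) *ᵥ b = b).card : ℂ) + 1 = (Fintype.card F : ℂ) ^ p := by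
        exact_mod_cast h1
      rw [← h3]
      ring
    · intro b hb hb2
      refine hfix b hb ?_
      rw [tS_mulVec h] at hb2
      have h6 : (f ⬝ᵥ b) • y = 0 := by simpa using hb2
      exact (smul_eq_zero.1 h6).resolve_right hy
  rcases Nat.eq_or_lt_of_le hp with h1 | h1
  · subst h1
    rw [uu]
    refine key _ _ ee_ne (sn_ne hr 0) (dot_ee r) ?_
    intro b hb hb2
    have h3 : b 0 = 0 := by
      obtain ⟨x, c, rfl⟩ := sn_surj b
      rw [sn_dot, zero_mul, add_zero] at hb2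
      have h4 : r 0 * x 0 = 0 := by simpa [dotProduct] using hb2
      have h5 : r 0 ≠ 0 := by
        intro h0
        apply hr
        funext i
        fin_cases i
        exact h0
      have h6 : x 0 = 0 := (mul_eq_zero.1 h4).resolve_left h5
      exact (sn_cs x c 0).trans h6
    exact fix_C ρ (hc1 rfl).1 (hc1 rfl).2 r (hk b hb) h3
  · have h01 : (0 : Fin (p + 1)) ≠ 1 := by
      intro h
      have := congrArg Fin.val h
      rw [Fin.val_zero, Fin.val_one'] at this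
      rw [Nat.mod_eq_of_lt (by omega)] at this
      exact zero_ne_one this
    have h2 := key (Pi.single 0 1) (Pi.single 1 1) (by simp) (by simp) (by simp [h01.symm]) (by
      intro b hb hb2
      refine fix_A ρ (by omega) (fun h => hc2 (by omega)) h01 (hk b hb) ?_
      simpa using hb2)
    rw [← h2, uu]
    exact char_tr (by omega) (rC ρ) (by simp) (by simp) (by simp [h01.symm]) ee_ne (sn_ne hr 0) (dot_ee r)

end Cfsg.Agent.H11.WL
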