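import Mathlib
import Cfsg.Agent.H11.WL5

set_option autoImplicit false
set_option linter.all false

/-! Smallest degree of `SL_n(q)`: vectors fixed by the stabiliser of a vector. -/

namespace Cfsg.Agent.H11.WL

open Matrix Cfsg.Agent.H17 Cfsg.Agent.H10 Module

theorem sl_trans_aux {F : Type*} [Field F] {n : ℕ} {x y : Fin n → F} (hx : x ≠ 0) (hxy : y ∉ MI.ln x) :
    ∃ g : Matrix.SpecialLinearGroup (Fin n) F, (g : Matrix (Fin n) (Fin n) F) *ᵥ x = y := by
  have h1 : x ∉ MI.ln (y - x) := by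
    rw [MI.mem_ln]
    rintro ⟨c, hc⟩
    have hc0 : c ≠ 0 := by
      rintro rfl
      exact hx (by rw [hc, zero_smul])
    apply hxy
    rw [MI.mem_ln]
    refine ⟨c⁻¹ + 1, ?_⟩
    rw [add_smul, one_smul]
    nth_rewrite 1 [hc]
    rw [smul_smul, inv_mul_cancel₀ hc0, one_smul]
    abel
  obtain ⟨ψ, h2, h3⟩ := MI.dual_ex h1
  refine ⟨tS (y - x) ψ, ?_⟩
  rw [tS_mulVec h2, h3, one_smul]
  abel

theorem sl_trans {F : Type*} [Field F] {n : ℕ} (hn : 2 ≤ n) {x y : Fin n → F} (hx : x ≠ 0) (hy : y ≠ 0) :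
    ∃ g : Matrix.SpecialLinearGroup (Fin n) F, (g : Matrix (Fin n) (Fin n) F) *ᵥ x = y := by
  by_cases hxy : y ∈ MI.ln x
  · obtain ⟨c, hc⟩ := MI.mem_ln.1 hxy
    have hc0 : c ≠ 0 := by
      rintro rfl
      exact hy (by rw [hc, zero_smul])
    obtain ⟨z, hz0, hz⟩ : ∃ z : Fin n → F, z ≠ 0 ∧ z ∉ MI.ln x := by
      obtain ⟨i, hi⟩ := Function.ne_iff.1 hx
      obtain ⟨j, hj⟩ : ∃ j : Fin n, j ≠ i := by
        haveI : Nontrivial (Fin n) := Fin.nontrivial_iff_two_le.2 hn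
        exact exists_ne i
      refine ⟨Pi.single j 1, by simp, fun h => ?_⟩
      obtain ⟨d, hd⟩ := MI.mem_ln.1 h
      have h1 := congrFun hd i
      rw [Pi.single_eq_of_ne hj.symm, Pi.smul_apply, smul_eq_mul] at h1
      have h2 : d = 0 := by
        rcases mul_eq_zero.1 h1.symm with h | h
        · exact h
        · exact absurd h hi
      have h3 := congrFun hd j
      rw [h2, zero_smul] at h3
      simp at h3
    obtain ⟨g, hg⟩ := sl_trans_aux hx hz
    have hy2 : y ∉ MI.ln z := by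
      intro h
      obtain ⟨d, hd⟩ := MI.mem_ln.1 h
      have hd0 : d ≠ 0 := by
        rintro rfl
        exact hy (by rw [hd, zero_smul])
      apply hz
      rw [MI.mem_ln]
      refine ⟨d⁻¹ * c, ?_⟩
      rw [mul_smul, ← hc, hd, smul_smul, inv_mul_cancel₀ hd0, one_smul]
    obtain ⟨g', hg'⟩ := sl_trans_aux hz0 hy2
    exact ⟨g' * g, by rw [sl_mul_mulVec, hg, hg']⟩
  · exact sl_trans_aux hx hxy

variable {F : Type*} [Field F] [Fintype F] [DecidableEq F] {m : ℕ}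

/-- the stabiliser of `e` is transitive on the vectors outside the line of `e` -/
theorem stab_trans (hm : 2 ≤ m) {x y : Fin (m + 1) → F} (hx : ∀ c : F, x ≠ c • ee m F) (hy : ∀ c : F, y ≠ c • ee m F) :
    ∃ h : Matrix.SpecialLinearGroup (Fin (m + 1)) F, (h : Matrix (Fin (m + 1)) (Fin (m + 1)) F) *ᵥ ee m F = ee m F ∧
      (h : Matrix (Fin (m + 1)) (Fin (m + 1)) F) *ᵥ x = y := by
  obtain ⟨x', c, rfl⟩ := sn_surj x
  obtain ⟨y', d, rfl⟩ := sn_surj y
  have hx' : x' ≠ 0 := by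
    rintro rfl
    exact hx c (by rw [ee, sn_smul]; simp)
  have hy' : y' ≠ 0 := by
    rintro rfl
    exact hy d (by rw [ee, sn_smul]; simp)
  obtain ⟨g, hg⟩ := sl_trans hm hx' hy'
  obtain ⟨f, hf⟩ := exists_dot_eq_one hy'
  refine ⟨uu ((d - c) • f) * slBlk m g, ?_, ?_⟩
  · rw [sl_mul_mulVec, ee, slBlk_mulVec, mulVec_zero, uu_mulVec]
    simp
  · rw [sl_mul_mulVec, slBlk_mulVec, hg, uu_mulVec, smul_dotProduct, hf]
    simp

open scoped LinearAlgebra.Projectivization in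
theorem big_of_fixed (hm : 2 ≤ m) {W : Type*} [AddCommGroup W] [Module ℂ W] [FiniteDimensional ℂ W]
    (ρ : Representation ℂ (Matrix.SpecialLinearGroup (Fin (m + 1)) F) W) (hinv : ∀ w, (∀ g, ρ g w = w) → w = 0)
    {v : W} (hv : v ≠ 0) (hfix : ∀ g : Matrix.SpecialLinearGroup (Fin (m + 1)) F, (g : Matrix (Fin (m + 1)) (Fin (m + 1)) F) *ᵥ ee m F = ee m F → ρ g v = v) :
    Nat.card (ℙ F (Fin (m + 1) → F)) ≤ finrank ℂ W + 1 := by
  classical
  obtain ⟨ξ, hξ⟩ : ∃ ξ : Dual ℂ W, ξ v ≠ 0 := by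
    by_contra hcon
    push Not at hcon
    exact hv ((Module.forall_dual_apply_eq_zero_iff ℂ v).1 hcon)
  set S : Finset (Matrix.SpecialLinearGroup (Fin (m + 1)) F) := Finset.univ.filter fun g => (g : Matrix (Fin (m + 1)) (Fin (m + 1)) F) *ᵥ ee m F = ee m F with hS
  have memS : ∀ g, g ∈ S ↔ (g : Matrix (Fin (m + 1)) (Fin (m + 1)) F) *ᵥ ee m F = ee m F := fun g => by rw [hS]; simp
  set ξ' : Dual ℂ W := ∑ h ∈ S, ξ ∘ₗ (ρ h) with hξ'
  set Φ : Matrix.SpecialLinearGroup (Fin (m + 1)) F → ℂ := fun g => ξ' (ρ g v) with hΦ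
  have Φr : ∀ g h, h ∈ S → Φ (g * h) = Φ g := by
    intro g h hh
    simp only [hΦ, map_mul, Module.End.mul_apply]
    rw [hfix h ((memS h).1 hh)]
  have Φl : ∀ g h, h ∈ S → Φ (h * g) = Φ g := by
    intro g h hh
    simp only [hΦ, hξ', LinearMap.sum_apply, LinearMap.comp_apply]
    refine Finset.sum_bij (fun x _ => x * h) ?_ ?_ ?_ ?_
    · intro a ha
      rw [memS, sl_mul_mulVec, (memS h).1 hh, (memS a).1 ha]
    · intro a _ b _ hab
      exact mul_right_cancel hab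
    · intro b hb
      refine ⟨b * h⁻¹, ?_, inv_mul_cancel_right b h⟩
      rw [memS, sl_mul_mulVec]
      have h1 : ((h⁻¹ : Matrix.SpecialLinearGroup (Fin (m + 1)) F) : Matrix (Fin (m + 1)) (Fin (m + 1)) F) *ᵥ ee m F = ee m F := by
        nth_rewrite 1 [← (memS h).1 hh]
        exact sl_inv_mulVec_mulVec h _
      rw [h1, (memS b).1 hb]
    · intro a _
      rw [map_mul, map_mul]
      rfl
  have Φ1 : Φ 1 ≠ 0 := by
    simp only [hΦ, hξ', LinearMap.sum_apply, LinearMap.comp_apply, map_one, Module.End.one_apply]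
    rw [Finset.sum_congr rfl fun h hh => by rw [hfix h ((memS h).1 hh)], Finset.sum_const, nsmul_eq_mul]
    refine mul_ne_zero (Nat.cast_ne_zero.2 (Finset.card_ne_zero.2 ⟨1, ?_⟩)) hξ
    rw [memS, sl_one_mulVec]
  have Φc : ∀ g g' : Matrix.SpecialLinearGroup (Fin (m + 1)) F, (∀ c : F, (g : Matrix (Fin (m + 1)) (Fin (m + 1)) F) *ᵥ ee m F ≠ c • ee m F) →
      (∀ c : F, (g' : Matrix (Fin (m + 1)) (Fin (m + 1)) F) *ᵥ ee m F ≠ c • ee m F) → Φ g = Φ g' := by
    intro g g' h1 h2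
    obtain ⟨h, h3, h4⟩ := stab_trans hm h1 h2
    have h5 : g'⁻¹ * (h * g) ∈ S := by
      rw [memS, sl_mul_mulVec, sl_mul_mulVec, h4]
      exact sl_inv_mulVec_mulVec g' _
    rw [← Φl g h ((memS h).2 h3), ← Φr g' _ h5, mul_inv_cancel_left]
  have hgex : ∀ P : ℙ F (Fin (m + 1) → F), ∃ g : Matrix.SpecialLinearGroup (Fin (m + 1)) F, (g : Matrix (Fin (m + 1)) (Fin (m + 1)) F) *ᵥ ee m F = P.rep :=
    fun P => sl_trans (by omega) ee_ne P.rep_nonzero
  choose gP hgP using hgex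
  have hline : ∀ P Q : ℙ F (Fin (m + 1) → F), P ≠ Q → ∀ h : Matrix.SpecialLinearGroup (Fin (m + 1)) F,
      (∃ d : F, (h : Matrix (Fin (m + 1)) (Fin (m + 1)) F) *ᵥ ee m F = d • ee m F) →
      ∀ c : F, (((gP Q)⁻¹ * (gP P * h) : Matrix.SpecialLinearGroup (Fin (m + 1)) F) : Matrix (Fin (m + 1)) (Fin (m + 1)) F) *ᵥ ee m F ≠ c • ee m F := by
    rintro P Q hPQ h ⟨d, hd⟩ c hc
    apply hPQ
    have hd0 : d ≠ 0 := by
      rintro rfl
      rw [zero_smul] at hd
      apply ee_ne (m := m) (F := F)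
      rw [← sl_inv_mulVec_mulVec h (ee m F), hd, mulVec_zero]
    rw [sl_mul_mulVec, sl_mul_mulVec, hd, mulVec_smul, hgP] at hc
    have h1 : d • P.rep = c • Q.rep := by
      rw [← sl_mulVec_inv_mulVec (gP Q) (d • P.rep), hc, mulVec_smul, hgP]
    rw [← P.mk_rep, ← Q.mk_rep, Projectivization.mk_eq_mk_iff']
    exact ⟨d⁻¹ * c, by rw [mul_smul, ← h1, smul_smul, inv_mul_cancel₀ hd0, one_smul]⟩
  by_cases hex : ∃ h0 : Matrix.SpecialLinearGroup (Fin (m + 1)) F, (∃ d : F, (h0 : Matrix (Fin (m + 1)) (Fin (m + 1)) F) *ᵥ ee m F = d • ee m F) ∧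
      ∀ g : Matrix.SpecialLinearGroup (Fin (m + 1)) F, (∀ c : F, (g : Matrix (Fin (m + 1)) (Fin (m + 1)) F) *ᵥ ee m F ≠ c • ee m F) → Φ h0 ≠ Φ g
  · obtain ⟨h0, hd, hne⟩ := hex
    haveI : Fintype (ℙ F (Fin (m + 1) → F)) := Fintype.ofFinite _
    set P0 : ℙ F (Fin (m + 1) → F) := Projectivization.mk F (ee m F) ee_ne
    set η : {P : ℙ F (Fin (m + 1) → F) // P ≠ P0} → Dual ℂ W := fun P => ξ' ∘ₗ (ρ (gP P.1)⁻¹) - ξ' ∘ₗ (ρ (gP P0)⁻¹) with hη
    have hval : ∀ P Q : {P : ℙ F (Fin (m + 1) → F) // P ≠ P0}, η Q (ρ (gP P.1 * h0) v) = Φ ((gP Q.1)⁻¹ * (gP P.1 * h0)) - Φ ((gP P0)⁻¹ * (gP P.1 * h0)) := by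
      intro P Q
      simp only [hη, hΦ, LinearMap.sub_apply, LinearMap.comp_apply, map_mul, Module.End.mul_apply]
    have hli : LinearIndependent ℂ η := by
      rw [Fintype.linearIndependent_iff]
      intro c hc P
      have h1 := congrArg (fun f : Dual ℂ W => f (ρ (gP P.1 * h0) v)) hc
      simp only [LinearMap.sum_apply, LinearMap.smul_apply, LinearMap.zero_apply, hval] at h1
      rw [Finset.sum_eq_single P] at h1
      · rw [inv_mul_cancel_left, smul_eq_mul] at h1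
        refine (mul_eq_zero.1 h1).resolve_right (sub_ne_zero.2 (hne _ (hline P.1 P0 P.2 h0 hd)))
      · intro Q _ hQP
        rw [Φc _ _ (hline P.1 Q.1 (fun h => hQP (Subtype.ext h.symm)) h0 hd) (hline P.1 P0 P.2 h0 hd), sub_self, smul_zero]
      · intro h; exact absurd (Finset.mem_univ _) h
    have h2 := hli.fintype_card_le_finrank
    rw [Subspace.dual_finrank_eq] at h2
    have h3 : Fintype.card {P : ℙ F (Fin (m + 1) → F) // P ≠ P0} = Fintype.card (ℙ F (Fin (m + 1) → F)) - 1 := Set.card_ne_eq P0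
    rw [Nat.card_eq_fintype_card]
    omega
  · exfalso
    push Not at hex
    obtain ⟨x, hx⟩ : ∃ x : Fin (m + 1) → F, x ≠ 0 ∧ ∀ c : F, x ≠ c • ee m F := by
      refine ⟨sn (Pi.single ⟨0, by omega⟩ 1) 0, sn_ne (by simp) 0, fun c hc => ?_⟩
      rw [ee, sn_smul] at hc
      have := congrFun (sn_inj hc).1 ⟨0, by omega⟩
      simp at this
    obtain ⟨g1, hg1⟩ := sl_trans (F := F) (n := m + 1) (by omega) ee_ne hx.1
    have hg1' : ∀ c : F, (g1 : Matrix (Fin (m + 1)) (Fin (m + 1)) F) *ᵥ ee m F ≠ c • ee m F := by rw [hg1]; exact hx.2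
    have hall : ∀ g, Φ g = Φ g1 := by
      intro g
      by_cases hg : ∃ d : F, (g : Matrix (Fin (m + 1)) (Fin (m + 1)) F) *ᵥ ee m F = d • ee m F
      · obtain ⟨g2, h2, h3⟩ := hex g hg
        rw [h3]
        exact Φc _ _ h2 hg1'
      · push Not at hg
        exact Φc _ _ hg hg1'
    have hw : ∑ g : Matrix.SpecialLinearGroup (Fin (m + 1)) F, ρ g v = 0 := by
      apply hinv
      intro h
      rw [map_sum]
      refine Fintype.sum_bijective (fun g => h * g) (Group.mulLeft_bijective h) _ _ fun g => ?_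
      rw [map_mul]; rfl
    have h4 := congrArg ξ' hw
    rw [map_sum, map_zero] at h4
    have h5 : ∑ g : Matrix.SpecialLinearGroup (Fin (m + 1)) F, ξ' (ρ g v) = ∑ g : Matrix.SpecialLinearGroup (Fin (m + 1)) F, Φ 1 :=
      Finset.sum_congr rfl fun g _ => (hall g).trans (hall 1).symm
    rw [h5, Finset.sum_const, nsmul_eq_mul] at h4
    rcases mul_eq_zero.1 h4 with h | h
    · rw [Nat.cast_eq_zero, Finset.card_eq_zero] at h
      exact absurd h (Finset.nonempty_iff_ne_empty.1 ⟨1, Finset.mem_univ 1⟩)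
    · exact Φ1 h

end Cfsg.Agent.H11.WL
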