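import Mathlib
import Cfsg.Agent.H11.WL6
import Cfsg.Agent.H5.LinBasic
import Cfsg.Agent.S0141
import Cfsg.Agent.H3.Integral

set_option autoImplicit false
set_option linter.all false

/-! Smallest degree of `SL_n(q)`: integrality of the central character at a transvection. -/

namespace Cfsg.Agent.H11.WL

open Matrix Cfsg.Agent.H17 Cfsg.Agent.H10 Module
open scoped LinearAlgebra.Projectivization

variable {F : Type*} [Field F] [Fintype F] [DecidableEq F] {m : ℕ}

theorem class_card (hm : 2 ≤ m) {r : Fin m → F} (hr : r ≠ 0) :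
    (Subgroup.centralizer ({uu r} : Set (Matrix.SpecialLinearGroup (Fin (m + 1)) F))).index =
      Nat.card (ℙ F (Fin (m + 1) → F)) * (Fintype.card F ^ m - 1) := by
  classical
  rw [Cfsg.Agent.H27.index_centralizer_eq_card_cl]
  haveI : Fintype (ℙ F (Fin (m + 1) → F)) := Fintype.ofFinite _
  let T := Σ P : ℙ F (Fin (m + 1) → F), {f : Fin (m + 1) → F // f ≠ 0 ∧ f ⬝ᵥ P.rep = 0}
  have hconj : ∀ x : T, tS x.1.rep x.2.1 ∈ Cfsg.Agent.H27.cl (uu r) := by
    intro x
    rw [Cfsg.Agent.H27.mem_cl, isConj_iff]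
    exact tS_conj (by omega) ee_ne (sn_ne hr 0) (dot_ee r) x.1.rep_nonzero x.2.2.1 x.2.2.2
  let φ : T → {g // g ∈ Cfsg.Agent.H27.cl (uu r)} := fun x => ⟨tS x.1.rep x.2.1, hconj x⟩
  have hφ : Function.Bijective φ := by
    constructor
    · rintro ⟨P, f, hf, hfP⟩ ⟨Q, g, hg, hgQ⟩ h
      have h1 : tS P.rep f = tS Q.rep g := congrArg Subtype.val h
      obtain ⟨c, hc, h2, h3⟩ := tS_eq_tS P.rep_nonzero hf hfP hgQ h1
      have hPQ : P = Q := by
        rw [← P.mk_rep, ← Q.mk_rep, eq_comm, Projectivization.mk_eq_mk_iff']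
        exact ⟨c, h2.symm⟩
      subst hPQ
      have h4 : (c - 1) • P.rep = 0 := by rw [sub_smul, one_smul, ← h2, sub_self]
      have h5 : c = 1 := sub_eq_zero.1 ((smul_eq_zero.1 h4).resolve_right P.rep_nonzero)
      rw [h5, one_smul] at h3
      subst h3
      rfl
    · rintro ⟨g, hg⟩
      rw [Cfsg.Agent.H27.mem_cl, isConj_iff] at hg
      obtain ⟨c, hc⟩ := hg
      set v := (c : Matrix (Fin (m + 1)) (Fin (m + 1)) F) *ᵥ ee m F with hv
      set f := sn r 0 ᵥ* ((c⁻¹ : Matrix.SpecialLinearGroup (Fin (m + 1)) F) : Matrix (Fin (m + 1)) (Fin (m + 1)) F) with hf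
      have hv0 : v ≠ 0 := by
        intro h
        apply ee_ne (m := m) (F := F)
        rw [← sl_inv_mulVec_mulVec c (ee m F), ← hv, h, mulVec_zero]
      have hf0 : f ≠ 0 := by
        intro h
        apply sn_ne hr 0
        rw [← vmv' c (sn r 0), ← hf, h, zero_vecMul]
      have hfv : f ⬝ᵥ v = 0 := by
        rw [hf, ← dotProduct_mulVec, hv, sl_inv_mulVec_mulVec, dot_ee]
      have hgt : g = tS v f := by
        rw [← hc, mul_inv_eq_iff_eq_mul]
        apply sl_ext_mulVec
        intro x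
        rw [sl_mul_mulVec, sl_mul_mulVec, uu, tS_mulVec (dot_ee r), tS_mulVec hfv, mulVec_add, mulVec_smul, hf, ← dotProduct_mulVec, sl_inv_mulVec_mulVec]
      obtain ⟨a, ha⟩ := Projectivization.exists_smul_eq_mk_rep F v hv0
      have ha' : (a : F) • v = (Projectivization.mk F v hv0).rep := ha
      refine ⟨⟨Projectivization.mk F v hv0, (a : F)⁻¹ • f, smul_ne_zero (inv_ne_zero a.ne_zero) hf0, ?_⟩, ?_⟩
      · rw [← ha', smul_dotProduct, dotProduct_smul, hfv, smul_zero, smul_zero]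
      · apply Subtype.ext
        show tS (Projectivization.mk F v hv0).rep ((a : F)⁻¹ • f) = g
        rw [← ha', tS_smul (by rw [smul_dotProduct, hfv, smul_zero]), smul_smul, mul_inv_cancel₀ a.ne_zero, one_smul, hgt]
  have h1 : (Cfsg.Agent.H27.cl (uu r)).card = Nat.card T := by
    rw [Nat.card_eq_of_bijective φ hφ, Nat.card_eq_fintype_card, Fintype.card_coe]
  rw [h1, Nat.card_sigma]
  have h2 : ∀ P : ℙ F (Fin (m + 1) → F), Nat.card {f : Fin (m + 1) → F // f ≠ 0 ∧ f ⬝ᵥ P.rep = 0} = Fintype.card F ^ m - 1 := by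
    intro P
    have h3 := MI.card_P (n := m + 1) (by omega) P.rep_nonzero
    rw [Nat.card_eq_fintype_card (α := F), Nat.add_sub_cancel] at h3
    have h4 : Nat.card (MI.P P.rep) = (Finset.univ.filter fun f : Fin (m + 1) → F => f ⬝ᵥ P.rep = 0).card := by
      apply Nat.subtype_card
      intro x
      simp [MI.mem_P, dotProduct_comm]
    have h5 : Nat.card {f : Fin (m + 1) → F // f ≠ 0 ∧ f ⬝ᵥ P.rep = 0} = ((Finset.univ.filter fun f : Fin (m + 1) → F => f ⬝ᵥ P.rep = 0).erase 0).card := by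
      apply Nat.subtype_card
      intro x
      simp
    rw [h5, Finset.card_erase_of_mem (by simp), ← h4, h3]
  simp only [h2]
  rw [Finset.sum_const, Finset.card_univ, smul_eq_mul, Nat.card_eq_fintype_card]

variable {W : Type*} [AddCommGroup W] [Module ℂ W] [FiniteDimensional ℂ W]

theorem dvd_of_irr (hm : 2 ≤ m) (ρ : Representation ℂ (Matrix.SpecialLinearGroup (Fin (m + 1)) F) W) [ρ.IsIrreducible] {r : Fin m → F} (hr : r ≠ 0)
    (ht : ρ.character (uu r) = (finrank ℂ W : ℂ) - (Fintype.card F : ℂ) ^ m) (hd : finrank ℂ W ≠ 0) :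
    finrank ℂ W ∣ Nat.card (ℙ F (Fin (m + 1) → F)) * (Fintype.card F ^ m - 1) * Fintype.card F ^ m := by
  have h1 := Cfsg.Agent.S0141.result ρ (uu r)
  rw [class_card hm hr, ht] at h1
  set I := Nat.card (ℙ F (Fin (m + 1) → F)) * (Fintype.card F ^ m - 1) with hI
  have hd' : (finrank ℂ W : ℂ) ≠ 0 := Nat.cast_ne_zero.2 hd
  have h2 : IsIntegral ℤ (((I * Fintype.card F ^ m : ℕ) : ℂ) / (finrank ℂ W : ℂ)) := by
    have h3 : (((I * Fintype.card F ^ m : ℕ) : ℂ) / (finrank ℂ W : ℂ)) = (I : ℂ) - (I : ℂ) * ((finrank ℂ W : ℂ) - (Fintype.card F : ℂ) ^ m) / (finrank ℂ W : ℂ) := by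
      push_cast
      field_simp
      ring
    rw [h3]
    exact IsIntegral.sub (isIntegral_natCast (R := ℤ) I) h1
  exact Cfsg.Agent.H3.nat_dvd_of_isIntegral hd h2

/-- if the radical acts trivially then so does the whole group -/
theorem triv_of_rad (hm : 1 ≤ m) (ρ : Representation ℂ (Matrix.SpecialLinearGroup (Fin (m + 1)) F) W) (h : ∀ r : Fin m → F, ρ (uu r) = 1)
    (g : Matrix.SpecialLinearGroup (Fin (m + 1)) F) : ρ g = 1 := by
  haveI : Nontrivial (Fin (m + 1)) := Fin.nontrivial_iff_two_le.2 (by omega)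
  have h1 : g ∈ Subgroup.closure {A : Matrix.SpecialLinearGroup (Fin (m + 1)) F | ∃ (i j : Fin (m + 1)) (h : i ≠ j) (c : F),
      A = Matrix.SpecialLinearGroup.transvection h c} := by
    rw [Cfsg.Agent.H5.SL_closure_transvections]; trivial
  have hts : ∀ v f : Fin (m + 1) → F, v ≠ 0 → f ⬝ᵥ v = 0 → ρ (tS v f) = 1 := by
    intro v f hv hfv
    obtain ⟨c, hc⟩ := sl_trans (F := F) (n := m + 1) (by omega) ee_ne hv
    obtain ⟨r, d, hrd⟩ := sn_surj (f ᵥ* (c : Matrix (Fin (m + 1)) (Fin (m + 1)) F))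
    have h2 : d = 0 := by
      have : (f ᵥ* (c : Matrix (Fin (m + 1)) (Fin (m + 1)) F)) ⬝ᵥ ee m F = 0 := by
        rw [← dotProduct_mulVec, hc, hfv]
      rw [hrd, ee, sn_dot] at this
      simpa using this
    subst h2
    have h3 : tS v f = c * uu r * c⁻¹ := by
      rw [eq_mul_inv_iff_mul_eq]
      apply sl_ext_mulVec
      intro x
      rw [sl_mul_mulVec, sl_mul_mulVec, uu, tS_mulVec (dot_ee r), tS_mulVec hfv, mulVec_add, mulVec_smul, hc, ← hrd, ← dotProduct_mulVec]
    rw [h3, map_mul, map_mul, h, mul_one, ← map_mul, mul_inv_cancel, map_one]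
  induction h1 using Subgroup.closure_induction with
  | mem x hx =>
    obtain ⟨i, j, hij, c, rfl⟩ := hx
    have h4 : Matrix.SpecialLinearGroup.transvection hij c = tS (Pi.single i 1) (c • Pi.single j 1) := by
      have h5 : (c • Pi.single j 1 : Fin (m + 1) → F) ⬝ᵥ Pi.single i 1 = 0 := by simp [smul_dotProduct, hij.symm]
      apply Subtype.ext
      rw [coe_tS h5]
      show Matrix.transvection i j c = _
      rw [Matrix.transvection, Cfsg.Agent.H12.tvm]
      congr 1
      ext a b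
      rw [vecMulVec_apply]
      by_cases ha : a = i
      · subst ha
        by_cases hb : b = j
        · subst hb; simp
        · simp [hb, Matrix.single_apply, Ne.symm hb]
      · simp [ha, Matrix.single_apply, Ne.symm ha]
    rw [h4]
    exact hts _ _ (by simp) (by simp [smul_dotProduct, hij.symm])
  | one => exact map_one ρ
  | mul x y _ _ hx hy => rw [map_mul, hx, hy, mul_one]
  | inv x _ hx =>
    have : ρ x⁻¹ * ρ x = 1 := by rw [← map_mul, inv_mul_cancel, map_one]
    rwa [hx, mul_one] at this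

end Cfsg.Agent.H11.WL
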