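import Mathlib
import Cfsg.Agent.H11.WL7

set_option autoImplicit false
set_option linter.all false

/-! Smallest degree of `SL_n(q)`: the induction. -/

namespace Cfsg.Agent.H11.WL

open Matrix Cfsg.Agent.H17 Cfsg.Agent.H10 Module
open scoped LinearAlgebra.Projectivization

/-- number of points of projective space -/
noncomputable def NN (F : Type*) [Field F] (m : ℕ) : ℕ := Nat.card (ℙ F (Fin m → F))

section num

variable (F : Type*) [Field F] [Fintype F]

theorem NN_eq (m : ℕ) : NN F m = ∑ i ∈ Finset.range m, Fintype.card F ^ i := by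
  rw [NN, Projectivization.card_of_finrank F (Fin m → F) (n := m) (by simp), Nat.card_eq_fintype_card]

theorem NN_succ (m : ℕ) : NN F (m + 1) = NN F m + Fintype.card F ^ m := by
  rw [NN_eq, NN_eq, Finset.sum_range_succ]

theorem NN_one : NN F 1 = 1 := by rw [NN_eq]; simp

theorem NN_mul (m : ℕ) : NN F m * Fintype.card F + 1 = Fintype.card F ^ m + NN F m := by
  induction m with
  | zero => rw [NN_eq]; simp
  | succ m ih =>
    rw [NN_succ, add_mul, pow_succ]
    omega

theorem NN_succ' (m : ℕ) : NN F (m + 1) = NN F m * Fintype.card F + 1 := by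
  rw [NN_mul, NN_succ, add_comm]

end num

/-- arithmetic: the general exclusion -/
theorem arith1 {q N N' Q : ℤ} (hq : 2 ≤ q) (hQ : q ^ 2 ≤ Q) (h1 : N = N' * q + 1) (h2 : N = N' + Q)
    {k : ℕ} (hk : Q = q ^ k) (hd : N - 2 ∣ N * (Q - 1) * Q) : False := by
  have hcop : IsCoprime (N - 2) q := ⟨-1, N', by rw [h1]; ring⟩
  have hcop2 : IsCoprime (N - 2) Q := by rw [hk]; exact hcop.pow_right
  have h3 : N - 2 ∣ N * (Q - 1) := hcop2.dvd_of_dvd_mul_right hd
  have h4 : N - 2 ∣ N * (Q - 1) * q := h3.mul_right q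
  have h5 : N * (Q - 1) * q = (q - 1) * N * (N - 1) := by
    have h6 : Q * q = (q - 1) * N + 1 := by
      have : N' * q = N - 1 := by rw [h1]; ring
      have h7 : Q = N - N' := by rw [h2]; ring
      rw [h7]; linear_combination -this
    linear_combination N * h6
  rw [h5] at h4
  have h8 : N - 2 ∣ 2 * (q - 1) := by
    have h9 : (q - 1) * N * (N - 1) = (N - 2) * ((q - 1) * (N + 1)) + 2 * (q - 1) := by ring
    rw [h9] at h4
    exact (dvd_add_right (dvd_mul_right _ _)).1 h4
  have hN' : 0 ≤ N' := by nlinarith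
  have h10 := Int.le_of_dvd (by linarith) h8
  nlinarith

/-- arithmetic: the case `n = 3` -/
theorem arith2 {q : ℤ} (hq : 2 ≤ q) (h2 : q ≠ 2) (h4 : q ≠ 4) (h10 : q ≠ 10)
    (hd : q ^ 2 + q - 2 ∣ (q ^ 2 + q + 1) * (q ^ 2 - 1) * q ^ 2) : False := by
  have h1 : q ^ 2 + q - 2 ∣ 3 * (q - 2) * (q - 1) := by
    have h5 : (q ^ 2 + q + 1) * (q ^ 2 - 1) * q ^ 2 = (q ^ 2 + q - 2) * ((q ^ 2 - 1) * q ^ 2 + 3 * (q ^ 2 - q + 2) - 3) + 3 * (q - 2) * (q - 1) := by ring
    rw [h5] at hd
    exact (dvd_add_right (dvd_mul_right _ _)).1 hd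
  have h3 : (q + 2) * (q - 1) ∣ 3 * (q - 2) * (q - 1) := by
    have : (q + 2) * (q - 1) = q ^ 2 + q - 2 := by ring
    rwa [this]
  have h5 : q + 2 ∣ 3 * (q - 2) := (mul_dvd_mul_iff_right (by omega)).1 h3
  have h6 : q + 2 ∣ 12 := by
    have : 3 * (q - 2) = (q + 2) * 3 - 12 := by ring
    rw [this] at h5
    exact (dvd_sub_right (dvd_mul_right _ _)).1 h5
  have h7 := Int.le_of_dvd (by norm_num) h6
  have h8 : q ≤ 10 := by linarith
  interval_cases q <;> first | omega | (revert h6; decide)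

end Cfsg.Agent.H11.WL
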