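import Mathlib
import Cfsg.Agent.H11.WL8

set_option autoImplicit false
set_option linter.all false

/-! Smallest degree of `SL_n(q)`: triviality criteria, the irreducible case. -/

namespace Cfsg.Agent.H11.WL

open Matrix Cfsg.Agent.H17 Cfsg.Agent.H10 Module
open scoped LinearAlgebra.Projectivization

variable {F : Type*} [Field F] [Fintype F] [DecidableEq F] {m : ℕ}
variable {W : Type*} [AddCommGroup W] [Module ℂ W] [FiniteDimensional ℂ W]

theorem triv_of_k (hm : 1 ≤ m) (ρ : Representation ℂ (Matrix.SpecialLinearGroup (Fin (m + 1)) F) W)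
    (hk : ∀ b : Fin m → F, b ≠ 0 → finrank ℂ (LinearMap.range (E ρ b)) = 0) (g : Matrix.SpecialLinearGroup (Fin (m + 1)) F) : ρ g = 1 := by
  have h1 : E ρ 0 = 1 := by
    rw [← sum_E ρ, ← Finset.add_sum_erase Finset.univ _ (Finset.mem_univ (0 : Fin m → F))]
    rw [Finset.sum_eq_zero, add_zero]
    intro b hb
    have h2 := hk b (Finset.mem_erase.1 hb).1
    rw [Submodule.finrank_eq_zero, LinearMap.range_eq_bot] at h2
    exact h2
  refine triv_of_rad hm ρ (fun r => ?_) g
  have h3 := u_mul_E ρ 0 r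
  rwa [h1, mul_one, zero_dotProduct, AddChar.map_zero_eq_one, one_smul] at h3

theorem small_triv (hm : 1 ≤ m) (ρ : Representation ℂ (Matrix.SpecialLinearGroup (Fin (m + 1)) F) W) {t : ℂ}
    (ht : ∀ r : Fin m → F, r ≠ 0 → ρ.character (uu r) = t) (hlt : finrank ℂ W + 1 < Fintype.card F ^ m)
    (g : Matrix.SpecialLinearGroup (Fin (m + 1)) F) : ρ g = 1 := by
  obtain ⟨k, s, h1, h2, h3, h4⟩ := dims ρ hm ht
  have hk : k = 0 := by
    by_contra hk
    have h5 : 1 ≤ k := Nat.one_le_iff_ne_zero.2 hk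
    nlinarith
  subst hk
  exact triv_of_k hm ρ h4 g

theorem fixed_of_inv (ρ : Representation ℂ (Matrix.SpecialLinearGroup (Fin (m + 1)) F) W) (w : LinearMap.range (E ρ 0))
    (hw : ∀ g, rC ρ g w = w) (g : Matrix.SpecialLinearGroup (Fin (m + 1)) F)
    (hg : (g : Matrix (Fin (m + 1)) (Fin (m + 1)) F) *ᵥ ee m F = ee m F) : ρ g (w : W) = w := by
  obtain ⟨r, h, rfl⟩ := stab_ee hg
  rw [map_mul, Module.End.mul_apply, fix_of_mem ρ w.2, ← rC_apply, hw]

theorem const_char (hm : 2 ≤ m) (ρ : Representation ℂ (Matrix.SpecialLinearGroup (Fin (m + 1)) F) W) {r s : Fin m → F} (hr : r ≠ 0) (hs : s ≠ 0) :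
    ρ.character (uu r) = ρ.character (uu s) := by
  obtain ⟨g, hg⟩ := uu_conj hm hs hr
  rw [← hg, Representation.char_conj]

/-- `SL₂(4)`: all nontrivial elements of the radical are conjugate -/
theorem const_char_four (h4 : Fintype.card F = 4) (ρ : Representation ℂ (Matrix.SpecialLinearGroup (Fin (1 + 1)) F) W) {r s : Fin 1 → F}
    (hr : r ≠ 0) (hs : s ≠ 0) : ρ.character (uu r) = ρ.character (uu s) := by
  have hr0 : r 0 ≠ 0 := fun h => hr (by funext i; fin_cases i; exact h)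
  have hs0 : s 0 ≠ 0 := fun h => hs (by funext i; fin_cases i; exact h)
  set c := r 0 / s 0 with hc
  have hc0 : c ≠ 0 := div_ne_zero hr0 hs0
  set a := c ^ 2 with ha
  have ha0 : a ≠ 0 := pow_ne_zero 2 hc0
  have haa : a * a = c := by
    have := FiniteField.pow_card c
    rw [h4] at this
    rw [ha, ← pow_add]
    exact this
  set D : Matrix.SpecialLinearGroup (Fin (1 + 1)) F := ⟨Matrix.diagonal (sn (fun _ => a⁻¹) a), by
    rw [det_diagonal, Fin.prod_univ_castSucc]
    simp only [sn_cs, sn_last, Fin.prod_univ_one]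
    exact inv_mul_cancel₀ ha0⟩ with hD
  have hDm : ∀ (x : Fin 1 → F) (d : F), (D : Matrix (Fin (1 + 1)) (Fin (1 + 1)) F) *ᵥ sn x d = sn (fun i => a⁻¹ * x i) (a * d) := by
    intro x d
    show Matrix.diagonal (sn (fun _ => a⁻¹) a) *ᵥ sn x d = _
    funext i
    rw [mulVec_diagonal]
    refine Fin.lastCases ?_ (fun j => ?_) i
    · rw [sn_last, sn_last, sn_last]
    · rw [sn_cs, sn_cs, sn_cs]
  have h1 : D * uu s = uu r * D := by
    apply sl_ext_sn
    intro x d
    rw [sl_mul_mulVec, sl_mul_mulVec, uu_mulVec, hDm, hDm, uu_mulVec]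
    congr 1
    have h2 : s ⬝ᵥ x = s 0 * x 0 := by simp [dotProduct]
    have h3 : (r ⬝ᵥ fun i => a⁻¹ * x i) = r 0 * (a⁻¹ * x 0) := by simp [dotProduct]
    rw [h2, h3]
    have h5 : r 0 = a * a * s 0 := by rw [haa, hc, div_mul_cancel₀ _ hs0]
    rw [h5]
    field_simp
  have h2 : D * uu s * D⁻¹ = uu r := by rw [h1, mul_inv_cancel_right]
  rw [← h2, Representation.char_conj]

end Cfsg.Agent.H11.WL
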