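import Mathlib
import Cfsg.Agent.H11.WL9

set_option autoImplicit false
set_option linter.all false

/-! Smallest degree of `SL_n(q)`: the induction, continued. -/

namespace Cfsg.Agent.H11.WL

open Matrix Cfsg.Agent.H17 Cfsg.Agent.H10 Module
open scoped LinearAlgebra.Projectivization

universe u v

/-- the lower bound for `SL_{m+1}` -/
def Good (F : Type u) [Field F] (m : ℕ) : Prop :=
  ∀ (W : Type v) [AddCommGroup W] [Module ℂ W] [FiniteDimensional ℂ W]
    (ρ : Representation ℂ (Matrix.SpecialLinearGroup (Fin (m + 1)) F) W), 0 < finrank ℂ W →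
    (∀ w, (∀ g, ρ g w = w) → w = 0) → NN F (m + 1) ≤ finrank ℂ W + 1

theorem good_of_irr (F : Type u) [Field F] (m : ℕ)
    (h : ∀ (W : Type v) [AddCommGroup W] [Module ℂ W] [FiniteDimensional ℂ W]
    (ρ : Representation ℂ (Matrix.SpecialLinearGroup (Fin (m + 1)) F) W), ρ.IsIrreducible → 0 < finrank ℂ W →
    (∀ w, (∀ g, ρ g w = w) → w = 0) → NN F (m + 1) ≤ finrank ℂ W + 1) : Good.{u, v} F m := by
  suffices key : ∀ (d : ℕ) (W : Type v) [AddCommGroup W] [Module ℂ W] [FiniteDimensional ℂ W]
      (ρ : Representation ℂ (Matrix.SpecialLinearGroup (Fin (m + 1)) F) W), finrank ℂ W = d → 0 < finrank ℂ W →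
      (∀ w, (∀ g, ρ g w = w) → w = 0) → NN F (m + 1) ≤ finrank ℂ W + 1 by
    intro W _ _ _ ρ hpos hinv
    exact key _ W ρ rfl hpos hinv
  intro d
  induction d using Nat.strong_induction_on with
  | _ d ih =>
  intro W _ _ _ ρ hd hpos hinv
  by_cases hirr : ρ.IsIrreducible
  · exact h W ρ hirr hpos hinv
  · have hK : ∃ K : Subrepresentation ρ, K ≠ ⊥ ∧ K ≠ ⊤ := by
      by_contra hcon
      push Not at hcon
      apply hirr
      haveI : Nontrivial (Subrepresentation ρ) := by
        refine ⟨⊥, ⊤, fun hbt => ?_⟩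
        have h1 : (⊥ : Submodule ℂ W) = ⊤ := congrArg Subrepresentation.toSubmodule hbt
        have h2 : finrank ℂ (⊤ : Submodule ℂ W) = 0 := by rw [← h1]; exact finrank_bot ℂ W
        rw [finrank_top] at h2
        omega
      exact { eq_bot_or_eq_top := fun K => by
                by_cases hb : K = ⊥
                · exact Or.inl hb
                · exact Or.inr (hcon K hb) }
    obtain ⟨K, hK1, hK2⟩ := hK
    have h1 : K.toSubmodule ≠ ⊥ := fun h0 => hK1 (Subrepresentation.toSubmodule_injective h0)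
    have h2 : K.toSubmodule ≠ ⊤ := fun h0 => hK2 (Subrepresentation.toSubmodule_injective h0)
    have h3 : finrank ℂ K.toSubmodule < finrank ℂ W := Submodule.finrank_lt h2
    have h4 : 0 < finrank ℂ K.toSubmodule := Nat.pos_of_ne_zero (fun h0 => h1 (Submodule.finrank_eq_zero.1 h0))
    have h5 := ih (finrank ℂ K.toSubmodule) (by omega) K.toSubmodule K.toRepresentation rfl h4 (by
      intro w hw
      have h6 : (w : W) = 0 := hinv w fun g => congrArg Subtype.val (hw g)
      exact Subtype.ext h6)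
    omega

variable {F : Type u} [Field F] [Fintype F] [DecidableEq F]
variable {W : Type v} [AddCommGroup W] [Module ℂ W] [FiniteDimensional ℂ W]

theorem exc_step {j : ℕ} (hj : 1 ≤ j) (σ : Representation ℂ (Matrix.SpecialLinearGroup (Fin (j + 1 + 1)) F) W)
    (hinv : ∀ w, (∀ g, σ g w = w) → w = 0) (hs : 0 < finrank ℂ (LinearMap.range (E σ 0)))
    (hconst : ∀ r s : Fin j → F, r ≠ 0 → s ≠ 0 → (rC σ).character (uu r) = (rC σ).character (uu s))
    (hlt : finrank ℂ (LinearMap.range (E σ 0)) + 1 < Fintype.card F ^ j) : NN F (j + 1 + 1) ≤ finrank ℂ W + 1 := by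
  obtain ⟨r0, hr0⟩ : ∃ r : Fin j → F, r ≠ 0 := ⟨Pi.single ⟨0, hj⟩ 1, by simp⟩
  have h1 := small_triv hj (rC σ) (t := (rC σ).character (uu r0)) (fun r hr => hconst r r0 hr hr0) hlt
  obtain ⟨v, hv⟩ := Module.finrank_pos_iff_exists_ne_zero.1 hs
  refine big_of_fixed (by omega) σ hinv (v := (v : W)) (fun h0 => hv (Subtype.ext h0)) ?_
  intro g hg
  refine fixed_of_inv σ v (fun h => ?_) g hg
  rw [h1]; rfl

theorem card_ne_ten (F : Type u) [Field F] [Fintype F] : Fintype.card F ≠ 10 := by
  intro h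
  obtain ⟨p, _, n, hp, hn⟩ := FiniteField.card' F
  rw [h] at hn
  have h2 : 2 ∣ p ^ (n : ℕ) := by rw [← hn]; norm_num
  have h5 : 5 ∣ p ^ (n : ℕ) := by rw [← hn]; norm_num
  have h2' := (Nat.prime_dvd_prime_iff_eq Nat.prime_two hp).1 (Nat.prime_two.dvd_of_dvd_pow h2)
  have h5' := (Nat.prime_dvd_prime_iff_eq Nat.prime_five hp).1 (Nat.prime_five.dvd_of_dvd_pow h5)
  omega

theorem exc44 (s : ℕ) (h1 : 15 ≤ s) (h2 : s ≤ 20) (h3 : s + 63 ∣ 85 * (4 ^ (2 + 1) - 1) * 4 ^ (2 + 1)) : s = 17 := by
  interval_cases s <;> first | rfl | (norm_num at h3)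

theorem exc52 (s : ℕ) (h1 : 7 ≤ s) (h2 : s ≤ 14) (h3 : s + 15 ∣ 31 * (2 ^ (3 + 1) - 1) * 2 ^ (3 + 1)) : s = 9 := by
  interval_cases s <;> first | rfl | (norm_num at h3)

theorem exc53 (s : ℕ) (h1 : 26 ≤ s) (h2 : s ≤ 39) (h3 : s + 80 ∣ 121 * (3 ^ (3 + 1) - 1) * 3 ^ (3 + 1)) : s = 28 ∨ s = 30 := by
  interval_cases s <;> first | (left; rfl) | (right; rfl) | (norm_num at h3)

theorem main_irr {p : ℕ} (hp : 1 ≤ p) (hc1 : p = 1 → Fintype.card F ≠ 2 ∧ Fintype.card F ≠ 4)
    (hc2 : p = 2 → Fintype.card F ≠ 2 ∧ Fintype.card F ≠ 3)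
    (IH : 2 ≤ p → (p = 2 → Fintype.card F ≠ 4) → (p = 3 → Fintype.card F ≠ 2 ∧ Fintype.card F ≠ 3) → Good.{u, v} F p)
    (ρ : Representation ℂ (Matrix.SpecialLinearGroup (Fin (p + 1 + 1)) F) W) (hirr : ρ.IsIrreducible) (hpos : 0 < finrank ℂ W)
    (hinv : ∀ w, (∀ g, ρ g w = w) → w = 0) : NN F (p + 1 + 1) ≤ finrank ℂ W + 1 := by
  obtain ⟨r0, hr0⟩ : ∃ r : Fin (p + 1) → F, r ≠ 0 := ⟨Pi.single 0 1, by simp⟩
  have ht : ∀ r : Fin (p + 1) → F, r ≠ 0 → ρ.character (uu r) = ρ.character (uu r0) := fun r hr => const_char (by omega) ρ hr hr0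
  obtain ⟨k, s, e1, e2, e3, e4⟩ := dims ρ (by omega) ht
  have hq : 2 ≤ Fintype.card F := Fintype.one_lt_card
  have hk0 : k ≠ 0 := by
    rintro rfl
    have h1 := triv_of_k (by omega) ρ e4
    obtain ⟨w, hw⟩ := Module.finrank_pos_iff_exists_ne_zero.1 hpos
    exact hw (hinv w fun g => by rw [h1]; rfl)
  have hN1 := NN_mul F (p + 1 + 1)
  have hN2 := NN_succ F (p + 1)
  have hN3 := NN_succ' F (p + 1)
  by_cases hk : k = 1
  · subst hk
    rw [one_mul] at e1
    have htd : ρ.character (uu r0) = (finrank ℂ W : ℂ) - (Fintype.card F : ℂ) ^ (p + 1) := by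
      rw [e2]
      have : ((finrank ℂ W + 1 : ℕ) : ℂ) = ((s + Fintype.card F ^ (p + 1) : ℕ) : ℂ) := by rw [e1]
      push_cast at this
      rw [Nat.cast_one]
      linear_combination -this
    have hdvd := dvd_of_irr (by omega) ρ hr0 htd (by omega)
    have hlev := levi_trace hp ρ hc1 (fun h => by have := hc2 h; omega) e4 ht
    obtain ⟨k', s', f1, f2, f3, f4⟩ := dims (rC ρ) hp hlev
    rw [e3] at f1
    rw [e2] at f2
    have g1 : s + k' = s' + Fintype.card F ^ p := by
      have : ((s + k' : ℕ) : ℂ) = ((s' + Fintype.card F ^ p : ℕ) : ℂ) := by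
        push_cast at f2 ⊢
        linear_combination f2
      exact_mod_cast this
    have hQp : 0 < Fintype.card F ^ p := by positivity
    have hk' : k' = 1 := by
      have : k' * Fintype.card F ^ p = 1 * Fintype.card F ^ p := by omega
      exact Nat.eq_of_mul_eq_mul_right hQp this
    subst hk'
    have hQq : Fintype.card F ^ 2 ≤ Fintype.card F ^ (p + 1) := Nat.pow_le_pow_right (by omega) (by omega)
    have hQ1 : 1 ≤ Fintype.card F ^ (p + 1) := Nat.one_le_iff_ne_zero.2 (by positivity)
    have hdvdZ : ((finrank ℂ W : ℕ) : ℤ) ∣ (NN F (p + 1 + 1) : ℤ) * ((Fintype.card F : ℤ) ^ (p + 1) - 1) * (Fintype.card F : ℤ) ^ (p + 1) := by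
      have h := Int.natCast_dvd_natCast.2 hdvd
      push_cast [Nat.cast_sub hQ1] at h
      exact h
    have hgen : NN F (p + 1 + 1) ≠ finrank ℂ W + 2 := by
      intro h
      refine arith1 (q := (Fintype.card F : ℤ)) (N := (NN F (p + 1 + 1) : ℤ)) (N' := (NN F (p + 1) : ℤ)) (Q := (Fintype.card F : ℤ) ^ (p + 1)) (k := p + 1)
        (by exact_mod_cast hq) (by exact_mod_cast hQq) (by exact_mod_cast hN3) (by exact_mod_cast hN2) rfl ?_
      have h2 : (NN F (p + 1 + 1) : ℤ) - 2 = (finrank ℂ W : ℤ) := by rw [h]; push_cast; ring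
      rw [h2]
      exact hdvdZ
    by_cases hCinv : ∀ w, (∀ g, rC ρ g w = w) → w = 0
    · have hQ2 : 2 ≤ Fintype.card F ^ p := le_trans hq (Nat.le_self_pow (by omega) _)
      have hposC : 0 < finrank ℂ (LinearMap.range (E ρ 0)) := by omega
      rcases Nat.eq_or_lt_of_le hp with hp1 | hp2
      · subst hp1
        by_contra hcon
        have hN : NN F (1 + 1 + 1) = 1 + Fintype.card F + Fintype.card F ^ 2 := by
          rw [NN_eq]; simp [Finset.sum_range_succ]
        have e1' : finrank ℂ W + 1 = s + Fintype.card F ^ 2 := e1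
        have g1' : s + 1 = s' + Fintype.card F := by rw [pow_one] at g1; exact g1
        have hs : s = Fintype.card F - 1 ∨ s = Fintype.card F := by omega
        rcases hs with hs | hs
        · have h1 := hc1 rfl
          have h10 := card_ne_ten F
          refine arith2 (q := (Fintype.card F : ℤ)) (by exact_mod_cast hq) (by exact_mod_cast h1.1) (by exact_mod_cast h1.2) (by exact_mod_cast h10) ?_
          have h2 : ((finrank ℂ W : ℕ) : ℤ) = (Fintype.card F : ℤ) ^ 2 + (Fintype.card F : ℤ) - 2 := by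
            have : finrank ℂ W + 2 = Fintype.card F ^ 2 + Fintype.card F := by omega
            have h3 : ((finrank ℂ W + 2 : ℕ) : ℤ) = ((Fintype.card F ^ 2 + Fintype.card F : ℕ) : ℤ) := by rw [this]
            push_cast at h3
            linarith
          have h3 : (NN F (1 + 1 + 1) : ℤ) = (Fintype.card F : ℤ) ^ 2 + (Fintype.card F : ℤ) + 1 := by
            rw [hN]; push_cast; ring
          rw [← h2, ← h3]
          exact hdvdZ
        · apply hgen
          omega
      · by_cases hexc : (p = 2 → Fintype.card F ≠ 4) ∧ (p = 3 → Fintype.card F ≠ 2 ∧ Fintype.card F ≠ 3)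
        · have h1 := IH hp2 hexc.1 hexc.2 _ (rC ρ) hposC hCinv
          rw [e3] at h1
          by_contra hcon
          exact hgen (by omega)
        · have hcase : (p = 2 ∧ Fintype.card F = 4) ∨ (p = 3 ∧ Fintype.card F = 2) ∨ (p = 3 ∧ Fintype.card F = 3) := by
            by_contra hcon
            apply hexc
            constructor
            · intro h1 h2; exact hcon (Or.inl ⟨h1, h2⟩)
            · intro h1
              exact ⟨fun h2 => hcon (Or.inr (Or.inl ⟨h1, h2⟩)), fun h2 => hcon (Or.inr (Or.inr ⟨h1, h2⟩))⟩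
          by_contra hcon
          rcases hcase with ⟨rfl, h4⟩ | ⟨rfl, h4⟩ | ⟨rfl, h4⟩
          · have hN : NN F (2 + 1 + 1) = 85 := by rw [NN_eq, h4]; simp [Finset.sum_range_succ]
            have hN' : NN F (1 + 1 + 1) = 21 := by rw [NN_eq, h4]; simp [Finset.sum_range_succ]
            change finrank ℂ W ∣ NN F (2 + 1 + 1) * _ * _ at hdvd
            rw [hN, h4] at hdvd
            rw [h4] at e1 g1
            norm_num at e1 g1
            have hd : finrank ℂ W = s + 63 := by omega
            rw [hd] at hdvd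
            have hs := exc44 s (by omega) (by omega) hdvd
            have hfin := exc_step (j := 1) le_rfl (rC ρ) hCinv (by omega) (fun r s hr hs => const_char_four h4 (rC (rC ρ)) hr hs) (by rw [f3, h4]; omega)
            omega
          · have hN : NN F (3 + 1 + 1) = 31 := by rw [NN_eq, h4]; simp [Finset.sum_range_succ]
            have hN' : NN F (2 + 1 + 1) = 15 := by rw [NN_eq, h4]; simp [Finset.sum_range_succ]
            change finrank ℂ W ∣ NN F (3 + 1 + 1) * _ * _ at hdvd
            rw [hN, h4] at hdvd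
            rw [h4] at e1 g1
            norm_num at e1 g1
            have hd : finrank ℂ W = s + 15 := by omega
            rw [hd] at hdvd
            have hs := exc52 s (by omega) (by omega) hdvd
            have hfin := exc_step (j := 2) (by omega) (rC ρ) hCinv (by omega) (fun r s hr hs => const_char (by omega) (rC (rC ρ)) hr hs) (by rw [f3, h4]; omega)
            omega
          · have hN : NN F (3 + 1 + 1) = 121 := by rw [NN_eq, h4]; simp [Finset.sum_range_succ]
            have hN' : NN F (2 + 1 + 1) = 40 := by rw [NN_eq, h4]; simp [Finset.sum_range_succ]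
            change finrank ℂ W ∣ NN F (3 + 1 + 1) * _ * _ at hdvd
            rw [hN, h4] at hdvd
            rw [h4] at e1 g1
            norm_num at e1 g1
            have hd : finrank ℂ W = s + 80 := by omega
            rw [hd] at hdvd
            have hs := exc53 s (by omega) (by omega) hdvd
            have hfin := exc_step (j := 2) (by omega) (rC ρ) hCinv (by omega) (fun r s hr hs => const_char (by omega) (rC (rC ρ)) hr hs) (by rw [f3, h4]; omega)
            omega
    · push Not at hCinv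
      obtain ⟨w, hw, hw0⟩ := hCinv
      exact big_of_fixed (by omega) ρ hinv (v := (w : W)) (fun h0 => hw0 (Subtype.ext h0)) (fixed_of_inv ρ w hw)
  · have hk2 : 2 ≤ k := by omega
    by_contra hcon
    push Not at hcon
    have hQ : 0 < Fintype.card F ^ (p + 1) := by positivity
    have h1 : Fintype.card F ^ (p + 1 + 1) = Fintype.card F * Fintype.card F ^ (p + 1) := by ring
    rw [h1] at hN1
    have h2 : 2 * Fintype.card F ^ (p + 1) ≤ NN F (p + 1 + 1) := by nlinarith
    nlinarith

theorem good : ∀ p : ℕ, (p + 1 = 2 → Fintype.card F ≠ 2 ∧ Fintype.card F ≠ 4) → (p + 1 = 3 → Fintype.card F ≠ 2 ∧ Fintype.card F ≠ 3) →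
    1 ≤ p → Good.{u, v} F (p + 1) := by
  intro p
  induction p with
  | zero => intro _ _ h; omega
  | succ p ih =>
    intro hc1 hc2 _
    refine good_of_irr F (p + 1 + 1) fun W _ _ _ ρ hirr hpos hinv => ?_
    refine main_irr (p := p + 1) (by omega) (fun h => hc1 (by omega)) (fun h => hc2 (by omega)) ?_ ρ hirr hpos hinv
    intro h2 h3 h4
    exact ih (fun h => ⟨fun h5 => (hc2 (by omega)).1 h5, h3 (by omega)⟩) (fun h => h4 (by omega)) (by omega)

end Cfsg.Agent.H11.WL
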