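import Mathlib
import Cfsg.Agent.H11.WLA

set_option autoImplicit false
set_option linter.all false

/-! Smallest degree of `SL_n(q)`: existence and conclusion. -/

namespace Cfsg.Agent.H11.WL

open Matrix Cfsg.Agent.H17 Cfsg.Agent.H10 Module
open scoped LinearAlgebra.Projectivization

universe u v

variable {F : Type u} [Field F] [Fintype F] [DecidableEq F]

theorem irr_of {m : ℕ} (hG : Good.{u, v} F m) {V : Type v} [AddCommGroup V] [Module ℂ V] [FiniteDimensional ℂ V]
    (ρ : Representation ℂ (Matrix.SpecialLinearGroup (Fin (m + 1)) F) V) (hpos : 0 < finrank ℂ V)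
    (hinv : ∀ w, (∀ g, ρ g w = w) → w = 0) (hN : finrank ℂ V + 1 ≤ NN F (m + 1)) : ρ.IsIrreducible := by
  haveI : Nontrivial (Subrepresentation ρ) := by
    refine ⟨⊥, ⊤, fun hbt => ?_⟩
    have h1 : (⊥ : Submodule ℂ V) = ⊤ := congrArg Subrepresentation.toSubmodule hbt
    have h2 : finrank ℂ (⊤ : Submodule ℂ V) = 0 := by rw [← h1]; exact finrank_bot ℂ V
    rw [finrank_top] at h2
    omega
  exact { eq_bot_or_eq_top := fun K => by
            by_cases hb : K = ⊥
            · exact Or.inl hb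
            · right
              have h1 : K.toSubmodule ≠ ⊥ := fun h0 => hb (Subrepresentation.toSubmodule_injective h0)
              have h4 : 0 < finrank ℂ K.toSubmodule := Nat.pos_of_ne_zero (fun h0 => h1 (Submodule.finrank_eq_zero.1 h0))
              have h5 := hG K.toSubmodule K.toRepresentation h4 (by
                intro w hw
                have h6 : (w : V) = 0 := hinv w fun g => congrArg Subtype.val (hw g)
                exact Subtype.ext h6)
              apply Subrepresentation.toSubmodule_injective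
              show K.toSubmodule = ⊤
              apply Submodule.eq_top_of_finrank_eq
              have := Submodule.finrank_le K.toSubmodule
              omega }

theorem no_inv_of_irr {G : Type*} [Group G] {V : Type v} [AddCommGroup V] [Module ℂ V] [FiniteDimensional ℂ V]
    (ρ : Representation ℂ G V) (hirr : ρ.IsIrreducible) (h2 : 2 ≤ finrank ℂ V) (w : V) (hw : ∀ g, ρ g w = w) : w = 0 := by
  by_contra hw0
  let K : Subrepresentation ρ := ⟨Submodule.span ℂ {w}, fun g v hv => by
    rw [Submodule.mem_span_singleton] at hv ⊢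
    obtain ⟨a, rfl⟩ := hv
    exact ⟨a, by rw [map_smul, hw]⟩⟩
  have h1 : finrank ℂ K.toSubmodule = 1 := finrank_span_singleton hw0
  rcases hirr.eq_bot_or_eq_top K with h | h
  · have h3 : K.toSubmodule = ⊥ := congrArg Subrepresentation.toSubmodule h
    rw [h3, finrank_bot] at h1
    exact zero_ne_one h1
  · have h3 : K.toSubmodule = ⊤ := congrArg Subrepresentation.toSubmodule h
    rw [h3, finrank_top] at h1
    omega

/-- the permutation representation on functions -/
noncomputable def pr (G X : Type*) [Group G] [MulAction G X] : Representation ℂ G (X → ℂ) where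
  toFun g := LinearMap.funLeft ℂ ℂ (fun x => g⁻¹ • x)
  map_one' := by
    ext f x
    simp [LinearMap.funLeft]
  map_mul' g h := by
    apply LinearMap.ext
    intro f
    funext x
    show f ((g * h)⁻¹ • x) = f (h⁻¹ • (g⁻¹ • x))
    rw [_root_.mul_inv_rev, mul_smul]

theorem pr_apply {G X : Type*} [Group G] [MulAction G X] (g : G) (f : X → ℂ) (x : X) : pr G X g f x = f (g⁻¹ • x) := rfl

/-- functions with sum zero -/
noncomputable def sz (X : Type*) [Fintype X] : Submodule ℂ (X → ℂ) := LinearMap.ker (∑ x : X, LinearMap.proj (R := ℂ) (φ := fun _ : X => ℂ) x)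

theorem mem_sz {X : Type*} [Fintype X] {f : X → ℂ} : f ∈ sz X ↔ ∑ x, f x = 0 := by
  rw [sz, LinearMap.mem_ker, LinearMap.sum_apply]
  rfl

theorem finrank_sz (X : Type*) [Fintype X] [Nonempty X] : finrank ℂ (sz X) + 1 = Fintype.card X := by
  classical
  have h1 := LinearMap.finrank_range_add_finrank_ker (∑ x : X, LinearMap.proj (R := ℂ) (φ := fun _ : X => ℂ) x)
  rw [Module.finrank_fintype_fun_eq_card] at h1
  have h2 : LinearMap.range (∑ x : X, LinearMap.proj (R := ℂ) (φ := fun _ : X => ℂ) x) = ⊤ := by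
    rw [LinearMap.range_eq_top]
    intro c
    obtain ⟨x0⟩ := (inferInstance : Nonempty X)
    refine ⟨Pi.single x0 c, ?_⟩
    rw [LinearMap.sum_apply]
    simp
  rw [h2, finrank_top, Module.finrank_self] at h1
  rw [sz]
  omega

noncomputable def szr (G X : Type*) [Group G] [MulAction G X] [Fintype X] : Representation ℂ G (sz X) :=
  Subrepresentation.toRepresentation (ρ := pr G X) ⟨sz X, fun g f hf => by
    rw [mem_sz] at hf ⊢
    rw [← hf]
    exact Fintype.sum_bijective (fun x => g⁻¹ • x) (MulAction.bijective g⁻¹) _ _ fun x => rfl⟩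

theorem szr_no_inv {G X : Type*} [Group G] [MulAction G X] [Fintype X] [Nonempty X] (ht : ∀ x y : X, ∃ g : G, g • x = y)
    (w : sz X) (hw : ∀ g, szr G X g w = w) : w = 0 := by
  obtain ⟨x0⟩ := (inferInstance : Nonempty X)
  have h1 : ∀ x, (w : X → ℂ) x = (w : X → ℂ) x0 := by
    intro x
    obtain ⟨g, hg⟩ := ht x x0
    have h2 : pr G X g⁻¹ (w : X → ℂ) = w := congrArg Subtype.val (hw g⁻¹)
    have h3 := congrFun h2 x
    rw [pr_apply, inv_inv, hg] at h3
    exact h3.symm
  have h4 := mem_sz.1 w.2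
  rw [Finset.sum_congr rfl fun x _ => h1 x, Finset.sum_const, nsmul_eq_mul] at h4
  have h5 : (w : X → ℂ) x0 = 0 := by
    refine (mul_eq_zero.1 h4).resolve_left (Nat.cast_ne_zero.2 ?_)
    rw [Finset.card_univ]
    exact Fintype.card_ne_zero
  apply Subtype.ext
  funext x
  rw [h1 x, h5]; rfl

theorem pt_trans {n : ℕ} (hn : 2 ≤ n) (P Q : ℙ F (Fin n → F)) : ∃ g : Matrix.SpecialLinearGroup (Fin n) F, g • P = Q := by
  obtain ⟨g, hg⟩ := sl_trans (F := F) hn P.rep_nonzero Q.rep_nonzero
  refine ⟨g, ?_⟩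
  rw [← P.mk_rep, ← Q.mk_rep, Projectivization.smul_mk, Projectivization.mk_eq_mk_iff']
  refine ⟨1, ?_⟩
  rw [one_smul]
  exact hg.symm

theorem exists_rep {m : ℕ} (hm : 1 ≤ m) (hG : Good.{u, 0} F m) (k : ℕ) (hk : k + 1 = NN F (m + 1)) :
    ∃ ρ : Representation ℂ (Matrix.SpecialLinearGroup (Fin (m + 1)) F) (Fin k → ℂ), ρ.IsIrreducible := by
  haveI : Fintype (ℙ F (Fin (m + 1) → F)) := Fintype.ofFinite _
  haveI : Nonempty (ℙ F (Fin (m + 1) → F)) := ⟨Projectivization.mk F (ee m F) ee_ne⟩
  have h1 := finrank_sz (ℙ F (Fin (m + 1) → F))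
  have h2 : finrank ℂ (sz (ℙ F (Fin (m + 1) → F))) = finrank ℂ (Fin k → ℂ) := by
    rw [Module.finrank_fintype_fun_eq_card, Fintype.card_fin]
    rw [NN, Nat.card_eq_fintype_card] at hk
    omega
  let e : sz (ℙ F (Fin (m + 1) → F)) ≃ₗ[ℂ] (Fin k → ℂ) := LinearEquiv.ofFinrankEq _ _ h2
  let ρ : Representation ℂ (Matrix.SpecialLinearGroup (Fin (m + 1)) F) (Fin k → ℂ) :=
    { toFun := fun g => e.toLinearMap ∘ₗ (szr (Matrix.SpecialLinearGroup (Fin (m + 1)) F) (ℙ F (Fin (m + 1) → F)) g) ∘ₗ e.symm.toLinearMap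
      map_one' := by
        apply LinearMap.ext
        intro x
        show e (szr _ _ 1 (e.symm x)) = x
        rw [map_one]
        exact e.apply_symm_apply x
      map_mul' := fun g h => by
        apply LinearMap.ext
        intro x
        show e (szr _ _ (g * h) (e.symm x)) = e (szr _ _ g (e.symm (e (szr _ _ h (e.symm x)))))
        rw [map_mul, e.symm_apply_apply]
        rfl }
  have hk1 : 1 ≤ k := by
    have := NN_succ F m
    have h3 : 2 ≤ Fintype.card F ^ m := le_trans Fintype.one_lt_card (Nat.le_self_pow (by omega) _)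
    omega
  refine ⟨ρ, irr_of hG ρ ?_ ?_ ?_⟩
  · rw [Module.finrank_fintype_fun_eq_card, Fintype.card_fin]; exact hk1
  · intro w hw
    have h4 : e.symm w = 0 := by
      refine szr_no_inv (G := Matrix.SpecialLinearGroup (Fin (m + 1)) F) (fun P Q => pt_trans (by omega) P Q) (e.symm w) fun g => ?_
      have h5 : e (szr _ _ g (e.symm w)) = w := hw g
      exact e.injective (h5.trans (e.apply_symm_apply w).symm)
    rw [← e.apply_symm_apply w, h4, map_zero]
  · rw [Module.finrank_fintype_fun_eq_card, Fintype.card_fin]; omega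

theorem final (n : ℕ) (hn : 3 ≤ n)
    (hex : (n, Fintype.card F) ≠ (3, 2) ∧ (n, Fintype.card F) ≠ (3, 4) ∧ (n, Fintype.card F) ≠ (4, 2) ∧ (n, Fintype.card F) ≠ (4, 3)) :
    (∀ (k : ℕ) (ρ : Representation ℂ (Matrix.SpecialLinearGroup (Fin n) F) (Fin k → ℂ)), ρ.IsIrreducible → 2 ≤ k → (Fintype.card F ^ n - Fintype.card F) / (Fintype.card F - 1) ≤ k) ∧
    (∃ ρ : Representation ℂ (Matrix.SpecialLinearGroup (Fin n) F) (Fin ((Fintype.card F ^ n - Fintype.card F) / (Fintype.card F - 1)) → ℂ), ρ.IsIrreducible) := by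
  obtain ⟨p, rfl⟩ : ∃ p, n = p + 1 + 1 := ⟨n - 2, by omega⟩
  simp only [ne_eq, Prod.mk.injEq] at hex
  have hG : Good.{u, 0} F (p + 1) := good p (fun h => ⟨fun h2 => hex.1 ⟨by omega, h2⟩, fun h2 => hex.2.1 ⟨by omega, h2⟩⟩)
    (fun h => ⟨fun h2 => hex.2.2.1 ⟨by omega, h2⟩, fun h2 => hex.2.2.2 ⟨by omega, h2⟩⟩) (by omega)
  have hq : 2 ≤ Fintype.card F := Fintype.one_lt_card
  have hN : (Fintype.card F ^ (p + 1 + 1) - Fintype.card F) / (Fintype.card F - 1) + 1 = NN F (p + 1 + 1) := by
    have h1 := NN_mul F (p + 1 + 1)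
    have h2 := NN_succ' F (p + 1)
    have h3 : Fintype.card F ^ (p + 1 + 1) - Fintype.card F = (NN F (p + 1 + 1) - 1) * (Fintype.card F - 1) := by
      obtain ⟨q', hq'⟩ : ∃ q', Fintype.card F = q' + 1 := ⟨Fintype.card F - 1, by omega⟩
      obtain ⟨N', hN'⟩ : ∃ N', NN F (p + 1 + 1) = N' + 1 := ⟨_, h2⟩
      rw [hN'] at h1 ⊢
      rw [hq'] at h1 ⊢
      rw [Nat.add_sub_cancel, Nat.add_sub_cancel]
      have : (q' + 1) ^ (p + 1 + 1) = N' * q' + (q' + 1) := by nlinarith
      rw [this, Nat.add_sub_cancel]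
    rw [h3, Nat.mul_div_cancel _ (by omega)]
    omega
  constructor
  · intro k ρ hirr hk
    have h1 := hG (Fin k → ℂ) ρ (by rw [Module.finrank_fintype_fun_eq_card, Fintype.card_fin]; omega)
      (fun w hw => no_inv_of_irr ρ hirr (by rw [Module.finrank_fintype_fun_eq_card, Fintype.card_fin]; exact hk) w hw)
    rw [Module.finrank_fintype_fun_eq_card, Fintype.card_fin] at h1
    omega
  · exact exists_rep (by omega) hG _ hN

end Cfsg.Agent.H11.WL
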