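import Mathlib
import Cfsg.Agent.H16.LSBnd2
import Cfsg.Agent.H5.SpSimple
import Cfsg.Agent.H11.WL6

set_option autoImplicit false
set_option linter.all false

/-! Smallest degree of `Sp_2n(q)`, `q` odd: the lower bound. -/

namespace Cfsg.Agent.H11.WS

open Matrix Cfsg.Agent.H16.LSB Cfsg.Agent.H5 Module

section orb

variable {F : Type*} [Field F] [Fintype F] [DecidableEq F] {k : ℕ}

/-- the congruence orbit of a matrix -/
def Orb (w : Matrix (Fin (k + 1)) (Fin (k + 1)) F) (M : Matrix (Fin (k + 1)) (Fin (k + 1)) F) : Prop :=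
  ∃ B B' : Matrix (Fin (k + 1)) (Fin (k + 1)) F, B * B' = 1 ∧ M = Bᵀ * w * B

theorem Orb.trans {w M N : Matrix (Fin (k + 1)) (Fin (k + 1)) F} (h1 : Orb w M) (h2 : Orb M N) : Orb w N := by
  obtain ⟨B, B', hB, rfl⟩ := h1
  obtain ⟨C, C', hC, rfl⟩ := h2
  refine ⟨B * C, C' * B', ?_, ?_⟩
  · rw [Matrix.mul_assoc, ← Matrix.mul_assoc C, hC, Matrix.one_mul, hB]
  · rw [transpose_mul]; simp only [Matrix.mul_assoc]

theorem orb_of_sl {w : Matrix (Fin (k + 1)) (Fin (k + 1)) F} (g : Matrix.SpecialLinearGroup (Fin (k + 1)) F) :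
    Orb w ((g : Matrix (Fin (k + 1)) (Fin (k + 1)) F)ᵀ * w * (g : Matrix (Fin (k + 1)) (Fin (k + 1)) F)) :=
  ⟨g, (g⁻¹ : Matrix.SpecialLinearGroup (Fin (k + 1)) F),
    (Matrix.SpecialLinearGroup.coe_mul g g⁻¹).symm.trans (by rw [mul_inv_cancel, Matrix.SpecialLinearGroup.coe_one]), rfl⟩

/-- rank one forms -/
theorem orb_rank_one (hk : 1 ≤ k) {a : F} (ha : a ≠ 0) {u : Fin (k + 1) → F} (hu : u ≠ 0) {x : Fin (k + 1) → F} (hx : x ≠ 0) :
    Orb (a • vecMulVec u u) (a • vecMulVec x x) := by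
  obtain ⟨g, hg⟩ := WL.sl_trans (F := F) (n := k + 1) (by omega) hu hx
  refine ⟨(g : Matrix (Fin (k + 1)) (Fin (k + 1)) F)ᵀ, ((g⁻¹ : Matrix.SpecialLinearGroup (Fin (k + 1)) F) : Matrix (Fin (k + 1)) (Fin (k + 1)) F)ᵀ, ?_, ?_⟩
  · rw [← transpose_mul]
    have : ((g⁻¹ : Matrix.SpecialLinearGroup (Fin (k + 1)) F) : Matrix (Fin (k + 1)) (Fin (k + 1)) F) * (g : Matrix (Fin (k + 1)) (Fin (k + 1)) F) = 1 :=
      (Matrix.SpecialLinearGroup.coe_mul g⁻¹ g).symm.trans (by rw [inv_mul_cancel, Matrix.SpecialLinearGroup.coe_one])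
    rw [this, transpose_one]
  · rw [transpose_transpose, Matrix.mul_smul, Matrix.smul_mul, mul_vecMulVec, vecMulVec_mul, vecMul_transpose, hg]

/-- if `w` represents every nonzero scalar then the orbit contains matrices with any first row with nonzero first entry -/
theorem orb_row (hk : 1 ≤ k) {w : Matrix (Fin (k + 1)) (Fin (k + 1)) F} (hsym : wᵀ = w) (hrep : ∀ s : F, s ≠ 0 → ∃ x : Fin (k + 1) → F, x ⬝ᵥ (w *ᵥ x) = s)
    {r : Fin (k + 1) → F} (hr : r 0 ≠ 0) : ∃ M, Orb w M ∧ M 0 = r := by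
  obtain ⟨x, hx⟩ := hrep (r 0) hr
  have hx0 : x ≠ 0 := by
    rintro rfl
    apply hr
    rw [← hx, zero_dotProduct]
  obtain ⟨g, hg⟩ := WL.sl_trans (F := F) (n := k + 1) (by omega) (x := Pi.single 0 1) (y := x) (by simp) hx0
  set G := (g : Matrix (Fin (k + 1)) (Fin (k + 1)) F) with hG
  set w1 := Gᵀ * w * G with hw1
  have h00 : w1 0 0 = r 0 := by
    have h1 : w1 0 0 = (Pi.single 0 1 : Fin (k + 1) → F) ⬝ᵥ (w1 *ᵥ Pi.single 0 1) := by simp
    rw [h1, hw1, ← mulVec_mulVec, ← mulVec_mulVec, hg, dotProduct_mulVec, vecMul_transpose, hg, hx]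
  set y : Fin (k + 1) → F := fun j => (r j - w1 0 j) / r 0 with hy
  have hy0 : y 0 = 0 := by rw [hy]; simp [h00]
  set B : Matrix (Fin (k + 1)) (Fin (k + 1)) F := 1 + vecMulVec (Pi.single 0 1) y with hB
  have hnil : vecMulVec (Pi.single 0 1 : Fin (k + 1) → F) y * vecMulVec (Pi.single 0 1 : Fin (k + 1) → F) y = 0 := by
    rw [vecMulVec_mul_vecMulVec]
    simp [hy0]
  refine ⟨Bᵀ * w1 * B, (orb_of_sl g).trans ⟨B, 1 - vecMulVec (Pi.single 0 1) y, ?_, rfl⟩, ?_⟩
  · rw [hB, Matrix.mul_sub, Matrix.mul_one, Matrix.add_mul, Matrix.one_mul, hnil]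
    abel
  · funext j
    have h2 : (Bᵀ * w1 * B) 0 j = (B *ᵥ Pi.single 0 1) ⬝ᵥ (w1 *ᵥ (B *ᵥ Pi.single j 1)) := by
      have h3 : (Bᵀ * w1 * B) 0 j = (Pi.single 0 1 : Fin (k + 1) → F) ⬝ᵥ ((Bᵀ * w1 * B) *ᵥ Pi.single j 1) := by simp
      rw [h3, ← mulVec_mulVec, ← mulVec_mulVec, dotProduct_mulVec, vecMul_transpose]
    have h4 : ∀ j, B *ᵥ (Pi.single j 1 : Fin (k + 1) → F) = Pi.single j 1 + y j • Pi.single 0 1 := by
      intro j
      rw [hB, add_mulVec, one_mulVec, vecMulVec_mulVec]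
      congr 1
      ext i; simp [mul_comm]
    rw [h2, h4, h4, hy0, zero_smul, add_zero, mulVec_add, mulVec_smul, dotProduct_add, dotProduct_smul]
    have h5 : ∀ i j : Fin (k + 1), (Pi.single i 1 : Fin (k + 1) → F) ⬝ᵥ (w1 *ᵥ Pi.single j 1) = w1 i j := by
      intro i j; simp
    rw [h5, h5, h00, smul_eq_mul, hy]
    field_simp
    ring

/-- a symmetric form is of rank one or represents everything -/
theorem rep_or_rank_one (hodd : Odd (Fintype.card F)) (h2 : (2 : F) ≠ 0) {w : Matrix (Fin (k + 1)) (Fin (k + 1)) F} (hsym : wᵀ = w) (hw : w ≠ 0) :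
    (∃ (a : F) (u : Fin (k + 1) → F), a ≠ 0 ∧ u ≠ 0 ∧ w = a • vecMulVec u u) ∨ ∀ s : F, s ≠ 0 → ∃ x : Fin (k + 1) → F, x ⬝ᵥ (w *ᵥ x) = s := by
  have hsw : ∀ x y, x ⬝ᵥ (w *ᵥ y) = y ⬝ᵥ (w *ᵥ x) := by
    intro x y
    rw [dotProduct_comm x, ← hsym, mulVec_transpose, ← dotProduct_mulVec, hsym]
  have hpol : ∀ x y : Fin (k + 1) → F, (x + y) ⬝ᵥ (w *ᵥ (x + y)) = x ⬝ᵥ (w *ᵥ x) + 2 * (x ⬝ᵥ (w *ᵥ y)) + y ⬝ᵥ (w *ᵥ y) := by
    intro x y
    rw [mulVec_add, add_dotProduct, dotProduct_add, dotProduct_add, hsw y x]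
    ring
  obtain ⟨x1, hx1⟩ : ∃ x1 : Fin (k + 1) → F, x1 ⬝ᵥ (w *ᵥ x1) ≠ 0 := by
    by_contra hcon
    push Not at hcon
    apply hw
    ext i j
    have h3 := hpol (Pi.single i 1) (Pi.single j 1)
    rw [hcon, hcon, hcon, zero_add, add_zero] at h3
    have h4 := (mul_eq_zero.1 h3.symm).resolve_left h2
    simpa using h4
  set a := x1 ⬝ᵥ (w *ᵥ x1) with ha
  by_cases hex : ∃ x2 : Fin (k + 1) → F, x1 ⬝ᵥ (w *ᵥ x2) = 0 ∧ x2 ⬝ᵥ (w *ᵥ x2) ≠ 0
  · right
    obtain ⟨x2, h12, h22⟩ := hex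
    intro s hs
    set b := x2 ⬝ᵥ (w *ᵥ x2) with hb
    haveI : DecidableEq F := inferInstance
    obtain ⟨α, γ, hαγ⟩ := FiniteField.exists_root_sum_quadratic (R := F) (f := Polynomial.C a * Polynomial.X ^ 2) (g := Polynomial.C b * Polynomial.X ^ 2 - Polynomial.C s)
      (by rw [Polynomial.degree_C_mul_X_pow 2 hx1]; rfl)
      (by
        rw [Polynomial.degree_sub_C (by rw [Polynomial.degree_C_mul_X_pow 2 h22]; norm_num)]
        rw [Polynomial.degree_C_mul_X_pow 2 h22]; rfl)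
      (Nat.odd_iff.1 hodd)
    refine ⟨α • x1 + γ • x2, ?_⟩
    rw [hpol, mulVec_smul, mulVec_smul, dotProduct_smul, smul_dotProduct, dotProduct_smul, smul_dotProduct, dotProduct_smul, h12, smul_dotProduct]
    simp only [Polynomial.eval_mul, Polynomial.eval_C, Polynomial.eval_pow, Polynomial.eval_X, Polynomial.eval_sub] at hαγ
    simp only [smul_eq_mul]
    rw [← ha, ← hb]
    linear_combination hαγ
  · left
    push Not at hex
    refine ⟨a⁻¹, w *ᵥ x1, inv_ne_zero hx1, ?_, ?_⟩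
    · intro h
      apply hx1
      rw [ha, h, dotProduct_zero]
    · -- on the orthogonal complement of x1 the form vanishes
      have hz : ∀ y z : Fin (k + 1) → F, x1 ⬝ᵥ (w *ᵥ y) = 0 → x1 ⬝ᵥ (w *ᵥ z) = 0 → y ⬝ᵥ (w *ᵥ z) = 0 := by
        intro y z hy hz
        have h3 := hpol y z
        rw [hex y hy, hex z hz, hex (y + z) (by rw [mulVec_add, dotProduct_add, hy, hz, add_zero]), zero_add, add_zero] at h3
        exact (mul_eq_zero.1 h3.symm).resolve_left h2
      have hcomp : ∀ y : Fin (k + 1) → F, x1 ⬝ᵥ (w *ᵥ (y - (a⁻¹ * (x1 ⬝ᵥ (w *ᵥ y))) • x1)) = 0 := by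
        intro y
        rw [mulVec_sub, dotProduct_sub, mulVec_smul, dotProduct_smul, ← ha, smul_eq_mul]
        field_simp
        ring
      ext i j
      have h3 := hz _ _ (hcomp (Pi.single i 1)) (hcomp (Pi.single j 1))
      rw [sub_dotProduct, smul_dotProduct, hcomp, smul_zero, sub_zero, mulVec_sub, dotProduct_sub, mulVec_smul, dotProduct_smul, hsw (Pi.single i 1) x1] at h3
      have h4 : (Pi.single i 1 : Fin (k + 1) → F) ⬝ᵥ (w *ᵥ Pi.single j 1) = w i j := by simp
      have h5 : ∀ i, x1 ⬝ᵥ (w *ᵥ Pi.single i 1) = (w *ᵥ x1) i := by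
        intro i
        rw [hsw]; simp
      rw [h4, h5, h5] at h3
      rw [Matrix.smul_apply, vecMulVec_apply, smul_eq_mul]
      rw [smul_eq_mul] at h3
      linear_combination h3

theorem two_ne {F : Type*} [Field F] [Fintype F] (hodd : Odd (Fintype.card F)) : (2 : F) ≠ 0 := by
  apply Ring.two_ne_zero
  intro h
  have := FiniteField.even_card_iff_char_two.1 h
  rw [Nat.odd_iff] at hodd
  omega

open Classical in
/-- size of the congruence orbit of a nonzero symmetric matrix -/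
theorem orb_card (hodd : Odd (Fintype.card F)) (hk : 1 ≤ k) {w : Matrix (Fin (k + 1)) (Fin (k + 1)) F} (hsym : wᵀ = w) (hw : w ≠ 0) :
    (Fintype.card F ^ (k + 1) - 1) / 2 ≤ (Finset.univ.filter fun M => Orb w M).card := by
  have h2 := two_ne hodd
  have hq : 2 ≤ Fintype.card F := Fintype.one_lt_card
  rcases rep_or_rank_one hodd h2 hsym hw with ⟨a, u, ha, hu, rfl⟩ | hrep
  · have h1 : (Finset.univ.filter fun x : Fin (k + 1) → F => x ≠ 0).card ≤ 2 * ((Finset.univ.filter fun x : Fin (k + 1) → F => x ≠ 0).image fun x => a • vecMulVec x x).card := by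
      apply Finset.card_le_mul_card_image
      intro M hM
      rw [Finset.mem_image] at hM
      obtain ⟨x, hx, rfl⟩ := hM
      have hx0 : x ≠ 0 := (Finset.mem_filter.1 hx).2
      have h3 : (Finset.univ.filter fun x : Fin (k + 1) → F => x ≠ 0).filter (fun y => a • vecMulVec y y = a • vecMulVec x x) ⊆ {x, -x} := by
        intro y hy
        rw [Finset.mem_filter] at hy
        have h4 : ∀ i j, y i * y j = x i * x j := by
          intro i j
          have := congrFun (congrFun hy.2 i) j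
          simp only [Matrix.smul_apply, vecMulVec_apply, smul_eq_mul] at this
          exact mul_left_cancel₀ ha this
        obtain ⟨i, hi⟩ := Function.ne_iff.1 hx0
        rw [Finset.mem_insert, Finset.mem_singleton]
        have h5 : y i = x i ∨ y i = -x i := by
          have := h4 i i
          rw [← sq, ← sq] at this
          exact sq_eq_sq_iff_eq_or_eq_neg.1 this
        rcases h5 with h5 | h5
        · left
          funext j
          have := h4 i j
          rw [h5] at this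
          exact mul_left_cancel₀ hi this
        · right
          funext j
          have := h4 i j
          rw [h5, neg_mul] at this
          have h6 : x i * y j = x i * (-x j) := by linear_combination -this
          exact mul_left_cancel₀ hi h6
      exact (Finset.card_le_card h3).trans Finset.card_le_two
    have h5 : (Finset.univ.filter fun x : Fin (k + 1) → F => x ≠ 0).card = Fintype.card F ^ (k + 1) - 1 := by
      rw [Finset.filter_ne', Finset.card_erase_of_mem (Finset.mem_univ _), Finset.card_univ, Fintype.card_fun, Fintype.card_fin]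
    rw [h5] at h1
    have h6 : ((Finset.univ.filter fun x : Fin (k + 1) → F => x ≠ 0).image fun x => a • vecMulVec x x) ⊆ (Finset.univ.filter fun M => Orb (a • vecMulVec u u) M) := by
      intro M hM
      rw [Finset.mem_image] at hM
      obtain ⟨x, hx, rfl⟩ := hM
      rw [Finset.mem_filter] at hx ⊢
      exact ⟨Finset.mem_univ _, orb_rank_one hk ha hu hx.2⟩
    have h7 := Finset.card_le_card h6
    omega
  · have h1 : ∀ r : {r : Fin (k + 1) → F // r 0 ≠ 0}, ∃ M, Orb w M ∧ M 0 = r.1 := fun r => orb_row hk hsym hrep r.2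
    choose M hM hMr using h1
    have h3 : Fintype.card {r : Fin (k + 1) → F // r 0 ≠ 0} ≤ (Finset.univ.filter fun M => Orb w M).card := by
      rw [← Fintype.card_coe]
      refine Fintype.card_le_of_injective (fun r => ⟨M r, by rw [Finset.mem_filter]; exact ⟨Finset.mem_univ _, hM r⟩⟩) ?_
      intro r s hrs
      have h4 : M r = M s := congrArg Subtype.val hrs
      apply Subtype.ext
      rw [← hMr r, ← hMr s, h4]
    have h5 : (Fintype.card F - 1) * Fintype.card F ^ k ≤ Fintype.card {r : Fin (k + 1) → F // r 0 ≠ 0} := by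
      have h6 : Fintype.card ({c : F // c ≠ 0} × (Fin k → F)) = (Fintype.card F - 1) * Fintype.card F ^ k := by
        rw [Fintype.card_prod, Fintype.card_fun, Fintype.card_fin]
        congr 1
        exact Set.card_ne_eq (0 : F)
      rw [← h6]
      refine Fintype.card_le_of_injective (fun s => ⟨Fin.cons s.1.1 s.2, s.1.2⟩) ?_
      rintro ⟨⟨a, ha⟩, b⟩ ⟨⟨c, hc⟩, d⟩ h
      have h7 : (Fin.cons a b : Fin (k + 1) → F) = Fin.cons c d := congrArg Subtype.val h
      rw [Fin.cons_inj] at h7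
      exact Prod.ext (Subtype.ext h7.1) h7.2
    have h8 : Fintype.card F ^ (k + 1) ≤ 2 * ((Fintype.card F - 1) * Fintype.card F ^ k) := by
      rw [pow_succ, mul_comm, ← mul_assoc]
      exact Nat.mul_le_mul_right _ (by omega)
    omega

end orb

end Cfsg.Agent.H11.WS
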