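import Mathlib
import Cfsg.Agent.H11.WS1

set_option autoImplicit false
set_option linter.all false

/-! Smallest degree of `Sp_2n(q)`, `q` odd: representations. -/

namespace Cfsg.Agent.H11.WS

open Matrix Cfsg.Agent.H16.LSB Cfsg.Agent.H5 Module

variable {F : Type*} [Field F] {n : ℕ}

def mt (v : Fin n × Fin n → F) : Matrix (Fin n) (Fin n) F := Matrix.of fun i j => v (i, j)
def um (M : Matrix (Fin n) (Fin n) F) : Fin n × Fin n → F := fun p => M p.1 p.2

theorem mt_um (M : Matrix (Fin n) (Fin n) F) : mt (um M) = M := rfl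
theorem um_mt (v : Fin n × Fin n → F) : um (mt v) = v := rfl

theorem um_dot (A B : Matrix (Fin n) (Fin n) F) : um A ⬝ᵥ um B = (Aᵀ * B).trace := by
  rw [dotProduct, Fintype.sum_prod_type, Finset.sum_comm, Matrix.trace]
  refine Finset.sum_congr rfl fun i _ => ?_
  rw [diag_apply, Matrix.mul_apply]
  rfl

theorem sym_add (M : Matrix (Fin n) (Fin n) F) : (M + Mᵀ)ᵀ = M + Mᵀ := by
  rw [transpose_add, transpose_transpose, add_comm]

theorem NS_congr {S S' : Matrix (Fin n) (Fin n) F} (h : S = S') (hS : Sᵀ = S) (hS' : S'ᵀ = S') : NS S hS = NS S' hS' := by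
  subst h; rfl

variable {V : Type*} [AddCommGroup V] [Module ℂ V]

/-- the radical acts through all matrices -/
noncomputable def TT (ρ : Representation ℂ (Matrix.symplecticGroup (Fin n) F) V) (v : Fin n × Fin n → F) : Module.End ℂ V :=
  ρ (NS (mt v + (mt v)ᵀ) (sym_add _))

theorem TT_zero (ρ : Representation ℂ (Matrix.symplecticGroup (Fin n) F) V) : TT ρ 0 = 1 := by
  have : NS (mt (0 : Fin n × Fin n → F) + (mt (0 : Fin n × Fin n → F))ᵀ) (sym_add _) = 1 := by
    apply Subtype.ext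
    show fromBlocks 1 _ 0 1 = 1
    have : mt (0 : Fin n × Fin n → F) = 0 := rfl
    rw [this, transpose_zero, add_zero, fromBlocks_one]
  rw [TT, this, map_one]

theorem TT_add (ρ : Representation ℂ (Matrix.symplecticGroup (Fin n) F) V) (v w : Fin n × Fin n → F) : TT ρ (v + w) = TT ρ v * TT ρ w := by
  have h : mt v + (mt v)ᵀ + (mt w + (mt w)ᵀ) = mt (v + w) + (mt (v + w))ᵀ := by
    have : mt (v + w) = mt v + mt w := rfl
    rw [this, transpose_add]; abel
  rw [TT, TT, TT, ← map_mul, NS_mul _ _ _ _ (by rw [h]; exact sym_add _)]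
  congr 1
  exact NS_congr h.symm _ _

variable [Fintype F] [DecidableEq F] [FiniteDimensional ℂ V] {k : ℕ}

/-- the lower bound when the radical acts nontrivially -/
theorem lower (hodd : Odd (Fintype.card F)) (hk : 1 ≤ k) (ρ : Representation ℂ (Matrix.symplecticGroup (Fin (k + 1)) F) V)
    (hne : ∃ S : Matrix (Fin (k + 1)) (Fin (k + 1)) F, ∃ hS : Sᵀ = S, ρ (NS S hS) ≠ 1) : (Fintype.card F ^ (k + 1) - 1) / 2 ≤ finrank ℂ V := by
  classical
  have h2 := two_ne hodd
  have hL : (Fintype.card F : ℂ) ≠ 0 := Nat.cast_ne_zero.2 Fintype.card_ne_zero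
  obtain ⟨S, hS, hSne⟩ := hne
  have hv0 : TT ρ (um ((2 : F)⁻¹ • S)) ≠ 1 := by
    intro h
    apply hSne
    rw [← h, TT]
    congr 1
    apply NS_congr
    rw [mt_um, transpose_smul, hS, ← add_smul]
    have : (2 : F)⁻¹ + 2⁻¹ = 1 := by field_simp; norm_num
    rw [this, one_smul]
  obtain ⟨ψ, w, hψ1, hψw, x, hx0, hx⟩ := exists_weight hL (TT ρ) (TT_zero ρ) (TT_add ρ) _ hv0
  have hw : mt w ≠ 0 := by
    intro h
    apply hψw
    have : w = 0 := by rw [← um_mt w, h]; rfl
    rw [this, zero_dotProduct, AddChar.map_zero_eq_one]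
  have hsym : (mt w)ᵀ = mt w := by
    ext i j
    by_contra hne
    have h3 : ∀ M : Matrix (Fin (k + 1)) (Fin (k + 1)) F, ψ (w ⬝ᵥ um M) = ψ (w ⬝ᵥ um Mᵀ) := by
      intro M
      have h4 : TT ρ (um M) = TT ρ (um Mᵀ) := by
        rw [TT, TT]
        congr 1
        apply NS_congr
        rw [mt_um, mt_um, transpose_transpose]
        exact add_comm M Mᵀ
      have h5 : ψ (w ⬝ᵥ um M) • x = ψ (w ⬝ᵥ um Mᵀ) • x := by rw [← hx, ← hx, h4]
      exact smul_left_injective ℂ hx0 h5
    have h6 : ∀ c : F, ψ (c * w (i, j)) = ψ (c * w (j, i)) := by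
      intro c
      have h7 := h3 (Matrix.single i j c)
      have h8 : ∀ i j, w ⬝ᵥ um (Matrix.single i j c) = c * w (i, j) := by
        intro i j
        rw [← um_mt w, um_dot, ← transpose_single, ← transpose_mul, trace_transpose, trace_single_mul]
        rfl
      rw [transpose_single, h8, h8] at h7
      exact h7
    have h9 : w (i, j) - w (j, i) ≠ 0 := by
      intro h
      apply hne
      show w (j, i) = w (i, j)
      exact (sub_eq_zero.1 h).symm
    apply hψ1
    have h10 := h6 (w (i, j) - w (j, i))⁻¹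
    have h11 : (1 : F) = (w (i, j) - w (j, i))⁻¹ * w (i, j) + -((w (i, j) - w (j, i))⁻¹ * w (j, i)) := by
      rw [← sub_eq_add_neg, ← mul_sub, inv_mul_cancel₀ h9]
    rw [h11, AddChar.map_add_eq_mul, h10, ← AddChar.map_add_eq_mul, add_neg_cancel, AddChar.map_zero_eq_one]
  refine (orb_card hodd hk hsym hw).trans ?_
  rw [← Fintype.card_coe]
  refine card_le_of_weights hL (TT ρ) (TT_zero ρ) (TT_add ρ) ψ hψ1 (fun M => um M.1) ?_ ?_
  · intro M N h
    apply Subtype.ext
    have h' : um M.1 = um N.1 := h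
    exact (mt_um M.1).symm.trans ((congrArg mt h').trans (mt_um N.1))
  · rintro ⟨M, hM⟩
    obtain ⟨B, B', hB, rfl⟩ := (Finset.mem_filter.1 hM).2
    have hinv : ρ (MA B B' hB) * ρ ((MA B B' hB)⁻¹) = 1 := by rw [← map_mul, mul_inv_cancel, map_one]
    refine ⟨ρ ((MA B B' hB)⁻¹) x, ?_, ?_⟩
    · intro h
      apply hx0
      have := congrArg (ρ (MA B B' hB)) h
      rwa [← Module.End.mul_apply, hinv, map_zero] at this
    · intro v
      have h8 : B * (mt v + (mt v)ᵀ) * Bᵀ = mt (um (B * mt v * Bᵀ)) + (mt (um (B * mt v * Bᵀ)))ᵀ := by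
        rw [mt_um, Matrix.mul_add, Matrix.add_mul, transpose_mul, transpose_mul, transpose_transpose, Matrix.mul_assoc B (mt v)ᵀ]
      have h9 : NS (mt (um (B * mt v * Bᵀ)) + (mt (um (B * mt v * Bᵀ)))ᵀ) (sym_add _) * MA B B' hB = MA B B' hB * NS (mt v + (mt v)ᵀ) (sym_add _) := by
        rw [← MA_NS B B' _ hB (sym_add _) (by rw [h8]; exact sym_add _)]
        congr 1
        exact NS_congr h8.symm _ _
      have h10 : NS (mt v + (mt v)ᵀ) (sym_add _) * (MA B B' hB)⁻¹ = (MA B B' hB)⁻¹ * NS (mt (um (B * mt v * Bᵀ)) + (mt (um (B * mt v * Bᵀ)))ᵀ) (sym_add _) := by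
        rw [eq_inv_mul_iff_mul_eq, ← mul_assoc, ← h9, mul_inv_cancel_right]
      show ρ (NS (mt v + (mt v)ᵀ) (sym_add _)) (ρ ((MA B B' hB)⁻¹) x) = _
      rw [← Module.End.mul_apply, ← map_mul, h10, map_mul, Module.End.mul_apply]
      have h11 : ρ (NS (mt (um (B * mt v * Bᵀ)) + (mt (um (B * mt v * Bᵀ)))ᵀ) (sym_add _)) x = ψ (w ⬝ᵥ um (B * mt v * Bᵀ)) • x := hx _
      rw [h11, map_smul]
      congr 2
      show w ⬝ᵥ _ = um (Bᵀ * mt w * B) ⬝ᵥ v
      have h12 : ((mt w)ᵀ * (B * mt v * Bᵀ)).trace = ((Bᵀ * mt w * B)ᵀ * mt v).trace := by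
        rw [transpose_mul, transpose_mul, transpose_transpose, ← Matrix.mul_assoc (mt w)ᵀ (B * mt v) Bᵀ, trace_mul_comm _ Bᵀ]
        simp only [Matrix.mul_assoc]
      have h13 := um_dot (mt w) (B * mt v * Bᵀ)
      have h14 := um_dot (Bᵀ * mt w * B) (mt v)
      rw [um_mt] at h13 h14
      rw [h13, h14, h12]

/-- if the radical acts trivially, then the whole group does -/
theorem triv (ρ : Representation ℂ (Matrix.symplecticGroup (Fin (k + 1)) F) V)
    (h : ∀ (S : Matrix (Fin (k + 1)) (Fin (k + 1)) F) (hS : Sᵀ = S), ρ (NS S hS) = 1) (g : Matrix.symplecticGroup (Fin (k + 1)) F) : ρ g = 1 := by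
  have hg : g ∈ spTgroup (k + 1) F := by rw [spTgroup_eq_top]; trivial
  have hw0 : (Sum.elim (Pi.single 0 1) 0 : Fin (k + 1) ⊕ Fin (k + 1) → F) ≠ 0 := by
    intro h0
    have := congrFun h0 (Sum.inl 0)
    simp at this
  induction hg using Subgroup.closure_induction with
  | mem x hx =>
    obtain ⟨w, c, hw⟩ := hx
    have hxT : x = spT w c := Subtype.ext hw
    rw [hxT]
    rcases eq_or_ne w 0 with rfl | hwn
    · have : spT (0 : Fin (k + 1) ⊕ Fin (k + 1) → F) c = 1 := by
        apply sp_ext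
        intro x
        rw [spT_mulVec, smul_zero, add_zero]
        exact (one_mulVec x).symm
      rw [this, map_one]
    · obtain ⟨A, hA⟩ := sp_trans hw0 hwn
      have hS : (c • vecMulVec (Pi.single 0 1 : Fin (k + 1) → F) (Pi.single 0 1))ᵀ = c • vecMulVec (Pi.single 0 1 : Fin (k + 1) → F) (Pi.single 0 1) := by
        rw [transpose_smul, transpose_vecMulVec]
      have h1 : ρ (spT (Sum.elim (Pi.single 0 1) 0 : Fin (k + 1) ⊕ Fin (k + 1) → F) c) = 1 := by
        rw [← h _ hS]
        congr 1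
        apply Subtype.ext
        show Cfsg.sympTransvection (k + 1) _ c = fromBlocks 1 _ 0 1
        ext i j
        rcases i with i | i <;> rcases j with j | j <;>
          simp [Cfsg.sympTransvection, Matrix.J, Matrix.fromBlocks_mulVec, vecMulVec_apply, Matrix.one_apply]
        by_cases hi : i = 0 <;> by_cases hj : j = 0 <;> simp [hi, hj, Pi.single_apply]
      rw [← hA, ← spT_conj, map_mul, map_mul, h1, mul_one, ← map_mul, mul_inv_cancel, map_one]
  | one => exact map_one ρ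
  | mul x y _ _ hx hy => rw [map_mul, hx, hy, mul_one]
  | inv x _ hx =>
    have : ρ x⁻¹ * ρ x = 1 := by rw [← map_mul, inv_mul_cancel, map_one]
    rwa [hx, mul_one] at this

end Cfsg.Agent.H11.WS
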