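import Mathlib
import Cfsg.Agent.H11.WL2
import Cfsg.Agent.H5.SpSimple

set_option autoImplicit false
set_option linter.all false

/-! Weyl operators and their intertwiners. -/

namespace Cfsg.Agent.H11.WS

open Matrix Cfsg.Agent.H5 Module Cfsg.Agent.H11.WL

variable {F : Type*} [Field F] [Fintype F] [DecidableEq F] {n : ℕ}

theorem sB (u v : Fin n ⊕ Fin n → F) : sympB n F u v = (u ∘ Sum.inr) ⬝ᵥ (v ∘ Sum.inl) - (u ∘ Sum.inl) ⬝ᵥ (v ∘ Sum.inr) := by
  rw [sympB_apply, sympForm_eq, Finset.sum_sub_distrib]; rfl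

/-- Weyl operators -/
noncomputable def U (v : Fin n ⊕ Fin n → F) : Module.End ℂ ((Fin n → F) → ℂ) where
  toFun f x := psi F ((v ∘ Sum.inr) ⬝ᵥ x + (2 : F)⁻¹ * ((v ∘ Sum.inl) ⬝ᵥ (v ∘ Sum.inr))) * f (x + v ∘ Sum.inl)
  map_add' f g := by funext x; simp [mul_add]
  map_smul' c f := by funext x; simp; ring

theorem U_apply (v : Fin n ⊕ Fin n → F) (f : (Fin n → F) → ℂ) (x : Fin n → F) :
    U v f x = psi F ((v ∘ Sum.inr) ⬝ᵥ x + (2 : F)⁻¹ * ((v ∘ Sum.inl) ⬝ᵥ (v ∘ Sum.inr))) * f (x + v ∘ Sum.inl) := rfl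

/-- the cocycle -/
noncomputable def ka (v w : Fin n ⊕ Fin n → F) : ℂ := psi F ((2 : F)⁻¹ * sympB n F w v)

theorem U_mul (h2 : (2 : F) ≠ 0) (v w : Fin n ⊕ Fin n → F) : U v * U w = ka v w • U (v + w) := by
  apply LinearMap.ext
  intro f
  funext x
  show U v (U w f) x = ka v w * U (v + w) f x
  rw [U_apply, U_apply, U_apply, ka]
  have h1 : (v + w) ∘ Sum.inr = v ∘ Sum.inr + w ∘ Sum.inr := rfl
  have h3 : (v + w) ∘ Sum.inl = v ∘ Sum.inl + w ∘ Sum.inl := rfl
  rw [← mul_assoc, ← mul_assoc, ← AddChar.map_add_eq_mul, ← AddChar.map_add_eq_mul, h1, h3, sB, add_assoc x]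
  congr 2
  simp only [add_dotProduct, dotProduct_add]
  rw [dotProduct_comm (w ∘ Sum.inl) (v ∘ Sum.inr), dotProduct_comm (w ∘ Sum.inr) (v ∘ Sum.inl)]
  field_simp
  ring

theorem U_zero : U (0 : Fin n ⊕ Fin n → F) = 1 := by
  apply LinearMap.ext
  intro f
  funext x
  rw [U_apply]
  have h1 : (0 : Fin n ⊕ Fin n → F) ∘ Sum.inr = 0 := rfl
  have h3 : (0 : Fin n ⊕ Fin n → F) ∘ Sum.inl = 0 := rfl
  rw [h1, h3]
  simp

theorem trace_fun {ι : Type*} [Fintype ι] [DecidableEq ι] (f : Module.End ℂ (ι → ℂ)) : LinearMap.trace ℂ (ι → ℂ) f = ∑ i, f (Pi.single i 1) i := by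
  rw [LinearMap.trace_eq_matrix_trace ℂ (Pi.basisFun ℂ ι)]
  simp [Matrix.trace, LinearMap.toMatrix_apply]

theorem trace_U (v : Fin n ⊕ Fin n → F) : LinearMap.trace ℂ ((Fin n → F) → ℂ) (U v) = if v = 0 then (Fintype.card F : ℂ) ^ n else 0 := by
  rw [trace_fun]
  by_cases ha : v ∘ Sum.inl = 0
  · have h1 : ∀ x : Fin n → F, U v (Pi.single x 1) x = psi F ((v ∘ Sum.inr) ⬝ᵥ x) := by
      intro x
      rw [U_apply, ha]
      simp
    rw [Finset.sum_congr rfl fun x _ => h1 x, sum_psi]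
    by_cases hb : v ∘ Sum.inr = 0
    · have : v = 0 := by
        funext i
        rcases i with i | i
        · exact congrFun ha i
        · exact congrFun hb i
      rw [if_pos hb, if_pos this]
    · rw [if_neg hb, if_neg]
      rintro rfl
      exact hb rfl
  · rw [if_neg (by rintro rfl; exact ha rfl)]
    apply Finset.sum_eq_zero
    intro x _
    rw [U_apply, Pi.single_apply, if_neg, mul_zero]
    intro h
    exact ha (by simpa using h)

/-- irreducibility -/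
theorem U_irr (K : Submodule ℂ ((Fin n → F) → ℂ)) (hK : ∀ v, ∀ f ∈ K, U v f ∈ K) (hne : K ≠ ⊥) : K = ⊤ := by
  obtain ⟨f, hf, hf0⟩ := Submodule.exists_mem_ne_zero_of_ne_bot hne
  obtain ⟨x0, hx0⟩ := Function.ne_iff.1 hf0
  have h1 : (∑ b : Fin n → F, psi F (b ⬝ᵥ (-x0)) • U (Sum.elim 0 b) f) = ((Fintype.card F : ℂ) ^ n * f x0) • Pi.single x0 1 := by
    funext x
    rw [Finset.sum_apply]
    have h2 : ∀ b : Fin n → F, (psi F (b ⬝ᵥ (-x0)) • U (Sum.elim 0 b) f) x = psi F ((x - x0) ⬝ᵥ b) * f x := by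
      intro b
      rw [Pi.smul_apply, U_apply]
      have h3 : (Sum.elim (0 : Fin n → F) b) ∘ Sum.inr = b := rfl
      have h4 : (Sum.elim (0 : Fin n → F) b) ∘ Sum.inl = 0 := rfl
      rw [h3, h4, zero_dotProduct, mul_zero, add_zero, add_zero, smul_eq_mul, ← mul_assoc, ← AddChar.map_add_eq_mul]
      congr 2
      rw [dotProduct_comm (x - x0), dotProduct_sub, dotProduct_neg]; ring
    rw [Finset.sum_congr rfl fun b _ => h2 b, ← Finset.sum_mul, sum_psi]
    by_cases hx : x = x0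
    · subst hx; simp
    · rw [if_neg (sub_ne_zero.2 hx)]; simp [hx]
  have h5 : (Pi.single x0 1 : (Fin n → F) → ℂ) ∈ K := by
    have h6 : ((Fintype.card F : ℂ) ^ n * f x0) • (Pi.single x0 1 : (Fin n → F) → ℂ) ∈ K := by
      rw [← h1]
      exact Submodule.sum_mem _ fun b _ => Submodule.smul_mem _ _ (hK _ _ hf)
    exact (Submodule.smul_mem_iff _ (mul_ne_zero (qm_ne F n) hx0)).1 h6
  have h7 : ∀ x, (Pi.single x 1 : (Fin n → F) → ℂ) ∈ K := by
    intro x
    have h8 : U (Sum.elim (x0 - x) 0) (Pi.single x0 1) = (Pi.single x 1 : (Fin n → F) → ℂ) := by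
      funext y
      rw [U_apply]
      have h3 : (Sum.elim (x0 - x) (0 : Fin n → F)) ∘ Sum.inr = 0 := rfl
      have h4 : (Sum.elim (x0 - x) (0 : Fin n → F)) ∘ Sum.inl = x0 - x := rfl
      rw [h3, h4, zero_dotProduct, dotProduct_zero, mul_zero, add_zero, AddChar.map_zero_eq_one, one_mul, Pi.single_apply, Pi.single_apply]
      have : y + (x0 - x) = x0 ↔ y = x := by
        constructor
        · intro h
          have h9 : y = x0 - (x0 - x) := eq_sub_of_add_eq h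
          rw [h9]; abel
        · rintro rfl; abel
      by_cases hy : y = x
      · rw [if_pos (this.2 hy), if_pos hy]
      · rw [if_neg (fun h => hy (this.1 h)), if_neg hy]
    rw [← h8]
    exact hK _ _ h5
  rw [eq_top_iff]
  intro g _
  rw [pi_eq_sum_univ g]
  refine Submodule.sum_mem _ fun x _ => Submodule.smul_mem _ _ ?_
  have : (fun j => if x = j then (1 : ℂ) else 0) = Pi.single x 1 := by
    funext j
    rw [Pi.single_apply]
    by_cases h : x = j
    · rw [if_pos h, if_pos h.symm]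
    · rw [if_neg h, if_neg (fun h' => h h'.symm)]
  rw [this]
  exact h7 x

/-- the intertwiner -/
noncomputable def TG (g : Matrix.symplecticGroup (Fin n) F) : Module.End ℂ ((Fin n → F) → ℂ) :=
  ∑ v : Fin n ⊕ Fin n → F, U ((g : Matrix (Fin n ⊕ Fin n) (Fin n ⊕ Fin n) F) *ᵥ v) * U (-v)

theorem TG_U (h2 : (2 : F) ≠ 0) (g : Matrix.symplecticGroup (Fin n) F) (w : Fin n ⊕ Fin n → F) :
    TG g * U w = U ((g : Matrix (Fin n ⊕ Fin n) (Fin n ⊕ Fin n) F) *ᵥ w) * TG g := by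
  rw [TG, Finset.sum_mul, Finset.mul_sum, ← Equiv.sum_comp (Equiv.addLeft w) (fun v => U ((g : Matrix (Fin n ⊕ Fin n) (Fin n ⊕ Fin n) F) *ᵥ v) * U (-v) * U w)]
  refine Finset.sum_congr rfl fun v _ => ?_
  rw [Equiv.coe_addLeft, mul_assoc, U_mul h2, ← mul_assoc, U_mul h2, mul_smul_comm, smul_mul_assoc, ← mulVec_add]
  have h3 : -(w + v) + w = -v := by abel
  rw [h3]
  congr 1
  rw [ka, ka, (mem_Sp_iff.1 g.2) v w]
  congr 2
  have hww : sympB n F w w = 0 := sympB_isAlt w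
  rw [map_neg, map_add, hww, zero_add, sympB_neg w v, neg_neg]

theorem trace_TG (h2 : (2 : F) ≠ 0) (g : Matrix.symplecticGroup (Fin n) F) : LinearMap.trace ℂ ((Fin n → F) → ℂ) (TG g) =
    (Fintype.card F : ℂ) ^ n * ((Finset.univ.filter fun v : Fin n ⊕ Fin n → F => (g : Matrix (Fin n ⊕ Fin n) (Fin n ⊕ Fin n) F) *ᵥ v = v).card : ℂ) := by
  rw [TG, map_sum, Finset.card_filter, Nat.cast_sum, Finset.mul_sum]
  refine Finset.sum_congr rfl fun v _ => ?_
  rw [U_mul h2, map_smul, trace_U, smul_eq_mul]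
  by_cases hv : (g : Matrix (Fin n ⊕ Fin n) (Fin n ⊕ Fin n) F) *ᵥ v = v
  · have hvv : sympB n F v v = 0 := sympB_isAlt v
    rw [if_pos (by rw [hv, add_neg_cancel]), if_pos hv, ka, hv, map_neg, LinearMap.neg_apply, hvv]
    simp
  · rw [if_neg (fun h => hv (by rw [← sub_eq_add_neg] at h; exact sub_eq_zero.1 h)), if_neg hv]
    simp

theorem TG_ne (h2 : (2 : F) ≠ 0) (g : Matrix.symplecticGroup (Fin n) F) : TG g ≠ 0 := by
  intro h
  have h1 := trace_TG h2 g
  rw [h, map_zero] at h1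
  rcases mul_eq_zero.1 h1.symm with h3 | h3
  · exact qm_ne F n h3
  · rw [Nat.cast_eq_zero, Finset.card_eq_zero] at h3
    have : (0 : Fin n ⊕ Fin n → F) ∈ (Finset.univ.filter fun v : Fin n ⊕ Fin n → F => (g : Matrix (Fin n ⊕ Fin n) (Fin n ⊕ Fin n) F) *ᵥ v = v) := by
      rw [Finset.mem_filter]; exact ⟨Finset.mem_univ _, mulVec_zero _⟩
    rw [h3] at this
    exact absurd this (Finset.notMem_empty _)

theorem TG_unit (h2 : (2 : F) ≠ 0) (g : Matrix.symplecticGroup (Fin n) F) : IsUnit (TG g) := by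
  rw [LinearMap.isUnit_iff_ker_eq_bot]
  by_contra hne
  have h1 := U_irr (LinearMap.ker (TG g)) (fun v f hf => by
    rw [LinearMap.mem_ker] at hf ⊢
    have := congrArg (fun T : Module.End ℂ ((Fin n → F) → ℂ) => T f) (TG_U h2 g v)
    simp only [Module.End.mul_apply, hf, map_zero] at this
    exact this) hne
  exact TG_ne h2 g (LinearMap.ker_eq_top.1 h1)

/-- Schur -/
theorem scalar_of_comm (A : Module.End ℂ ((Fin n → F) → ℂ)) (h : ∀ v, A * U v = U v * A) : ∃ c : ℂ, A = c • 1 := by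
  obtain ⟨μ, hμ⟩ := Module.End.exists_eigenvalue A
  refine ⟨μ, ?_⟩
  have h1 := U_irr (Module.End.eigenspace A μ) (fun v f hf => by
    rw [Module.End.mem_eigenspace_iff] at hf ⊢
    have := congrArg (fun T : Module.End ℂ ((Fin n → F) → ℂ) => T f) (h v)
    simp only [Module.End.mul_apply, hf, map_smul] at this
    exact this) hμ
  apply LinearMap.ext
  intro f
  have : f ∈ Module.End.eigenspace A μ := by rw [h1]; trivial
  rw [Module.End.mem_eigenspace_iff] at this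
  rw [this]; rfl

/-- uniqueness of intertwiners -/
theorem TG_unique (h2 : (2 : F) ≠ 0) (g : Matrix.symplecticGroup (Fin n) F) (A : Module.End ℂ ((Fin n → F) → ℂ))
    (hA : ∀ w, A * U w = U ((g : Matrix (Fin n ⊕ Fin n) (Fin n ⊕ Fin n) F) *ᵥ w) * A) : ∃ c : ℂ, A = c • TG g := by
  obtain ⟨u, hu⟩ := TG_unit h2 g
  have h1 : ∀ w, (↑u⁻¹ : Module.End ℂ ((Fin n → F) → ℂ)) * U ((g : Matrix (Fin n ⊕ Fin n) (Fin n ⊕ Fin n) F) *ᵥ w) = U w * ↑u⁻¹ := by
    intro w
    have := TG_U h2 g w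
    rw [← hu] at this
    rw [Units.inv_mul_eq_iff_eq_mul, ← mul_assoc, this, mul_assoc, Units.mul_inv, mul_one]
  obtain ⟨c, hc⟩ := scalar_of_comm ((↑u⁻¹ : Module.End ℂ ((Fin n → F) → ℂ)) * A) (fun w => by
    rw [mul_assoc, hA, ← mul_assoc, h1, mul_assoc])
  refine ⟨c, ?_⟩
  rw [Units.inv_mul_eq_iff_eq_mul] at hc
  rw [hc, hu, mul_smul_comm, mul_one]

end Cfsg.Agent.H11.WS
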