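import Mathlib
import Cfsg.Agent.H11.WS3

set_option autoImplicit false
set_option linter.all false

/-! The Weil representation on odd functions. -/

namespace Cfsg.Agent.H11.WS

open Matrix Cfsg.Agent.H5 Module Cfsg.Agent.H11.WL

variable {F : Type*} [Field F] [Fintype F] [DecidableEq F] {n : ℕ}

theorem TG_mul (h2 : (2 : F) ≠ 0) (g h : Matrix.symplecticGroup (Fin n) F) : ∃ c : ℂ, c ≠ 0 ∧ TG g * TG h = c • TG (g * h) := by
  obtain ⟨c, hc⟩ := TG_unique h2 (g * h) (TG g * TG h) (fun w => by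
    rw [mul_assoc, TG_U h2, ← mul_assoc, TG_U h2, mul_assoc, sp_mul_mulVec])
  refine ⟨c, ?_, hc⟩
  rintro rfl
  rw [zero_smul] at hc
  have := (TG_unit h2 g).mul (TG_unit h2 h)
  rw [hc] at this
  exact not_isUnit_zero this

/-- parity operator -/
noncomputable def PP (F : Type*) [Field F] (n : ℕ) : Module.End ℂ ((Fin n → F) → ℂ) where
  toFun f x := f (-x)
  map_add' f g := rfl
  map_smul' c f := rfl

theorem PP_apply (f : (Fin n → F) → ℂ) (x : Fin n → F) : PP F n f x = f (-x) := rfl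

theorem PP_U (v : Fin n ⊕ Fin n → F) : PP F n * U v = U (-v) * PP F n := by
  apply LinearMap.ext
  intro f
  funext x
  show PP F n (U v f) x = U (-v) (PP F n f) x
  rw [PP_apply, U_apply, U_apply, PP_apply]
  have h1 : (-v) ∘ Sum.inr = -(v ∘ Sum.inr) := rfl
  have h3 : (-v) ∘ Sum.inl = -(v ∘ Sum.inl) := rfl
  rw [h1, h3]
  congr 2
  · simp [neg_dotProduct, dotProduct_neg]
  · abel

theorem PP_TG (g : Matrix.symplecticGroup (Fin n) F) : PP F n * TG g = TG g * PP F n := by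
  rw [TG, Finset.mul_sum, Finset.sum_mul, ← Equiv.sum_comp (Equiv.neg (Fin n ⊕ Fin n → F))]
  refine Finset.sum_congr rfl fun v _ => ?_
  rw [Equiv.neg_apply, ← mul_assoc, PP_U, mul_assoc, PP_U, mul_assoc, mulVec_neg]
  simp only [neg_neg]

/-- functions of given parity -/
noncomputable def Sg (F : Type*) [Field F] (n : ℕ) (ε : ℂ) : Submodule ℂ ((Fin n → F) → ℂ) where
  carrier := {f | ∀ x, f (-x) = ε * f x}
  add_mem' := by
    intro f g hf hg x
    show f (-x) + g (-x) = ε * (f x + g x)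
    rw [hf, hg]; ring
  zero_mem' := fun x => by simp
  smul_mem' := by
    intro c f hf x
    show c * f (-x) = ε * (c * f x)
    rw [hf]; ring

theorem mem_Sg {ε : ℂ} {f : (Fin n → F) → ℂ} : f ∈ Sg F n ε ↔ ∀ x, f (-x) = ε * f x := Iff.rfl

theorem TG_Sg (g : Matrix.symplecticGroup (Fin n) F) (ε : ℂ) (f : (Fin n → F) → ℂ) (hf : f ∈ Sg F n ε) : TG g f ∈ Sg F n ε := by
  have h1 : PP F n f = ε • f := funext hf
  have h2 := congrArg (fun T : Module.End ℂ ((Fin n → F) → ℂ) => T f) (PP_TG g)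
  simp only [Module.End.mul_apply, h1, map_smul] at h2
  intro x
  exact congrFun h2 x

theorem finrank_Sg (h2 : (2 : F) ≠ 0) {ε : ℂ} (hε : ε = 1 ∨ ε = -1) : (finrank ℂ (Sg F n ε) : ℂ) = ((Fintype.card F : ℂ) ^ n + ε) / 2 := by
  have hee : ε * ε = 1 := by rcases hε with rfl | rfl <;> norm_num
  set P : Module.End ℂ ((Fin n → F) → ℂ) := (2 : ℂ)⁻¹ • (1 + ε • PP F n) with hP
  have hproj : LinearMap.IsProj (Sg F n ε) P := by
    constructor
    · intro f x
      show (2 : ℂ)⁻¹ * (f (-x) + ε * f (- -x)) = ε * ((2 : ℂ)⁻¹ * (f x + ε * f (-x)))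
      rw [neg_neg]
      linear_combination (- (2 : ℂ)⁻¹ * f (-x)) * hee
    · intro f hf
      funext x
      show (2 : ℂ)⁻¹ * (f x + ε * f (-x)) = f x
      rw [hf x]
      linear_combination ((2 : ℂ)⁻¹ * f x) * hee
  rw [← hproj.trace, hP, map_smul, map_add, map_smul, LinearMap.trace_one, finrank_fintype_fun_eq_card, Fintype.card_fun, Fintype.card_fin,
    trace_fun]
  have h3 : ∑ x : Fin n → F, PP F n (Pi.single x 1) x = 1 := by
    rw [Finset.sum_eq_single (0 : Fin n → F)]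
    · rw [PP_apply]; simp
    · intro x _ hx
      rw [PP_apply, Pi.single_apply, if_neg]
      intro h
      apply hx
      have h4 : (2 : F) • x = 0 := by
        rw [two_smul]
        nth_rewrite 1 [← h]
        exact neg_add_cancel x
      exact (smul_eq_zero.1 h4).resolve_left h2
    · intro h; exact absurd (Finset.mem_univ _) h
  rw [h3]
  push_cast
  simp only [smul_eq_mul]
  ring

/-- restricted intertwiner -/
noncomputable def RT (ε : ℂ) (g : Matrix.symplecticGroup (Fin n) F) : Module.End ℂ (Sg F n ε) := (TG g).restrict (TG_Sg g ε)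

theorem RT_det_ne (h2 : (2 : F) ≠ 0) (ε : ℂ) (g : Matrix.symplecticGroup (Fin n) F) : LinearMap.det (RT ε g) ≠ 0 := by
  have h1 : IsUnit (RT ε g) := by
    rw [LinearMap.isUnit_iff_ker_eq_bot, LinearMap.ker_eq_bot']
    intro f hf
    have h3 : TG g (f : (Fin n → F) → ℂ) = 0 := congrArg Subtype.val hf
    have h4 := (LinearMap.isUnit_iff_ker_eq_bot _).1 (TG_unit h2 g)
    exact Subtype.ext (LinearMap.ker_eq_bot'.1 h4 _ h3)
  exact (h1.map LinearMap.det).ne_zero

theorem RT_det_mul {g h : Matrix.symplecticGroup (Fin n) F} {c : ℂ} (hc : TG g * TG h = c • TG (g * h)) (ε : ℂ) :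
    LinearMap.det (RT ε g) * LinearMap.det (RT ε h) = c ^ finrank ℂ (Sg F n ε) * LinearMap.det (RT ε (g * h)) := by
  rw [← map_mul, ← LinearMap.det_smul]
  congr 1
  apply LinearMap.ext
  intro f
  apply Subtype.ext
  exact congrArg (fun T : Module.End ℂ ((Fin n → F) → ℂ) => T f) hc

/-- normalising factor -/
noncomputable def rr (g : Matrix.symplecticGroup (Fin n) F) : ℂ := LinearMap.det (RT (-1) g) / LinearMap.det (RT 1 g)

theorem rr_mul (h2 : (2 : F) ≠ 0) {g h : Matrix.symplecticGroup (Fin n) F} {c : ℂ} (hc0 : c ≠ 0) (hc : TG g * TG h = c • TG (g * h)) :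
    rr g * rr h * c = rr (g * h) := by
  have h1 := RT_det_mul hc 1
  have h3 := RT_det_mul hc (-1)
  have d1 := finrank_Sg (n := n) h2 (ε := 1) (Or.inl rfl)
  have d2 := finrank_Sg (n := n) h2 (ε := -1) (Or.inr rfl)
  have d3 : finrank ℂ (Sg F n 1) = finrank ℂ (Sg F n (-1)) + 1 := by
    have : ((finrank ℂ (Sg F n 1) : ℕ) : ℂ) = ((finrank ℂ (Sg F n (-1)) + 1 : ℕ) : ℂ) := by
      push_cast
      rw [d1, d2]; ring
    exact_mod_cast this
  rw [d3] at h1
  have e1 := RT_det_ne h2 1 g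
  have e2 := RT_det_ne h2 1 h
  have e3 := RT_det_ne h2 1 (g * h)
  rw [rr, rr, rr, div_mul_div_comm, h1, h3, pow_succ]
  field_simp

/-- the Weil representation on odd functions -/
noncomputable def weil (h2 : (2 : F) ≠ 0) : Representation ℂ (Matrix.symplecticGroup (Fin n) F) (Sg F n (-1)) where
  toFun g := rr g • RT (-1) g
  map_one' := by
    obtain ⟨c, hc0, hc⟩ := TG_mul h2 (1 : Matrix.symplecticGroup (Fin n) F) 1
    have h1 := rr_mul h2 hc0 hc
    rw [mul_one] at h1 hc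
    have h3 : (rr (1 : Matrix.symplecticGroup (Fin n) F) • RT (-1) (1 : Matrix.symplecticGroup (Fin n) F)) * (rr (1 : Matrix.symplecticGroup (Fin n) F) • RT (-1) (1 : Matrix.symplecticGroup (Fin n) F)) =
        rr (1 : Matrix.symplecticGroup (Fin n) F) • RT (-1) (1 : Matrix.symplecticGroup (Fin n) F) := by
      have h4 : RT (-1) (1 : Matrix.symplecticGroup (Fin n) F) * RT (-1) (1 : Matrix.symplecticGroup (Fin n) F) = c • RT (-1) (1 : Matrix.symplecticGroup (Fin n) F) := by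
        apply LinearMap.ext
        intro f
        apply Subtype.ext
        exact congrArg (fun T : Module.End ℂ ((Fin n → F) → ℂ) => T f) hc
      rw [smul_mul_smul_comm, h4, smul_smul, h1]
    have h5 : IsUnit (rr (1 : Matrix.symplecticGroup (Fin n) F) • RT (-1) (1 : Matrix.symplecticGroup (Fin n) F)) := by
      rw [LinearMap.isUnit_iff_isUnit_det, LinearMap.det_smul]
      refine (mul_ne_zero (pow_ne_zero _ ?_) (RT_det_ne h2 _ _)).isUnit
      exact div_ne_zero (RT_det_ne h2 _ _) (RT_det_ne h2 _ _)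
    exact h5.mul_left_cancel (by rw [h3, mul_one])
  map_mul' g h := by
    obtain ⟨c, hc0, hc⟩ := TG_mul h2 g h
    have h1 := rr_mul h2 hc0 hc
    have h4 : RT (-1) g * RT (-1) h = c • RT (-1) (g * h) := by
      apply LinearMap.ext
      intro f
      apply Subtype.ext
      exact congrArg (fun T : Module.End ℂ ((Fin n → F) → ℂ) => T f) hc
    rw [smul_mul_smul_comm, h4, smul_smul, h1]

theorem weil_apply (h2 : (2 : F) ≠ 0) (g : Matrix.symplecticGroup (Fin n) F) (f : Sg F n (-1)) :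
    ((weil h2 g f : Sg F n (-1)) : (Fin n → F) → ℂ) = rr g • TG g (f : (Fin n → F) → ℂ) := rfl

theorem rr_ne (h2 : (2 : F) ≠ 0) (g : Matrix.symplecticGroup (Fin n) F) : rr g ≠ 0 := div_ne_zero (RT_det_ne h2 _ _) (RT_det_ne h2 _ _)

/-- if `f` is invariant and fixed by a Weyl operator then it is fixed by the conjugate Weyl operators -/
theorem fix_U (h2 : (2 : F) ≠ 0) (f : Sg F n (-1)) (hf : ∀ g, weil h2 g f = f) (v : Fin n ⊕ Fin n → F)
    (hv : U v (f : (Fin n → F) → ℂ) = f) (g : Matrix.symplecticGroup (Fin n) F) :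
    U ((g : Matrix (Fin n ⊕ Fin n) (Fin n ⊕ Fin n) F) *ᵥ v) (f : (Fin n → F) → ℂ) = f := by
  have h1 : rr g • TG g (f : (Fin n → F) → ℂ) = f := congrArg Subtype.val (hf g)
  have h3 := congrArg (fun T : Module.End ℂ ((Fin n → F) → ℂ) => rr g • T f) (TG_U h2 g v)
  simp only [Module.End.mul_apply, hv, h1] at h3
  rw [← map_smul, h1] at h3
  exact h3.symm

/-- multiplication by a quadratic character -/
noncomputable def DD (C : Matrix (Fin n) (Fin n) F) : Module.End ℂ ((Fin n → F) → ℂ) where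
  toFun f x := psi F (-((2 : F)⁻¹ * (x ⬝ᵥ (C *ᵥ x)))) * f x
  map_add' f g := by funext x; simp [mul_add]
  map_smul' c f := by funext x; simp; ring

theorem DD_apply (C : Matrix (Fin n) (Fin n) F) (f : (Fin n → F) → ℂ) (x : Fin n → F) :
    DD C f x = psi F (-((2 : F)⁻¹ * (x ⬝ᵥ (C *ᵥ x)))) * f x := rfl

/-- lower unipotent elements -/
noncomputable def low (C : Matrix (Fin n) (Fin n) F) (hC : Cᵀ = C) : Matrix.symplecticGroup (Fin n) F :=
  ⟨fromBlocks 1 0 C 1, by
    rw [SymplecticGroup.mem_iff, J, fromBlocks_transpose, fromBlocks_multiply, fromBlocks_multiply]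
    simp [hC]⟩

theorem DD_U (h2 : (2 : F) ≠ 0) (C : Matrix (Fin n) (Fin n) F) (hC : Cᵀ = C) (w : Fin n ⊕ Fin n → F) :
    DD C * U w = U ((low C hC : Matrix (Fin n ⊕ Fin n) (Fin n ⊕ Fin n) F) *ᵥ w) * DD C := by
  have hw : (low C hC : Matrix (Fin n ⊕ Fin n) (Fin n ⊕ Fin n) F) *ᵥ w = Sum.elim (w ∘ Sum.inl) (C *ᵥ (w ∘ Sum.inl) + w ∘ Sum.inr) := by
    show fromBlocks 1 0 C 1 *ᵥ w = _
    rw [fromBlocks_mulVec]
    simp
  rw [hw]
  apply LinearMap.ext
  intro f
  funext x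
  show DD C (U w f) x = U _ (DD C f) x
  rw [DD_apply, U_apply, U_apply, DD_apply]
  have h1 : (Sum.elim (w ∘ Sum.inl) (C *ᵥ (w ∘ Sum.inl) + w ∘ Sum.inr)) ∘ Sum.inr = C *ᵥ (w ∘ Sum.inl) + w ∘ Sum.inr := rfl
  have h3 : (Sum.elim (w ∘ Sum.inl) (C *ᵥ (w ∘ Sum.inl) + w ∘ Sum.inr)) ∘ Sum.inl = w ∘ Sum.inl := rfl
  rw [h1, h3, ← mul_assoc, ← mul_assoc, ← AddChar.map_add_eq_mul, ← AddChar.map_add_eq_mul]
  congr 2
  set a := w ∘ Sum.inl
  set b := w ∘ Sum.inr
  have hs : ∀ x y : Fin n → F, x ⬝ᵥ (C *ᵥ y) = y ⬝ᵥ (C *ᵥ x) := by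
    intro x y
    rw [dotProduct_comm x, ← hC, mulVec_transpose, ← dotProduct_mulVec, hC]
  rw [mulVec_add, add_dotProduct, add_dotProduct, dotProduct_add, dotProduct_add, dotProduct_add, hs a x, dotProduct_comm (C *ᵥ a) x]
  field_simp
  ring

end Cfsg.Agent.H11.WS
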