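import Mathlib
import Cfsg.Agent.H11.WS2
import Cfsg.Agent.H11.WS4

set_option autoImplicit false
set_option linter.all false

/-! Smallest degree of `Sp_2n(q)`, `q` odd: conclusion. -/

namespace Cfsg.Agent.H11.WS

open Matrix Cfsg.Agent.H5 Module Cfsg.Agent.H11.WL Cfsg.Agent.H16.LSB

variable {F : Type*} [Field F] [Fintype F] [DecidableEq F]

/-- the odd Weil representation has no nonzero fixed vectors -/
theorem no_fixed {n : ℕ} (hn : 2 ≤ n) (h2 : (2 : F) ≠ 0) (f : Sg F n (-1)) (hf : ∀ g, weil h2 g f = f) : f = 0 := by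
  by_contra hne
  obtain ⟨x0, hx0⟩ : ∃ x0, (f : (Fin n → F) → ℂ) x0 ≠ 0 := by
    by_contra hcon
    push Not at hcon
    exact hne (Subtype.ext (funext hcon))
  have hf0 : (f : (Fin n → F) → ℂ) 0 = 0 := by
    have := mem_Sg.1 f.2 0
    rw [neg_zero] at this
    have h3 : (2 : ℂ) * (f : (Fin n → F) → ℂ) 0 = 0 := by linear_combination this
    exact (mul_eq_zero.1 h3).resolve_left two_ne_zero
  have hx00 : x0 ≠ 0 := by
    rintro rfl
    exact hx0 hf0
  have hD : ∀ (C : Matrix (Fin n) (Fin n) F) (hC : Cᵀ = C), ∃ μ : ℂ, DD C (f : (Fin n → F) → ℂ) = μ • (f : (Fin n → F) → ℂ) := by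
    intro C hC
    obtain ⟨c, hc⟩ := TG_unique h2 (low C hC) (DD C) (DD_U h2 C hC)
    refine ⟨c * (rr (low C hC))⁻¹, ?_⟩
    have h1 : rr (low C hC) • TG (low C hC) (f : (Fin n → F) → ℂ) = f := congrArg Subtype.val (hf (low C hC))
    have h3 : TG (low C hC) (f : (Fin n → F) → ℂ) = (rr (low C hC))⁻¹ • (f : (Fin n → F) → ℂ) := by
      rw [← h1, smul_smul, h1, inv_mul_cancel₀ (rr_ne h2 _), one_smul]
    rw [hc, LinearMap.smul_apply, h3, smul_smul]
  have hsupp : ∀ y, (f : (Fin n → F) → ℂ) y ≠ 0 → y = x0 ∨ y = -x0 := by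
    intro y hy
    have h4 : ∀ i j, y i * y j = x0 i * x0 j := by
      intro i j
      by_contra hij
      obtain ⟨a, ha⟩ := psi_ne (F := F)
      set t : F := a / (y i * y j - x0 i * x0 j) with ht
      have hC : (t • (Matrix.single i j (1 : F) + Matrix.single j i 1))ᵀ = t • (Matrix.single i j (1 : F) + Matrix.single j i 1) := by
        rw [transpose_smul, transpose_add, transpose_single, transpose_single, add_comm]
      obtain ⟨μ, hμ⟩ := hD _ hC
      have h5 : ∀ x : Fin n → F, x ⬝ᵥ ((t • (Matrix.single i j (1 : F) + Matrix.single j i 1)) *ᵥ x) = 2 * (t * (x i * x j)) := by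
        intro x
        rw [smul_mulVec, dotProduct_smul, add_mulVec, dotProduct_add]
        have h6 : ∀ i j : Fin n, x ⬝ᵥ (Matrix.single i j (1 : F) *ᵥ x) = x i * x j := by
          intro i j
          rw [Matrix.single_mulVec, one_mul]
          exact dotProduct_single x (x j) i
        rw [h6, h6, smul_eq_mul]
        ring
      have h7 : ∀ x, (f : (Fin n → F) → ℂ) x ≠ 0 → psi F (-(t * (x i * x j))) = μ := by
        intro x hx
        have h8 := congrFun hμ x
        rw [DD_apply, h5, Pi.smul_apply, smul_eq_mul] at h8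
        have h9 := mul_right_cancel₀ hx h8
        rw [← h9]
        congr 2
        field_simp
      have h10 := h7 y hy
      have h11 := h7 x0 hx0
      apply ha
      have h12 : a = t * (y i * y j) - t * (x0 i * x0 j) := by
        rw [← mul_sub, ht, div_mul_cancel₀ _ (sub_ne_zero.2 hij)]
      have h13 : psi F (-(t * (x0 i * x0 j))) = psi F a * psi F (-(t * (y i * y j))) := by
        rw [← AddChar.map_add_eq_mul]
        congr 1
        rw [h12]; ring
      rw [h10, h11] at h13
      have hμ0 : μ ≠ 0 := by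
        rw [← h10]
        exact (AddChar.val_isUnit (psi F) _).ne_zero
      exact (mul_right_cancel₀ hμ0 (h13.symm.trans (one_mul μ).symm))
    obtain ⟨i, hi⟩ := Function.ne_iff.1 hx00
    have h5 : y i = x0 i ∨ y i = -x0 i := by
      have := h4 i i
      rw [← sq, ← sq] at this
      exact sq_eq_sq_iff_eq_or_eq_neg.1 this
    rcases h5 with h5 | h5
    · left
      funext j
      have := h4 i j
      rw [h5] at this
      exact mul_left_cancel₀ hi this
    · right
      funext j
      have := h4 i j
      rw [h5, neg_mul] at this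
      have h6 : x0 i * y j = x0 i * (-x0 j) := by linear_combination -this
      exact mul_left_cancel₀ hi h6
  obtain ⟨b, hb0, hb⟩ := Cfsg.Agent.H17.exists_ne_zero_dot hn x0
  have hUb : U (Sum.elim 0 b) (f : (Fin n → F) → ℂ) = f := by
    funext x
    rw [U_apply]
    have h3 : (Sum.elim (0 : Fin n → F) b) ∘ Sum.inr = b := rfl
    have h4 : (Sum.elim (0 : Fin n → F) b) ∘ Sum.inl = 0 := rfl
    rw [h3, h4, zero_dotProduct, mul_zero, add_zero, add_zero]
    by_cases hx : (f : (Fin n → F) → ℂ) x = 0
    · rw [hx, mul_zero]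
    · rcases hsupp x hx with rfl | rfl
      · rw [dotProduct_comm, hb, AddChar.map_zero_eq_one, one_mul]
      · rw [dotProduct_neg, dotProduct_comm, hb, neg_zero, AddChar.map_zero_eq_one, one_mul]
  have h2x : (2 : F) • x0 ≠ 0 := smul_ne_zero h2 hx00
  obtain ⟨g, hg⟩ := sp_trans (F := F) (m := n) (v := Sum.elim 0 b) (w := Sum.elim ((2 : F) • x0) 0)
    (fun h => hb0 (by funext i; exact congrFun h (Sum.inr i))) (fun h => h2x (by funext i; exact congrFun h (Sum.inl i)))
  have h6 := fix_U h2 f hf _ hUb g
  rw [hg] at h6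
  have h7 := congrFun h6 x0
  rw [U_apply] at h7
  have h3 : (Sum.elim ((2 : F) • x0) (0 : Fin n → F)) ∘ Sum.inr = 0 := rfl
  have h4 : (Sum.elim ((2 : F) • x0) (0 : Fin n → F)) ∘ Sum.inl = (2 : F) • x0 := rfl
  rw [h3, h4, zero_dotProduct, dotProduct_zero, mul_zero, add_zero, AddChar.map_zero_eq_one, one_mul] at h7
  rcases hsupp (x0 + (2 : F) • x0) (by rw [h7]; exact hx0) with h | h
  · exact h2x (by simpa using h)
  · have h8 : ((2 : F) * 2) • x0 = 0 := by
      have h9 : x0 + (2 : F) • x0 + x0 = 0 := by rw [h]; exact neg_add_cancel x0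
      rw [← h9, mul_smul, two_smul, two_smul]; abel
    exact hx00 ((smul_eq_zero.1 h8).resolve_left (mul_ne_zero h2 h2))

theorem irr_of' {k : ℕ} (hodd : Odd (Fintype.card F)) (hk : 1 ≤ k) {V : Type*} [AddCommGroup V] [Module ℂ V] [FiniteDimensional ℂ V]
    (ρ : Representation ℂ (Matrix.symplecticGroup (Fin (k + 1)) F) V) (hpos : 0 < finrank ℂ V)
    (hinv : ∀ w, (∀ g, ρ g w = w) → w = 0) (hN : finrank ℂ V ≤ (Fintype.card F ^ (k + 1) - 1) / 2) : ρ.IsIrreducible := by
  haveI : Nontrivial (Subrepresentation ρ) := by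
    refine ⟨⊥, ⊤, fun hbt => ?_⟩
    have h1 : (⊥ : Submodule ℂ V) = ⊤ := congrArg Subrepresentation.toSubmodule hbt
    have h2 : finrank ℂ (⊤ : Submodule ℂ V) = 0 := by rw [← h1]; exact finrank_bot ℂ V
    rw [finrank_top] at h2
    omega
  exact { eq_bot_or_eq_top := fun K => by
            by_cases hb : K = ⊥
            · exact Or.inl hb
            · right
              have h1 : K.toSubmodule ≠ ⊥ := fun h0 => hb (Subrepresentation.toSubmodule_injective h0)
              have h5 : (Fintype.card F ^ (k + 1) - 1) / 2 ≤ finrank ℂ K.toSubmodule := by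
                apply lower hodd hk K.toRepresentation
                by_contra hcon
                push Not at hcon
                have h6 := triv K.toRepresentation hcon
                apply h1
                rw [Submodule.eq_bot_iff]
                intro w hw
                apply hinv
                intro g
                have h7 : K.toRepresentation g ⟨w, hw⟩ = ⟨w, hw⟩ := by rw [h6]; rfl
                exact congrArg Subtype.val h7
              apply Subrepresentation.toSubmodule_injective
              show K.toSubmodule = ⊤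
              apply Submodule.eq_top_of_finrank_eq
              have := Submodule.finrank_le K.toSubmodule
              omega }

theorem no_inv' {G : Type*} [Group G] {V : Type*} [AddCommGroup V] [Module ℂ V] [FiniteDimensional ℂ V]
    (ρ : Representation ℂ G V) (hirr : ρ.IsIrreducible) (h2 : 2 ≤ finrank ℂ V) (w : V) (hw : ∀ g, ρ g w = w) : w = 0 := by
  by_contra hw0
  let K : Subrepresentation ρ := ⟨Submodule.span ℂ {w}, fun g v hv => by
    rw [Submodule.mem_span_singleton] at hv ⊢
    obtain ⟨a, rfl⟩ := hv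
    exact ⟨a, by rw [map_smul, hw]⟩⟩
  have h1 : finrank ℂ K.toSubmodule = 1 := finrank_span_singleton hw0
  rcases hirr.eq_bot_or_eq_top K with h | h
  · have h3 : K.toSubmodule = ⊥ := congrArg Subrepresentation.toSubmodule h
    rw [h3, finrank_bot] at h1
    exact zero_ne_one h1
  · have h3 : K.toSubmodule = ⊤ := congrArg Subrepresentation.toSubmodule h
    rw [h3, finrank_top] at h1
    omega

theorem final (n : ℕ) (hn : 2 ≤ n) (hodd : Odd (Fintype.card F)) :
    (∀ (k : ℕ) (ρ : Representation ℂ (Matrix.symplecticGroup (Fin n) F) (Fin k → ℂ)), ρ.IsIrreducible → 2 ≤ k → (Fintype.card F ^ n - 1) / 2 ≤ k) ∧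
    (∃ ρ : Representation ℂ (Matrix.symplecticGroup (Fin n) F) (Fin ((Fintype.card F ^ n - 1) / 2) → ℂ), ρ.IsIrreducible) := by
  obtain ⟨k, rfl⟩ : ∃ k, n = k + 1 := ⟨n - 1, by omega⟩
  have h2 := two_ne hodd
  have hq : 2 ≤ Fintype.card F := Fintype.one_lt_card
  constructor
  · intro d ρ hirr hd
    have hfin : finrank ℂ (Fin d → ℂ) = d := by rw [finrank_fintype_fun_eq_card, Fintype.card_fin]
    have h1 : (Fintype.card F ^ (k + 1) - 1) / 2 ≤ finrank ℂ (Fin d → ℂ) := by
      apply lower hodd (by omega) ρ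
      by_contra hcon
      push Not at hcon
      have h6 := triv ρ hcon
      obtain ⟨w, hw⟩ := Module.finrank_pos_iff_exists_ne_zero.1 (show 0 < finrank ℂ (Fin d → ℂ) by rw [hfin]; omega)
      exact hw (no_inv' ρ hirr (by rw [hfin]; exact hd) w fun g => by rw [h6]; rfl)
    rwa [hfin] at h1
  · have h3 := finrank_Sg (F := F) (n := k + 1) h2 (ε := -1) (Or.inr rfl)
    have h4 : 2 * finrank ℂ (Sg F (k + 1) (-1)) + 1 = Fintype.card F ^ (k + 1) := by
      have : ((2 * finrank ℂ (Sg F (k + 1) (-1)) + 1 : ℕ) : ℂ) = ((Fintype.card F ^ (k + 1) : ℕ) : ℂ) := by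
        push_cast
        rw [h3]; ring
      exact_mod_cast this
    have h5 : finrank ℂ (Sg F (k + 1) (-1)) = finrank ℂ (Fin ((Fintype.card F ^ (k + 1) - 1) / 2) → ℂ) := by
      rw [finrank_fintype_fun_eq_card, Fintype.card_fin]; omega
    let e : Sg F (k + 1) (-1) ≃ₗ[ℂ] (Fin ((Fintype.card F ^ (k + 1) - 1) / 2) → ℂ) := LinearEquiv.ofFinrankEq _ _ h5
    let ρ : Representation ℂ (Matrix.symplecticGroup (Fin (k + 1)) F) (Fin ((Fintype.card F ^ (k + 1) - 1) / 2) → ℂ) :=
      { toFun := fun g => e.toLinearMap ∘ₗ (weil h2 g) ∘ₗ e.symm.toLinearMap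
        map_one' := by
          apply LinearMap.ext
          intro x
          show e (weil h2 1 (e.symm x)) = x
          rw [map_one]
          exact e.apply_symm_apply x
        map_mul' := fun g h => by
          apply LinearMap.ext
          intro x
          show e (weil h2 (g * h) (e.symm x)) = e (weil h2 g (e.symm (e (weil h2 h (e.symm x)))))
          rw [map_mul, e.symm_apply_apply]
          rfl }
    refine ⟨ρ, irr_of' hodd (by omega) ρ ?_ ?_ ?_⟩
    · rw [← h5]
      have h6 : 2 * 2 ≤ Fintype.card F ^ (k + 1) := by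
        calc 2 * 2 = 2 ^ 2 := by norm_num
          _ ≤ Fintype.card F ^ 2 := Nat.pow_le_pow_left hq 2
          _ ≤ Fintype.card F ^ (k + 1) := Nat.pow_le_pow_right (by omega) (by omega)
      omega
    · intro w hw
      have h7 : e.symm w = 0 := by
        refine no_fixed hn h2 (e.symm w) fun g => ?_
        have h8 : e (weil h2 g (e.symm w)) = w := hw g
        exact e.injective (h8.trans (e.apply_symm_apply w).symm)
      rw [← e.apply_symm_apply w, h7, map_zero]
    · rw [finrank_fintype_fun_eq_card, Fintype.card_fin]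

end Cfsg.Agent.H11.WS
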