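import Mathlib
import Cfsg.Agent.H16.LSBnd2
import Cfsg.Agent.H11.WL6

set_option autoImplicit false
set_option linter.all false

/-! Smallest degree of `Sp_2n(q)`, `q` even: quadratic forms as weights. -/

namespace Cfsg.Agent.H11.WT

open Matrix Cfsg.Agent.H16.LSB Module

/-- index set of quadratic forms -/
abbrev Idx (n : ℕ) := {p : Fin n × Fin n // p.1 ≤ p.2}

section defs
variable {F : Type*} [Field F] {n : ℕ}

/-- symmetric matrix with given entries -/
def Sy (v : Idx n → F) : Matrix (Fin n) (Fin n) F := Matrix.of fun i j => v ⟨(min i j, max i j), min_le_max⟩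

/-- entries of a matrix -/
def us (S : Matrix (Fin n) (Fin n) F) : Idx n → F := fun p => S p.1.1 p.1.2

theorem Sy_sym (v : Idx n → F) : (Sy v)ᵀ = Sy v := by
  ext i j
  show v ⟨(min j i, max j i), _⟩ = v ⟨(min i j, max i j), _⟩
  congr 1
  apply Subtype.ext
  exact Prod.ext (min_comm _ _) (max_comm _ _)

theorem us_Sy (v : Idx n → F) : us (Sy v) = v := by
  funext p
  show v ⟨(min p.1.1 p.1.2, max p.1.1 p.1.2), _⟩ = v p
  congr 1
  apply Subtype.ext
  exact Prod.ext (min_eq_left p.2) (max_eq_right p.2)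

theorem Sy_us {S : Matrix (Fin n) (Fin n) F} (hS : Sᵀ = S) : Sy (us S) = S := by
  ext i j
  show S (min i j) (max i j) = S i j
  rcases le_total i j with h | h
  · rw [min_eq_left h, max_eq_right h]
  · rw [min_eq_right h, max_eq_left h]
    exact (congrFun (congrFun hS i) j)

theorem Sy_add (v w : Idx n → F) : Sy (v + w) = Sy v + Sy w := rfl
theorem Sy_smul (c : F) (v : Idx n → F) : Sy (c • v) = c • Sy v := rfl
theorem us_add (S T : Matrix (Fin n) (Fin n) F) : us (S + T) = us S + us T := rfl
theorem us_smul (c : F) (S : Matrix (Fin n) (Fin n) F) : us (c • S) = c • us S := rfl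

/-- quadratic form -/
def QF (w : Idx n → F) (x : Fin n → F) : F := w ⬝ᵥ us (vecMulVec x x)
/-- polar form -/
def BF (w : Idx n → F) (x y : Fin n → F) : F := w ⬝ᵥ us (vecMulVec x y + vecMulVec y x)

theorem QF_add (w : Idx n → F) (x y : Fin n → F) : QF w (x + y) = QF w x + QF w y + BF w x y := by
  rw [QF, QF, QF, BF, ← dotProduct_add, ← dotProduct_add, ← us_add, ← us_add]
  congr 2
  rw [add_vecMulVec, vecMulVec_add, vecMulVec_add]
  abel

theorem QF_smul (w : Idx n → F) (c : F) (x : Fin n → F) : QF w (c • x) = c ^ 2 * QF w x := by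
  rw [QF, QF, smul_vecMulVec, vecMulVec_smul, us_smul, us_smul, dotProduct_smul, dotProduct_smul, smul_eq_mul, smul_eq_mul]
  ring

theorem BF_comm (w : Idx n → F) (x y : Fin n → F) : BF w x y = BF w y x := by
  rw [BF, BF, add_comm]

theorem BF_add (w : Idx n → F) (x y z : Fin n → F) : BF w x (y + z) = BF w x y + BF w x z := by
  rw [BF, BF, BF, ← dotProduct_add, ← us_add]
  congr 2
  rw [vecMulVec_add, add_vecMulVec]
  abel

theorem BF_smul (w : Idx n → F) (c : F) (x y : Fin n → F) : BF w x (c • y) = c * BF w x y := by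
  rw [BF, BF, vecMulVec_smul, smul_vecMulVec, ← smul_add, us_smul, dotProduct_smul, smul_eq_mul]

theorem BF_add_left (w : Idx n → F) (x y z : Fin n → F) : BF w (x + y) z = BF w x z + BF w y z := by
  rw [BF_comm, BF_add, BF_comm w z x, BF_comm w z y]

theorem BF_smul_left (w : Idx n → F) (c : F) (x y : Fin n → F) : BF w (c • x) y = c * BF w x y := by
  rw [BF_comm, BF_smul, BF_comm]

theorem BF_self (h2 : (2 : F) = 0) (w : Idx n → F) (x : Fin n → F) : BF w x x = 0 := by
  have h1 := QF_add w x x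
  rw [← two_smul F x, QF_smul, h2] at h1
  have h3 : QF w x + QF w x = 0 := by rw [← two_mul, h2, zero_mul]
  rw [h3] at h1
  simpa using h1.symm

theorem diag_val (w : Idx n → F) (i : Fin n) : w ⟨(i, i), le_refl i⟩ = QF w (Pi.single i 1) := by
  rw [QF]
  have h1 : us (vecMulVec (Pi.single i (1 : F)) (Pi.single i 1)) = Pi.single ⟨(i, i), le_refl i⟩ 1 := by
    funext p
    obtain ⟨⟨a, b⟩, hab⟩ := p
    show (Pi.single i (1 : F) : Fin n → F) a * (Pi.single i (1 : F) : Fin n → F) b = _
    by_cases ha : a = i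
    · by_cases hb : b = i
      · subst ha; subst hb; simp
      · rw [Pi.single_eq_of_ne hb, mul_zero, Pi.single_eq_of_ne]
        intro h
        have := congrArg (fun p : Idx n => p.1.2) h
        exact hb this
    · rw [Pi.single_eq_of_ne ha, zero_mul, Pi.single_eq_of_ne]
      intro h
      have := congrArg (fun p : Idx n => p.1.1) h
      exact ha this
  rw [h1, dotProduct_single, mul_one]

theorem off_val (w : Idx n → F) {i j : Fin n} (hij : i < j) : w ⟨(i, j), hij.le⟩ = BF w (Pi.single i 1) (Pi.single j 1) := by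
  rw [BF]
  have h1 : us (vecMulVec (Pi.single i (1 : F)) (Pi.single j 1) + vecMulVec (Pi.single j (1 : F)) (Pi.single i 1)) = Pi.single ⟨(i, j), hij.le⟩ 1 := by
    funext p
    obtain ⟨⟨a, b⟩, hab⟩ := p
    show (Pi.single i (1 : F) : Fin n → F) a * (Pi.single j (1 : F) : Fin n → F) b + (Pi.single j (1 : F) : Fin n → F) a * (Pi.single i (1 : F) : Fin n → F) b = _
    by_cases h : a = i ∧ b = j
    · obtain ⟨rfl, rfl⟩ := h
      simp [hij.ne, hij.ne']
    · have hne : (⟨(a, b), hab⟩ : Idx n) ≠ ⟨(i, j), hij.le⟩ := by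
        intro h'
        apply h
        have e1 := congrArg (fun p : Idx n => p.1.1) h'
        have e2 := congrArg (fun p : Idx n => p.1.2) h'
        exact ⟨e1, e2⟩
      rw [Pi.single_eq_of_ne hne]
      by_cases ha : a = i
      · have hb : b ≠ j := fun hb => h ⟨ha, hb⟩
        rw [Pi.single_eq_of_ne hb, mul_zero, zero_add]
        subst ha
        rw [Pi.single_eq_of_ne hij.ne, zero_mul]
      · rw [Pi.single_eq_of_ne ha, zero_mul, zero_add]
        by_cases ha' : a = j
        · subst ha'
          have : b ≠ i := by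
            rintro rfl
            exact absurd hab (not_le.2 hij)
          rw [Pi.single_eq_of_ne this, mul_zero]
        · rw [Pi.single_eq_of_ne ha', zero_mul]
  rw [h1, dotProduct_single, mul_one]

/-- a form is determined by its values -/
theorem ext_QF {w w' : Idx n → F} (h : ∀ x, QF w x = QF w' x) : w = w' := by
  funext p
  obtain ⟨⟨i, j⟩, hij⟩ := p
  rcases (show i ≤ j from hij).eq_or_lt with h1 | h1
  · have h1' : i = j := h1
    subst h1'
    exact (diag_val w i).trans ((h _).trans (diag_val w' i).symm)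
  · have h2 : ∀ x y, BF w x y = BF w' x y := by
      intro x y
      have e1 := QF_add w x y
      have e2 := QF_add w' x y
      rw [h, h, h] at e1
      rw [e1] at e2
      exact add_left_cancel e2
    exact (off_val w h1).trans ((h2 _ _).trans (off_val w' h1).symm)

/-- action of matrices on forms -/
noncomputable def act (w : Idx n → F) (A : Matrix (Fin n) (Fin n) F) : Idx n → F :=
  fun p => w ⬝ᵥ us (A * Sy (Pi.single p 1) * Aᵀ)

theorem act_dot (w : Idx n → F) (A : Matrix (Fin n) (Fin n) F) (v : Idx n → F) : act w A ⬝ᵥ v = w ⬝ᵥ us (A * Sy v * Aᵀ) := by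
  let L : (Idx n → F) →ₗ[F] F :=
    { toFun := fun v => w ⬝ᵥ us (A * Sy v * Aᵀ)
      map_add' := fun v v' => by rw [Sy_add, Matrix.mul_add, Matrix.add_mul, us_add, dotProduct_add]
      map_smul' := fun c v => by rw [Sy_smul, Matrix.mul_smul, Matrix.smul_mul, us_smul, dotProduct_smul]; rfl }
  have h1 := LinearMap.pi_apply_eq_sum_univ L v
  show _ = L v
  rw [h1, dotProduct]
  refine Finset.sum_congr rfl fun p _ => ?_
  rw [smul_eq_mul, mul_comm]
  congr 1
  show L (Pi.single p 1) = _
  congr 1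
  funext q
  rw [Pi.single_apply]
  by_cases h : p = q
  · rw [if_pos h, if_pos h.symm]
  · rw [if_neg h, if_neg (fun h' => h h'.symm)]

theorem QF_act (w : Idx n → F) (A : Matrix (Fin n) (Fin n) F) (x : Fin n → F) : QF (act w A) x = QF w (A *ᵥ x) := by
  rw [QF, act_dot, Sy_us (by rw [transpose_vecMulVec]), mul_vecMulVec, vecMulVec_mul, vecMul_transpose, QF]

theorem BF_act (w : Idx n → F) (A : Matrix (Fin n) (Fin n) F) (x y : Fin n → F) : BF (act w A) x y = BF w (A *ᵥ x) (A *ᵥ y) := by
  have e1 := QF_add (act w A) x y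
  rw [QF_act, QF_act, QF_act, mulVec_add, QF_add] at e1
  exact (add_left_cancel e1).symm

/-- the orbit -/
def Ob (w w' : Idx n → F) : Prop := ∃ A A' : Matrix (Fin n) (Fin n) F, A * A' = 1 ∧ w' = act w A

theorem act_act (w : Idx n → F) (A B : Matrix (Fin n) (Fin n) F) : act (act w A) B = act w (A * B) := by
  apply ext_QF
  intro x
  rw [QF_act, QF_act, QF_act, mulVec_mulVec]

theorem Ob.trans {w w' w'' : Idx n → F} (h1 : Ob w w') (h2 : Ob w' w'') : Ob w w'' := by
  obtain ⟨B, B', hB, rfl⟩ := h1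
  obtain ⟨C, C', hC, rfl⟩ := h2
  refine ⟨B * C, C' * B', ?_, act_act w B C⟩
  rw [Matrix.mul_assoc, ← Matrix.mul_assoc C, hC, Matrix.one_mul, hB]

/-- realisation of a basis change -/
theorem exists_mat {u v : Fin 2 → (Fin n → F)} (hu : LinearIndependent F u) (hv : LinearIndependent F v) :
    ∃ A A' : Matrix (Fin n) (Fin n) F, A * A' = 1 ∧ ∀ i, A *ᵥ (u i) = v i := by
  obtain ⟨e, he⟩ := Cfsg.Agent.H21.exists_equiv_of_linInd u v hu hv
  refine ⟨LinearMap.toMatrix' (e : (Fin n → F) →ₗ[F] (Fin n → F)), LinearMap.toMatrix' (e.symm : (Fin n → F) →ₗ[F] (Fin n → F)), ?_, fun i => ?_⟩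
  · rw [← LinearMap.toMatrix'_comp]; simp
  · rw [LinearMap.toMatrix'_mulVec]; exact he i

end defs

end Cfsg.Agent.H11.WT
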