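import Mathlib
import Cfsg.Agent.H11.WT1

set_option autoImplicit false
set_option linter.all false

/-! Smallest degree of `Sp_2n(q)`, `q` even: size of the orbits of quadratic forms. -/

namespace Cfsg.Agent.H11.WT

open Matrix Module

variable {F : Type*} [Field F] [Fintype F] [DecidableEq F]

theorem sq_inj2 (h2 : (2 : F) = 0) {x y : F} (h : x ^ 2 = y ^ 2) : x = y := by
  have h1 : (x - y) ^ 2 = 0 := by
    have : (x - y) ^ 2 = x ^ 2 - y ^ 2 + 2 * (y ^ 2 - x * y) := by ring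
    rw [this, h, h2]; ring
  exact sub_eq_zero.1 (pow_eq_zero_iff two_ne_zero |>.1 h1)

theorem C_card (h2 : (2 : F) = 0) {a0 b0 c0 : F} (ha : a0 ≠ 0) :
    (Finset.univ.filter fun p : F × F => a0 * p.1 ^ 2 + b0 * (p.1 * p.2) + c0 * p.2 ^ 2 = a0).card ≤ Fintype.card F + 1 := by
  rw [← Fintype.card_option, ← Finset.card_univ]
  refine Finset.card_le_card_of_injOn (fun p => if p.2 = 0 then none else some (p.1 / p.2)) (fun _ _ => Finset.mem_coe.2 (Finset.mem_univ _)) ?_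
  rintro ⟨s, t⟩ hp ⟨s', t'⟩ hp' h
  have e1 : a0 * s ^ 2 + b0 * (s * t) + c0 * t ^ 2 = a0 := (Finset.mem_filter.1 (Finset.mem_coe.1 hp)).2
  have e2 : a0 * s' ^ 2 + b0 * (s' * t') + c0 * t' ^ 2 = a0 := (Finset.mem_filter.1 (Finset.mem_coe.1 hp')).2
  simp only at h
  by_cases ht : t = 0
  · by_cases ht' : t' = 0
    · subst ht; subst ht'
      have h3 : a0 * s ^ 2 = a0 * s' ^ 2 := by linear_combination e1 - e2
      rw [sq_inj2 h2 (mul_left_cancel₀ ha h3)]
    · rw [if_pos ht, if_neg ht'] at h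
      exact absurd h (by simp)
  · by_cases ht' : t' = 0
    · rw [if_neg ht, if_pos ht'] at h
      exact absurd h (by simp)
    · rw [if_neg ht, if_neg ht', Option.some_inj] at h
      set r := s / t with hr
      have hs : s = r * t := by rw [hr, div_mul_cancel₀ _ ht]
      have hs' : s' = r * t' := by rw [h, div_mul_cancel₀ _ ht']
      have h3 : (a0 * r ^ 2 + b0 * r + c0) * t ^ 2 = a0 := by
        rw [hs] at e1
        linear_combination e1
      have h4 : (a0 * r ^ 2 + b0 * r + c0) * t' ^ 2 = a0 := by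
        rw [hs'] at e2
        linear_combination e2
      have h5 : a0 * r ^ 2 + b0 * r + c0 ≠ 0 := by
        intro h0
        rw [h0, zero_mul] at h3
        exact ha h3.symm
      have h6 : t = t' := sq_inj2 h2 (mul_left_cancel₀ h5 (h3.trans h4.symm))
      rw [hs, hs', h6]

theorem M_card (h2 : (2 : F) = 0) {a0 b0 c0 : F} (ha : a0 ≠ 0) (hb : b0 ≠ 0) :
    (Finset.univ.filter fun p : (F × F) × (F × F) => a0 * p.1.1 ^ 2 + b0 * (p.1.1 * p.1.2) + c0 * p.1.2 ^ 2 = a0 ∧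
      a0 * p.2.1 ^ 2 + b0 * (p.2.1 * p.2.2) + c0 * p.2.2 ^ 2 = c0 ∧ p.1.1 * p.2.2 + p.2.1 * p.1.2 = 1).card ≤ 2 * (Fintype.card F + 1) := by
  refine le_trans (Finset.card_le_mul_card_image_of_maps_to (f := Prod.fst) (t := (Finset.univ.filter fun p : F × F => a0 * p.1 ^ 2 + b0 * (p.1 * p.2) + c0 * p.2 ^ 2 = a0)) ?_ 2 ?_) ?_
  · intro p hp
    rw [Finset.mem_filter] at hp ⊢
    exact ⟨Finset.mem_univ _, hp.2.1⟩
  · rintro ⟨s, t⟩ hst
    rw [Finset.mem_filter] at hst
    have est : a0 * s ^ 2 + b0 * (s * t) + c0 * t ^ 2 = a0 := hst.2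
    by_cases hem : (Finset.filter (fun a : (F × F) × (F × F) => a.1 = (s, t)) (Finset.univ.filter fun p : (F × F) × (F × F) => a0 * p.1.1 ^ 2 + b0 * (p.1.1 * p.1.2) + c0 * p.1.2 ^ 2 = a0 ∧
      a0 * p.2.1 ^ 2 + b0 * (p.2.1 * p.2.2) + c0 * p.2.2 ^ 2 = c0 ∧ p.1.1 * p.2.2 + p.2.1 * p.1.2 = 1)) = ∅
    · rw [hem]; simp
    · obtain ⟨⟨p0, ⟨u, v⟩⟩, hp⟩ := Finset.nonempty_iff_ne_empty.2 hem
      rw [Finset.mem_filter, Finset.mem_filter] at hp
      obtain ⟨⟨_, _, e2, e3⟩, e4⟩ := hp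
      simp only at e2 e3 e4
      subst e4
      simp only at e3
      refine le_trans (Finset.card_le_card (t := {((s, t), (u, v)), ((s, t), (u + b0 / a0 * s, v + b0 / a0 * t))}) ?_) Finset.card_le_two
      rintro ⟨p1, ⟨u', v'⟩⟩ hp'
      rw [Finset.mem_filter, Finset.mem_filter] at hp'
      obtain ⟨⟨_, _, e2', e3'⟩, e4'⟩ := hp'
      simp only at e2' e3' e4'
      subst e4'
      simp only at e3'
      have hlam : ∃ l : F, u' = u + l * s ∧ v' = v + l * t := by
        have hd : s * (v' - v) = t * (u' - u) := by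
          have : s * (v' - v) + t * (u' - u) = 0 := by linear_combination e3' - e3
          have h5 : s * (v' - v) = -(t * (u' - u)) := by linear_combination this
          rw [h5]
          have h6 : (2 : F) * (t * (u' - u)) = 0 := by rw [h2, zero_mul]
          linear_combination -h6
        by_cases hs : s = 0
        · have ht : t ≠ 0 := by
            rintro rfl
            rw [hs] at est
            apply ha
            rw [← est]; ring
          refine ⟨(v' - v) / t, ?_, ?_⟩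
          · rw [hs] at hd ⊢
            have h7 : t * (u' - u) = 0 := by rw [← hd]; ring
            have h8 := (mul_eq_zero.1 h7).resolve_left ht
            rw [mul_zero, add_zero]
            exact sub_eq_zero.1 h8
          · field_simp; ring
        · refine ⟨(u' - u) / s, ?_, ?_⟩
          · field_simp; ring
          · have h9 : v' - v = (u' - u) / s * t := by
              field_simp
              linear_combination hd
            rw [← h9]; ring
      obtain ⟨l, hl1, hl2⟩ := hlam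
      have h10 : l * (b0 + l * a0) = 0 := by
        rw [hl1, hl2] at e2'
        have h11 : a0 * (u + l * s) ^ 2 + b0 * ((u + l * s) * (v + l * t)) + c0 * (v + l * t) ^ 2 =
          (a0 * u ^ 2 + b0 * (u * v) + c0 * v ^ 2) + l * b0 * (s * v + u * t) + l ^ 2 * (a0 * s ^ 2 + b0 * (s * t) + c0 * t ^ 2) + 2 * (a0 * u * l * s + c0 * v * l * t) := by ring
        rw [h11, e2, e3, est, h2] at e2'
        linear_combination e2'
      rw [Finset.mem_insert, Finset.mem_singleton]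
      rcases mul_eq_zero.1 h10 with h | h
      · left
        rw [hl1, hl2, h, zero_mul, zero_mul, add_zero, add_zero]
      · right
        have h12 : l = b0 / a0 := by
          rw [eq_div_iff ha]
          have h13 : (2 : F) * b0 = 0 := by rw [h2, zero_mul]
          linear_combination h - h13
        rw [hl1, hl2, h12]
  · exact Nat.mul_le_mul_left 2 (C_card h2 ha)

variable {n : ℕ}

theorem indep_of (f g : Fin n → F) {u v : Fin n → F} (h1 : f ⬝ᵥ u = 1) (h2 : g ⬝ᵥ u = 0) (h3 : f ⬝ᵥ v = 0) (h4 : g ⬝ᵥ v = 1) : LinearIndependent F ![f, g] := by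
  rw [LinearIndependent.pair_iff]
  intro s t hst
  have e1 := congrArg (fun x => x ⬝ᵥ u) hst
  have e2 := congrArg (fun x => x ⬝ᵥ v) hst
  simp only [add_dotProduct, smul_dotProduct, h1, h2, h3, h4, zero_dotProduct, smul_eq_mul, mul_one, mul_zero, add_zero, zero_add] at e1 e2
  exact ⟨e1, e2⟩

theorem dual_of {f g : Fin n → F} (h : LinearIndependent F ![f, g]) : ∃ u v : Fin n → F, f ⬝ᵥ u = 1 ∧ g ⬝ᵥ u = 0 ∧ f ⬝ᵥ v = 0 ∧ g ⬝ᵥ v = 1 := by
  rw [LinearIndependent.pair_iff] at h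
  have h1 : f ∉ MI.ln g := by
    rw [MI.mem_ln]
    rintro ⟨c, hc⟩
    have := h 1 (-c) (by rw [one_smul, neg_smul, hc]; exact add_neg_cancel _)
    exact one_ne_zero this.1
  have h2 : g ∉ MI.ln f := by
    rw [MI.mem_ln]
    rintro ⟨c, hc⟩
    have := h (-c) 1 (by rw [one_smul, neg_smul, hc]; exact neg_add_cancel _)
    exact one_ne_zero this.2
  obtain ⟨u, hu1, hu2⟩ := MI.dual_ex h1
  obtain ⟨v, hv1, hv2⟩ := MI.dual_ex h2
  exact ⟨u, v, by rw [dotProduct_comm, hu2], by rw [dotProduct_comm, hu1], by rw [dotProduct_comm, hv1], by rw [dotProduct_comm, hv2]⟩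

open Classical in
/-- the fibre bound -/
theorem fibre (h2 : (2 : F) = 0) {a0 b0 c0 : F} (ha : a0 ≠ 0) (hb : b0 ≠ 0) {f g : Fin n → F} (hfg : LinearIndependent F ![f, g]) :
    (Finset.univ.filter fun s : Fin 2 → (Fin n → F) => LinearIndependent F s ∧
      ∀ x, a0 * (s 0 ⬝ᵥ x) ^ 2 + b0 * ((s 0 ⬝ᵥ x) * (s 1 ⬝ᵥ x)) + c0 * (s 1 ⬝ᵥ x) ^ 2 = a0 * (f ⬝ᵥ x) ^ 2 + b0 * ((f ⬝ᵥ x) * (g ⬝ᵥ x)) + c0 * (g ⬝ᵥ x) ^ 2).card ≤ 2 * (Fintype.card F + 1) := by
  obtain ⟨u, v, hfu, hgu, hfv, hgv⟩ := dual_of hfg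
  refine le_trans ?_ (M_card h2 (c0 := c0) ha hb)
  refine Finset.card_le_card_of_injOn (fun s => ((s 0 ⬝ᵥ u, s 1 ⬝ᵥ u), (s 0 ⬝ᵥ v, s 1 ⬝ᵥ v))) ?_ ?_
  · intro s hs
    rw [Finset.mem_coe, Finset.mem_filter] at hs
    obtain ⟨_, hli, hQ⟩ := hs
    rw [Finset.mem_coe, Finset.mem_filter]
    refine ⟨Finset.mem_univ _, ?_, ?_, ?_⟩
    · have := hQ u
      rw [hfu, hgu] at this
      simp only
      rw [this]; ring
    · have := hQ v
      rw [hfv, hgv] at this
      simp only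
      rw [this]; ring
    · have e1 := hQ u
      have e2 := hQ v
      have e3 := hQ (u + v)
      simp only [dotProduct_add, hfu, hgu, hfv, hgv] at e1 e2 e3
      simp only
      have e4 : b0 * (s 0 ⬝ᵥ u * (s 1 ⬝ᵥ v) + s 0 ⬝ᵥ v * (s 1 ⬝ᵥ u)) = b0 * 1 := by
        have h5 : (2 : F) * (a0 * (s 0 ⬝ᵥ u) * (s 0 ⬝ᵥ v) + c0 * (s 1 ⬝ᵥ u) * (s 1 ⬝ᵥ v)) = 0 := by rw [h2, zero_mul]
        linear_combination e3 - e1 - e2 - h5
      exact mul_left_cancel₀ hb e4
  · -- injectivity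
    have key : ∀ s : Fin 2 → (Fin n → F), LinearIndependent F s →
        (∀ x, a0 * (s 0 ⬝ᵥ x) ^ 2 + b0 * ((s 0 ⬝ᵥ x) * (s 1 ⬝ᵥ x)) + c0 * (s 1 ⬝ᵥ x) ^ 2 = a0 * (f ⬝ᵥ x) ^ 2 + b0 * ((f ⬝ᵥ x) * (g ⬝ᵥ x)) + c0 * (g ⬝ᵥ x) ^ 2) →
        ∀ z : Fin n → F, f ⬝ᵥ z = 0 → g ⬝ᵥ z = 0 → s 0 ⬝ᵥ z = 0 ∧ s 1 ⬝ᵥ z = 0 := by
      intro s hli hQ z hz1 hz2
      have hli' : LinearIndependent F ![s 0, s 1] := by
        have : ![s 0, s 1] = s := by funext i; fin_cases i <;> rfl
        rw [this]; exact hli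
      obtain ⟨u', v', k1, k2, k3, k4⟩ := dual_of hli'
      have hz := hQ z
      rw [hz1, hz2] at hz
      have pol : ∀ y, b0 * (s 0 ⬝ᵥ y * (s 1 ⬝ᵥ z) + s 0 ⬝ᵥ z * (s 1 ⬝ᵥ y)) = 0 := by
        intro y
        have e1 := hQ y
        have e3 := hQ (y + z)
        simp only [dotProduct_add, hz1, hz2, add_zero] at e3
        have h5 : (2 : F) * (a0 * (s 0 ⬝ᵥ y) * (s 0 ⬝ᵥ z) + c0 * (s 1 ⬝ᵥ y) * (s 1 ⬝ᵥ z)) = 0 := by rw [h2, zero_mul]
        linear_combination e3 - e1 - hz - h5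
      have p1 := pol u'
      have p2 := pol v'
      rw [k1, k2] at p1
      rw [k3, k4] at p2
      constructor
      · have := (mul_eq_zero.1 p2).resolve_left hb
        simpa using this
      · have := (mul_eq_zero.1 p1).resolve_left hb
        simpa using this
    intro s hs s' hs' h
    rw [Finset.mem_coe, Finset.mem_filter] at hs hs'
    simp only [Prod.mk.injEq] at h
    obtain ⟨⟨i1, i2⟩, i3, i4⟩ := h
    have hall : ∀ x, s 0 ⬝ᵥ x = s' 0 ⬝ᵥ x ∧ s 1 ⬝ᵥ x = s' 1 ⬝ᵥ x := by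
      intro x
      set z := x - (f ⬝ᵥ x) • u - (g ⬝ᵥ x) • v with hz
      have hx : x = (f ⬝ᵥ x) • u + (g ⬝ᵥ x) • v + z := by rw [hz]; abel
      have hz1 : f ⬝ᵥ z = 0 := by
        rw [hz, dotProduct_sub, dotProduct_sub, dotProduct_smul, dotProduct_smul, hfu, hfv, smul_eq_mul, smul_eq_mul]; ring
      have hz2 : g ⬝ᵥ z = 0 := by
        rw [hz, dotProduct_sub, dotProduct_sub, dotProduct_smul, dotProduct_smul, hgu, hgv, smul_eq_mul, smul_eq_mul]; ring
      obtain ⟨q1, q2⟩ := key s hs.2.1 hs.2.2 z hz1 hz2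
      obtain ⟨q3, q4⟩ := key s' hs'.2.1 hs'.2.2 z hz1 hz2
      rw [hx]
      simp only [dotProduct_add, dotProduct_smul, q1, q2, q3, q4, i1, i2, i3, i4]
      exact ⟨trivial, trivial⟩
    have e0 : s 0 = s' 0 := by
      funext i
      have := (hall (Pi.single i 1)).1
      simpa using this
    have e1 : s 1 = s' 1 := by
      funext i
      have := (hall (Pi.single i 1)).2
      simpa using this
    funext i
    fin_cases i
    · exact e0
    · exact e1

open Classical in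
/-- the orbit of a form of rank two -/
theorem rank2 (h2 : (2 : F) = 0) (hn : 2 ≤ n) {w : Idx n → F} {a0 b0 c0 : F} (ha : a0 ≠ 0) (hb : b0 ≠ 0) {f g : Fin n → F} (hfg : LinearIndependent F ![f, g])
    (hQ : ∀ x, QF w x = a0 * (f ⬝ᵥ x) ^ 2 + b0 * ((f ⬝ᵥ x) * (g ⬝ᵥ x)) + c0 * (g ⬝ᵥ x) ^ 2) :
    (Fintype.card F ^ n - 1) * (Fintype.card F ^ n - Fintype.card F) ≤ 2 * (Fintype.card F + 1) * (Finset.univ.filter fun w' => Ob w w').card := by
  have hex : ∀ s : Fin 2 → (Fin n → F), ∃ w' : Idx n → F, LinearIndependent F s → Ob w w' ∧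
      ∀ x, QF w' x = a0 * (s 0 ⬝ᵥ x) ^ 2 + b0 * ((s 0 ⬝ᵥ x) * (s 1 ⬝ᵥ x)) + c0 * (s 1 ⬝ᵥ x) ^ 2 := by
    intro s
    by_cases hs : LinearIndependent F s
    · obtain ⟨M, M', hM, hMv⟩ := exists_mat hfg hs
      refine ⟨act w Mᵀ, fun _ => ⟨⟨Mᵀ, M'ᵀ, ?_, rfl⟩, fun x => ?_⟩⟩
      · rw [← transpose_mul, mul_eq_one_comm.1 hM, transpose_one]
      · have m0 : f ᵥ* Mᵀ = s 0 := by rw [vecMul_transpose]; exact hMv 0
        have m1 : g ᵥ* Mᵀ = s 1 := by rw [vecMul_transpose]; exact hMv 1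
        rw [QF_act, hQ, dotProduct_mulVec, dotProduct_mulVec, m0, m1]
    · exact ⟨w, fun h => absurd h hs⟩
  choose Φ hΦ using hex
  have hcard : (Finset.univ.filter fun s : Fin 2 → (Fin n → F) => LinearIndependent F s).card = (Fintype.card F ^ n - 1) * (Fintype.card F ^ n - Fintype.card F) := by
    have h1 := card_linearIndependent (K := F) (V := Fin n → F) (k := 2) (by rw [finrank_fintype_fun_eq_card, Fintype.card_fin]; exact hn)
    rw [finrank_fintype_fun_eq_card, Fintype.card_fin, Fin.prod_univ_two] at h1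
    have h3 : Nat.card { s : Fin 2 → (Fin n → F) // LinearIndependent F s } = (Finset.univ.filter fun s : Fin 2 → (Fin n → F) => LinearIndependent F s).card := by
      apply Nat.subtype_card
      intro s
      simp
    rw [← h3, h1]
    simp
  rw [← hcard]
  refine Finset.card_le_mul_card_image_of_maps_to (f := Φ) (t := Finset.univ.filter fun w' => Ob w w') ?_ _ ?_
  · intro s hs
    rw [Finset.mem_filter] at hs ⊢
    exact ⟨Finset.mem_univ _, (hΦ s hs.2).1⟩
  · intro w' hw'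
    by_cases hem : (Finset.filter (fun s => Φ s = w') (Finset.univ.filter fun s : Fin 2 → (Fin n → F) => LinearIndependent F s)) = ∅
    · rw [hem]; simp
    · obtain ⟨s, hs⟩ := Finset.nonempty_iff_ne_empty.2 hem
      rw [Finset.mem_filter, Finset.mem_filter] at hs
      have hsli : LinearIndependent F ![s 0, s 1] := by
        have : ![s 0, s 1] = s := by funext i; fin_cases i <;> rfl
        rw [this]; exact hs.1.2
      refine le_trans (Finset.card_le_card ?_) (fibre h2 (c0 := c0) ha hb hsli)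
      intro t ht
      rw [Finset.mem_filter, Finset.mem_filter] at ht
      rw [Finset.mem_filter]
      refine ⟨Finset.mem_univ _, ht.1.2, fun x => ?_⟩
      rw [← (hΦ t ht.1.2).2 x, ← (hΦ s hs.1.2).2 x, ht.2, hs.2]

end Cfsg.Agent.H11.WT
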