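import Mathlib
import Cfsg.Agent.H11.WT2

set_option autoImplicit false
set_option linter.all false

/-! Smallest degree of `Sp_2n(q)`, `q` even: the orbit bound. -/

namespace Cfsg.Agent.H11.WT

open Matrix Module

variable {F : Type*} [Field F] [Fintype F] [DecidableEq F] {k : ℕ}

theorem indep_xy (h2 : (2 : F) = 0) {n : ℕ} {w : Idx n → F} {x y : Fin n → F} (h : BF w x y ≠ 0) : LinearIndependent F ![x, y] := by
  rw [LinearIndependent.pair_iff]
  intro s t hst
  have e1 : BF w x (s • x + t • y) = 0 := by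
    rw [hst]
    have := BF_smul w 0 x 0
    rw [zero_smul, zero_mul] at this
    exact this
  have e2 : BF w y (s • x + t • y) = 0 := by
    rw [hst]
    have := BF_smul w 0 y 0
    rw [zero_smul, zero_mul] at this
    exact this
  rw [BF_add, BF_smul, BF_smul, BF_self h2, mul_zero, zero_add] at e1
  rw [BF_add, BF_smul, BF_smul, BF_self h2, mul_zero, add_zero, BF_comm] at e2
  exact ⟨(mul_eq_zero.1 e2).resolve_right h, (mul_eq_zero.1 e1).resolve_right h⟩

theorem row_ex (h2 : (2 : F) = 0) (w : Idx (k + 2) → F) (hrep : ∀ a b c : F, b ≠ 0 → ∃ x y, QF w x = a ∧ BF w x y = b ∧ QF w y = c)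
    (r0 : Fin (k + 2) → F) (r1 : Fin (k + 1) → F) (hr : r0 1 ≠ 0) :
    ∃ w', Ob w w' ∧ (∀ j, w' ⟨(0, j), Fin.zero_le _⟩ = r0 j) ∧ (∀ j : Fin (k + 1), w' ⟨(1, j.succ), Fin.succ_le_succ_iff.2 (Fin.zero_le j)⟩ = r1 j) := by
  obtain ⟨x, y, hx, hxy, hy⟩ := hrep (r0 0) (r0 1) (r1 0) hr
  have h01 : (0 : Fin (k + 2)) ≠ 1 := by simp
  have hli := indep_xy h2 (w := w) (x := x) (y := y) (by rw [hxy]; exact hr)
  have he : LinearIndependent F ![(Pi.single 0 1 : Fin (k + 2) → F), Pi.single 1 1] :=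
    indep_of _ _ (u := Pi.single 0 1) (v := Pi.single 1 1) (by simp) (by simp [h01]) (by simp [h01]) (by simp)
  obtain ⟨A, A', hA, hAv⟩ := exists_mat he hli
  have hA0 : A *ᵥ (Pi.single 0 1 : Fin (k + 2) → F) = x := hAv 0
  have hA1 : A *ᵥ (Pi.single 1 1 : Fin (k + 2) → F) = y := hAv 1
  set w0 := act w A with hw0
  have q0 : QF w0 (Pi.single 0 1) = r0 0 := by rw [hw0, QF_act, hA0, hx]
  have q1 : QF w0 (Pi.single 1 1) = r1 0 := by rw [hw0, QF_act, hA1, hy]
  have b01 : BF w0 (Pi.single 0 1) (Pi.single 1 1) = r0 1 := by rw [hw0, BF_act, hA0, hA1, hxy]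
  set r1' : Fin (k + 2) → F := Fin.cons 0 r1 with hr1'
  set α : Fin (k + 2) → F := fun j => if j = 0 ∨ j = 1 then 0 else (r1' j - BF w0 (Pi.single 1 1) (Pi.single j 1)) / r0 1 with hα
  set β : Fin (k + 2) → F := fun j => if j = 0 ∨ j = 1 then 0 else (r0 j - BF w0 (Pi.single 0 1) (Pi.single j 1)) / r0 1 with hβ
  have a0 : α 0 = 0 := by simp [hα]
  have a1 : α 1 = 0 := by simp [hα]
  have c0 : β 0 = 0 := by simp [hβ]
  have c1 : β 1 = 0 := by simp [hβ]
  set N : Matrix (Fin (k + 2)) (Fin (k + 2)) F := vecMulVec (Pi.single 0 1) α + vecMulVec (Pi.single 1 1) β with hN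
  have hNN : N * N = 0 := by
    rw [hN, Matrix.add_mul, Matrix.mul_add, Matrix.mul_add, vecMulVec_mul_vecMulVec, vecMulVec_mul_vecMulVec, vecMulVec_mul_vecMulVec, vecMulVec_mul_vecMulVec]
    simp [a0, a1, c0, c1]
  set B : Matrix (Fin (k + 2)) (Fin (k + 2)) F := 1 + N with hB
  have hBj : ∀ j, B *ᵥ (Pi.single j 1 : Fin (k + 2) → F) = Pi.single j 1 + α j • Pi.single 0 1 + β j • Pi.single 1 1 := by
    intro j
    rw [hB, hN, add_mulVec, one_mulVec, add_mulVec, vecMulVec_mulVec, vecMulVec_mulVec, ← add_assoc]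
    congr 1
    · congr 1
      ext i; simp [mul_comm]
    · ext i; simp [mul_comm]
  have hB0 : B *ᵥ (Pi.single 0 1 : Fin (k + 2) → F) = Pi.single 0 1 := by rw [hBj, a0, c0, zero_smul, zero_smul, add_zero, add_zero]
  have hB1 : B *ᵥ (Pi.single 1 1 : Fin (k + 2) → F) = Pi.single 1 1 := by rw [hBj, a1, c1, zero_smul, zero_smul, add_zero, add_zero]
  refine ⟨act w0 B, Ob.trans ⟨A, A', hA, rfl⟩ ⟨B, 1 - N, ?_, rfl⟩, ?_, ?_⟩
  · rw [hB, Matrix.mul_sub, Matrix.mul_one, Matrix.add_mul, Matrix.one_mul, hNN]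
    abel
  · intro j
    by_cases hj : j = 0
    · subst hj
      have := diag_val (act w0 B) 0
      rw [QF_act, hB0, q0] at this
      exact this
    · have hlt : (0 : Fin (k + 2)) < j := Fin.pos_of_ne_zero hj
      have := off_val (act w0 B) hlt
      rw [BF_act, hB0, hBj, BF_add, BF_add, BF_smul, BF_smul, BF_self h2, mul_zero, add_zero, b01] at this
      rw [show (act w0 B ⟨(0, j), Fin.zero_le _⟩) = act w0 B ⟨(0, j), hlt.le⟩ from rfl, this]
      by_cases hj1 : j = 1
      · subst hj1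
        rw [b01, c1, zero_mul, add_zero]
      · rw [hβ]
        simp only [hj, hj1, or_self, if_false]
        field_simp
        ring
  · intro j
    by_cases hj : j = 0
    · subst hj
      have := diag_val (act w0 B) 1
      rw [QF_act, hB1, q1] at this
      exact this
    · have hlt : (1 : Fin (k + 2)) < j.succ := by
        rw [← Fin.succ_zero_eq_one, Fin.succ_lt_succ_iff]
        exact Fin.pos_of_ne_zero hj
      have := off_val (act w0 B) hlt
      rw [BF_act, hB1, hBj, BF_add, BF_add, BF_smul, BF_smul, BF_self h2, mul_zero, add_zero, BF_comm w0 (Pi.single 1 1) (Pi.single 0 1), b01] at this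
      rw [show (act w0 B ⟨(1, j.succ), Fin.succ_le_succ_iff.2 (Fin.zero_le j)⟩) = act w0 B ⟨(1, j.succ), hlt.le⟩ from rfl, this]
      have hj1 : j.succ ≠ 1 := hlt.ne'
      have hj0 : j.succ ≠ 0 := Fin.succ_ne_zero j
      rw [hα]
      simp only [hj0, hj1, or_self, if_false]
      have h5 : r1' j.succ = r1 j := by rw [hr1', Fin.cons_succ]
      rw [h5]
      field_simp
      ring

open Classical in
theorem orbit_all (h2 : (2 : F) = 0) (w : Idx (k + 2) → F) (hrep : ∀ a b c : F, b ≠ 0 → ∃ x y, QF w x = a ∧ BF w x y = b ∧ QF w y = c) :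
    (Fintype.card F - 1) * Fintype.card F ^ (k + 1) * Fintype.card F ^ (k + 1) ≤ (Finset.univ.filter fun w' => Ob w w').card := by
  have h1 : ∀ r : {r : Fin (k + 2) → F // r 1 ≠ 0} × (Fin (k + 1) → F), ∃ w', Ob w w' ∧ (∀ j, w' ⟨(0, j), Fin.zero_le _⟩ = r.1.1 j) ∧ (∀ j : Fin (k + 1), w' ⟨(1, j.succ), Fin.succ_le_succ_iff.2 (Fin.zero_le j)⟩ = r.2 j) :=
    fun r => row_ex h2 w hrep r.1.1 r.2 r.1.2
  choose M hM hM0 hM1 using h1
  have h3 : Fintype.card ({r : Fin (k + 2) → F // r 1 ≠ 0} × (Fin (k + 1) → F)) ≤ (Finset.univ.filter fun w' => Ob w w').card := by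
    rw [← Fintype.card_coe]
    refine Fintype.card_le_of_injective (fun r => ⟨M r, by rw [Finset.mem_filter]; exact ⟨Finset.mem_univ _, hM r⟩⟩) ?_
    intro r s hrs
    have h4 : M r = M s := congrArg Subtype.val hrs
    refine Prod.ext (Subtype.ext (funext fun j => ?_)) (funext fun j => ?_)
    · rw [← hM0 r, ← hM0 s, h4]
    · rw [← hM1 r, ← hM1 s, h4]
  refine le_trans ?_ h3
  rw [Fintype.card_prod, Fintype.card_fun, Fintype.card_fin]
  refine Nat.mul_le_mul_right _ ?_
  have h6 : Fintype.card ({c : F // c ≠ 0} × (Fin (k + 1) → F)) = (Fintype.card F - 1) * Fintype.card F ^ (k + 1) := by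
    rw [Fintype.card_prod, Fintype.card_fun, Fintype.card_fin]
    congr 1
    exact Set.card_ne_eq (0 : F)
  rw [← h6]
  refine Fintype.card_le_of_injective (fun s => ⟨Fin.insertNth (α := fun _ => F) 1 s.1.1 s.2, by
    show Fin.insertNth (α := fun _ => F) 1 s.1.1 s.2 1 ≠ 0
    rw [Fin.insertNth_apply_same]; exact s.1.2⟩) ?_
  rintro ⟨⟨a, ha⟩, b⟩ ⟨⟨c, hc⟩, d⟩ h
  have h7 : (Fin.insertNth (α := fun _ => F) 1 a b : Fin (k + 2) → F) = Fin.insertNth (α := fun _ => F) 1 c d := congrArg Subtype.val h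
  have h8 : a = c := by
    have := congrFun h7 1
    rwa [Fin.insertNth_apply_same, Fin.insertNth_apply_same] at this
  have h9 : b = d := by
    funext j
    have := congrFun h7 (Fin.succAbove 1 j)
    rwa [Fin.insertNth_apply_succAbove, Fin.insertNth_apply_succAbove] at this
  exact Prod.ext (Subtype.ext h8) h9

theorem dot_of_lin {n : ℕ} (φ : (Fin n → F) →ₗ[F] F) (x : Fin n → F) : (fun i => φ (Pi.single i 1)) ⬝ᵥ x = φ x := by
  rw [LinearMap.pi_apply_eq_sum_univ φ x, dotProduct]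
  refine Finset.sum_congr rfl fun i _ => ?_
  rw [smul_eq_mul, mul_comm]
  congr 2
  funext q
  rw [Pi.single_apply]
  by_cases h : i = q
  · rw [if_pos h, if_pos h.symm]
  · rw [if_neg h, if_neg (fun h' => h h'.symm)]

open Classical in
/-- the orbit of a quadratic form with nonzero polarisation -/
theorem orbit_bound (h2 : (2 : F) = 0) (hsq : ∀ a : F, ∃ t : F, t ^ 2 = a) (w : Idx (k + 2) → F) {x1 y1 : Fin (k + 2) → F} (hne : BF w x1 y1 ≠ 0) :
    (Fintype.card F ^ (k + 2) - 1) * (Fintype.card F ^ (k + 2) - Fintype.card F) / (2 * (Fintype.card F + 1)) ≤ (Finset.univ.filter fun w' => Ob w w').card := by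
  have hq : 2 ≤ Fintype.card F := Fintype.one_lt_card
  obtain ⟨x0, y0, hxy, hx0⟩ : ∃ x0 y0, BF w x0 y0 ≠ 0 ∧ QF w x0 ≠ 0 := by
    by_cases hx : QF w x1 = 0
    · by_cases hy : QF w y1 = 0
      · refine ⟨x1 + y1, y1, ?_, ?_⟩
        · rw [BF_add_left, BF_self h2, add_zero]; exact hne
        · rw [QF_add, hx, hy, zero_add, zero_add]; exact hne
      · exact ⟨y1, x1, by rw [BF_comm]; exact hne, hy⟩
    · exact ⟨x1, y1, hne, hx⟩
  set b0 := BF w x0 y0 with hb0
  by_cases hz : ∃ z, BF w x0 z = 0 ∧ BF w y0 z = 0 ∧ QF w z ≠ 0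
  · obtain ⟨z, hz1, hz2, hz3⟩ := hz
    have hall : ∀ a b c : F, b ≠ 0 → ∃ x y, QF w x = a ∧ BF w x y = b ∧ QF w y = c := by
      intro a b c hb
      obtain ⟨t, ht⟩ := hsq ((a - (b / b0) ^ 2 * QF w x0) / QF w z)
      obtain ⟨t', ht'⟩ := hsq ((c - QF w y0) / QF w z)
      refine ⟨(b / b0) • x0 + t • z, y0 + t' • z, ?_, ?_, ?_⟩
      · rw [QF_add, QF_smul, QF_smul, BF_smul_left, BF_smul, hz1, ht, mul_zero, mul_zero, add_zero]
        field_simp
        ring
      · rw [BF_add_left, BF_add, BF_add, BF_smul_left, BF_smul_left, BF_smul_left, BF_smul_left, BF_smul, BF_smul, hz1, BF_comm w z y0, hz2, BF_self h2, ← hb0]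
        field_simp
        ring
      · rw [QF_add, QF_smul, BF_smul, hz2, ht', mul_zero, add_zero]
        field_simp
        ring
    refine le_trans ?_ (orbit_all h2 w hall)
    apply Nat.div_le_of_le_mul
    have e1 : (Fintype.card F ^ (k + 2) - 1) * (Fintype.card F ^ (k + 2) - Fintype.card F) ≤ Fintype.card F ^ (k + 2) * Fintype.card F ^ (k + 2) :=
      Nat.mul_le_mul (Nat.sub_le _ _) (Nat.sub_le _ _)
    refine le_trans e1 ?_
    obtain ⟨q', hq'⟩ : ∃ q', Fintype.card F = q' + 2 := ⟨Fintype.card F - 2, by omega⟩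
    have e2 : Fintype.card F * Fintype.card F ≤ 2 * (Fintype.card F + 1) * (Fintype.card F - 1) := by
      rw [hq']
      have : q' + 2 - 1 = q' + 1 := by omega
      rw [this]
      nlinarith
    calc Fintype.card F ^ (k + 2) * Fintype.card F ^ (k + 2) = (Fintype.card F * Fintype.card F) * (Fintype.card F ^ (k + 1) * Fintype.card F ^ (k + 1)) := by ring
      _ ≤ (2 * (Fintype.card F + 1) * (Fintype.card F - 1)) * (Fintype.card F ^ (k + 1) * Fintype.card F ^ (k + 1)) := Nat.mul_le_mul_right _ e2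
      _ = 2 * (Fintype.card F + 1) * ((Fintype.card F - 1) * Fintype.card F ^ (k + 1) * Fintype.card F ^ (k + 1)) := by ring
  · push Not at hz
    let φ : (Fin (k + 2) → F) →ₗ[F] F :=
      { toFun := fun v => BF w y0 v / b0
        map_add' := fun u v => by rw [BF_add, add_div]
        map_smul' := fun c v => by rw [BF_smul, mul_div_assoc]; rfl }
    let γ : (Fin (k + 2) → F) →ₗ[F] F :=
      { toFun := fun v => BF w x0 v / b0
        map_add' := fun u v => by rw [BF_add, add_div]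
        map_smul' := fun c v => by rw [BF_smul, mul_div_assoc]; rfl }
    have hφ : ∀ v, (fun i => φ (Pi.single i 1)) ⬝ᵥ v = BF w y0 v / b0 := dot_of_lin φ
    have hγ : ∀ v, (fun i => γ (Pi.single i 1)) ⬝ᵥ v = BF w x0 v / b0 := dot_of_lin γ
    have hli : LinearIndependent F ![(fun i => φ (Pi.single i 1)), (fun i => γ (Pi.single i 1))] := by
      apply indep_of _ _ (u := x0) (v := y0)
      · rw [hφ, BF_comm, ← hb0, div_self hxy]
      · rw [hγ, BF_self h2, zero_div]
      · rw [hφ, BF_self h2, zero_div]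
      · rw [hγ, ← hb0, div_self hxy]
    apply Nat.div_le_of_le_mul
    refine rank2 h2 (by omega) (a0 := QF w x0) (b0 := b0) (c0 := QF w y0) hx0 hxy hli ?_
    intro v
    rw [hφ, hγ]
    set α := BF w y0 v / b0 with hα
    set β := BF w x0 v / b0 with hβ
    set z := v - α • x0 - β • y0 with hzz
    have hv : v = (α • x0 + β • y0) + z := by rw [hzz]; abel
    have n1 : ∀ u c x y, BF w u (v - x • c - y • y0) = BF w u v - x * BF w u c - y * BF w u y0 := by
      intro u c x y
      rw [sub_eq_add_neg, sub_eq_add_neg, BF_add, BF_add, ← neg_smul, ← neg_smul, BF_smul, BF_smul]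
      ring
    have z1 : BF w x0 z = 0 := by
      rw [hzz, n1, BF_self h2, ← hb0, hβ, div_mul_cancel₀ _ hxy]
      ring
    have z2 : BF w y0 z = 0 := by
      rw [hzz, n1, BF_self h2, BF_comm w y0 x0, ← hb0, hα, div_mul_cancel₀ _ hxy]
      ring
    have z3 : QF w z = 0 := hz z z1 z2
    have : QF w v = QF w ((α • x0 + β • y0) + z) := by rw [← hv]
    rw [this, QF_add, z3, BF_add_left, BF_smul_left, BF_smul_left, z1, z2, QF_add, QF_smul, QF_smul, BF_smul_left, BF_smul, ← hb0]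
    ring

end Cfsg.Agent.H11.WT
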