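import Mathlib
import Cfsg.Agent.H11.WT3
import Cfsg.Agent.H5.SpPrim
import Cfsg.Agent.H10.Comp

set_option autoImplicit false
set_option linter.all false

/-! Smallest degree of `Sp_2n(q)`, `q` even: conclusion. -/

namespace Cfsg.Agent.H11.WT

open Matrix Module Cfsg.Agent.H16.LSB Cfsg.Agent.H5

variable {F : Type*} [Field F] {n : ℕ}

theorem NS_congr' {S S' : Matrix (Fin n) (Fin n) F} (h : S = S') (hS : Sᵀ = S) (hS' : S'ᵀ = S') : NS S hS = NS S' hS' := by
  subst h; rfl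

variable {V : Type*} [AddCommGroup V] [Module ℂ V]

noncomputable def TT (ρ : Representation ℂ (Matrix.symplecticGroup (Fin n) F) V) (v : Idx n → F) : Module.End ℂ V := ρ (NS (Sy v) (Sy_sym v))

theorem TT_zero (ρ : Representation ℂ (Matrix.symplecticGroup (Fin n) F) V) : TT ρ 0 = 1 := by
  have : NS (Sy (0 : Idx n → F)) (Sy_sym 0) = 1 := by
    apply Subtype.ext
    show fromBlocks 1 _ 0 1 = 1
    have : Sy (0 : Idx n → F) = 0 := rfl
    rw [this, fromBlocks_one]
  rw [TT, this, map_one]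

theorem TT_add (ρ : Representation ℂ (Matrix.symplecticGroup (Fin n) F) V) (v w : Idx n → F) : TT ρ (v + w) = TT ρ v * TT ρ w := by
  rw [TT, TT, TT, ← map_mul, NS_mul _ _ _ _ (by rw [← Sy_add]; exact Sy_sym _)]
  congr 1

variable [Fintype F] [DecidableEq F] [FiniteDimensional ℂ V] {k : ℕ}

theorem lower (h2 : (2 : F) = 0) (hsq : ∀ a : F, ∃ t : F, t ^ 2 = a) (ρ : Representation ℂ (Matrix.symplecticGroup (Fin (k + 2)) F) V)
    (hne : TT ρ (Pi.single ⟨(0, 1), Fin.zero_le _⟩ 1) ≠ 1) :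
    (Fintype.card F ^ (k + 2) - 1) * (Fintype.card F ^ (k + 2) - Fintype.card F) / (2 * (Fintype.card F + 1)) ≤ finrank ℂ V := by
  classical
  have hL : (Fintype.card F : ℂ) ≠ 0 := Nat.cast_ne_zero.2 Fintype.card_ne_zero
  obtain ⟨ψ, w, hψ1, hψw, x, hx0, hx⟩ := exists_weight hL (TT ρ) (TT_zero ρ) (TT_add ρ) _ hne
  have h01 : (0 : Fin (k + 2)) < 1 := Fin.zero_lt_one
  have hw : BF w (Pi.single 0 1) (Pi.single 1 1) ≠ 0 := by
    intro h
    apply hψw
    rw [dotProduct_single, mul_one]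
    have := off_val w h01
    rw [h] at this
    rw [show w ⟨(0, 1), Fin.zero_le _⟩ = 0 from this, AddChar.map_zero_eq_one]
  refine (orbit_bound h2 hsq w hw).trans ?_
  rw [← Fintype.card_coe]
  refine card_le_of_weights hL (TT ρ) (TT_zero ρ) (TT_add ρ) ψ hψ1 (fun M => M.1) Subtype.val_injective ?_
  rintro ⟨w', hw'⟩
  obtain ⟨B, B', hB, rfl⟩ := (Finset.mem_filter.1 hw').2
  have hinv : ρ (MA B B' hB) * ρ ((MA B B' hB)⁻¹) = 1 := by rw [← map_mul, mul_inv_cancel, map_one]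
  refine ⟨ρ ((MA B B' hB)⁻¹) x, ?_, ?_⟩
  · intro h
    apply hx0
    have := congrArg (ρ (MA B B' hB)) h
    rwa [← Module.End.mul_apply, hinv, map_zero] at this
  · intro v
    have hs : (B * Sy v * Bᵀ)ᵀ = B * Sy v * Bᵀ := by
      rw [transpose_mul, transpose_mul, transpose_transpose, Sy_sym, Matrix.mul_assoc]
    have h9 : NS (B * Sy v * Bᵀ) hs * MA B B' hB = MA B B' hB * NS (Sy v) (Sy_sym v) := MA_NS B B' _ hB (Sy_sym v) hs
    have h10 : NS (Sy v) (Sy_sym v) * (MA B B' hB)⁻¹ = (MA B B' hB)⁻¹ * NS (B * Sy v * Bᵀ) hs := by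
      rw [eq_inv_mul_iff_mul_eq, ← mul_assoc, ← h9, mul_inv_cancel_right]
    show ρ (NS (Sy v) (Sy_sym v)) (ρ ((MA B B' hB)⁻¹) x) = _
    rw [← Module.End.mul_apply, ← map_mul, h10, map_mul, Module.End.mul_apply]
    have h12 : NS (B * Sy v * Bᵀ) hs = NS (Sy (us (B * Sy v * Bᵀ))) (Sy_sym _) := NS_congr' (Sy_us hs).symm _ _
    have h11 : ρ (NS (Sy (us (B * Sy v * Bᵀ))) (Sy_sym _)) x = ψ (w ⬝ᵥ us (B * Sy v * Bᵀ)) • x := hx _
    rw [h12, h11, map_smul, ← act_dot]

theorem final [hfin : Finite F] (n : ℕ) (hn : 2 ≤ n) (heven : Even (Fintype.card F)) (hex : (n, Fintype.card F) ≠ (2, 2)) :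
    (∀ (k : ℕ) (ρ : Representation ℂ (Matrix.symplecticGroup (Fin n) F) (Fin k → ℂ)), ρ.IsIrreducible → 2 ≤ k → (Fintype.card F ^ n - 1) * (Fintype.card F ^ n - Fintype.card F) / (2 * (Fintype.card F + 1)) ≤ k) := by
  intro d ρ hirr hd
  obtain ⟨k, rfl⟩ : ∃ k, n = k + 2 := ⟨n - 2, by omega⟩
  have hchar : ringChar F = 2 := FiniteField.even_card_iff_char_two.2 (Nat.even_iff.1 heven)
  have h2 : (2 : F) = 0 := by
    have := ringChar.Nat.cast_ringChar (R := F)
    rw [hchar] at this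
    exact_mod_cast this
  have hsq : ∀ a : F, ∃ t : F, t ^ 2 = a := by
    intro a
    obtain ⟨t, ht⟩ := FiniteField.isSquare_of_char_two hchar a
    exact ⟨t, by rw [ht]; ring⟩
  have hq : 2 ≤ Fintype.card F := Fintype.one_lt_card
  have hcond : 3 ≤ k + 2 ∨ (k + 2 = 2 ∧ 3 ≤ Fintype.card F) ∨ 4 ≤ Fintype.card F := by
    by_cases hk : k = 0
    · right; left
      refine ⟨by omega, ?_⟩
      by_contra hcon
      apply hex
      rw [Prod.mk.injEq]
      omega
    · left; omega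
  have hqs : Cfsg.IsQuasisimple (Matrix.symplecticGroup (Fin (k + 2)) F) :=
    ⟨⟨sp_perfect hcond⟩, PSp_isSimple (by omega) hcond⟩
  have hfinr : finrank ℂ (Fin d → ℂ) = d := by rw [finrank_fintype_fun_eq_card, Fintype.card_fin]
  rw [← hfinr]
  apply lower h2 hsq ρ
  intro h1
  have hker : NS (Sy (Pi.single ⟨(0, 1), Fin.zero_le _⟩ 1 : Idx (k + 2) → F)) (Sy_sym _) ∈ ρ.ker := h1
  rcases Cfsg.Agent.H10.qs_normal_eq_top_or_le_center hqs (N := ρ.ker) inferInstance with h | h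
  · -- trivial representation
    have hall : ∀ g, ρ g = 1 := fun g => by
      have : g ∈ ρ.ker := by rw [h]; trivial
      exact this
    obtain ⟨w, hw⟩ := Module.finrank_pos_iff_exists_ne_zero.1 (show 0 < finrank ℂ (Fin d → ℂ) by rw [hfinr]; omega)
    let K : Subrepresentation ρ := ⟨Submodule.span ℂ {w}, fun g v hv => by rw [hall]; exact hv⟩
    have h3 : finrank ℂ K.toSubmodule = 1 := finrank_span_singleton hw
    rcases hirr.eq_bot_or_eq_top K with h' | h'
    · have h4 : K.toSubmodule = ⊥ := congrArg Subrepresentation.toSubmodule h'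
      rw [h4, finrank_bot] at h3
      exact zero_ne_one h3
    · have h4 : K.toSubmodule = ⊤ := congrArg Subrepresentation.toSubmodule h'
      rw [h4, finrank_top, hfinr] at h3
      omega
  · have h3 := NS_central (h hker)
    have h4 := us_Sy (Pi.single ⟨(0, 1), Fin.zero_le _⟩ 1 : Idx (k + 2) → F)
    rw [h3] at h4
    have h5 := congrFun h4 ⟨(0, 1), Fin.zero_le _⟩
    rw [Pi.single_eq_same] at h5
    exact zero_ne_one h5

end Cfsg.Agent.H11.WT
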