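import Mathlib
import Cfsg.Agent.H5.UnitSimple2
import Cfsg.Agent.H11.WL6
import Cfsg.Agent.H10.Comp
import Cfsg.Agent.H16.LSBnd2

set_option autoImplicit false
set_option linter.all false

/-! Smallest degree of `SU_n(q)`, `n` even: hyperbolic coordinates. -/

namespace Cfsg.Agent.H11.WU

open Matrix Cfsg Cfsg.Agent.H5 Module

section ct
variable {F : Type*} [Field F] {a b c : Type*} [Fintype a] [Fintype b] [Fintype c] [DecidableEq a] [DecidableEq b] [DecidableEq c]

/-- conjugate transpose -/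
def ct (σ : F →+* F) (X : Matrix a b F) : Matrix b a F := (X.map σ)ᵀ

theorem ct_mul (σ : F →+* F) (X : Matrix a b F) (Y : Matrix b c F) : ct σ (X * Y) = ct σ Y * ct σ X := by
  rw [ct, ct, ct, Matrix.map_mul, transpose_mul]

theorem ct_ct {σ : F →+* F} (hσ2 : ∀ x, σ (σ x) = x) (X : Matrix a b F) : ct σ (ct σ X) = X := by
  ext i j
  exact hσ2 _

theorem ct_one (σ : F →+* F) : ct σ (1 : Matrix a a F) = 1 := by
  rw [ct, Matrix.map_one _ (map_zero σ) (map_one σ), transpose_one]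

theorem ct_sub (σ : F →+* F) (X Y : Matrix a b F) : ct σ (X - Y) = ct σ X - ct σ Y := by
  ext i j
  exact map_sub σ _ _

theorem ct_add (σ : F →+* F) (X Y : Matrix a b F) : ct σ (X + Y) = ct σ X + ct σ Y := by
  ext i j
  exact map_add σ _ _

theorem ct_smul (σ : F →+* F) (x : F) (X : Matrix a b F) : ct σ (x • X) = σ x • ct σ X := by
  ext i j
  exact map_mul σ _ _

theorem ct_zero (σ : F →+* F) : ct σ (0 : Matrix a b F) = 0 := by
  ext i j
  exact map_zero σ

theorem ct_blocks (σ : F →+* F) (A : Matrix a a F) (B : Matrix a b F) (C : Matrix b a F) (D : Matrix b b F) :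
    ct σ (fromBlocks A B C D) = fromBlocks (ct σ A) (ct σ C) (ct σ B) (ct σ D) := by
  rw [ct, fromBlocks_map, fromBlocks_transpose]; rfl

theorem det_ct (σ : F →+* F) (X : Matrix a a F) : (ct σ X).det = σ X.det := by
  rw [ct, det_transpose]
  exact (RingHom.map_det σ X).symm

end ct

section hyp

variable {F : Type*} [Field F] [Fintype F] {q : ℕ} {σ : F →+* F} {m : ℕ}

/-- hyperbolic Gram matrix -/
def JJ (m : ℕ) (F : Type*) [Field F] : Matrix (Fin m ⊕ Fin m) (Fin m ⊕ Fin m) F := fromBlocks 0 1 1 0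

theorem exists_P (hF : Fintype.card F = q ^ 2) (hσ : ∀ x, σ x = x ^ q) (hσ1 : σ ≠ RingHom.id F) (hσ2 : ∀ x, σ (σ x) = x) (m : ℕ) :
    ∃ P Q : Matrix (Fin m ⊕ Fin m) (Fin m ⊕ Fin m) F, P * Q = 1 ∧ Q * P = 1 ∧ ct σ P * P = JJ m F := by
  obtain ⟨l, hl0, hl⟩ := norm_surj hσ1 hσ2 (c := (-1 : F)) (by rw [map_neg, map_one]) (neg_ne_zero.2 one_ne_zero)
  obtain ⟨z, hz, hz1⟩ := exists_norm_one_ne hF hσ
  obtain ⟨μ, hμdef⟩ : ∃ μ, μ = l * z := ⟨_, rfl⟩
  have hμ : μ * σ μ = -1 := by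
    rw [hμdef, map_mul]
    linear_combination hl + (l * σ l) * hz
  have hne : 1 + σ l * μ ≠ 0 := by
    intro h
    apply hz1
    have h1 : σ l * l * (z - 1) = 0 := by
      rw [hμdef] at h
      linear_combination h - (1 : F) * (by linear_combination hl : l * σ l + 1 = 0)
    have h2 : σ l * l ≠ 0 := by
      rw [mul_comm, hl]; exact neg_ne_zero.2 one_ne_zero
    have h3 : z = 1 := sub_eq_zero.1 ((mul_eq_zero.1 h1).resolve_left h2)
    rw [h3, map_one]
  obtain ⟨α, hα⟩ : ∃ α, α * (1 + σ l * μ) = 1 := ⟨(1 + σ l * μ)⁻¹, inv_mul_cancel₀ hne⟩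
  have hα' : σ α * (1 + l * σ μ) = 1 := by
    have := congrArg σ hα
    rw [map_mul, map_add, map_mul, hσ2, map_one] at this
    exact this
  set P : Matrix (Fin m ⊕ Fin m) (Fin m ⊕ Fin m) F := fromBlocks 1 (α • 1) (l • 1) ((α * μ) • 1) with hP
  have hPP : ct σ P * P = JJ m F := by
    rw [hP, ct_blocks, ct_one, ct_smul, ct_smul, ct_smul, ct_one, fromBlocks_multiply, JJ]
    congr 1
    · rw [Matrix.one_mul, Matrix.smul_mul, Matrix.one_mul, smul_smul]
      have : (1 : Matrix (Fin m) (Fin m) F) + (σ l * l) • 1 = ((1 : F) + σ l * l) • 1 := by rw [add_smul, one_smul]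
      rw [this]
      have h0 : (1 : F) + σ l * l = 0 := by linear_combination hl
      rw [h0, zero_smul]
    · rw [Matrix.one_mul, Matrix.smul_mul, Matrix.one_mul, smul_smul, ← add_smul]
      have h0 : α + σ l * (α * μ) = 1 := by linear_combination hα
      rw [h0, one_smul]
    · rw [Matrix.smul_mul, Matrix.smul_mul, Matrix.one_mul, Matrix.one_mul, smul_smul, ← add_smul]
      have h0 : σ α + σ (α * μ) * l = 1 := by rw [map_mul]; linear_combination hα'
      rw [h0, one_smul]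
    · rw [Matrix.smul_mul, Matrix.smul_mul, Matrix.one_mul, Matrix.one_mul, smul_smul, smul_smul, ← add_smul]
      have h0 : σ α * α + σ (α * μ) * (α * μ) = 0 := by rw [map_mul]; linear_combination (σ α * α) * hμ
      rw [h0, zero_smul]
  have hJJ : JJ m F * JJ m F = 1 := by
    rw [JJ, fromBlocks_multiply]; simp
  have hQP : (JJ m F * ct σ P) * P = 1 := by rw [Matrix.mul_assoc, hPP, hJJ]
  exact ⟨P, JJ m F * ct σ P, mul_eq_one_comm.1 hQP, hQP, hPP⟩

/-- an element of `SU` from hyperbolic coordinates -/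
noncomputable def sE (hσ : ∀ x, σ x = x ^ q) {P Q : Matrix (Fin m ⊕ Fin m) (Fin m ⊕ Fin m) F} (h1 : P * Q = 1) (h2 : Q * P = 1)
    (h3 : ct σ P * P = JJ m F) (g : Matrix (Fin m ⊕ Fin m) (Fin m ⊕ Fin m) F) (hg : ct σ g * JJ m F * g = JJ m F) (hd : g.det = 1) :
    SU (m + m) F q :=
  mkSU hσ (Matrix.reindex finSumFinEquiv finSumFinEquiv (P * g * Q)) (by
    have h4 : ct σ (P * g * Q) * (P * g * Q) = 1 := by
      rw [ct_mul, ct_mul]
      calc ct σ Q * (ct σ g * ct σ P) * (P * g * Q) = ct σ Q * (ct σ g * (ct σ P * P) * g) * Q := by simp only [Matrix.mul_assoc]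
        _ = ct σ Q * (ct σ P * P) * Q := by rw [h3, hg]
        _ = ct σ (P * Q) * (P * Q) := by rw [ct_mul]; simp only [Matrix.mul_assoc]
        _ = 1 := by rw [h1, ct_one, Matrix.mul_one]
    intro i j
    rw [hB_apply]
    have h5 := congrFun (congrFun h4 (finSumFinEquiv.symm i)) (finSumFinEquiv.symm j)
    rw [Matrix.mul_apply, one_apply] at h5
    rw [← Equiv.sum_comp finSumFinEquiv]
    simp only [reindex_apply, submatrix_apply, Equiv.symm_apply_apply, EmbeddingLike.apply_eq_iff_eq] at h5 ⊢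
    exact h5) (by
    rw [det_reindex_self, det_mul, det_mul, hd, mul_one, ← det_mul, h1, det_one])

theorem sE_val (hσ : ∀ x, σ x = x ^ q) {P Q : Matrix (Fin m ⊕ Fin m) (Fin m ⊕ Fin m) F} (h1 : P * Q = 1) (h2 : Q * P = 1)
    (h3 : ct σ P * P = JJ m F) (g : Matrix (Fin m ⊕ Fin m) (Fin m ⊕ Fin m) F) (hg : ct σ g * JJ m F * g = JJ m F) (hd : g.det = 1) :
    (((sE hσ h1 h2 h3 g hg hd : SU (m + m) F q) : Matrix.SpecialLinearGroup (Fin (m + m)) F) : Matrix (Fin (m + m)) (Fin (m + m)) F) =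
      Matrix.reindex finSumFinEquiv finSumFinEquiv (P * g * Q) := rfl

theorem sE_mul (hσ : ∀ x, σ x = x ^ q) {P Q : Matrix (Fin m ⊕ Fin m) (Fin m ⊕ Fin m) F} (h1 : P * Q = 1) (h2 : Q * P = 1)
    (h3 : ct σ P * P = JJ m F) {g g' g'' : Matrix (Fin m ⊕ Fin m) (Fin m ⊕ Fin m) F} (hg : ct σ g * JJ m F * g = JJ m F) (hd : g.det = 1)
    (hg' : ct σ g' * JJ m F * g' = JJ m F) (hd' : g'.det = 1) (hg'' : ct σ g'' * JJ m F * g'' = JJ m F) (hd'' : g''.det = 1) (he : g * g' = g'') :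
    sE hσ h1 h2 h3 g hg hd * sE hσ h1 h2 h3 g' hg' hd' = sE hσ h1 h2 h3 g'' hg'' hd'' := by
  apply Subtype.ext
  apply Subtype.ext
  show Matrix.reindex finSumFinEquiv finSumFinEquiv (P * g * Q) * Matrix.reindex finSumFinEquiv finSumFinEquiv (P * g' * Q) = Matrix.reindex finSumFinEquiv finSumFinEquiv (P * g'' * Q)
  rw [reindex_apply, reindex_apply, reindex_apply, submatrix_mul_equiv, ← he]
  congr 1
  calc P * g * Q * (P * g' * Q) = P * g * (Q * P) * g' * Q := by simp only [Matrix.mul_assoc]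
    _ = P * (g * g') * Q := by rw [h2, Matrix.mul_one]; simp only [Matrix.mul_assoc]

/-- unipotent elements -/
def uB (B : Matrix (Fin m) (Fin m) F) : Matrix (Fin m ⊕ Fin m) (Fin m ⊕ Fin m) F := fromBlocks 1 B 0 1

theorem uB_mem (B : Matrix (Fin m) (Fin m) F) (hB : ct σ B = -B) : ct σ (uB B) * JJ m F * uB B = JJ m F := by
  rw [uB, ct_blocks, ct_one, ct_zero, JJ, fromBlocks_multiply, fromBlocks_multiply]
  simp [hB]

theorem uB_det (B : Matrix (Fin m) (Fin m) F) : (uB B).det = 1 := by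
  rw [uB, det_fromBlocks_zero₂₁]; simp

theorem uB_mul (B B' : Matrix (Fin m) (Fin m) F) : uB B * uB B' = uB (B + B') := by
  rw [uB, uB, uB, fromBlocks_multiply]
  simp [add_comm]

/-- Levi elements -/
def mA (σ : F →+* F) (A A' : Matrix (Fin m) (Fin m) F) : Matrix (Fin m ⊕ Fin m) (Fin m ⊕ Fin m) F := fromBlocks A 0 0 (ct σ A')

theorem mA_mem (hσ2 : ∀ x, σ (σ x) = x) (A A' : Matrix (Fin m) (Fin m) F) (h : A * A' = 1) : ct σ (mA σ A A') * JJ m F * mA σ A A' = JJ m F := by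
  have h' : A' * A = 1 := mul_eq_one_comm.1 h
  have h'' : ct σ A * ct σ A' = 1 := by rw [← ct_mul, h', ct_one]
  rw [mA, ct_blocks, ct_zero, ct_ct hσ2, JJ, fromBlocks_multiply, fromBlocks_multiply]
  simp [h', h'']

theorem mA_det (A A' : Matrix (Fin m) (Fin m) F) (h : A * A' = 1) (hd : A.det = 1) : (mA σ A A').det = 1 := by
  have h1 : A'.det = 1 := by
    have := congrArg det h
    rw [det_mul, hd, one_mul, det_one] at this
    exact this
  rw [mA, det_fromBlocks_zero₂₁, hd, det_ct, h1, map_one, mul_one]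

theorem mA_uB (hσ2 : ∀ x, σ (σ x) = x) (A A' B : Matrix (Fin m) (Fin m) F) (h : A * A' = 1) :
    uB (A * B * ct σ A) * mA σ A A' = mA σ A A' * uB B := by
  have h' : A' * A = 1 := mul_eq_one_comm.1 h
  have h'' : ct σ A * ct σ A' = 1 := by rw [← ct_mul, h', ct_one]
  rw [uB, uB, mA, fromBlocks_multiply, fromBlocks_multiply]
  simp [Matrix.mul_assoc, h'']

end hyp

end Cfsg.Agent.H11.WU
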