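import Mathlib
import Cfsg.Agent.H11.WU1

set_option autoImplicit false
set_option linter.all false

/-! Smallest degree of `SU_n(q)`, `n` even: orbits of hermitian forms. -/

namespace Cfsg.Agent.H11.WU

open Matrix Cfsg Cfsg.Agent.H5 Module

section orb
variable {F : Type*} [Field F] {σ : F →+* F} {m k : ℕ}

/-- twisted congruence -/
def Or (σ : F →+* F) (w M : Matrix (Fin m) (Fin m) F) : Prop := ∃ A A' : Matrix (Fin m) (Fin m) F, A * A' = 1 ∧ A.det = 1 ∧ M = Aᵀ * w * A.map σ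

theorem Or.trans {w M N : Matrix (Fin m) (Fin m) F} (h1 : Or σ w M) (h2 : Or σ M N) : Or σ w N := by
  obtain ⟨B, B', hB, hBd, rfl⟩ := h1
  obtain ⟨C, C', hC, hCd, rfl⟩ := h2
  refine ⟨B * C, C' * B', ?_, ?_, ?_⟩
  · rw [Matrix.mul_assoc, ← Matrix.mul_assoc C, hC, Matrix.one_mul, hB]
  · rw [det_mul, hBd, hCd, one_mul]
  · rw [transpose_mul, Matrix.map_mul]; simp only [Matrix.mul_assoc]

theorem Or_sl (w : Matrix (Fin m) (Fin m) F) (g : Matrix.SpecialLinearGroup (Fin m) F) :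
    Or σ w ((g : Matrix (Fin m) (Fin m) F)ᵀ * w * (g : Matrix (Fin m) (Fin m) F).map σ) :=
  ⟨g, (g⁻¹ : Matrix.SpecialLinearGroup (Fin m) F),
    (Matrix.SpecialLinearGroup.coe_mul g g⁻¹).symm.trans (by rw [mul_inv_cancel, Matrix.SpecialLinearGroup.coe_one]), g.2, rfl⟩

theorem Or_det (w A : Matrix (Fin m) (Fin m) F) (hA : A.det = 1) : Or σ w (Aᵀ * w * A.map σ) := Or_sl w ⟨A, hA⟩

/-- twisted hermitian -/
def HB (σ : F →+* F) (β : F) (w : Matrix (Fin m) (Fin m) F) : Prop := w = β • ct σ w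

theorem HB.orb (hσ2 : ∀ x, σ (σ x) = x) {β : F} {w M : Matrix (Fin m) (Fin m) F} (h : HB σ β w) (h1 : Or σ w M) : HB σ β M := by
  obtain ⟨A, A', hA, hd, rfl⟩ := h1
  have h2 : ct σ (A.map σ) = Aᵀ := by
    ext i j
    exact hσ2 _
  have h3 : ct σ Aᵀ = A.map σ := rfl
  rw [HB, ct_mul, ct_mul, h2, h3, ← Matrix.mul_assoc, ← Matrix.smul_mul, ← Matrix.mul_smul, ← h]

/-- the form -/
def ss (σ : F →+* F) (w : Matrix (Fin m) (Fin m) F) (x y : Fin m → F) : F := x ⬝ᵥ w *ᵥ (fun j => σ (y j))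

theorem ss_add_left (w : Matrix (Fin m) (Fin m) F) (x x' y : Fin m → F) : ss σ w (x + x') y = ss σ w x y + ss σ w x' y := by
  rw [ss, add_dotProduct]; rfl

theorem ss_smul_left (w : Matrix (Fin m) (Fin m) F) (c : F) (x y : Fin m → F) : ss σ w (c • x) y = c * ss σ w x y := by
  rw [ss, smul_dotProduct]; rfl

theorem ss_add_right (w : Matrix (Fin m) (Fin m) F) (x y y' : Fin m → F) : ss σ w x (y + y') = ss σ w x y + ss σ w x y' := by
  rw [ss, ss, ss, ← dotProduct_add, ← mulVec_add]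
  congr 2
  funext j
  exact map_add σ _ _

theorem ss_smul_right (w : Matrix (Fin m) (Fin m) F) (c : F) (x y : Fin m → F) : ss σ w x (c • y) = σ c * ss σ w x y := by
  rw [ss, ss]
  have : (fun j => σ ((c • y) j)) = σ c • (fun j => σ (y j)) := by
    funext j
    exact map_mul σ _ _
  rw [this, mulVec_smul, dotProduct_smul, smul_eq_mul]

theorem ss_single (w : Matrix (Fin m) (Fin m) F) (i j : Fin m) : ss σ w (Pi.single i 1) (Pi.single j 1) = w i j := by
  rw [ss]
  have : (fun l => σ ((Pi.single j 1 : Fin m → F) l)) = Pi.single j 1 := by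
    funext l
    rcases eq_or_ne l j with rfl | h
    · rw [Pi.single_eq_same, map_one]
    · rw [Pi.single_eq_of_ne h, map_zero]
  rw [this, mulVec_single_one, single_one_dotProduct]; rfl

theorem polar (hσ1 : σ ≠ RingHom.id F) (w : Matrix (Fin m) (Fin m) F) (i j : Fin m) (h : w i j ≠ 0) :
    ∃ a b : F, ss σ w (a • Pi.single i 1 + b • Pi.single j 1) (a • Pi.single i 1 + b • Pi.single j 1) ≠ 0 := by
  by_contra hcon
  push Not at hcon
  have hexp : ∀ a b : F, a * σ a * w i i + a * σ b * w i j + b * σ a * w j i + b * σ b * w j j = 0 := by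
    intro a b
    have h1 := hcon a b
    rw [ss_add_left, ss_add_right, ss_add_right, ss_smul_left, ss_smul_left, ss_smul_left, ss_smul_left, ss_smul_right, ss_smul_right,
      ss_smul_right, ss_smul_right, ss_single, ss_single, ss_single, ss_single] at h1
    linear_combination h1
  have h1 := hexp 1 0
  have h2 := hexp 0 1
  have h3 := hexp 1 1
  rw [map_one, map_zero] at h1 h2
  rw [map_one] at h3
  apply hσ1
  ext x
  have h4 := hexp 1 x
  rw [map_one] at h4
  have h5 : (σ x - x) * w i j = 0 := by linear_combination h4 - x * h3 - (1 - x) * h1 - (x * σ x - x) * h2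
  exact sub_eq_zero.1 ((mul_eq_zero.1 h5).resolve_right h)

theorem Or_vec (w : Matrix (Fin (k + 2)) (Fin (k + 2)) F) {x : Fin (k + 2) → F} (hx : x ≠ 0) :
    ∃ M, Or σ w M ∧ M 0 0 = ss σ w x x ∧ (x ᵥ* w ≠ 0 → ∃ j, M 0 j ≠ 0) := by
  have h10 : (Pi.single 0 1 : Fin (k + 2) → F) ≠ 0 := by
    intro h
    have := congrFun h 0
    rw [Pi.single_eq_same] at this
    exact one_ne_zero this
  obtain ⟨g, hg⟩ := WL.sl_trans (F := F) (n := k + 2) (by omega) h10 hx
  have hg' : ∀ i, (g : Matrix (Fin (k + 2)) (Fin (k + 2)) F) i 0 = x i := by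
    intro i
    have := congrFun hg i
    rw [mulVec_single_one] at this
    exact this
  have hrow : ∀ j, ((g : Matrix (Fin (k + 2)) (Fin (k + 2)) F)ᵀ * w * (g : Matrix (Fin (k + 2)) (Fin (k + 2)) F).map σ) 0 j =
      ((x ᵥ* w) ᵥ* (g : Matrix (Fin (k + 2)) (Fin (k + 2)) F).map σ) j := by
    intro j
    rw [Matrix.mul_apply]
    show _ = ∑ l, (x ᵥ* w) l * _
    refine Finset.sum_congr rfl fun l _ => ?_
    congr 1
    rw [Matrix.mul_apply]
    show _ = ∑ i, x i * w i l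
    refine Finset.sum_congr rfl fun i _ => ?_
    rw [transpose_apply, hg']
  refine ⟨_, Or_sl w g, ?_, ?_⟩
  · rw [hrow, ss, dotProduct_mulVec]
    show ∑ l, (x ᵥ* w) l * _ = ∑ l, (x ᵥ* w) l * _
    refine Finset.sum_congr rfl fun l _ => ?_
    rw [map_apply, hg']
  · intro h
    by_contra hcon
    push Not at hcon
    apply h
    have h1 : (x ᵥ* w) ᵥ* (g : Matrix (Fin (k + 2)) (Fin (k + 2)) F).map σ = 0 := by
      funext j
      rw [← hrow, hcon]; rfl
    have h2 : (g : Matrix (Fin (k + 2)) (Fin (k + 2)) F).map σ * ((g⁻¹ : Matrix.SpecialLinearGroup (Fin (k + 2)) F) : Matrix (Fin (k + 2)) (Fin (k + 2)) F).map σ = 1 := by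
      rw [← Matrix.map_mul, ← Matrix.SpecialLinearGroup.coe_mul, mul_inv_cancel, Matrix.SpecialLinearGroup.coe_one, Matrix.map_one _ (map_zero σ) (map_one σ)]
    calc x ᵥ* w = (x ᵥ* w) ᵥ* (1 : Matrix (Fin (k + 2)) (Fin (k + 2)) F) := (vecMul_one _).symm
      _ = 0 := by rw [← h2, ← vecMul_vecMul, h1, zero_vecMul]

/-- adjust the first row -/
theorem Or_row (hσ2 : ∀ x, σ (σ x) = x) (M : Matrix (Fin (k + 2)) (Fin (k + 2)) F) (j0 : Fin (k + 2)) (h0 : M 0 j0 ≠ 0) (t : Fin (k + 2) → F)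
    (ht0 : t 0 = M 0 0) (htj : t j0 = M 0 j0) : ∃ M', Or σ M M' ∧ ∀ j, M' 0 j = t j := by
  obtain ⟨u, hu⟩ : ∃ u : Fin (k + 2) → F, ∀ j, u j = σ ((t j - M 0 j) / M 0 j0) := ⟨_, fun _ => rfl⟩
  have hu0 : u 0 = 0 := by rw [hu, ht0, sub_self, zero_div, map_zero]
  have huj : u j0 = 0 := by rw [hu, htj, sub_self, zero_div, map_zero]
  have hdet : (1 + vecMulVec (Pi.single j0 1) u : Matrix (Fin (k + 2)) (Fin (k + 2)) F).det = 1 := by
    rw [vecMulVec_eq Unit, det_one_add_replicateCol_mul_replicateRow, dotProduct_single, huj]; simp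
  refine ⟨_, Or_det M _ hdet, ?_⟩
  intro j
  have h1 : ∀ l, ((1 + vecMulVec (Pi.single j0 1) u : Matrix (Fin (k + 2)) (Fin (k + 2)) F)ᵀ * M) 0 l = M 0 l := by
    intro l
    rw [transpose_add, transpose_one, Matrix.add_mul, Matrix.one_mul, Matrix.add_apply, Matrix.mul_apply]
    have : ∀ i, (vecMulVec (Pi.single j0 1) u : Matrix (Fin (k + 2)) (Fin (k + 2)) F)ᵀ 0 i * M i l = 0 := by
      intro i
      rw [transpose_apply, vecMulVec_apply, hu0, mul_zero, zero_mul]
    rw [Finset.sum_eq_zero (fun i _ => this i), add_zero]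
  rw [Matrix.mul_apply]
  simp only [h1, map_apply, Matrix.add_apply, vecMulVec_apply, map_add, map_mul, mul_add, Finset.sum_add_distrib]
  rw [Finset.sum_eq_single j, Finset.sum_eq_single j0]
  · rw [one_apply_eq, map_one, mul_one, Pi.single_eq_same, map_one, one_mul, hu, hσ2]
    field_simp
    ring
  · intro b _ hb
    rw [Pi.single_eq_of_ne hb, map_zero, zero_mul, mul_zero]
  · intro h; exact absurd (Finset.mem_univ _) h
  · intro b _ hb
    rw [one_apply_ne hb, map_zero, mul_zero]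
  · intro h; exact absurd (Finset.mem_univ _) h

/-- scaling -/
theorem Or_scale (M : Matrix (Fin (k + 2)) (Fin (k + 2)) F) (j0 : Fin (k + 2)) (h0 : j0 ≠ 0) (l : F) (hl : l ≠ 0) :
    ∃ M', Or σ M M' ∧ M' 0 0 = l * σ l * M 0 0 ∧ M' 0 j0 = l * (σ l)⁻¹ * M 0 j0 := by
  obtain ⟨d, hd⟩ : ∃ d : Fin (k + 2) → F, d = Function.update (Function.update (fun _ => (1 : F)) j0 l⁻¹) 0 l := ⟨_, rfl⟩
  have hd0 : d 0 = l := by rw [hd, Function.update_self]
  have hdj : d j0 = l⁻¹ := by rw [hd, Function.update_of_ne h0, Function.update_self]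
  have hdet : (diagonal d).det = 1 := by
    rw [det_diagonal, hd, Finset.prod_update_of_mem (Finset.mem_univ _), Finset.prod_update_of_mem (by simp [h0])]
    rw [Finset.prod_const_one, mul_one, mul_inv_cancel₀ hl]
  refine ⟨_, Or_det M _ hdet, ?_, ?_⟩
  · rw [diagonal_transpose, diagonal_map (map_zero σ), mul_diagonal, diagonal_mul, hd0]
    ring
  · rw [diagonal_transpose, diagonal_map (map_zero σ), mul_diagonal, diagonal_mul, hd0, hdj, map_inv₀]
    ring

/-- dichotomy for forms with nonzero corner -/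
theorem aniso (hσ1 : σ ≠ RingHom.id F) (w : Matrix (Fin (k + 2)) (Fin (k + 2)) F) (hw : w ≠ 0) : ∃ M, Or σ w M ∧ M 0 0 ≠ 0 := by
  obtain ⟨i, j, hij⟩ : ∃ i j, w i j ≠ 0 := by
    by_contra hcon
    push Not at hcon
    exact hw (by ext i j; exact hcon i j)
  obtain ⟨a, b, hab⟩ := polar hσ1 w i j hij
  have hx : (a • Pi.single i 1 + b • Pi.single j 1 : Fin (k + 2) → F) ≠ 0 := by
    intro h
    apply hab
    rw [h, ss, zero_dotProduct]
  obtain ⟨M, hM, hM0, -⟩ := Or_vec (σ := σ) w hx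
  exact ⟨M, hM, by rw [hM0]; exact hab⟩

end orb

section fin
variable {F : Type*} [Field F] [Fintype F] {q : ℕ} {σ : F →+* F} {m k : ℕ}

/-- isotropic nonradical vector -/
theorem iso_vec (hσ1 : σ ≠ RingHom.id F) (hσ2 : ∀ x, σ (σ x) = x) {β : F} (w : Matrix (Fin (k + 2)) (Fin (k + 2)) F) (hB : HB σ β w)
    (h0 : w 0 0 ≠ 0) (hrow : ∀ j, j ≠ 0 → w 0 j = 0) (i j : Fin (k + 2)) (hi : i ≠ 0) (hj : j ≠ 0) (hij : w i j ≠ 0) :
    ∃ M, Or σ w M ∧ M 0 0 = 0 ∧ ∃ j, M 0 j ≠ 0 := by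
  have hent : ∀ i j, w i j = β * σ (w j i) := fun i j => congrFun (congrFun hB i) j
  have hcol : ∀ j, j ≠ 0 → w j 0 = 0 := by
    intro j hj
    rw [hent, hrow j hj, map_zero, mul_zero]
  obtain ⟨a, b, hab⟩ := polar hσ1 w i j hij
  obtain ⟨y, hy⟩ : ∃ y : Fin (k + 2) → F, y = a • Pi.single i 1 + b • Pi.single j 1 := ⟨_, rfl⟩
  rw [← hy] at hab
  have hy0 : ss σ w y (Pi.single 0 1) = 0 := by
    rw [hy, ss_add_left, ss_smul_left, ss_smul_left, ss_single, ss_single, hcol i hi, hcol j hj, mul_zero, mul_zero, add_zero]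
  have hy0' : ss σ w (Pi.single 0 1) y = 0 := by
    rw [hy, ss_add_right, ss_smul_right, ss_smul_right, ss_single, ss_single, hrow i hi, hrow j hj, mul_zero, mul_zero, add_zero]
  have hherm : ss σ w y y = β * σ (ss σ w y y) := by
    rw [ss, dotProduct, map_sum, Finset.mul_sum]
    simp only [mulVec, dotProduct, Finset.mul_sum, map_sum, map_mul, hσ2]
    rw [Finset.sum_comm]
    refine Finset.sum_congr rfl fun a _ => Finset.sum_congr rfl fun b _ => ?_
    rw [hent b a]; ring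
  obtain ⟨l, hl0, hl⟩ := norm_surj hσ1 hσ2 (c := -(ss σ w y y) / w 0 0) (by
      rw [map_div₀, map_neg, div_eq_div_iff (by rw [Ne, map_eq_zero]; exact h0) h0]
      have h1 := hent 0 0
      have hβ : β ≠ 0 := by
        rintro rfl
        rw [zero_mul] at h1
        exact h0 h1
      have h2 : w 0 0 * (β * σ (ss σ w y y)) = β * σ (w 0 0) * ss σ w y y := by rw [← hherm, ← h1]
      have h3 : β * (-σ (ss σ w y y) * w 0 0 - -ss σ w y y * σ (w 0 0)) = 0 := by linear_combination -h2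
      exact sub_eq_zero.1 ((mul_eq_zero.1 h3).resolve_left hβ)) (div_ne_zero (neg_ne_zero.2 hab) h0)
  have hss : ss σ w (l • Pi.single 0 1 + y) (l • Pi.single 0 1 + y) = 0 := by
    rw [ss_add_left, ss_add_right, ss_add_right, ss_smul_left, ss_smul_left, ss_smul_right, ss_smul_right, ss_single, hy0, hy0']
    rw [eq_div_iff h0] at hl
    linear_combination hl
  have hr : (l • Pi.single 0 1 + y) ᵥ* w ≠ 0 := by
    intro h
    have h1 : ss σ w (l • Pi.single 0 1 + y) (Pi.single 0 1) = 0 := by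
      rw [ss, dotProduct_mulVec, h, zero_dotProduct]
    rw [ss_add_left, ss_smul_left, ss_single, hy0, add_zero] at h1
    exact (mul_ne_zero hl0 h0) h1
  obtain ⟨M, hM, hM0, hMr⟩ := Or_vec (σ := σ) w (x := l • Pi.single 0 1 + y) (by
    intro h
    apply hr
    rw [h, zero_vecMul])
  exact ⟨M, hM, by rw [hM0, hss], hMr hr⟩

variable [DecidableEq F]

theorem card_NN (hF : Fintype.card F = q ^ 2) (hσ : ∀ x, σ x = x ^ q) (hσ2 : ∀ x, σ (σ x) = x) (c : F) (hc : c ≠ 0) :
    q - 1 ≤ (((Finset.univ : Finset F).filter (fun l => l ≠ 0)).image (fun l => l * σ l * c)).card := by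
  have hq := q_pos hF
  have h1 : ((Finset.univ : Finset F).filter (fun l => l ≠ 0)).card = q ^ 2 - 1 := by
    rw [Finset.filter_ne', Finset.card_erase_of_mem (Finset.mem_univ _), Finset.card_univ, hF]
  have h2 := Finset.card_le_mul_card_image (f := fun l => l * σ l * c) ((Finset.univ : Finset F).filter (fun l => l ≠ 0)) (q + 1) (by
    intro b hb
    obtain ⟨y, hy, rfl⟩ := Finset.mem_image.1 hb
    have hy0 := (Finset.mem_filter.1 hy).2
    rw [← card_norm_eq hF hσ (c := y * σ y) (by rw [map_mul, hσ2, mul_comm]) (mul_ne_zero hy0 (by rw [Ne, map_eq_zero]; exact hy0)),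
      Nat.card_eq_fintype_card, Fintype.card_subtype]
    apply Finset.card_le_card
    intro x hx
    rw [Finset.mem_filter] at hx ⊢
    refine ⟨Finset.mem_univ _, ?_⟩
    rw [mul_comm]
    exact mul_right_cancel₀ hc hx.2)
  rw [h1] at h2
  have h3 : q ^ 2 - 1 = (q + 1) * (q - 1) := by
    obtain ⟨r, rfl⟩ : ∃ r, q = r + 1 := ⟨q - 1, by omega⟩
    rw [Nat.add_sub_cancel]
    apply Nat.sub_eq_of_eq_add; ring
  rw [h3] at h2
  exact Nat.le_of_mul_le_mul_left h2 (Nat.succ_pos _)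

theorem card_ZZ (hF : Fintype.card F = q ^ 2) (hσ : ∀ x, σ x = x ^ q) (c : F) (hc : c ≠ 0) :
    q ≤ (((Finset.univ : Finset F).filter (fun l => l ≠ 0)).image (fun l => l * (σ l)⁻¹ * c)).card := by
  have hq := q_pos hF
  have h1 : ((Finset.univ : Finset F).filter (fun l => l ≠ 0)).card = q ^ 2 - 1 := by
    rw [Finset.filter_ne', Finset.card_erase_of_mem (Finset.mem_univ _), Finset.card_univ, hF]
  have h2 := Finset.card_le_mul_card_image (f := fun l => l * (σ l)⁻¹ * c) ((Finset.univ : Finset F).filter (fun l => l ≠ 0)) (q - 1) (by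
    intro b hb
    obtain ⟨y, hy, rfl⟩ := Finset.mem_image.1 hb
    have hy0 := (Finset.mem_filter.1 hy).2
    refine le_trans (Finset.card_le_card (t := (Polynomial.nthRoots (q - 1) (y ^ (q - 1))).toFinset) ?_)
      ((Multiset.toFinset_card_le _).trans (Polynomial.card_nthRoots _ _))
    intro x hx
    rw [Finset.mem_filter, Finset.mem_filter] at hx
    rw [Multiset.mem_toFinset, Polynomial.mem_nthRoots (by omega)]
    have hx0 := hx.1.2
    have h4 := mul_right_cancel₀ hc hx.2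
    rw [hσ, hσ, ← div_eq_mul_inv, ← div_eq_mul_inv, div_eq_div_iff (pow_ne_zero _ hx0) (pow_ne_zero _ hy0)] at h4
    have h5 : ∀ z : F, z ^ q = z ^ (q - 1) * z := fun z => by rw [← pow_succ]; congr 1; omega
    rw [h5, h5] at h4
    have h6 : (x * y) * (y ^ (q - 1) - x ^ (q - 1)) = 0 := by linear_combination h4
    exact (sub_eq_zero.1 ((mul_eq_zero.1 h6).resolve_left (mul_ne_zero hx0 hy0))).symm)
  rw [h1] at h2
  by_contra hcon
  have h3 := h2.trans (Nat.mul_le_mul_left (q - 1) (show _ ≤ q - 1 by omega))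
  obtain ⟨r, rfl⟩ : ∃ r, q = r + 2 := ⟨q - 2, by omega⟩
  have h4 : (r + 2) ^ 2 - 1 = (r + 2 - 1) * (r + 2 - 1) + (2 * r + 2) := by
    have : r + 2 - 1 = r + 1 := rfl
    rw [this]
    apply Nat.sub_eq_of_eq_add; ring
  omega

end fin

end Cfsg.Agent.H11.WU
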