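import Mathlib
import Cfsg.Agent.H11.WU2

set_option autoImplicit false
set_option linter.all false

/-! Smallest degree of `SU_n(q)`, `n` even: counting orbits. -/

namespace Cfsg.Agent.H11.WU

open Matrix Cfsg Cfsg.Agent.H5 Module

variable {F : Type*} [Field F] [Fintype F] {q : ℕ} {σ : F →+* F} {m k : ℕ}

open Classical in
/-- the orbit -/
noncomputable def orbF (σ : F →+* F) (w : Matrix (Fin m) (Fin m) F) : Finset (Matrix (Fin m) (Fin m) F) := Finset.univ.filter (fun M => Or σ w M)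

theorem mem_orbF {w M : Matrix (Fin m) (Fin m) F} : M ∈ orbF σ w ↔ Or σ w M := by
  classical
  rw [orbF, Finset.mem_filter]
  exact ⟨fun h => h.2, fun h => ⟨Finset.mem_univ _, h⟩⟩

theorem orbF_card_le {w M : Matrix (Fin m) (Fin m) F} (h : Or σ w M) : (orbF σ M).card ≤ (orbF σ w).card := by
  apply Finset.card_le_card
  intro N hN
  rw [mem_orbF] at hN ⊢
  exact h.trans hN

theorem rank_one (hF : Fintype.card F = q ^ 2) (hσ : ∀ x, σ x = x ^ q) (w : Matrix (Fin (k + 2)) (Fin (k + 2)) F)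
    (h0 : w 0 0 ≠ 0) (hz : ∀ i j, (i ≠ 0 ∨ j ≠ 0) → w i j = 0) : (q ^ (2 * (k + 2)) - 1) / (q + 1) ≤ (orbF σ w).card := by
  classical
  apply Nat.div_le_of_le_mul
  obtain ⟨f, hf⟩ : ∃ f : (Fin (k + 2) → F) → Matrix (Fin (k + 2)) (Fin (k + 2)) F, ∀ z i j, f z i j = w 0 0 * (z i * σ (z j)) := ⟨fun z i j => _, fun _ _ _ => rfl⟩
  have hmem : ∀ z, z ≠ 0 → f z ∈ orbF σ w := by
    intro z hz0
    rw [mem_orbF]
    have h10 : (Pi.single 0 1 : Fin (k + 2) → F) ≠ 0 := by
      intro h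
      have := congrFun h 0
      rw [Pi.single_eq_same] at this
      exact one_ne_zero this
    obtain ⟨g, hg⟩ := WL.sl_trans (F := F) (n := k + 2) (by omega) h10 hz0
    have hg' : ∀ i, (g : Matrix (Fin (k + 2)) (Fin (k + 2)) F) i 0 = z i := by
      intro i
      have := congrFun hg i
      rw [mulVec_single_one] at this
      exact this
    have h1 := Or_det (σ := σ) w ((g : Matrix (Fin (k + 2)) (Fin (k + 2)) F)ᵀ) (by rw [det_transpose]; exact g.2)
    have h2 : f z = ((g : Matrix (Fin (k + 2)) (Fin (k + 2)) F)ᵀ)ᵀ * w * ((g : Matrix (Fin (k + 2)) (Fin (k + 2)) F)ᵀ).map σ := by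
      ext i j
      rw [hf, Matrix.mul_apply, Finset.sum_eq_single 0, Matrix.mul_apply, Finset.sum_eq_single 0, transpose_transpose, map_apply, transpose_apply, hg', hg']
      · ring
      · intro b _ hb; rw [hz b 0 (Or.inl hb), mul_zero]
      · intro h; exact absurd (Finset.mem_univ _) h
      · intro b _ hb
        rw [Matrix.mul_apply, Finset.sum_eq_zero, zero_mul]
        intro c _
        rw [hz c b (Or.inr hb), mul_zero]
      · intro h; exact absurd (Finset.mem_univ _) h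
    rw [h2]
    exact h1
  have hS : ((Finset.univ : Finset (Fin (k + 2) → F)).filter (fun z => z ≠ 0)).card = q ^ (2 * (k + 2)) - 1 := by
    rw [Finset.filter_ne', Finset.card_erase_of_mem (Finset.mem_univ _), Finset.card_univ, Fintype.card_fun, hF, Fintype.card_fin, ← pow_mul]
  rw [← hS]
  refine (Finset.card_le_mul_card_image (f := f) _ (q + 1) ?_).trans (Nat.mul_le_mul_left _ (Finset.card_le_card ?_))
  · intro b hb
    obtain ⟨y, hy, rfl⟩ := Finset.mem_image.1 hb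
    have hy0 := (Finset.mem_filter.1 hy).2
    rw [← card_norm_eq hF hσ (c := 1) (map_one σ) one_ne_zero, Nat.card_eq_fintype_card, Fintype.card_subtype]
    refine (Finset.card_le_card (t := (Finset.univ.filter (fun x : F => σ x * x = 1)).image (fun c => c • y)) ?_).trans Finset.card_image_le
    intro z hz'
    rw [Finset.mem_filter, Finset.mem_filter] at hz'
    obtain ⟨i, hi⟩ := Function.ne_iff.1 hy0
    have hi : y i ≠ 0 := hi
    have hσ0 : ∀ x : F, x ≠ 0 → σ x ≠ 0 := fun x hx => by rw [Ne, map_eq_zero]; exact hx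
    have he : ∀ j l, z j * σ (z l) = y j * σ (y l) := by
      intro j l
      have h1 := congrFun (congrFun hz'.2 j) l
      rw [hf, hf] at h1
      exact mul_left_cancel₀ h0 h1
    have hzi : z i ≠ 0 := by
      intro h
      have h1 := he i i
      rw [h, zero_mul] at h1
      exact mul_ne_zero hi (hσ0 _ hi) h1.symm
    rw [Finset.mem_image]
    refine ⟨z i / y i, ?_, ?_⟩
    · rw [Finset.mem_filter]
      refine ⟨Finset.mem_univ _, ?_⟩
      rw [map_div₀, div_mul_div_comm, div_eq_one_iff_eq (mul_ne_zero (hσ0 _ hi) hi)]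
      linear_combination he i i
    · funext j
      show z i / y i * y j = z j
      have h1 := he i i
      have h2 := he j i
      rw [div_mul_eq_mul_div, div_eq_iff hi]
      have h3 : (z i * y j - z j * y i) * σ (y i) = 0 := by
        have h4 : (z i * y j - z j * y i) * σ (y i) = z i * (y j * σ (y i)) - z j * (y i * σ (y i)) := by ring
        rw [h4, ← h1, ← h2]; ring
      exact sub_eq_zero.1 ((mul_eq_zero.1 h3).resolve_right (hσ0 _ hi))
  · intro M hM
    obtain ⟨y, hy, rfl⟩ := Finset.mem_image.1 hM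
    exact hmem y (Finset.mem_filter.1 hy).2

theorem rows (hF : Fintype.card F = q ^ 2) (hσ : ∀ x, σ x = x ^ q) (hσ2 : ∀ x, σ (σ x) = x) (w M N : Matrix (Fin (k + 2)) (Fin (k + 2)) F)
    (hM : Or σ w M) (hM0 : M 0 0 ≠ 0) (hN : Or σ w N) (hN0 : N 0 0 = 0) (j0 : Fin (k + 2)) (hj : N 0 j0 ≠ 0) :
    (q ^ (2 * (k + 2)) - 1) / (q + 1) ≤ (orbF σ w).card := by
  classical
  have hq := q_pos hF
  have hj0 : j0 ≠ 0 := by
    rintro rfl
    exact hj hN0
  have hσ0 : ∀ x : F, x ≠ 0 → σ x ≠ 0 := fun x hx => by rw [Ne, map_eq_zero]; exact hx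
  obtain ⟨NN, hNN⟩ : ∃ NN, NN = (((Finset.univ : Finset F).filter (fun l => l ≠ 0)).image (fun l => l * σ l * M 0 0)) := ⟨_, rfl⟩
  obtain ⟨ZZ, hZZ⟩ : ∃ ZZ, ZZ = (((Finset.univ : Finset F).filter (fun l => l ≠ 0)).image (fun l => l * (σ l)⁻¹ * N 0 j0)) := ⟨_, rfl⟩
  have cN : q - 1 ≤ NN.card := by rw [hNN]; exact card_NN hF hσ hσ2 _ hM0
  have cZ : q ≤ ZZ.card := by rw [hZZ]; exact card_ZZ hF hσ _ hj
  obtain ⟨R1, hR1⟩ : ∃ R1, R1 = Fintype.piFinset (fun j : Fin (k + 2) => if j = 0 then NN else Finset.univ) := ⟨_, rfl⟩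
  obtain ⟨R2, hR2⟩ : ∃ R2, R2 = Fintype.piFinset (fun j : Fin (k + 2) => if j = 0 then {0} else if j = j0 then ZZ else Finset.univ) := ⟨_, rfl⟩
  have c1 : R1.card = NN.card * (q ^ 2) ^ (k + 1) := by
    rw [hR1, Fintype.card_piFinset, Fin.prod_univ_succ, if_pos rfl]
    congr 1
    rw [Finset.prod_congr rfl (g := fun _ => q ^ 2), Finset.prod_const, Finset.card_univ, Fintype.card_fin]
    intro i _
    rw [if_neg (Fin.succ_ne_zero i), Finset.card_univ, hF]
  have c2 : R2.card = ZZ.card * (q ^ 2) ^ k := by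
    obtain ⟨i0, rfl⟩ : ∃ i0, j0 = Fin.succ i0 := ⟨j0.pred hj0, (Fin.succ_pred j0 hj0).symm⟩
    rw [hR2, Fintype.card_piFinset, Fin.prod_univ_succ, if_pos rfl, Finset.card_singleton, one_mul, ← Finset.mul_prod_erase _ _ (Finset.mem_univ i0),
      if_neg (Fin.succ_ne_zero i0), if_pos rfl]
    congr 1
    rw [Finset.prod_congr rfl (g := fun _ => q ^ 2), Finset.prod_const, Finset.card_erase_of_mem (Finset.mem_univ _), Finset.card_univ, Fintype.card_fin]
    · rfl
    · intro i hi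
      rw [if_neg (Fin.succ_ne_zero i), if_neg (fun h => (Finset.mem_erase.1 hi).1 (Fin.succ_injective _ h)), Finset.card_univ, hF]
  have hdisj : Disjoint R1 R2 := by
    rw [Finset.disjoint_left]
    intro t ht1 ht2
    rw [hR1, Fintype.mem_piFinset] at ht1
    rw [hR2, Fintype.mem_piFinset] at ht2
    have h1 := ht1 0
    have h2 := ht2 0
    rw [if_pos rfl] at h1 h2
    rw [Finset.mem_singleton] at h2
    rw [h2, hNN, Finset.mem_image] at h1
    obtain ⟨l, hl, hl'⟩ := h1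
    have hl0 := (Finset.mem_filter.1 hl).2
    exact mul_ne_zero (mul_ne_zero hl0 (hσ0 _ hl0)) hM0 hl'
  have hsub : R1 ∪ R2 ⊆ (orbF σ w).image (fun M => M 0) := by
    intro t ht
    rw [Finset.mem_image]
    rcases Finset.mem_union.1 ht with ht | ht
    · rw [hR1, Fintype.mem_piFinset] at ht
      have h1 := ht 0
      rw [if_pos rfl, hNN, Finset.mem_image] at h1
      obtain ⟨l, hl, hl'⟩ := h1
      have hl0 := (Finset.mem_filter.1 hl).2
      obtain ⟨M', hM', h2, -⟩ := Or_scale (σ := σ) M 1 (by simp) l hl0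
      obtain ⟨M'', hM'', h3⟩ := Or_row hσ2 M' 0 (by rw [h2]; exact mul_ne_zero (mul_ne_zero hl0 (hσ0 _ hl0)) hM0) t (by rw [h2]; exact hl'.symm) (by rw [h2]; exact hl'.symm)
      exact ⟨M'', mem_orbF.2 ((hM.trans hM').trans hM''), funext h3⟩
    · rw [hR2, Fintype.mem_piFinset] at ht
      have h0 := ht 0
      have h1 := ht j0
      rw [if_pos rfl, Finset.mem_singleton] at h0
      rw [if_neg hj0, if_pos rfl, hZZ, Finset.mem_image] at h1
      obtain ⟨l, hl, hl'⟩ := h1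
      have hl0 := (Finset.mem_filter.1 hl).2
      obtain ⟨M', hM', h2, h2'⟩ := Or_scale (σ := σ) N j0 hj0 l hl0
      obtain ⟨M'', hM'', h3⟩ := Or_row hσ2 M' j0 (by rw [h2']; exact mul_ne_zero (mul_ne_zero hl0 (inv_ne_zero (hσ0 _ hl0))) hj) t
        (by rw [h2, hN0, mul_zero, h0]) (by rw [h2']; exact hl'.symm)
      exact ⟨M'', mem_orbF.2 ((hN.trans hM').trans hM''), funext h3⟩
  have hle : NN.card * (q ^ 2) ^ (k + 1) + ZZ.card * (q ^ 2) ^ k ≤ (orbF σ w).card := by
    rw [← c1, ← c2, ← Finset.card_union_of_disjoint hdisj]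
    exact (Finset.card_le_card hsub).trans Finset.card_image_le
  refine le_trans ?_ ((Nat.add_le_add (Nat.mul_le_mul_right _ cN) (Nat.mul_le_mul_right _ cZ)).trans hle)
  apply Nat.div_le_of_le_mul
  apply Nat.sub_le_of_le_add
  obtain ⟨r, rfl⟩ : ∃ r, q = r + 1 := ⟨q - 1, by omega⟩
  rw [Nat.add_sub_cancel]
  have e1 : (r + 1) ^ (2 * (k + 2)) = (r + 1) ^ 4 * ((r + 1) ^ 2) ^ k := by
    rw [← pow_mul, ← pow_add]; congr 1; ring
  rw [e1, pow_succ ((r + 1) ^ 2) k]
  nlinarith [Nat.zero_le (((r + 1) ^ 2) ^ k), Nat.zero_le ((r + 1) * ((r + 1) ^ 2) ^ k)]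

theorem orbit_bound (hF : Fintype.card F = q ^ 2) (hσ : ∀ x, σ x = x ^ q) (hσ2 : ∀ x, σ (σ x) = x) (hσ1 : σ ≠ RingHom.id F) {β : F}
    (w : Matrix (Fin (k + 2)) (Fin (k + 2)) F) (hB : HB σ β w) (hw : w ≠ 0) : (q ^ (2 * (k + 2)) - 1) / (q + 1) ≤ (orbF σ w).card := by
  obtain ⟨M1, hM1, hM10⟩ := aniso hσ1 w hw
  obtain ⟨M2, hM2, hrow⟩ := Or_row hσ2 M1 0 hM10 (fun j => if j = 0 then M1 0 0 else 0) (if_pos rfl) (if_pos rfl)
  have h20 : M2 0 0 ≠ 0 := by rw [hrow, if_pos rfl]; exact hM10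
  have hr : ∀ j, j ≠ 0 → M2 0 j = 0 := fun j hj => by rw [hrow, if_neg hj]
  have hB2 : HB σ β M2 := hB.orb hσ2 (hM1.trans hM2)
  by_cases h : ∃ i j, i ≠ 0 ∧ j ≠ 0 ∧ M2 i j ≠ 0
  · obtain ⟨i, j, hi, hj, hij⟩ := h
    obtain ⟨M3, hM3, h30, j0, hj0⟩ := iso_vec hσ1 hσ2 M2 hB2 h20 hr i j hi hj hij
    exact rows hF hσ hσ2 w M1 M3 hM1 hM10 ((hM1.trans hM2).trans hM3) h30 j0 hj0
  · push Not at h
    refine (rank_one hF hσ M2 h20 ?_).trans (orbF_card_le (hM1.trans hM2))
    intro i j hij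
    by_cases hi : i = 0
    · subst hi
      exact hr j (hij.resolve_left (by simp))
    · by_cases hj : j = 0
      · subst hj
        have h1 : M2 i 0 = β * σ (M2 0 i) := congrFun (congrFun hB2 i) 0
        rw [h1, hr i hi, map_zero, mul_zero]
      · exact h i j hi hj

end Cfsg.Agent.H11.WU
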