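import Mathlib
import Cfsg.Agent.H11.WU3
import Cfsg.Agent.H11.WS2

set_option autoImplicit false
set_option linter.all false

/-! Smallest degree of `SU_n(q)`, `n` even: conclusion. -/

namespace Cfsg.Agent.H11.WU

open Matrix Cfsg Cfsg.Agent.H5 Cfsg.Agent.H16.LSB Module Cfsg.Agent.H11.WS

variable {F : Type*} [Field F] [Fintype F] {q : ℕ} {σ : F →+* F} {m k : ℕ}

theorem sE_congr (hσ : ∀ x, σ x = x ^ q) {P Q : Matrix (Fin m ⊕ Fin m) (Fin m ⊕ Fin m) F} (h1 : P * Q = 1) (h2 : Q * P = 1)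
    (h3 : ct σ P * P = JJ m F) {g g' : Matrix (Fin m ⊕ Fin m) (Fin m ⊕ Fin m) F} (he : g = g') (hg : ct σ g * JJ m F * g = JJ m F) (hd : g.det = 1)
    (hg' : ct σ g' * JJ m F * g' = JJ m F) (hd' : g'.det = 1) : sE hσ h1 h2 h3 g hg hd = sE hσ h1 h2 h3 g' hg' hd' := by
  subst he; rfl

theorem skew (hσ2 : ∀ x, σ (σ x) = x) (M : Matrix (Fin m) (Fin m) F) : ct σ (M - ct σ M) = -(M - ct σ M) := by
  rw [ct_sub, ct_ct hσ2]; abel

variable {V : Type*} [AddCommGroup V] [Module ℂ V]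

/-- radical action -/
noncomputable def TU (hσ : ∀ x, σ x = x ^ q) (hσ2 : ∀ x, σ (σ x) = x) {P Q : Matrix (Fin m ⊕ Fin m) (Fin m ⊕ Fin m) F} (h1 : P * Q = 1) (h2 : Q * P = 1)
    (h3 : ct σ P * P = JJ m F) (ρ : Representation ℂ (SU (m + m) F q) V) (v : Fin m × Fin m → F) : Module.End ℂ V :=
  ρ (sE hσ h1 h2 h3 (uB (WS.mt v - ct σ (WS.mt v))) (uB_mem _ (skew hσ2 _)) (uB_det _))

theorem TU_zero (hσ : ∀ x, σ x = x ^ q) (hσ2 : ∀ x, σ (σ x) = x) {P Q : Matrix (Fin m ⊕ Fin m) (Fin m ⊕ Fin m) F} (h1 : P * Q = 1) (h2 : Q * P = 1)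
    (h3 : ct σ P * P = JJ m F) (ρ : Representation ℂ (SU (m + m) F q) V) : TU hσ hσ2 h1 h2 h3 ρ 0 = 1 := by
  rw [TU]
  have : sE hσ h1 h2 h3 (uB (WS.mt (0 : Fin m × Fin m → F) - ct σ (WS.mt (0 : Fin m × Fin m → F)))) (uB_mem _ (skew hσ2 _)) (uB_det _) = 1 := by
    apply Subtype.ext
    apply Subtype.ext
    show Matrix.reindex finSumFinEquiv finSumFinEquiv (P * uB _ * Q) = 1
    have h0 : WS.mt (0 : Fin m × Fin m → F) = 0 := rfl
    rw [h0, ct_zero, sub_zero, uB, fromBlocks_one, Matrix.mul_one, h1, reindex_apply, submatrix_one_equiv]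
  rw [this, map_one]

theorem TU_add (hσ : ∀ x, σ x = x ^ q) (hσ2 : ∀ x, σ (σ x) = x) {P Q : Matrix (Fin m ⊕ Fin m) (Fin m ⊕ Fin m) F} (h1 : P * Q = 1) (h2 : Q * P = 1)
    (h3 : ct σ P * P = JJ m F) (ρ : Representation ℂ (SU (m + m) F q) V) (v w : Fin m × Fin m → F) :
    TU hσ hσ2 h1 h2 h3 ρ (v + w) = TU hσ hσ2 h1 h2 h3 ρ v * TU hσ hσ2 h1 h2 h3 ρ w := by
  rw [TU, TU, TU, ← map_mul]
  congr 1
  symm
  apply sE_mul
  rw [uB_mul]
  congr 1
  have h0 : WS.mt (v + w) = WS.mt v + WS.mt w := rfl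
  rw [h0, ct_add]
  abel

theorem psi_inj {F : Type*} [Field F] {ψ : AddChar F ℂ} (hψ : ψ 1 ≠ 1) {x y : F} (h : ∀ c, ψ (c * x) = ψ (c * y)) : x = y := by
  by_contra hne
  have h9 : x - y ≠ 0 := sub_ne_zero.2 hne
  apply hψ
  have h10 := h (x - y)⁻¹
  have h11 : (1 : F) = (x - y)⁻¹ * x + -((x - y)⁻¹ * y) := by
    rw [← sub_eq_add_neg, ← mul_sub, inv_mul_cancel₀ h9]
  rw [h11, AddChar.map_add_eq_mul, h10, ← AddChar.map_add_eq_mul, add_neg_cancel, AddChar.map_zero_eq_one]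

variable [FiniteDimensional ℂ V]

theorem lower (hF : Fintype.card F = q ^ 2) (hσ : ∀ x, σ x = x ^ q) (hσ2 : ∀ x, σ (σ x) = x) (hσ1 : σ ≠ RingHom.id F)
    {P Q : Matrix (Fin (k + 2) ⊕ Fin (k + 2)) (Fin (k + 2) ⊕ Fin (k + 2)) F} (h1 : P * Q = 1) (h2 : Q * P = 1)
    (h3 : ct σ P * P = JJ (k + 2) F) (ρ : Representation ℂ (SU ((k + 2) + (k + 2)) F q) V) (v0 : Fin (k + 2) × Fin (k + 2) → F)
    (hv0 : TU hσ hσ2 h1 h2 h3 ρ v0 ≠ 1) : (q ^ (2 * (k + 2)) - 1) / (q + 1) ≤ finrank ℂ V := by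
  classical
  have hL : (Fintype.card F : ℂ) ≠ 0 := Nat.cast_ne_zero.2 Fintype.card_ne_zero
  obtain ⟨ψ, w, hψ1, hψw, x, hx0, hx⟩ := exists_weight hL (TU hσ hσ2 h1 h2 h3 ρ) (TU_zero hσ hσ2 h1 h2 h3 ρ) (TU_add hσ hσ2 h1 h2 h3 ρ) _ hv0
  have hw : WS.mt w ≠ 0 := by
    intro h
    apply hψw
    have : w = 0 := by rw [← um_mt w, h]; rfl
    rw [this, zero_dotProduct, AddChar.map_zero_eq_one]
  have h6 : ∀ (c : F) i j, ψ (c * w (i, j)) = ψ (-σ c * w (j, i)) := by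
    intro c i j
    have h4 : TU hσ hσ2 h1 h2 h3 ρ (um (Matrix.single i j c)) = TU hσ hσ2 h1 h2 h3 ρ (um (Matrix.single j i (-σ c))) := by
      rw [TU, TU]
      congr 1
      apply sE_congr
      rw [mt_um, mt_um]
      congr 1
      have e1 : ∀ i j (c : F), ct σ (Matrix.single i j c : Matrix (Fin (k + 2)) (Fin (k + 2)) F) = Matrix.single j i (σ c) := by
        intro i j c
        ext a b
        show σ (Matrix.single i j c b a) = _
        rw [Matrix.single_apply, Matrix.single_apply]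
        by_cases h : i = b ∧ j = a
        · rw [if_pos h, if_pos ⟨h.2, h.1⟩]
        · rw [if_neg h, if_neg (fun h' => h ⟨h'.2, h'.1⟩), map_zero]
      rw [e1, e1, map_neg, hσ2]
      ext a b
      simp only [Matrix.sub_apply, Matrix.single_apply]
      split_ifs <;> ring
    have h5 : ψ (w ⬝ᵥ um (Matrix.single i j c)) • x = ψ (w ⬝ᵥ um (Matrix.single j i (-σ c))) • x := by rw [← hx, ← hx, h4]
    have h8 : ∀ i j c, w ⬝ᵥ um (Matrix.single i j c) = c * w (i, j) := by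
      intro i j c
      rw [← um_mt w, um_dot, ← transpose_single, ← transpose_mul, trace_transpose, trace_single_mul]
      rfl
    have h7 := smul_left_injective ℂ hx0 h5
    simp only [h8] at h7
    exact h7
  have h7 : ∀ i j a b, σ (w (a, b)) * w (j, i) = σ (w (i, j)) * w (b, a) := by
    intro i j a b
    apply psi_inj hψ1
    intro c
    have e1 := h6 (-σ c * w (a, b)) i j
    have e2 := h6 (-σ c * w (i, j)) a b
    rw [map_mul σ, map_neg σ, hσ2] at e1 e2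
    have e3 : -σ c * w (a, b) * w (i, j) = -σ c * w (i, j) * w (a, b) := by ring
    rw [e3, e2] at e1
    have e4 : c * (σ (w (a, b)) * w (j, i)) = -(-c * σ (w (a, b))) * w (j, i) := by ring
    have e5 : c * (σ (w (i, j)) * w (b, a)) = -(-c * σ (w (i, j))) * w (b, a) := by ring
    rw [e4, e5]
    exact e1.symm
  obtain ⟨a, b, hab⟩ : ∃ a b, w (a, b) ≠ 0 := by
    by_contra hcon
    push Not at hcon
    exact hw (by ext i j; exact hcon i j)
  have hσab : σ (w (a, b)) ≠ 0 := by rw [Ne, map_eq_zero]; exact hab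
  have hB : HB σ (w (b, a) / σ (w (a, b))) (WS.mt w) := by
    ext i j
    show w (i, j) = w (b, a) / σ (w (a, b)) * σ (w (j, i))
    rw [div_mul_eq_mul_div, eq_div_iff hσab]
    linear_combination h7 j i a b
  refine (orbit_bound hF hσ hσ2 hσ1 _ hB hw).trans ?_
  rw [← Fintype.card_coe]
  refine card_le_of_weights hL (TU hσ hσ2 h1 h2 h3 ρ) (TU_zero hσ hσ2 h1 h2 h3 ρ) (TU_add hσ hσ2 h1 h2 h3 ρ) ψ hψ1 (fun M => um M.1) ?_ ?_
  · intro M N h
    apply Subtype.ext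
    have h' : um M.1 = um N.1 := h
    exact (mt_um M.1).symm.trans ((congrArg WS.mt h').trans (mt_um N.1))
  · rintro ⟨M, hM⟩
    obtain ⟨A, A', hA, hd, rfl⟩ := mem_orbF.1 hM
    obtain ⟨g, hg⟩ : ∃ g, g = sE hσ h1 h2 h3 (mA σ A A') (mA_mem hσ2 A A' hA) (mA_det A A' hA hd) := ⟨_, rfl⟩
    have hinv : ρ g * ρ (g⁻¹) = 1 := by rw [← map_mul, mul_inv_cancel, map_one]
    refine ⟨ρ (g⁻¹) x, ?_, ?_⟩
    · intro h
      apply hx0
      have := congrArg (ρ g) h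
      rwa [← Module.End.mul_apply, hinv, map_zero] at this
    · intro v
      have h8 : A * (WS.mt v - ct σ (WS.mt v)) * ct σ A = WS.mt (um (A * WS.mt v * ct σ A)) - ct σ (WS.mt (um (A * WS.mt v * ct σ A))) := by
        rw [mt_um, Matrix.mul_sub, Matrix.sub_mul, ct_mul, ct_mul, ct_ct hσ2]
        simp only [Matrix.mul_assoc]
      have h9 : sE hσ h1 h2 h3 (uB (WS.mt (um (A * WS.mt v * ct σ A)) - ct σ (WS.mt (um (A * WS.mt v * ct σ A))))) (uB_mem _ (skew hσ2 _)) (uB_det _) * g =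
          g * sE hσ h1 h2 h3 (uB (WS.mt v - ct σ (WS.mt v))) (uB_mem _ (skew hσ2 _)) (uB_det _) := by
        rw [hg]
        have hmem : ct σ (mA σ A A' * uB (WS.mt v - ct σ (WS.mt v))) * JJ (k + 2) F * (mA σ A A' * uB (WS.mt v - ct σ (WS.mt v))) = JJ (k + 2) F := by
          rw [ct_mul]
          calc ct σ (uB (WS.mt v - ct σ (WS.mt v))) * ct σ (mA σ A A') * JJ (k + 2) F * (mA σ A A' * uB (WS.mt v - ct σ (WS.mt v)))
              = ct σ (uB (WS.mt v - ct σ (WS.mt v))) * (ct σ (mA σ A A') * JJ (k + 2) F * mA σ A A') * uB (WS.mt v - ct σ (WS.mt v)) := by simp only [Matrix.mul_assoc]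
            _ = _ := by rw [mA_mem hσ2 A A' hA, uB_mem _ (skew hσ2 _)]
        have hdet : (mA σ A A' * uB (WS.mt v - ct σ (WS.mt v))).det = 1 := by rw [det_mul, mA_det A A' hA hd, uB_det, one_mul]
        rw [sE_mul hσ h1 h2 h3 _ _ _ _ hmem hdet (by rw [← h8, mA_uB hσ2 A A' _ hA]), sE_mul hσ h1 h2 h3 _ _ _ _ hmem hdet rfl]
      have h10 : sE hσ h1 h2 h3 (uB (WS.mt v - ct σ (WS.mt v))) (uB_mem _ (skew hσ2 _)) (uB_det _) * g⁻¹ =
          g⁻¹ * sE hσ h1 h2 h3 (uB (WS.mt (um (A * WS.mt v * ct σ A)) - ct σ (WS.mt (um (A * WS.mt v * ct σ A))))) (uB_mem _ (skew hσ2 _)) (uB_det _) := by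
        rw [eq_inv_mul_iff_mul_eq, ← mul_assoc, ← h9, mul_inv_cancel_right]
      show ρ (sE hσ h1 h2 h3 (uB (WS.mt v - ct σ (WS.mt v))) (uB_mem _ (skew hσ2 _)) (uB_det _)) (ρ (g⁻¹) x) = _
      rw [← Module.End.mul_apply, ← map_mul, h10, map_mul, Module.End.mul_apply]
      have h11 : ρ (sE hσ h1 h2 h3 (uB (WS.mt (um (A * WS.mt v * ct σ A)) - ct σ (WS.mt (um (A * WS.mt v * ct σ A))))) (uB_mem _ (skew hσ2 _)) (uB_det _)) x =
        ψ (w ⬝ᵥ um (A * WS.mt v * ct σ A)) • x := hx _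
      rw [h11, map_smul]
      congr 2
      show w ⬝ᵥ _ = um (Aᵀ * WS.mt w * A.map σ) ⬝ᵥ v
      have h12 : ((WS.mt w)ᵀ * (A * WS.mt v * ct σ A)).trace = ((Aᵀ * WS.mt w * A.map σ)ᵀ * WS.mt v).trace := by
        rw [transpose_mul, transpose_mul, transpose_transpose, ← Matrix.mul_assoc (WS.mt w)ᵀ (A * WS.mt v) (ct σ A), trace_mul_comm _ (ct σ A)]
        simp only [Matrix.mul_assoc]
        rfl
      have h13 := um_dot (WS.mt w) (A * WS.mt v * ct σ A)
      have h14 := um_dot (Aᵀ * WS.mt w * A.map σ) (WS.mt v)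
      rw [um_mt] at h13 h14
      rw [h13, h14, h12]

theorem final {F : Type*} [Field F] [Fintype F] [DecidableEq F] (n q : ℕ) (hn : 4 ≤ n) (heven : Even n) (hF : Fintype.card F = q ^ 2) :
    (∀ (k : ℕ) (ρ : Representation ℂ (Cfsg.SU n F q) (Fin k → ℂ)), ρ.IsIrreducible → 2 ≤ k → (q ^ n - 1) / (q + 1) ≤ k) := by
  intro d ρ hirr hd
  obtain ⟨r, rfl⟩ := heven
  obtain ⟨k, rfl⟩ : ∃ k, r = k + 2 := ⟨r - 2, by omega⟩
  obtain ⟨σ, hσ, hσ2, hσ1⟩ := exists_frob hF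
  obtain ⟨P, Q, h1, h2, h3⟩ := exists_P hF hσ hσ1 hσ2 (k + 2)
  have h32 : ¬ ((k + 2) + (k + 2) = 3 ∧ q = 2) := by omega
  have hqs : Cfsg.IsQuasisimple (SU ((k + 2) + (k + 2)) F q) :=
    ⟨⟨SU_perfect hF (by omega) h32⟩, PSU_isSimple hF (by omega) h32⟩
  have hfinr : finrank ℂ (Fin d → ℂ) = d := by rw [finrank_fintype_fun_eq_card, Fintype.card_fin]
  have e1 : (k + 2) + (k + 2) = 2 * (k + 2) := by ring
  obtain ⟨S, hS⟩ : ∃ S : Matrix (Fin (k + 2)) (Fin (k + 2)) F, S = Matrix.single 0 1 1 := ⟨_, rfl⟩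
  have goal := lower hF hσ hσ2 hσ1 h1 h2 h3 ρ (um S) ?_
  · rw [hfinr] at goal
    rwa [← e1] at goal
  intro hT
  have hker : sE hσ h1 h2 h3 (uB (WS.mt (um S) - ct σ (WS.mt (um S)))) (uB_mem _ (skew hσ2 _)) (uB_det _) ∈ ρ.ker := hT
  rcases Cfsg.Agent.H10.qs_normal_eq_top_or_le_center hqs (N := ρ.ker) inferInstance with h | h
  · -- trivial representation
    have hall : ∀ g, ρ g = 1 := fun g => by
      have : g ∈ ρ.ker := by rw [h]; trivial
      exact this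
    obtain ⟨w, hw⟩ := Module.finrank_pos_iff_exists_ne_zero.1 (show 0 < finrank ℂ (Fin d → ℂ) by rw [hfinr]; omega)
    let K : Subrepresentation ρ := ⟨Submodule.span ℂ {w}, fun g v hv => by rw [hall]; exact hv⟩
    have h3 : finrank ℂ K.toSubmodule = 1 := finrank_span_singleton hw
    rcases hirr.eq_bot_or_eq_top K with h' | h'
    · have h4 : K.toSubmodule = ⊥ := congrArg Subrepresentation.toSubmodule h'
      rw [h4, finrank_bot] at h3
      exact zero_ne_one h3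
    · have h4 : K.toSubmodule = ⊤ := congrArg Subrepresentation.toSubmodule h'
      rw [h4, finrank_top, hfinr] at h3
      omega
  · obtain ⟨c, hc⟩ := SU_center_scalar hF hσ (by omega) (h hker)
    have h4 : Matrix.reindex finSumFinEquiv finSumFinEquiv (P * uB (WS.mt (um S) - ct σ (WS.mt (um S))) * Q) = c • 1 := hc
    have h5 : P * uB (WS.mt (um S) - ct σ (WS.mt (um S))) * Q = c • 1 := by
      have := congrArg (Matrix.reindex finSumFinEquiv finSumFinEquiv).symm h4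
      rw [Equiv.symm_apply_apply] at this
      rw [this]
      ext i j
      simp [Matrix.one_apply]
    have h6 : uB (WS.mt (um S) - ct σ (WS.mt (um S))) = c • (1 : Matrix (Fin (k + 2) ⊕ Fin (k + 2)) (Fin (k + 2) ⊕ Fin (k + 2)) F) := by
      calc uB (WS.mt (um S) - ct σ (WS.mt (um S))) = (Q * P) * uB (WS.mt (um S) - ct σ (WS.mt (um S))) * (Q * P) := by
            rw [h2, Matrix.one_mul, Matrix.mul_one]
        _ = Q * (P * uB (WS.mt (um S) - ct σ (WS.mt (um S))) * Q) * P := by simp only [Matrix.mul_assoc]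
        _ = c • 1 := by rw [h5, Matrix.mul_smul, Matrix.mul_one, Matrix.smul_mul, h2]
    have h7 := congrFun (congrFun h6 (Sum.inl 0)) (Sum.inr 1)
    rw [uB, fromBlocks_apply₁₂, Matrix.smul_apply, Matrix.one_apply_ne (by simp), smul_zero, mt_um, Matrix.sub_apply, hS, Matrix.single_apply_same] at h7
    have h8 : ct σ (Matrix.single 0 1 1 : Matrix (Fin (k + 2)) (Fin (k + 2)) F) 0 1 = 0 := by
      show σ (Matrix.single 0 1 1 1 0) = 0
      rw [Matrix.single_apply, if_neg (by simp), map_zero]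
    rw [h8, sub_zero] at h7
    exact one_ne_zero h7

end Cfsg.Agent.H11.WU
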