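import Mathlib
import Cfsg.Agent.H11.WU4

set_option autoImplicit false
set_option linter.all false

/-! Smallest degree of `SU_n(q)`, `n` odd: coordinates. -/

namespace Cfsg.Agent.H11.WV

open Matrix Cfsg Cfsg.Agent.H5 Module Cfsg.Agent.H11.WU

variable {F : Type*} [Field F] [Fintype F] {q : ℕ} {σ : F →+* F} {m : ℕ}

abbrev Ix (m : ℕ) := (Fin m ⊕ Fin m) ⊕ Fin 1

/-- reindexing -/
def ei (m : ℕ) : Ix m ≃ Fin (m + m + 1) := (finSumFinEquiv.sumCongr (Equiv.refl (Fin 1))).trans finSumFinEquiv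

/-- Gram matrix -/
def GG (m : ℕ) (F : Type*) [Field F] : Matrix (Ix m) (Ix m) F := fromBlocks (JJ m F) 0 0 1

theorem exists_P' (hF : Fintype.card F = q ^ 2) (hσ : ∀ x, σ x = x ^ q) (hσ1 : σ ≠ RingHom.id F) (hσ2 : ∀ x, σ (σ x) = x) (m : ℕ) :
    ∃ P Q : Matrix (Ix m) (Ix m) F, P * Q = 1 ∧ Q * P = 1 ∧ ct σ P * P = GG m F := by
  obtain ⟨P, Q, h1, h2, h3⟩ := exists_P hF hσ hσ1 hσ2 m
  refine ⟨fromBlocks P 0 0 1, fromBlocks Q 0 0 1, ?_, ?_, ?_⟩
  · rw [fromBlocks_multiply]; simp [h1]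
  · rw [fromBlocks_multiply]; simp [h2]
  · rw [ct_blocks, fromBlocks_multiply, GG, ct_one, ct_zero, ct_zero]; simp [h3]

/-- an element of `SU` -/
noncomputable def sG (hσ : ∀ x, σ x = x ^ q) {P Q : Matrix (Ix m) (Ix m) F} (h1 : P * Q = 1) (h2 : Q * P = 1)
    (h3 : ct σ P * P = GG m F) (g : Matrix (Ix m) (Ix m) F) (hg : ct σ g * GG m F * g = GG m F) (hd : g.det = 1) :
    SU (m + m + 1) F q :=
  mkSU hσ (Matrix.reindex (ei m) (ei m) (P * g * Q)) (by
    have h4 : ct σ (P * g * Q) * (P * g * Q) = 1 := by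
      rw [ct_mul, ct_mul]
      calc ct σ Q * (ct σ g * ct σ P) * (P * g * Q) = ct σ Q * (ct σ g * (ct σ P * P) * g) * Q := by simp only [Matrix.mul_assoc]
        _ = ct σ Q * (ct σ P * P) * Q := by rw [h3, hg]
        _ = ct σ (P * Q) * (P * Q) := by rw [ct_mul]; simp only [Matrix.mul_assoc]
        _ = 1 := by rw [h1, ct_one, Matrix.mul_one]
    intro i j
    rw [hB_apply]
    have h5 := congrFun (congrFun h4 ((ei m).symm i)) ((ei m).symm j)
    rw [Matrix.mul_apply, one_apply] at h5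
    rw [← Equiv.sum_comp (ei m)]
    simp only [reindex_apply, submatrix_apply, Equiv.symm_apply_apply, EmbeddingLike.apply_eq_iff_eq] at h5 ⊢
    exact h5) (by
    rw [det_reindex_self, det_mul, det_mul, hd, mul_one, ← det_mul, h1, det_one])

theorem sG_mul (hσ : ∀ x, σ x = x ^ q) {P Q : Matrix (Ix m) (Ix m) F} (h1 : P * Q = 1) (h2 : Q * P = 1)
    (h3 : ct σ P * P = GG m F) {g g' g'' : Matrix (Ix m) (Ix m) F} (hg : ct σ g * GG m F * g = GG m F) (hd : g.det = 1)
    (hg' : ct σ g' * GG m F * g' = GG m F) (hd' : g'.det = 1) (hg'' : ct σ g'' * GG m F * g'' = GG m F) (hd'' : g''.det = 1) (he : g * g' = g'') :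
    sG hσ h1 h2 h3 g hg hd * sG hσ h1 h2 h3 g' hg' hd' = sG hσ h1 h2 h3 g'' hg'' hd'' := by
  apply Subtype.ext
  apply Subtype.ext
  show Matrix.reindex (ei m) (ei m) (P * g * Q) * Matrix.reindex (ei m) (ei m) (P * g' * Q) = Matrix.reindex (ei m) (ei m) (P * g'' * Q)
  rw [reindex_apply, reindex_apply, reindex_apply, submatrix_mul_equiv, ← he]
  congr 1
  calc P * g * Q * (P * g' * Q) = P * g * (Q * P) * g' * Q := by simp only [Matrix.mul_assoc]
    _ = P * (g * g') * Q := by rw [h2, Matrix.mul_one]; simp only [Matrix.mul_assoc]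

theorem sG_congr (hσ : ∀ x, σ x = x ^ q) {P Q : Matrix (Ix m) (Ix m) F} (h1 : P * Q = 1) (h2 : Q * P = 1)
    (h3 : ct σ P * P = GG m F) {g g' : Matrix (Ix m) (Ix m) F} (he : g = g') (hg : ct σ g * GG m F * g = GG m F) (hd : g.det = 1)
    (hg' : ct σ g' * GG m F * g' = GG m F) (hd' : g'.det = 1) : sG hσ h1 h2 h3 g hg hd = sG hσ h1 h2 h3 g' hg' hd' := by
  subst he; rfl

theorem ct_fromRows (x : Matrix (Fin m) (Fin 1) F) : ct σ (fromRows x (0 : Matrix (Fin m) (Fin 1) F)) = fromCols (ct σ x) 0 := by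
  ext i j
  rcases j with j | j
  · rfl
  · exact map_zero σ

theorem ct_fromCols (x : Matrix (Fin 1) (Fin m) F) : ct σ (fromCols (0 : Matrix (Fin 1) (Fin m) F) x) = fromRows 0 (ct σ x) := by
  ext i j
  rcases i with i | i
  · exact map_zero σ
  · rfl

/-- unipotent elements -/
def UU (σ : F →+* F) (x : Matrix (Fin m) (Fin 1) F) (B : Matrix (Fin m) (Fin m) F) : Matrix (Ix m) (Ix m) F :=
  fromBlocks (uB B) (fromRows x 0) (fromCols 0 (-ct σ x)) 1

theorem ct_neg (X : Matrix (Fin m) (Fin 1) F) : ct σ (-X) = -ct σ X := by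
  ext i j
  exact map_neg σ _

theorem ct_neg' (X : Matrix (Fin 1) (Fin m) F) : ct σ (-X) = -ct σ X := by
  ext i j
  exact map_neg σ _

theorem UU_mem (hσ2 : ∀ x, σ (σ x) = x) (x : Matrix (Fin m) (Fin 1) F) (B : Matrix (Fin m) (Fin m) F) (h : B + ct σ B + x * ct σ x = 0) :
    ct σ (UU σ x B) * GG m F * UU σ x B = GG m F := by
  rw [UU, ct_blocks, ct_fromRows, ct_fromCols, ct_one, ct_neg', ct_ct hσ2, uB, ct_blocks, ct_one, ct_zero, GG, JJ, fromBlocks_multiply, fromBlocks_multiply]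
  simp only [fromBlocks_multiply, fromCols_mul_fromBlocks, fromBlocks_mul_fromRows, fromRows_mul_fromCols, fromCols_mul_fromRows, fromBlocks_add,
    Matrix.mul_zero, Matrix.zero_mul, Matrix.mul_one, Matrix.one_mul, add_zero, zero_add]
  congr 1
  · congr 1
    rw [Matrix.neg_mul, Matrix.mul_neg, neg_neg]
    calc _ = B + ct σ B + x * ct σ x := by abel
      _ = 0 := h
  · ext i j
    rcases i with i | i <;> simp
  · ext i j
    rcases j with j | j <;> simp

theorem UU_det (x : Matrix (Fin m) (Fin 1) F) (B : Matrix (Fin m) (Fin m) F) : (UU σ x B).det = 1 := by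
  rw [UU, det_fromBlocks_one₂₂, fromRows_mul_fromCols, uB, sub_eq_add_neg, fromBlocks_neg, fromBlocks_add]
  simp

theorem UU_mul (x y : Matrix (Fin m) (Fin 1) F) (B C : Matrix (Fin m) (Fin m) F) : UU σ x B * UU σ y C = UU σ (x + y) (B + C - x * ct σ y) := by
  rw [UU, UU, UU, uB, uB, uB, fromBlocks_multiply]
  simp only [fromBlocks_multiply, fromCols_mul_fromBlocks, fromBlocks_mul_fromRows, fromRows_mul_fromCols, fromCols_mul_fromRows, fromBlocks_add,
    Matrix.mul_zero, Matrix.zero_mul, Matrix.mul_one, Matrix.one_mul, add_zero, zero_add]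
  congr 1
  · congr 1
    rw [Matrix.mul_neg]; abel
  · ext i j
    rcases i with i | i <;> simp [add_comm]
  · ext i j
    rcases j with j | j <;> simp [ct_add, add_comm]

/-- Levi elements -/
def LL (σ : F →+* F) (A A' : Matrix (Fin m) (Fin m) F) (d : F) : Matrix (Ix m) (Ix m) F := fromBlocks (mA σ A A') 0 0 (d • 1)

theorem LL_mem (hσ2 : ∀ x, σ (σ x) = x) (A A' : Matrix (Fin m) (Fin m) F) (h : A * A' = 1) (d : F) (hd : σ d * d = 1) :
    ct σ (LL σ A A' d) * GG m F * LL σ A A' d = GG m F := by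
  rw [LL, ct_blocks, ct_zero, ct_zero, ct_smul, ct_one, GG, fromBlocks_multiply, fromBlocks_multiply]
  simp only [Matrix.mul_zero, Matrix.zero_mul, Matrix.mul_one, add_zero, zero_add, mA_mem hσ2 A A' h, Matrix.smul_mul, Matrix.one_mul, smul_smul, hd, one_smul]

theorem LL_det (A A' : Matrix (Fin m) (Fin m) F) (h : A * A' = 1) (d : F) (hd : A.det * σ A'.det * d = 1) : (LL σ A A' d).det = 1 := by
  rw [LL, det_fromBlocks_zero₂₁, mA, det_fromBlocks_zero₂₁, det_ct, det_smul, det_one, mul_one, Fintype.card_fin, pow_one, hd]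

theorem LL_UU (hσ2 : ∀ x, σ (σ x) = x) (A A' B : Matrix (Fin m) (Fin m) F) (h : A * A' = 1) (d : F) :
    UU σ 0 (A * B * ct σ A) * LL σ A A' d = LL σ A A' d * UU σ 0 B := by
  rw [UU, UU, LL, fromBlocks_multiply, fromBlocks_multiply, ct_zero, neg_zero]
  simp only [fromRows_zero, fromCols_zero, Matrix.mul_zero, Matrix.zero_mul, Matrix.mul_one, add_zero, zero_add, mA_uB hσ2 A A' B h, Matrix.one_mul]

end Cfsg.Agent.H11.WV
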