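import Mathlib
import Cfsg.Agent.H11.WV1

set_option autoImplicit false
set_option linter.all false

/-! Smallest degree of `SU_n(q)`, `n` odd: abstract lemmas. -/

namespace Cfsg.Agent.H11.WV

open Matrix Cfsg Cfsg.Agent.H5 Module Cfsg.Agent.H11.WU Cfsg.Agent.H16.LSB

section abs
variable {F : Type*} [Field F] [Fintype F]

theorem dim_ge {q : ℕ} (hF : Fintype.card F = q ^ 2) {σ : F →+* F} {W : Type*} [AddCommGroup W] [Module ℂ W] [FiniteDimensional ℂ W] [Nontrivial W]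
    (R R' : F → Module.End ℂ W) (h1 : ∀ y, R y * R' y = 1) (h2 : ∀ y, R' y * R y = 1) (h0 : R 0 = 1)
    (hadd : ∀ y z, ∃ c : ℂ, c ≠ 0 ∧ R y * R z = c • R (y + z)) (ψ : AddChar F ℂ) (hψ1 : ψ 1 ≠ 1) (a : F) (ha : a ≠ 0)
    (hcomm : ∀ x y, R (σ y) * R x = ψ (a * x * y) • (R x * R (σ y))) : q ≤ finrank ℂ W := by
  classical
  have hL : (Fintype.card F : ℂ) ≠ 0 := Nat.cast_ne_zero.2 Fintype.card_ne_zero
  obtain ⟨T2, hT2⟩ : ∃ T2 : (Fin 1 → F) → Module.End ℂ (Module.End ℂ W), ∀ t X, T2 t X = R (σ (t 0)) * (X * R' (σ (t 0))) :=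
    ⟨fun t => LinearMap.mulLeft ℂ (R (σ (t 0))) ∘ₗ LinearMap.mulRight ℂ (R' (σ (t 0))), fun t X => rfl⟩
  have hR'0 : R' 0 = 1 := by
    have := h1 0
    rwa [h0, one_mul] at this
  have hT0 : T2 0 = 1 := by
    apply LinearMap.ext
    intro X
    rw [hT2]
    show R (σ 0) * (X * R' (σ 0)) = X
    rw [map_zero, h0, hR'0, one_mul, mul_one]
  have hTadd : ∀ v w, T2 (v + w) = T2 v * T2 w := by
    intro v w
    apply LinearMap.ext
    intro X
    rw [Module.End.mul_apply, hT2, hT2, hT2]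
    have e0 : σ ((v + w) 0) = σ (v 0) + σ (w 0) := map_add σ _ _
    rw [e0]
    obtain ⟨c, hc0, hc⟩ := hadd (σ (v 0)) (σ (w 0))
    have e1 : c • (R' (σ (w 0)) * R' (σ (v 0))) = R' (σ (v 0) + σ (w 0)) := by
      calc c • (R' (σ (w 0)) * R' (σ (v 0))) = (R' (σ (w 0)) * R' (σ (v 0))) * (c • R (σ (v 0) + σ (w 0))) * R' (σ (v 0) + σ (w 0)) := by
            rw [mul_smul_comm, smul_mul_assoc, mul_assoc _ (R _), h1, mul_one]
        _ = R' (σ (w 0)) * (R' (σ (v 0)) * R (σ (v 0))) * R (σ (w 0)) * R' (σ (v 0) + σ (w 0)) := by rw [← hc]; simp only [mul_assoc]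
        _ = R' (σ (v 0) + σ (w 0)) := by rw [h2, mul_one, h2, one_mul]
    calc R (σ (v 0) + σ (w 0)) * (X * R' (σ (v 0) + σ (w 0))) = (c • R (σ (v 0) + σ (w 0))) * (X * (R' (σ (w 0)) * R' (σ (v 0)))) := by
          rw [← e1, mul_smul_comm, mul_smul_comm, smul_mul_assoc]
      _ = R (σ (v 0)) * (R (σ (w 0)) * (X * R' (σ (w 0))) * R' (σ (v 0))) := by rw [← hc]; simp only [mul_assoc]
  have h3 := card_le_of_weights hL T2 hT0 hTadd ψ hψ1 (S := F) (fun x => fun _ => a * x) (by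
    intro x y h
    exact mul_left_cancel₀ ha (congrFun h 0)) (by
    intro x
    refine ⟨R x, ?_, ?_⟩
    · intro h
      have h4 := h1 x
      rw [h, zero_mul] at h4
      exact zero_ne_one h4
    · intro v
      rw [hT2, ← mul_assoc, hcomm, smul_mul_assoc, mul_assoc (R x), h1, mul_one]
      congr 2
      rw [dotProduct, Fin.sum_univ_one])
  rw [hF, Module.finrank_linearMap, ← sq] at h3
  exact (Nat.pow_le_pow_iff_left (by norm_num)).1 h3

variable {L : Type*} [Field L] {V : Type*} [AddCommGroup V] [Module L V] [FiniteDimensional L V] {ι : Type*} [Fintype ι] [DecidableEq ι]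

theorem sum_le (hL : (Fintype.card F : L) ≠ 0) (T : (ι → F) → Module.End L V) (hT0 : T 0 = 1) (hTadd : ∀ v w, T (v + w) = T v * T w)
    (ψ : AddChar F L) (hψ1 : ψ 1 ≠ 1) {S : Type*} [Fintype S] (wt : S → (ι → F)) (hwt : Function.Injective wt) (d : ℕ)
    (W : S → Submodule L V) (hW : ∀ s x, x ∈ W s → ∀ v, T v x = ψ (wt s ⬝ᵥ v) • x) (hd : ∀ s, d ≤ finrank L (W s)) :
    Fintype.card S * d ≤ finrank L V := by
  classical
  have hTc : ∀ v w, Commute (T v) (T w) := by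
    intro v w
    show T v * T w = T w * T v
    rw [← hTadd, ← hTadd, add_comm]
  have hmax : ∀ v μ, (T v).maxGenEigenspace μ = (T v).eigenspace μ := fun v μ => (wt_aux hL T hT0 hTadd v).isFinitelySemisimple.maxGenEigenspace_eq_eigenspace μ
  have hind : iSupIndep fun χ : (ι → F) → L => ⨅ v, (T v).maxGenEigenspace (χ v) :=
    Module.End.independent_iInf_maxGenEigenspace_of_forall_mapsTo T (fun v w μ => Module.End.mapsTo_maxGenEigenspace_of_comm (hTc w v) μ)
  have hinj : Function.Injective (fun s : S => (fun v => ψ (wt s ⬝ᵥ v) : (ι → F) → L)) := by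
    intro a b h
    apply hwt
    by_contra hne
    obtain ⟨i, hi⟩ := Function.ne_iff.1 hne
    have h3 : ψ (wt a ⬝ᵥ Pi.single i ((wt a i - wt b i)⁻¹)) = ψ (wt b ⬝ᵥ Pi.single i ((wt a i - wt b i)⁻¹)) := congrFun h _
    rw [dotProduct_single, dotProduct_single] at h3
    apply hψ1
    have h4 : (1 : F) = wt a i * (wt a i - wt b i)⁻¹ + -(wt b i * (wt a i - wt b i)⁻¹) := by
      rw [← sub_eq_add_neg, ← sub_mul, mul_inv_cancel₀ (sub_ne_zero.2 hi)]
    rw [h4, AddChar.map_add_eq_mul, h3, ← AddChar.map_add_eq_mul, add_neg_cancel, AddChar.map_zero_eq_one]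
  have h2 : iSupIndep W := by
    refine (hind.comp hinj).mono ?_
    intro s x hx
    simp only [Function.comp, hmax]
    simp only [Submodule.mem_iInf, Module.End.mem_eigenspace_iff]
    exact hW s x hx
  have h3 := h2.dfinsupp_lsum_injective
  have h4 := LinearMap.finrank_le_finrank_of_injective h3
  have h5 : finrank L (Π₀ s, W s) = ∑ s, finrank L (W s) := Module.finrank_directSum (R := L) (fun s => W s)
  rw [h5] at h4
  refine le_trans ?_ h4
  calc Fintype.card S * d = ∑ s : S, d := by rw [Finset.sum_const, Finset.card_univ, smul_eq_mul]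
    _ ≤ _ := Finset.sum_le_sum (fun s _ => hd s)

end abs

section orb
variable {F : Type*} [Field F] [Fintype F] {q : ℕ} {σ : F →+* F} {m : ℕ}

/-- twisted congruence under the full linear group -/
def Og (σ : F →+* F) (w M : Matrix (Fin m) (Fin m) F) : Prop := ∃ A A' : Matrix (Fin m) (Fin m) F, A * A' = 1 ∧ M = Aᵀ * w * A.map σ

theorem Og.HB (hσ2 : ∀ x, σ (σ x) = x) {β : F} {w M : Matrix (Fin m) (Fin m) F} (h : HB σ β w) (h1 : Og σ w M) : WU.HB σ β M := by
  obtain ⟨A, A', hA, rfl⟩ := h1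
  have h2 : ct σ (A.map σ) = Aᵀ := by
    ext i j
    exact hσ2 _
  have h3 : ct σ Aᵀ = A.map σ := rfl
  rw [WU.HB, ct_mul, ct_mul, h2, h3, ← Matrix.mul_assoc, ← Matrix.smul_mul, ← Matrix.mul_smul, ← h]

theorem Og.ne_zero {w M : Matrix (Fin m) (Fin m) F} (hw : w ≠ 0) (h1 : Og σ w M) : M ≠ 0 := by
  obtain ⟨A, A', hA, rfl⟩ := h1
  intro h
  apply hw
  have h2 : A.map σ * A'.map σ = 1 := by rw [← Matrix.map_mul, hA, Matrix.map_one _ (map_zero σ) (map_one σ)]
  have h3 : A'ᵀ * Aᵀ = 1 := by rw [← transpose_mul, hA, transpose_one]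
  calc w = (A'ᵀ * Aᵀ) * w * (A.map σ * A'.map σ) := by rw [h2, h3, Matrix.one_mul, Matrix.mul_one]
    _ = A'ᵀ * (Aᵀ * w * A.map σ) * A'.map σ := by simp only [Matrix.mul_assoc]
    _ = 0 := by rw [h, Matrix.mul_zero, Matrix.zero_mul]

open Classical in
/-- the orbit -/
noncomputable def ogF (σ : F →+* F) (w : Matrix (Fin m) (Fin m) F) : Finset (Matrix (Fin m) (Fin m) F) := Finset.univ.filter (fun M => Og σ w M)

theorem mem_ogF {w M : Matrix (Fin m) (Fin m) F} : M ∈ ogF σ w ↔ Og σ w M := by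
  classical
  rw [ogF, Finset.mem_filter]
  exact ⟨fun h => h.2, fun h => ⟨Finset.mem_univ _, h⟩⟩

theorem og_bound (hF : Fintype.card F = q ^ 2) (hσ : ∀ x, σ x = x ^ q) (hσ2 : ∀ x, σ (σ x) = x) (hσ1 : σ ≠ RingHom.id F) {β : F} (hm : 1 ≤ m)
    (w : Matrix (Fin m) (Fin m) F) (hB : HB σ β w) (hw : w ≠ 0) : (q ^ (2 * m) - 1) / (q + 1) ≤ (ogF σ w).card := by
  classical
  obtain ⟨k, rfl⟩ : ∃ k, m = k + 1 := ⟨m - 1, by omega⟩
  rcases Nat.eq_zero_or_pos k with rfl | hk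
  · have hw0 : w 0 0 ≠ 0 := by
      intro h
      apply hw
      ext i j
      fin_cases i
      fin_cases j
      exact h
    have hq := q_pos hF
    have h1 : (q ^ (2 * (0 + 1)) - 1) / (q + 1) = q - 1 := by
      have h3 : q ^ (2 * (0 + 1)) - 1 = (q + 1) * (q - 1) := by
        obtain ⟨r, rfl⟩ : ∃ r, q = r + 1 := ⟨q - 1, by omega⟩
        rw [Nat.add_sub_cancel]
        apply Nat.sub_eq_of_eq_add; ring
      rw [h3, Nat.mul_div_cancel_left _ (Nat.succ_pos _)]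
    rw [h1]
    refine (card_NN hF hσ hσ2 _ hw0).trans ?_
    refine (Finset.card_le_card (t := (ogF σ w).image (fun M => M 0 0)) ?_).trans Finset.card_image_le
    intro c hc
    obtain ⟨l, hl, rfl⟩ := Finset.mem_image.1 hc
    have hl0 := (Finset.mem_filter.1 hl).2
    rw [Finset.mem_image]
    refine ⟨_, mem_ogF.2 ⟨l • 1, l⁻¹ • 1, ?_, rfl⟩, ?_⟩
    · rw [Matrix.smul_mul, Matrix.one_mul, smul_smul, mul_inv_cancel₀ hl0, one_smul]
    · simp [Matrix.mul_apply, Matrix.one_apply]; ring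
  · obtain ⟨j, rfl⟩ : ∃ j, k = j + 1 := ⟨k - 1, by omega⟩
    refine (orbit_bound hF hσ hσ2 hσ1 w hB hw).trans ?_
    apply Finset.card_le_card
    intro M hM
    obtain ⟨A, A', hA, hd, rfl⟩ := mem_orbF.1 hM
    exact mem_ogF.2 ⟨A, A', hA, rfl⟩

end orb

end Cfsg.Agent.H11.WV
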