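import Mathlib
import Cfsg.Agent.H11.WV2

set_option autoImplicit false
set_option linter.all false

/-! Smallest degree of `SU_n(q)`, `n` odd: conclusion. -/

namespace Cfsg.Agent.H11.WV

open Matrix Cfsg Cfsg.Agent.H5 Module Cfsg.Agent.H11.WU Cfsg.Agent.H16.LSB Cfsg.Agent.H11.WS

variable {F : Type*} [Field F] [Fintype F] {q : ℕ} {σ : F →+* F} {m : ℕ}

theorem sk0 (hσ2 : ∀ x, σ (σ x) = x) (M : Matrix (Fin m) (Fin m) F) :
    (M - ct σ M) + ct σ (M - ct σ M) + (0 : Matrix (Fin m) (Fin 1) F) * ct σ (0 : Matrix (Fin m) (Fin 1) F) = 0 := by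
  rw [skew hσ2, Matrix.zero_mul]; abel

theorem sG_one (hσ : ∀ x, σ x = x ^ q) {P Q : Matrix (Ix m) (Ix m) F} (h1 : P * Q = 1) (h2 : Q * P = 1)
    (h3 : ct σ P * P = GG m F) (g : Matrix (Ix m) (Ix m) F) (hg1 : g = 1) (hg : ct σ g * GG m F * g = GG m F) (hd : g.det = 1) :
    sG hσ h1 h2 h3 g hg hd = 1 := by
  apply Subtype.ext
  apply Subtype.ext
  show Matrix.reindex (ei m) (ei m) (P * g * Q) = 1
  rw [hg1, Matrix.mul_one, h1, reindex_apply, submatrix_one_equiv]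

theorem UU_zero : UU σ (0 : Matrix (Fin m) (Fin 1) F) (0 : Matrix (Fin m) (Fin m) F) = 1 := by
  rw [UU, uB, ct_zero, neg_zero, fromRows_zero, fromCols_zero, fromBlocks_one, fromBlocks_one]

/-- central elements -/
noncomputable def tt (hσ : ∀ x, σ x = x ^ q) (hσ2 : ∀ x, σ (σ x) = x) {P Q : Matrix (Ix m) (Ix m) F} (h1 : P * Q = 1) (h2 : Q * P = 1)
    (h3 : ct σ P * P = GG m F) (M : Matrix (Fin m) (Fin m) F) : SU (m + m + 1) F q :=
  sG hσ h1 h2 h3 (UU σ 0 (M - ct σ M)) (UU_mem hσ2 _ _ (sk0 hσ2 _)) (UU_det _ _)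

theorem tt_mul (hσ : ∀ x, σ x = x ^ q) (hσ2 : ∀ x, σ (σ x) = x) {P Q : Matrix (Ix m) (Ix m) F} (h1 : P * Q = 1) (h2 : Q * P = 1)
    (h3 : ct σ P * P = GG m F) (M N : Matrix (Fin m) (Fin m) F) : tt hσ hσ2 h1 h2 h3 M * tt hσ hσ2 h1 h2 h3 N = tt hσ hσ2 h1 h2 h3 (M + N) := by
  apply sG_mul
  rw [UU_mul, add_zero, Matrix.zero_mul, sub_zero, ct_add]
  congr 1
  abel

/-- noncentral elements -/
noncomputable def gy (hσ : ∀ x, σ x = x ^ q) (hσ2 : ∀ x, σ (σ x) = x) {P Q : Matrix (Ix m) (Ix m) F} (h1 : P * Q = 1) (h2 : Q * P = 1)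
    (h3 : ct σ P * P = GG m F) (t : F) (ht : t + σ t = 1) (E : Matrix (Fin m) (Fin 1) F) (y : F) : SU (m + m + 1) F q :=
  sG hσ h1 h2 h3 (UU σ (y • E) ((-(t * y * σ y)) • (E * ct σ E))) (UU_mem hσ2 _ _ (by
    rw [ct_smul, ct_smul, ct_mul, ct_ct hσ2, Matrix.smul_mul, Matrix.mul_smul, smul_smul, ← add_smul, ← add_smul, map_neg, map_mul, map_mul, hσ2]
    have : -(t * y * σ y) + -(σ t * σ y * y) + y * σ y = 0 := by linear_combination (-(y * σ y)) * ht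
    rw [this, zero_smul])) (UU_det _ _)

theorem gy_tt (hσ : ∀ x, σ x = x ^ q) (hσ2 : ∀ x, σ (σ x) = x) {P Q : Matrix (Ix m) (Ix m) F} (h1 : P * Q = 1) (h2 : Q * P = 1)
    (h3 : ct σ P * P = GG m F) (t : F) (ht : t + σ t = 1) (E : Matrix (Fin m) (Fin 1) F) (y : F) (M : Matrix (Fin m) (Fin m) F) :
    gy hσ hσ2 h1 h2 h3 t ht E y * tt hσ hσ2 h1 h2 h3 M = tt hσ hσ2 h1 h2 h3 M * gy hσ hσ2 h1 h2 h3 t ht E y := by
  apply Subtype.ext
  apply Subtype.ext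
  show Matrix.reindex (ei m) (ei m) (P * _ * Q) * Matrix.reindex (ei m) (ei m) (P * _ * Q) = Matrix.reindex (ei m) (ei m) (P * _ * Q) * Matrix.reindex (ei m) (ei m) (P * _ * Q)
  rw [reindex_apply, reindex_apply, submatrix_mul_equiv, submatrix_mul_equiv]
  congr 1
  have key : UU σ (y • E) ((-(t * y * σ y)) • (E * ct σ E)) * UU σ 0 (M - ct σ M) = UU σ 0 (M - ct σ M) * UU σ (y • E) ((-(t * y * σ y)) • (E * ct σ E)) := by
    rw [UU_mul, UU_mul, add_zero, zero_add, ct_zero, Matrix.mul_zero, Matrix.zero_mul, sub_zero, sub_zero, add_comm]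
  calc P * UU σ (y • E) ((-(t * y * σ y)) • (E * ct σ E)) * Q * (P * UU σ 0 (M - ct σ M) * Q)
      = P * (UU σ (y • E) ((-(t * y * σ y)) • (E * ct σ E)) * (Q * P) * UU σ 0 (M - ct σ M)) * Q := by simp only [Matrix.mul_assoc]
    _ = P * (UU σ 0 (M - ct σ M) * (Q * P) * UU σ (y • E) ((-(t * y * σ y)) • (E * ct σ E))) * Q := by rw [h2, Matrix.mul_one, Matrix.mul_one, key]
    _ = _ := by simp only [Matrix.mul_assoc]

theorem gy_gy (hσ : ∀ x, σ x = x ^ q) (hσ2 : ∀ x, σ (σ x) = x) {P Q : Matrix (Ix m) (Ix m) F} (h1 : P * Q = 1) (h2 : Q * P = 1)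
    (h3 : ct σ P * P = GG m F) (t : F) (ht : t + σ t = 1) (E : Matrix (Fin m) (Fin 1) F) (y z : F) :
    gy hσ hσ2 h1 h2 h3 t ht E y * gy hσ hσ2 h1 h2 h3 t ht E z =
      tt hσ hσ2 h1 h2 h3 ((t * z * σ y) • (E * ct σ E)) * gy hσ hσ2 h1 h2 h3 t ht E (y + z) := by
  have hmem : ct σ (UU σ (y • E) ((-(t * y * σ y)) • (E * ct σ E)) * UU σ (z • E) ((-(t * z * σ z)) • (E * ct σ E))) * GG m F *
      (UU σ (y • E) ((-(t * y * σ y)) • (E * ct σ E)) * UU σ (z • E) ((-(t * z * σ z)) • (E * ct σ E))) = GG m F := by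
    have a1 : ∀ y, ct σ (UU σ (y • E) ((-(t * y * σ y)) • (E * ct σ E))) * GG m F * UU σ (y • E) ((-(t * y * σ y)) • (E * ct σ E)) = GG m F := by
      intro y
      refine UU_mem hσ2 _ _ ?_
      rw [ct_smul, ct_smul, ct_mul, ct_ct hσ2, Matrix.smul_mul, Matrix.mul_smul, smul_smul, ← add_smul, ← add_smul, map_neg, map_mul, map_mul, hσ2]
      have : -(t * y * σ y) + -(σ t * σ y * y) + y * σ y = 0 := by linear_combination (-(y * σ y)) * ht
      rw [this, zero_smul]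
    rw [ct_mul]
    calc ct σ (UU σ (z • E) ((-(t * z * σ z)) • (E * ct σ E))) * ct σ (UU σ (y • E) ((-(t * y * σ y)) • (E * ct σ E))) * GG m F *
          (UU σ (y • E) ((-(t * y * σ y)) • (E * ct σ E)) * UU σ (z • E) ((-(t * z * σ z)) • (E * ct σ E)))
        = ct σ (UU σ (z • E) ((-(t * z * σ z)) • (E * ct σ E))) * (ct σ (UU σ (y • E) ((-(t * y * σ y)) • (E * ct σ E))) * GG m F *
          UU σ (y • E) ((-(t * y * σ y)) • (E * ct σ E))) * UU σ (z • E) ((-(t * z * σ z)) • (E * ct σ E)) := by simp only [Matrix.mul_assoc]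
      _ = GG m F := by rw [a1, a1]
  have hdet : (UU σ (y • E) ((-(t * y * σ y)) • (E * ct σ E)) * UU σ (z • E) ((-(t * z * σ z)) • (E * ct σ E))).det = 1 := by
    rw [det_mul, UU_det, UU_det, one_mul]
  rw [gy, gy, gy, tt, sG_mul hσ h1 h2 h3 _ _ _ _ hmem hdet rfl, sG_mul hσ h1 h2 h3 _ _ _ _ hmem hdet]
  rw [UU_mul, UU_mul, Matrix.zero_mul, sub_zero, zero_add, add_smul, ct_smul, ct_smul, ct_mul, ct_ct hσ2, Matrix.smul_mul, Matrix.mul_smul, smul_smul,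
    ← sub_smul, ← add_smul, ← add_smul, ← add_smul, ← sub_smul]
  congr 2
  rw [map_mul, map_mul, map_add, hσ2]
  linear_combination (-(y * σ z)) * ht

theorem gy_comm (hσ : ∀ x, σ x = x ^ q) (hσ2 : ∀ x, σ (σ x) = x) {P Q : Matrix (Ix m) (Ix m) F} (h1 : P * Q = 1) (h2 : Q * P = 1)
    (h3 : ct σ P * P = GG m F) (t : F) (ht : t + σ t = 1) (E : Matrix (Fin m) (Fin 1) F) (y z : F) :
    gy hσ hσ2 h1 h2 h3 t ht E y * gy hσ hσ2 h1 h2 h3 t ht E z =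
      tt hσ hσ2 h1 h2 h3 ((z * σ y) • (E * ct σ E)) * (gy hσ hσ2 h1 h2 h3 t ht E z * gy hσ hσ2 h1 h2 h3 t ht E y) := by
  rw [gy_gy, gy_gy, ← mul_assoc, tt_mul, add_comm z y]
  congr 1
  rw [← add_smul]
  apply sG_congr
  congr 1
  rw [ct_smul, ct_smul, ct_mul, ct_ct hσ2, ← sub_smul, ← sub_smul]
  congr 1
  rw [map_add, map_mul, map_mul, map_mul, map_mul, map_mul, hσ2, hσ2]
  linear_combination (z * σ y - y * σ z) * ht

end Cfsg.Agent.H11.WV
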