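import Mathlib
import Cfsg.Agent.H11.WV3

set_option autoImplicit false
set_option linter.all false

/-! Smallest degree of `SU_n(q)`, `n` odd: conclusion. -/

namespace Cfsg.Agent.H11.WV

open Matrix Cfsg Cfsg.Agent.H5 Module Cfsg.Agent.H11.WU Cfsg.Agent.H16.LSB Cfsg.Agent.H11.WS

variable {F : Type*} [Field F] [Fintype F] {q : ℕ} {σ : F →+* F} {m : ℕ} {V : Type*} [AddCommGroup V] [Module ℂ V]

/-- radical action -/
noncomputable def TV (hσ : ∀ x, σ x = x ^ q) (hσ2 : ∀ x, σ (σ x) = x) {P Q : Matrix (Ix m) (Ix m) F} (h1 : P * Q = 1) (h2 : Q * P = 1)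
    (h3 : ct σ P * P = GG m F) (ρ : Representation ℂ (SU (m + m + 1) F q) V) (v : Fin m × Fin m → F) : Module.End ℂ V :=
  ρ (tt hσ hσ2 h1 h2 h3 (WS.mt v))

theorem TV_zero (hσ : ∀ x, σ x = x ^ q) (hσ2 : ∀ x, σ (σ x) = x) {P Q : Matrix (Ix m) (Ix m) F} (h1 : P * Q = 1) (h2 : Q * P = 1)
    (h3 : ct σ P * P = GG m F) (ρ : Representation ℂ (SU (m + m + 1) F q) V) : TV hσ hσ2 h1 h2 h3 ρ 0 = 1 := by
  rw [TV, tt, sG_one hσ h1 h2 h3, map_one]
  have h0 : WS.mt (0 : Fin m × Fin m → F) = 0 := rfl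
  rw [h0, ct_zero, sub_zero, UU_zero]

theorem TV_add (hσ : ∀ x, σ x = x ^ q) (hσ2 : ∀ x, σ (σ x) = x) {P Q : Matrix (Ix m) (Ix m) F} (h1 : P * Q = 1) (h2 : Q * P = 1)
    (h3 : ct σ P * P = GG m F) (ρ : Representation ℂ (SU (m + m + 1) F q) V) (v w : Fin m × Fin m → F) :
    TV hσ hσ2 h1 h2 h3 ρ (v + w) = TV hσ hσ2 h1 h2 h3 ρ v * TV hσ hσ2 h1 h2 h3 ρ w := by
  rw [TV, TV, TV, ← map_mul, tt_mul]
  rfl

variable [FiniteDimensional ℂ V]

/-- dimension of a weight space -/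
theorem wdim (hF : Fintype.card F = q ^ 2) (hσ : ∀ x, σ x = x ^ q) (hσ2 : ∀ x, σ (σ x) = x) (hσ1 : σ ≠ RingHom.id F)
    {P Q : Matrix (Ix m) (Ix m) F} (h1 : P * Q = 1) (h2 : Q * P = 1)
    (h3 : ct σ P * P = GG m F) (ρ : Representation ℂ (SU (m + m + 1) F q) V) (ψ : AddChar F ℂ) (hψ1 : ψ 1 ≠ 1)
    (M : Matrix (Fin m) (Fin m) F) (hM : M ≠ 0) (W : Submodule ℂ V) (hW : ∀ x, x ∈ W ↔ ∀ v, TV hσ hσ2 h1 h2 h3 ρ v x = ψ (um M ⬝ᵥ v) • x)
    (hWne : ∃ x ∈ W, x ≠ 0) : q ≤ finrank ℂ W := by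
  obtain ⟨t, ht⟩ := exists_trace_eq hσ1 hσ2 1 (map_one σ)
  obtain ⟨i, j, hij⟩ : ∃ i j, M i j ≠ 0 := by
    by_contra hcon
    push Not at hcon
    exact hM (by ext i j; exact hcon i j)
  obtain ⟨a, b, hab⟩ := polar hσ1 M i j hij
  obtain ⟨e, he⟩ : ∃ e : Fin m → F, e = a • Pi.single i 1 + b • Pi.single j 1 := ⟨_, rfl⟩
  rw [← he] at hab
  obtain ⟨E, hE⟩ : ∃ E : Matrix (Fin m) (Fin 1) F, ∀ i j, E i j = e i := ⟨Matrix.of fun i _ => e i, fun _ _ => rfl⟩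
  have hEE : ∀ c : F, um M ⬝ᵥ um (c • (E * ct σ E)) = c * ss σ M e e := by
    intro c
    have e1 : ∀ i j, (c • (E * ct σ E)) i j = c * (e i * σ (e j)) := by
      intro i j
      rw [Matrix.smul_apply, Matrix.mul_apply, Fin.sum_univ_one, hE, smul_eq_mul]
      show c * (e i * σ (E j 0)) = _
      rw [hE]
    rw [dotProduct, Fintype.sum_prod_type, ss, dotProduct, Finset.mul_sum]
    refine Finset.sum_congr rfl fun i _ => ?_
    rw [mulVec, dotProduct, Finset.mul_sum, Finset.mul_sum]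
    refine Finset.sum_congr rfl fun j _ => ?_
    show M i j * (c • (E * ct σ E)) i j = _
    rw [e1]; ring
  have ht' : t + σ t = 1 := ht
  obtain ⟨g, hg⟩ : ∃ g : F → SU (m + m + 1) F q, g = gy hσ hσ2 h1 h2 h3 t ht' E := ⟨_, rfl⟩
  have hgt : ∀ y N, g y * tt hσ hσ2 h1 h2 h3 N = tt hσ hσ2 h1 h2 h3 N * g y := by rw [hg]; exact gy_tt hσ hσ2 h1 h2 h3 t ht' E
  have pres : ∀ h : SU (m + m + 1) F q, (∀ N, h * tt hσ hσ2 h1 h2 h3 N = tt hσ hσ2 h1 h2 h3 N * h) → ∀ x ∈ W, ρ h x ∈ W := by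
    intro h hh x hx
    rw [hW] at hx ⊢
    intro v
    rw [TV, ← Module.End.mul_apply, ← map_mul, ← hh, map_mul, Module.End.mul_apply]
    have := hx v
    rw [TV] at this
    rw [this, map_smul]
  have p1 : ∀ y, ∀ x ∈ W, ρ (g y) x ∈ W := fun y => pres _ (hgt y)
  have p2 : ∀ y, ∀ x ∈ W, ρ ((g y)⁻¹) x ∈ W := fun y => pres _ (fun N => by
    rw [inv_mul_eq_iff_eq_mul, ← mul_assoc, hgt, mul_inv_cancel_right])
  obtain ⟨R, hR⟩ : ∃ R : F → Module.End ℂ W, ∀ y (x : W), ((R y x : W) : V) = ρ (g y) x := ⟨fun y => (ρ (g y)).restrict (p1 y), fun _ _ => rfl⟩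
  obtain ⟨R', hR'⟩ : ∃ R' : F → Module.End ℂ W, ∀ y (x : W), ((R' y x : W) : V) = ρ ((g y)⁻¹) x := ⟨fun y => (ρ ((g y)⁻¹)).restrict (p2 y), fun _ _ => rfl⟩
  haveI : Nontrivial W := by
    obtain ⟨x, hx, hx0⟩ := hWne
    exact ⟨⟨x, hx⟩, 0, fun h => hx0 (congrArg Subtype.val h)⟩
  have htt : ∀ N (x : W), ρ (tt hσ hσ2 h1 h2 h3 N) (x : V) = ψ (um M ⬝ᵥ um N) • (x : V) := by
    intro N x
    exact (hW x).1 x.2 (um N)
  refine dim_ge hF (σ := σ) R R' ?_ ?_ ?_ ?_ ψ hψ1 (ss σ M e e) hab ?_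
  · intro y
    apply LinearMap.ext
    intro x
    apply Subtype.ext
    rw [Module.End.mul_apply, hR, hR', ← Module.End.mul_apply, ← map_mul, mul_inv_cancel, map_one]
    rfl
  · intro y
    apply LinearMap.ext
    intro x
    apply Subtype.ext
    rw [Module.End.mul_apply, hR', hR, ← Module.End.mul_apply, ← map_mul, inv_mul_cancel, map_one]
    rfl
  · apply LinearMap.ext
    intro x
    apply Subtype.ext
    have : g 0 = 1 := by
      rw [hg]
      apply sG_one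
      rw [zero_smul, mul_zero, zero_mul, neg_zero, zero_smul, UU_zero]
    rw [hR, this, map_one]
    rfl
  · intro y z
    refine ⟨ψ (um M ⬝ᵥ um ((t * z * σ y) • (E * ct σ E))), ?_, ?_⟩
    · intro h
      have := AddChar.map_add_eq_mul ψ (um M ⬝ᵥ um ((t * z * σ y) • (E * ct σ E))) (-(um M ⬝ᵥ um ((t * z * σ y) • (E * ct σ E))))
      rw [h, zero_mul, add_neg_cancel, AddChar.map_zero_eq_one] at this
      exact one_ne_zero this
    · apply LinearMap.ext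
      intro x
      apply Subtype.ext
      have e2 : g y * g z = tt hσ hσ2 h1 h2 h3 ((t * z * σ y) • (E * ct σ E)) * g (y + z) := by rw [hg]; exact gy_gy hσ hσ2 h1 h2 h3 t ht' E y z
      rw [Module.End.mul_apply, hR, hR, ← Module.End.mul_apply, ← map_mul, e2, map_mul, Module.End.mul_apply]
      have e3 := htt ((t * z * σ y) • (E * ct σ E)) (R (y + z) x)
      rw [hR] at e3
      rw [e3, LinearMap.smul_apply]
      show _ = _ • ((R (y + z) x : W) : V)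
      rw [hR]
  · intro x y
    apply LinearMap.ext
    intro u
    apply Subtype.ext
    have e2 : g (σ y) * g x = tt hσ hσ2 h1 h2 h3 ((x * σ (σ y)) • (E * ct σ E)) * (g x * g (σ y)) := by rw [hg]; exact gy_comm hσ hσ2 h1 h2 h3 t ht' E (σ y) x
    rw [Module.End.mul_apply, hR, hR, ← Module.End.mul_apply, ← map_mul, e2, map_mul, Module.End.mul_apply]
    have e3 := htt ((x * σ (σ y)) • (E * ct σ E)) (R x (R (σ y) u))
    rw [hR, hR, ← Module.End.mul_apply (ρ (g x)), ← map_mul, hEE, hσ2] at e3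
    rw [hσ2, e3, LinearMap.smul_apply]
    show _ = _ • ((R x (R (σ y) u) : W) : V)
    rw [hR, hR, ← Module.End.mul_apply (ρ (g x)), ← map_mul]
    congr 2
    ring

theorem lower (hF : Fintype.card F = q ^ 2) (hσ : ∀ x, σ x = x ^ q) (hσ2 : ∀ x, σ (σ x) = x) (hσ1 : σ ≠ RingHom.id F) (hm : 1 ≤ m)
    {P Q : Matrix (Ix m) (Ix m) F} (h1 : P * Q = 1) (h2 : Q * P = 1)
    (h3 : ct σ P * P = GG m F) (ρ : Representation ℂ (SU (m + m + 1) F q) V) (v0 : Fin m × Fin m → F)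
    (hv0 : TV hσ hσ2 h1 h2 h3 ρ v0 ≠ 1) : (q ^ (2 * m) - 1) / (q + 1) * q ≤ finrank ℂ V := by
  classical
  have hL : (Fintype.card F : ℂ) ≠ 0 := Nat.cast_ne_zero.2 Fintype.card_ne_zero
  obtain ⟨ψ, w, hψ1, hψw, x, hx0, hx⟩ := exists_weight hL (TV hσ hσ2 h1 h2 h3 ρ) (TV_zero hσ hσ2 h1 h2 h3 ρ) (TV_add hσ hσ2 h1 h2 h3 ρ) _ hv0
  have hw : WS.mt w ≠ 0 := by
    intro h
    apply hψw
    have : w = 0 := by rw [← um_mt w, h]; rfl
    rw [this, zero_dotProduct, AddChar.map_zero_eq_one]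
  have h6 : ∀ (c : F) i j, ψ (c * w (i, j)) = ψ (-σ c * w (j, i)) := by
    intro c i j
    have h4 : TV hσ hσ2 h1 h2 h3 ρ (um (Matrix.single i j c)) = TV hσ hσ2 h1 h2 h3 ρ (um (Matrix.single j i (-σ c))) := by
      rw [TV, TV]
      congr 1
      apply sG_congr
      rw [mt_um, mt_um]
      congr 1
      have e1 : ∀ i j (c : F), ct σ (Matrix.single i j c : Matrix (Fin m) (Fin m) F) = Matrix.single j i (σ c) := by
        intro i j c
        ext a b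
        show σ (Matrix.single i j c b a) = _
        rw [Matrix.single_apply, Matrix.single_apply]
        by_cases h : i = b ∧ j = a
        · rw [if_pos h, if_pos ⟨h.2, h.1⟩]
        · rw [if_neg h, if_neg (fun h' => h ⟨h'.2, h'.1⟩), map_zero]
      rw [e1, e1, map_neg, hσ2]
      ext a b
      simp only [Matrix.sub_apply, Matrix.single_apply]
      split_ifs <;> ring
    have h5 : ψ (w ⬝ᵥ um (Matrix.single i j c)) • x = ψ (w ⬝ᵥ um (Matrix.single j i (-σ c))) • x := by rw [← hx, ← hx, h4]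
    have h8 : ∀ i j c, w ⬝ᵥ um (Matrix.single i j c) = c * w (i, j) := by
      intro i j c
      rw [← um_mt w, um_dot, ← transpose_single, ← transpose_mul, trace_transpose, trace_single_mul]
      rfl
    have h7 := smul_left_injective ℂ hx0 h5
    simp only [h8] at h7
    exact h7
  have h7 : ∀ i j a b, σ (w (a, b)) * w (j, i) = σ (w (i, j)) * w (b, a) := by
    intro i j a b
    apply psi_inj hψ1
    intro c
    have e1 := h6 (-σ c * w (a, b)) i j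
    have e2 := h6 (-σ c * w (i, j)) a b
    rw [map_mul σ, map_neg σ, hσ2] at e1 e2
    have e3 : -σ c * w (a, b) * w (i, j) = -σ c * w (i, j) * w (a, b) := by ring
    rw [e3, e2] at e1
    have e4 : c * (σ (w (a, b)) * w (j, i)) = -(-c * σ (w (a, b))) * w (j, i) := by ring
    have e5 : c * (σ (w (i, j)) * w (b, a)) = -(-c * σ (w (i, j))) * w (b, a) := by ring
    rw [e4, e5]
    exact e1.symm
  obtain ⟨a, b, hab⟩ : ∃ a b, w (a, b) ≠ 0 := by
    by_contra hcon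
    push Not at hcon
    exact hw (by ext i j; exact hcon i j)
  have hσab : σ (w (a, b)) ≠ 0 := by rw [Ne, map_eq_zero]; exact hab
  have hB : HB σ (w (b, a) / σ (w (a, b))) (WS.mt w) := by
    ext i j
    show w (i, j) = w (b, a) / σ (w (a, b)) * σ (w (j, i))
    rw [div_mul_eq_mul_div, eq_div_iff hσab]
    linear_combination h7 j i a b
  refine (Nat.mul_le_mul_right q (og_bound hF hσ hσ2 hσ1 hm _ hB hw)).trans ?_
  rw [← Fintype.card_coe]
  have hmemW : ∀ (M : Matrix (Fin m) (Fin m) F) (x : V), x ∈ (⨅ v, (TV hσ hσ2 h1 h2 h3 ρ v).eigenspace (ψ (um M ⬝ᵥ v)) : Submodule ℂ V) ↔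
      ∀ v, TV hσ hσ2 h1 h2 h3 ρ v x = ψ (um M ⬝ᵥ v) • x := by
    intro M x
    simp only [Submodule.mem_iInf, Module.End.mem_eigenspace_iff]
  refine sum_le hL (TV hσ hσ2 h1 h2 h3 ρ) (TV_zero hσ hσ2 h1 h2 h3 ρ) (TV_add hσ hσ2 h1 h2 h3 ρ) ψ hψ1 (fun M => um M.1) ?_ q
    (fun M => ⨅ v, (TV hσ hσ2 h1 h2 h3 ρ v).eigenspace (ψ (um M.1 ⬝ᵥ v))) (fun M x hx => (hmemW M.1 x).1 hx) ?_
  · intro M N h
    apply Subtype.ext
    have h' : um M.1 = um N.1 := h
    exact (mt_um M.1).symm.trans ((congrArg WS.mt h').trans (mt_um N.1))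
  · rintro ⟨M, hM⟩
    have hMne : M ≠ 0 := Og.ne_zero hw (mem_ogF.1 hM)
    refine wdim hF hσ hσ2 hσ1 h1 h2 h3 ρ ψ hψ1 M hMne _ (hmemW M) ?_
    obtain ⟨A, A', hA, rfl⟩ := mem_ogF.1 hM
    have hdA : A.det * A'.det = 1 := by rw [← det_mul, hA, det_one]
    have hdA' : σ A.det * σ A'.det = 1 := by rw [← map_mul, hdA, map_one]
    have hd1 : σ (σ A.det * A'.det) * (σ A.det * A'.det) = 1 := by
      rw [map_mul, hσ2]
      linear_combination (σ A'.det * σ A.det) * hdA + hdA'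
    have hd2 : A.det * σ A'.det * (σ A.det * A'.det) = 1 := by
      linear_combination (σ A'.det * σ A.det) * hdA + hdA'
    obtain ⟨g, hg⟩ : ∃ g, g = sG hσ h1 h2 h3 (LL σ A A' (σ A.det * A'.det)) (LL_mem hσ2 A A' hA _ hd1) (LL_det A A' hA _ hd2) := ⟨_, rfl⟩
    have hinv : ρ g * ρ (g⁻¹) = 1 := by rw [← map_mul, mul_inv_cancel, map_one]
    refine ⟨ρ (g⁻¹) x, ?_, ?_⟩
    · rw [hmemW]
      intro v
      have h9 : tt hσ hσ2 h1 h2 h3 (A * WS.mt v * ct σ A) * g = g * tt hσ hσ2 h1 h2 h3 (WS.mt v) := by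
        rw [hg, tt, tt]
        have hmem : ct σ (LL σ A A' (σ A.det * A'.det) * UU σ 0 (WS.mt v - ct σ (WS.mt v))) * GG m F * (LL σ A A' (σ A.det * A'.det) * UU σ 0 (WS.mt v - ct σ (WS.mt v))) = GG m F := by
          rw [ct_mul]
          calc ct σ (UU σ 0 (WS.mt v - ct σ (WS.mt v))) * ct σ (LL σ A A' (σ A.det * A'.det)) * GG m F * (LL σ A A' (σ A.det * A'.det) * UU σ 0 (WS.mt v - ct σ (WS.mt v)))
              = ct σ (UU σ 0 (WS.mt v - ct σ (WS.mt v))) * (ct σ (LL σ A A' (σ A.det * A'.det)) * GG m F * LL σ A A' (σ A.det * A'.det)) * UU σ 0 (WS.mt v - ct σ (WS.mt v)) := by simp only [Matrix.mul_assoc]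
            _ = _ := by rw [LL_mem hσ2 A A' hA _ hd1, UU_mem hσ2 _ _ (sk0 hσ2 _)]
        have hdet : (LL σ A A' (σ A.det * A'.det) * UU σ 0 (WS.mt v - ct σ (WS.mt v))).det = 1 := by rw [det_mul, LL_det A A' hA _ hd2, UU_det, one_mul]
        rw [sG_mul hσ h1 h2 h3 _ _ _ _ hmem hdet, sG_mul hσ h1 h2 h3 _ _ _ _ hmem hdet rfl]
        rw [← LL_UU hσ2 A A' _ hA, Matrix.mul_sub, Matrix.sub_mul, ct_mul, ct_mul, ct_ct hσ2]
        simp only [Matrix.mul_assoc]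
      have h10 : tt hσ hσ2 h1 h2 h3 (WS.mt v) * g⁻¹ = g⁻¹ * tt hσ hσ2 h1 h2 h3 (A * WS.mt v * ct σ A) := by
        rw [eq_inv_mul_iff_mul_eq, ← mul_assoc, ← h9, mul_inv_cancel_right]
      show ρ (tt hσ hσ2 h1 h2 h3 (WS.mt v)) (ρ (g⁻¹) x) = _
      rw [← Module.End.mul_apply, ← map_mul, h10, map_mul, Module.End.mul_apply]
      have h11 : ρ (tt hσ hσ2 h1 h2 h3 (A * WS.mt v * ct σ A)) x = ψ (w ⬝ᵥ um (A * WS.mt v * ct σ A)) • x := hx (um (A * WS.mt v * ct σ A))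
      rw [h11, map_smul]
      congr 2
      have h12 : ((WS.mt w)ᵀ * (A * WS.mt v * ct σ A)).trace = ((Aᵀ * WS.mt w * A.map σ)ᵀ * WS.mt v).trace := by
        rw [transpose_mul, transpose_mul, transpose_transpose, ← Matrix.mul_assoc (WS.mt w)ᵀ (A * WS.mt v) (ct σ A), trace_mul_comm _ (ct σ A)]
        simp only [Matrix.mul_assoc]
        rfl
      have h13 := um_dot (WS.mt w) (A * WS.mt v * ct σ A)
      have h14 := um_dot (Aᵀ * WS.mt w * A.map σ) (WS.mt v)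
      rw [um_mt] at h13 h14
      rw [h13, h14, h12]
    · intro h
      apply hx0
      have := congrArg (ρ g) h
      rwa [← Module.End.mul_apply, hinv, map_zero] at this

end Cfsg.Agent.H11.WV
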