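import Mathlib
import Cfsg.Agent.H11.WV4

set_option autoImplicit false
set_option linter.all false

/-! Smallest degree of `SU_n(q)`, `n` odd: conclusion. -/

namespace Cfsg.Agent.H11.WV

open Matrix Cfsg Cfsg.Agent.H5 Module Cfsg.Agent.H11.WU Cfsg.Agent.H16.LSB Cfsg.Agent.H11.WS

theorem final {F : Type*} [Field F] [Fintype F] [DecidableEq F] (n q : ℕ) (hn : 3 ≤ n) (hodd : Odd n) (hF : Fintype.card F = q ^ 2) (hex : (n, q) ≠ (3, 2)) :
    (∀ (k : ℕ) (ρ : Representation ℂ (Cfsg.SU n F q) (Fin k → ℂ)), ρ.IsIrreducible → 2 ≤ k → (q ^ n - q) / (q + 1) ≤ k) := by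
  intro d ρ hirr hd
  obtain ⟨r, hr⟩ := hodd
  obtain rfl : n = r + r + 1 := by omega
  obtain ⟨k, rfl⟩ : ∃ k, r = k + 1 := ⟨r - 1, by omega⟩
  obtain ⟨σ, hσ, hσ2, hσ1⟩ := exists_frob hF
  obtain ⟨P, Q, h1, h2, h3⟩ := exists_P' hF hσ hσ1 hσ2 (k + 1)
  have hq := q_pos hF
  have h32 : ¬ ((k + 1) + (k + 1) + 1 = 3 ∧ q = 2) := by
    rintro ⟨h, h'⟩
    exact hex (by rw [h, h'])
  have hqs : Cfsg.IsQuasisimple (SU ((k + 1) + (k + 1) + 1) F q) :=
    ⟨⟨SU_perfect hF hn h32⟩, PSU_isSimple hF hn h32⟩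
  have hfinr : finrank ℂ (Fin d → ℂ) = d := by rw [finrank_fintype_fun_eq_card, Fintype.card_fin]
  obtain ⟨z, -, hz⟩ := exists_norm_one_ne hF hσ
  obtain ⟨S, hS⟩ : ∃ S : Matrix (Fin (k + 1)) (Fin (k + 1)) F, S = Matrix.single 0 0 z := ⟨_, rfl⟩
  have goal := lower hF hσ hσ2 hσ1 (by omega) h1 h2 h3 ρ (um S) ?_
  · rw [hfinr] at goal
    refine le_trans ?_ goal
    have hdvd : q + 1 ∣ q ^ (2 * (k + 1)) - 1 := by
      have e1 : q ^ 2 - 1 ∣ (q ^ 2) ^ (k + 1) - 1 ^ (k + 1) := Nat.sub_dvd_pow_sub_pow (q ^ 2) 1 (k + 1)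
      rw [one_pow, ← pow_mul] at e1
      refine dvd_trans ⟨q - 1, ?_⟩ e1
      obtain ⟨s, rfl⟩ : ∃ s, q = s + 1 := ⟨q - 1, by omega⟩
      rw [Nat.add_sub_cancel]
      apply Nat.sub_eq_of_eq_add; ring
    obtain ⟨N, hN⟩ := hdvd
    rw [hN, Nat.mul_div_cancel_left _ (Nat.succ_pos _)]
    apply Nat.div_le_of_le_mul
    have e2 : q ^ (k + 1 + (k + 1) + 1) - q = (q ^ (2 * (k + 1)) - 1) * q := by
      rw [Nat.sub_mul, one_mul, ← pow_succ]
      congr 2
    rw [e2, hN, mul_assoc]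
  intro hT
  have hker : tt hσ hσ2 h1 h2 h3 S ∈ ρ.ker := hT
  rcases Cfsg.Agent.H10.qs_normal_eq_top_or_le_center hqs (N := ρ.ker) inferInstance with h | h
  · -- trivial representation
    have hall : ∀ g, ρ g = 1 := fun g => by
      have : g ∈ ρ.ker := by rw [h]; trivial
      exact this
    obtain ⟨w, hw⟩ := Module.finrank_pos_iff_exists_ne_zero.1 (show 0 < finrank ℂ (Fin d → ℂ) by rw [hfinr]; omega)
    let K : Subrepresentation ρ := ⟨Submodule.span ℂ {w}, fun g v hv => by rw [hall]; exact hv⟩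
    have h3 : finrank ℂ K.toSubmodule = 1 := finrank_span_singleton hw
    rcases hirr.eq_bot_or_eq_top K with h' | h'
    · have h4 : K.toSubmodule = ⊥ := congrArg Subrepresentation.toSubmodule h'
      rw [h4, finrank_bot] at h3
      exact zero_ne_one h3
    · have h4 : K.toSubmodule = ⊤ := congrArg Subrepresentation.toSubmodule h'
      rw [h4, finrank_top, hfinr] at h3
      omega
  · obtain ⟨c, hc⟩ := SU_center_scalar hF hσ (by omega) (h hker)
    have h4 : Matrix.reindex (ei (k + 1)) (ei (k + 1)) (P * UU σ 0 (S - ct σ S) * Q) = c • 1 := hc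
    have h5 : P * UU σ 0 (S - ct σ S) * Q = c • 1 := by
      have := congrArg (Matrix.reindex (ei (k + 1)) (ei (k + 1))).symm h4
      rw [Equiv.symm_apply_apply] at this
      rw [this]
      ext i j
      simp [Matrix.one_apply]
    have h6 : UU σ 0 (S - ct σ S) = c • (1 : Matrix (Ix (k + 1)) (Ix (k + 1)) F) := by
      calc UU σ 0 (S - ct σ S) = (Q * P) * UU σ 0 (S - ct σ S) * (Q * P) := by
            rw [h2, Matrix.one_mul, Matrix.mul_one]
        _ = Q * (P * UU σ 0 (S - ct σ S) * Q) * P := by simp only [Matrix.mul_assoc]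
        _ = c • 1 := by rw [h5, Matrix.mul_smul, Matrix.mul_one, Matrix.smul_mul, h2]
    have h7 := congrFun (congrFun h6 (Sum.inl (Sum.inl 0))) (Sum.inl (Sum.inr 0))
    rw [UU, fromBlocks_apply₁₁, uB, fromBlocks_apply₁₂, Matrix.smul_apply, Matrix.one_apply_ne (by simp), smul_zero, Matrix.sub_apply, hS, Matrix.single_apply_same] at h7
    have h8 : ct σ (Matrix.single 0 0 z : Matrix (Fin (k + 1)) (Fin (k + 1)) F) 0 0 = σ z := by
      show σ (Matrix.single 0 0 z 0 0) = σ z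
      rw [Matrix.single_apply_same]
    rw [h8] at h7
    exact hz (sub_eq_zero.1 h7)

end Cfsg.Agent.H11.WV
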